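import Mathlib
import Cfsg.Agent.Perm.PrimRel
import Cfsg.Agent.S0695

/-!
# Normal subgroups of multiply primitive groups
-/

set_option autoImplicit false

namespace Cfsg.Agent.Perm

open MulAction

variable {G : Type*} [Group G] {α : Type*} [MulAction G α]

/-- If the pointwise stabiliser in a normal subgroup `H` of a set `s` is regular on the remaining
(at least four) points and `G` is `(#s + 2)`-primitive, that stabiliser has exponent two. -/
theorem sq_eq_one_of_regular_fixing [Fintype α] [FaithfulSMul G α] {k : ℕ}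
    (hG : IsMultiplyPreprimitive G α k) (hk : k ≤ Nat.card α) (H : Subgroup G) [hH : H.Normal]
    (s : Finset α) (hs : s.card + 2 ≤ k) (hn : s.card + 4 ≤ Nat.card α)
    (htr : ∀ a b, a ∉ s → b ∉ s → ∃ h ∈ H, (∀ x ∈ s, h • x = x) ∧ h • a = b)
    (hreg : ∀ h ∈ H, (∀ x ∈ s, h • x = x) → ∀ a, a ∉ s → h • a = a → h = 1) :
    ∀ h ∈ H, (∀ x ∈ s, h • x = x) → h ^ 2 = 1 := by
  classical
  have hG' : IsMultiplyPreprimitive G α (s.card + 2) :=
    isMultiplyPreprimitive_of_le G α hG hs (by
      rw [ENat.card_eq_coe_natCard]; exact_mod_cast hk)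
  have h2 : IsMultiplyPreprimitive (fixingSubgroup G (s : Set α))
      (SubMulAction.ofFixingSubgroup G (s : Set α)) 2 :=
    ofFixingSubgroup.isMultiplyPreprimitive G α (n := s.card + 2) (by simp)
  have hcard : Fintype.card (SubMulAction.ofFixingSubgroup G (s : Set α)) + s.card =
      Nat.card α := by
    have : Fintype.card (SubMulAction.ofFixingSubgroup G (s : Set α)) = (sᶜ).card := by
      rw [Fintype.card_subtype]
      congr 1
      ext x
      simp [SubMulAction.mem_ofFixingSubgroup_iff]
    rw [this, Finset.card_compl, Nat.card_eq_fintype_card]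
    exact Nat.sub_add_cancel (Finset.card_le_univ s)
  rcases S0695.result (by omega) h2 (H.subgroupOf (fixingSubgroup G (s : Set α)))
    ⟨fun x y => by
      obtain ⟨h, hh, h1, h2⟩ := htr x y x.2 y.2
      exact ⟨⟨⟨h, (mem_fixingSubgroup_iff G).2 h1⟩, hh⟩, Subtype.ext h2⟩⟩
    (fun x => by
      rw [eq_bot_iff]
      intro h hh
      rw [Subgroup.mem_bot]
      exact Subtype.ext (Subtype.ext (hreg _ h.2 ((mem_fixingSubgroup_iff G).1 h.1.2) x x.2
        (congrArg Subtype.val hh)))) with h | ⟨-, h, -⟩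
  · omega
  · intro u hu hus
    exact congrArg Subtype.val (h ⟨u, (mem_fixingSubgroup_iff G).2 hus⟩ hu)

/-- In a faithful `k`-primitive group of degree at least `k + 2`, a normal subgroup with a
non-trivial point stabiliser is `k`-transitive. -/
theorem multTrans_of_normal_of_nonregular [Finite α] [FaithfulSMul G α] {k : ℕ}
    (hG : IsMultiplyPreprimitive G α k) (hk : k + 2 ≤ Nat.card α) (H : Subgroup G) [hH : H.Normal]
    (hnr : ∃ h ∈ H, h ≠ 1 ∧ ∃ a : α, h • a = a) : IsMultiplyPretransitive H α k := by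
  classical
  have := Fintype.ofFinite α
  have hGt : IsMultiplyPretransitive G α k := inferInstance
  -- transitivity from non-triviality
  have step : ∀ s : Finset α, s.card < k → (∃ h ∈ H, h ≠ 1 ∧ ∀ x ∈ s, h • x = x) →
      ∀ a b, a ∉ s → b ∉ s → ∃ h ∈ H, (∀ x ∈ s, h • x = x) ∧ h • a = b := by
    rintro s hs ⟨h, hh, h1, hfix⟩ a b ha hb
    obtain ⟨c, hc⟩ : ∃ c : α, h • c ≠ c := by
      by_contra hcon
      push Not at hcon
      exact h1 (FaithfulSMul.eq_of_smul_eq_smul (α := α) fun x => by rw [hcon, one_smul])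
    have hcs : c ∉ (s : Set α) := fun hcs => hc (hfix c hcs)
    obtain ⟨m, hm, hma⟩ := trans_of_normalized_of_isPreprimitive_fixing
      (isPreprimitive_fixing_of_lt hG (by omega) s hs) (H ⊓ fixingSubgroup G (s : Set α))
      (fun g hg n hn => ⟨hH.conj_mem n hn.1 g, by
        have hg' : g ∈ fixingSubgroup G (s : Set α) := (mem_fixingSubgroup_iff G).2 hg
        exact Subgroup.mul_mem _ (Subgroup.mul_mem _ hg' hn.2) (Subgroup.inv_mem _ hg')⟩)
      (n := h) ⟨hh, (mem_fixingSubgroup_iff G).2 hfix⟩ hcs (smul_notMem_of_fix hfix hcs) hc a b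
      ha hb
    exact ⟨m, hm.1, (mem_fixingSubgroup_iff G).1 hm.2, hma⟩
  -- non-triviality only depends on the size of the set
  have move : ∀ s t : Finset α, s.card = t.card → s.card ≤ k →
      (∃ h ∈ H, h ≠ 1 ∧ ∀ x ∈ s, h • x = x) → ∃ h ∈ H, h ≠ 1 ∧ ∀ x ∈ t, h • x = x := by
    rintro s t hst hsk ⟨h, hh, h1, hfix⟩
    obtain ⟨g, hg⟩ := exists_smul_finset_eq
      (isMultiplyPretransitive_of_le (G := G) (n := k) hsk (by omega)) s t rfl hst.symm
    refine ⟨g * h * g⁻¹, hH.conj_mem h hh g, by simpa using h1, fun x hx => ?_⟩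
    rw [← hg] at hx
    obtain ⟨y, hy, rfl⟩ := Finset.mem_image.1 hx
    simp [mul_smul, hfix y hy]
  have main : ∀ j, j < k → ∀ s : Finset α, s.card = j → ∃ h ∈ H, h ≠ 1 ∧ ∀ x ∈ s, h • x = x := by
    intro j
    induction j using Nat.strong_induction_on with
    | h j ih =>
    intro hj s hs
    obtain ⟨h₀, hh₀, h₀1, a₀, ha₀⟩ := hnr
    rcases Nat.lt_or_ge j 2 with hj2 | hj2
    · interval_cases j
      · exact ⟨h₀, hh₀, h₀1, by simp [Finset.card_eq_zero.1 hs]⟩
      · exact move {a₀} s (by simp [hs]) (by simp; omega) ⟨h₀, hh₀, h₀1, by simpa using ha₀⟩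
    by_contra hcon
    have triv : ∀ t : Finset α, t.card = j → ∀ h ∈ H, (∀ x ∈ t, h • x = x) → h = 1 := by
      intro t ht h hh hfix
      by_contra h1
      exact hcon (move t s (by omega) (by omega) ⟨h, hh, h1, hfix⟩)
    obtain ⟨u, -, hu⟩ := Finset.exists_subset_card_eq (s := (Finset.univ : Finset α))
      (n := j + 3) (by rw [Finset.card_univ, ← Nat.card_eq_fintype_card]; omega)
    obtain ⟨t, htu, ht⟩ := Finset.exists_subset_card_eq (s := u) (n := j - 2) (by omega)
    have hv : (u \ t).card = 5 := by rw [Finset.card_sdiff_of_subset htu]; omega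
    obtain ⟨a, ha⟩ : (u \ t).Nonempty := Finset.card_pos.1 (by omega)
    obtain ⟨a', b, c, d, h1, h2, h3, h4, h5, h6, hv'⟩ := Finset.card_eq_four.1
      (show ((u \ t).erase a).card = 4 by rw [Finset.card_erase_of_mem ha, hv])
    have hmem : ∀ x ∈ ({a', b, c, d} : Finset α), x ≠ a ∧ x ∉ t := fun x hx => by
      rw [← hv'] at hx
      exact ⟨Finset.ne_of_mem_erase hx, (Finset.mem_sdiff.1 (Finset.mem_of_mem_erase hx)).2⟩
    have hat : a ∉ t := (Finset.mem_sdiff.1 ha).2
    obtain ⟨ha', ha't⟩ := hmem a' (by simp)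
    obtain ⟨hb, hbt⟩ := hmem b (by simp)
    obtain ⟨hc, hct⟩ := hmem c (by simp)
    -- for each further point an involution swapping `b` and `c`
    have inv : ∀ e, e ∉ t → e ≠ b → e ≠ c →
        ∃ h ∈ H, (∀ x ∈ t, h • x = x) ∧ h • e = e ∧ h • b = c ∧ h • c = b := by
      intro e het heb hec
      have hce : (insert e t).card = j - 1 := by rw [Finset.card_insert_of_notMem het]; omega
      have htr := step (insert e t) (by omega) (ih (j - 1) (by omega) (by omega) _ hce)
      have hsq := sq_eq_one_of_regular_fixing hG (by omega) H (insert e t) (by omega) (by omega)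
        htr (fun h hh hfix x hx hhx => triv (insert x (insert e t))
          (by rw [Finset.card_insert_of_notMem hx]; omega) h hh (fun y hy => by
            rcases Finset.mem_insert.1 hy with rfl | hy
            exacts [hhx, hfix y hy]))
      obtain ⟨h, hh, hfix, hbc⟩ := htr b c (by simp [hbt, heb.symm]) (by simp [hct, hec.symm])
      refine ⟨h, hh, fun x hx => hfix x (Finset.mem_insert_of_mem hx),
        hfix e (Finset.mem_insert_self _ _), hbc, ?_⟩
      rw [← hbc, smul_smul, ← sq, hsq h hh hfix, one_smul]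
    obtain ⟨h, hh, hfix, hha, hhb, hhc⟩ := inv a hat hb.symm hc.symm
    obtain ⟨h', hh', hfix', hha', hhb', hhc'⟩ := inv a' ha't h1 h2
    have hhh : h⁻¹ * h' = 1 := triv (insert b (insert c t))
      (by
        rw [Finset.card_insert_of_notMem (by simp [h4, hbt]), Finset.card_insert_of_notMem hct]
        omega) _ (mul_mem (inv_mem hh) hh') (fun x hx => by
        rw [mul_smul, inv_smul_eq_iff]
        rcases Finset.mem_insert.1 hx with rfl | hx
        · rw [hhb, hhb']
        rcases Finset.mem_insert.1 hx with rfl | hx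
        · rw [hhc, hhc']
        · rw [hfix x hx, hfix' x hx])
    rw [inv_mul_eq_one] at hhh
    subst hhh
    have : h = 1 := triv (insert a (insert a' t))
      (by
        rw [Finset.card_insert_of_notMem (by simp [ha'.symm, hat]),
          Finset.card_insert_of_notMem ha't]
        omega) _ hh (fun x hx => by
        rcases Finset.mem_insert.1 hx with rfl | hx
        · exact hha
        rcases Finset.mem_insert.1 hx with rfl | hx
        · exact hha'
        · exact hfix x hx)
    rw [this, one_smul] at hhb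
    exact h4 hhb
  refine multTrans_of_forall_lt fun s hs a b ha hb => ?_
  obtain ⟨h, hh, h1, h2⟩ := step s hs (main _ hs s rfl) a b ha hb
  exact ⟨⟨h, hh⟩, h1, h2⟩

end Cfsg.Agent.Perm
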