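import Mathlib

/-!
A permutation of an `F_p`-space (`p` odd) agreeing on each triple with an affine map is affine.
-/

set_option autoImplicit false

namespace Cfsg.Agent.Perm.AffClos

theorem affine_of_three {p : ℕ} [Fact p.Prime] (hp : p ≠ 2) {V : Type*} [AddCommGroup V]
    [Module (ZMod p) V] (σ : Equiv.Perm V)
    (h : ∀ x y z : V, ∃ (A : V →ₗ[ZMod p] V) (b : V),
      σ x = A x + b ∧ σ y = A y + b ∧ σ z = A z + b) :
    ∃ (A : V ≃ₗ[ZMod p] V) (b : V), ∀ x, σ x = A x + b := by
  have h1 : ∀ (x y : V) (c : ZMod p), σ (x + c • (y - x)) = σ x + c • (σ y - σ x) := by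
    intro x y c
    obtain ⟨A, b, h1, h2, h3⟩ := h x y (x + c • (y - x))
    rw [h1, h2, h3]
    simp only [map_add, map_smul, map_sub, smul_sub, smul_add]
    abel
  have h2 : (2 : ZMod p) ≠ 0 := by
    intro h0
    have := (ZMod.natCast_eq_zero_iff 2 p).1 (by exact_mod_cast h0)
    exact hp ((Nat.prime_dvd_prime_iff_eq Fact.out Nat.prime_two).1 this)
  have hs : ∀ (c : ZMod p) (y : V), σ (c • y) - σ 0 = c • (σ y - σ 0) := by
    intro c y
    have := h1 0 y c
    rw [zero_add, sub_zero] at this
    rw [this]; abel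
  have ha : ∀ x y : V, σ (x + y) - σ 0 = (σ x - σ 0) + (σ y - σ 0) := by
    intro x y
    have e1 : x + y = (2 : ZMod p) • (x + (2 : ZMod p)⁻¹ • (y - x)) := by
      rw [smul_add, smul_smul, mul_inv_cancel₀ h2, one_smul, two_smul]; abel
    rw [e1, hs, h1, add_sub_right_comm, smul_add, smul_smul, mul_inv_cancel₀ h2, one_smul, two_smul]
    abel
  let L : V →ₗ[ZMod p] V :=
    { toFun := fun x => σ x - σ 0
      map_add' := ha
      map_smul' := hs }
  have hL : Function.Bijective L := by
    constructor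
    · intro x y hxy
      exact σ.injective (sub_left_injective hxy)
    · intro y
      exact ⟨σ.symm (y + σ 0), by simp [L]⟩
  exact ⟨LinearEquiv.ofBijective L hL, σ 0, fun x => by simp [L]⟩

end Cfsg.Agent.Perm.AffClos
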