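import Mathlib

/-!
# Schur's double cover of the symmetric and alternating groups

Built inside the Clifford algebra over `ZMod 3` of the standard quadratic form.
-/

set_option autoImplicit false
set_option linter.unusedSectionVars false

namespace Cfsg.Agent.AltCover

open CliffordAlgebra Equiv

variable {α : Type} [Fintype α] [DecidableEq α]

/-- The standard quadratic form. -/
noncomputable abbrev QF (α : Type) [Fintype α] : QuadraticForm (ZMod 3) (α → ZMod 3) :=
  QuadraticMap.weightedSumSquares (ZMod 3) (fun _ : α => (1 : ZMod 3))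

/-- The Clifford algebra. -/
abbrev Cl (α : Type) [Fintype α] := CliffordAlgebra (QF α)

/-- The orthonormal generators. -/
noncomputable def γ (i : α) : Cl α := ι (QF α) (Pi.single i 1)

theorem γ_sq (i : α) : γ i * γ i = 1 := by
  rw [γ, ι_sq_scalar, QuadraticMap.weightedSumSquares_apply, Finset.sum_eq_single i] <;>
    simp +contextual [Pi.single_apply]

theorem γ_anti {i j : α} (h : i ≠ j) : γ i * γ j = -(γ j * γ i) := by
  apply ι_mul_ι_comm_of_isOrtho
  rw [QuadraticMap.isOrtho_def]
  simp only [QuadraticMap.weightedSumSquares_apply, ← Finset.sum_add_distrib]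
  refine Finset.sum_congr rfl fun k _ => ?_
  by_cases h1 : k = i
  · subst h1; simp [h]
  · simp [h1]

theorem involute_γ (i : α) : involute (γ i) = -γ i := involute_ι _

theorem three_eq_zero : (3 : Cl α) = 0 := by
  have : (3 : Cl α) = algebraMap (ZMod 3) (Cl α) 3 := (map_ofNat _ 3).symm
  rw [this, show (3 : ZMod 3) = 0 from rfl, map_zero]

theorem eq_zero_of_add_self {x : Cl α} (h : x + x = 0) : x = 0 := by
  have h3 : x + x + x = 0 := by
    have : x + x + x = 3 * x := by noncomm_ring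
    rw [this, three_eq_zero, zero_mul]
  rwa [h, zero_add] at h3

theorem adjoin_γ : Algebra.adjoin (ZMod 3) (γ '' ((Finset.univ : Finset α) : Set α)) = ⊤ := by
  rw [eq_top_iff, ← adjoin_range_ι, Algebra.adjoin_le_iff]
  rintro _ ⟨v, rfl⟩
  have : ι (QF α) v = ∑ i, v i • γ i := by
    conv_lhs => rw [pi_eq_sum_univ' v]
    simp only [map_sum, map_smul, γ]
  rw [this]
  exact Subalgebra.sum_mem _ fun i _ =>
    Subalgebra.smul_mem _ (Algebra.subset_adjoin (Set.mem_image_of_mem γ (by simp))) _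

theorem twist {S : Finset α} {k : α} (hk : k ∉ S) {c : Cl α}
    (hc : c ∈ Algebra.adjoin (ZMod 3) (γ '' (S : Set α))) :
    involute c ∈ Algebra.adjoin (ZMod 3) (γ '' (S : Set α)) ∧ γ k * c = involute c * γ k := by
  induction hc using Algebra.adjoin_induction with
  | mem x hx =>
    obtain ⟨i, hi, rfl⟩ := hx
    rw [involute_γ]
    exact ⟨neg_mem (Algebra.subset_adjoin ⟨i, hi, rfl⟩), by
      rw [γ_anti (show k ≠ i by rintro rfl; exact hk hi), neg_mul]⟩
  | algebraMap r =>
    rw [AlgHom.commutes]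
    exact ⟨Subalgebra.algebraMap_mem _ _, (Algebra.commutes _ _).symm⟩
  | add x y _ _ hx hy =>
    rw [map_add]
    exact ⟨add_mem hx.1 hy.1, by rw [mul_add, add_mul, hx.2, hy.2]⟩
  | mul x y _ _ hx hy =>
    rw [map_mul]
    exact ⟨mul_mem hx.1 hy.1, by rw [← mul_assoc, hx.2, mul_assoc, hy.2, mul_assoc]⟩

theorem decomp {S : Finset α} {k : α} (hk : k ∉ S) {x : Cl α}
    (hx : x ∈ Algebra.adjoin (ZMod 3) (γ '' ((insert k S : Finset α) : Set α))) :
    ∃ a ∈ Algebra.adjoin (ZMod 3) (γ '' (S : Set α)),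
      ∃ b ∈ Algebra.adjoin (ZMod 3) (γ '' (S : Set α)), x = a + b * γ k := by
  induction hx using Algebra.adjoin_induction with
  | mem x hx =>
    obtain ⟨i, hi, rfl⟩ := hx
    rcases Finset.mem_insert.1 hi with rfl | hi
    · exact ⟨0, zero_mem _, 1, one_mem _, by simp⟩
    · exact ⟨γ i, Algebra.subset_adjoin ⟨i, hi, rfl⟩, 0, zero_mem _, by simp⟩
  | algebraMap r => exact ⟨_, Subalgebra.algebraMap_mem _ r, 0, zero_mem _, by simp⟩
  | add x y _ _ hx hy =>
    obtain ⟨a, ha, b, hb, rfl⟩ := hx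
    obtain ⟨c, hc, d, hd, rfl⟩ := hy
    exact ⟨a + c, add_mem ha hc, b + d, add_mem hb hd, by noncomm_ring⟩
  | mul x y _ _ hx hy =>
    obtain ⟨a, ha, b, hb, rfl⟩ := hx
    obtain ⟨c, hc, d, hd, rfl⟩ := hy
    obtain ⟨c1, c2⟩ := twist hk hc
    obtain ⟨d1, d2⟩ := twist hk hd
    refine ⟨a * c + b * involute d, add_mem (mul_mem ha hc) (mul_mem hb d1),
      a * d + b * involute c, add_mem (mul_mem ha hd) (mul_mem hb c1), ?_⟩
    calc (a + b * γ k) * (c + d * γ k)
        = a * c + a * d * γ k + b * (γ k * c) + b * (γ k * d) * γ k := by noncomm_ring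
      _ = a * c + a * d * γ k + b * involute c * γ k + b * involute d * (γ k * γ k) := by
        rw [c2, d2]; noncomm_ring
      _ = _ := by rw [γ_sq]; noncomm_ring

theorem scalar_aux (S : Finset α) : ∀ x ∈ Algebra.adjoin (ZMod 3) (γ '' (S : Set α)),
    (∀ i ∈ S, involute x * γ i = γ i * x) → ∃ c, x = algebraMap (ZMod 3) (Cl α) c := by
  induction S using Finset.induction with
  | empty =>
    intro x hx _
    simp only [Finset.coe_empty, Set.image_empty, Algebra.adjoin_empty, Algebra.mem_bot] at hx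
    obtain ⟨c, rfl⟩ := hx
    exact ⟨c, rfl⟩
  | insert k S hk ih =>
    intro x hx h
    obtain ⟨a, ha, b, hb, rfl⟩ := decomp hk hx
    have h1 := h k (Finset.mem_insert_self _ _)
    rw [map_add, map_mul, involute_γ, mul_add, ← mul_assoc, (twist hk ha).2, (twist hk hb).2,
      add_mul, mul_neg, neg_mul, mul_assoc, γ_sq, mul_one, add_right_inj] at h1
    have h2 : involute b = 0 := eq_zero_of_add_self (by nth_rewrite 1 [← h1]; simp)
    have h3 : b = 0 := by rw [← involute_involute b, h2, map_zero]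
    subst h3
    simp only [zero_mul, add_zero] at h ⊢
    exact ih a ha fun i hi => h i (Finset.mem_insert_of_mem hi)

theorem scalar {x : Cl α} (h : ∀ i, involute x * γ i = γ i * x) :
    ∃ c, x = algebraMap (ZMod 3) (Cl α) c :=
  scalar_aux Finset.univ x (by rw [adjoin_γ]; trivial) fun i _ => h i

/-- The double cover of the symmetric group. -/
def Pin (α : Type) [Fintype α] [DecidableEq α] : Subgroup ((Cl α)ˣ × Perm α) where
  carrier := {p | ∀ i, involute (p.1 : Cl α) * γ i = γ (p.2 i) * p.1}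
  one_mem' := by simp
  mul_mem' {p q} hp hq i := by
    simp only [Prod.fst_mul, Units.val_mul, map_mul, Prod.snd_mul, Perm.mul_apply]
    rw [mul_assoc, hq, ← mul_assoc, hp, mul_assoc]
  inv_mem' {p} hp i := by
    have h := hp (p.2⁻¹ i)
    rw [show p.2 (p.2⁻¹ i) = i by simp] at h
    have e : involute ((p.1⁻¹ : (Cl α)ˣ) : Cl α) * involute (p.1 : Cl α) = 1 := by
      rw [← map_mul, Units.inv_mul, map_one]
    simp only [Prod.fst_inv, Prod.snd_inv]
    calc involute ((p.1⁻¹ : (Cl α)ˣ) : Cl α) * γ i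
        = involute ((p.1⁻¹ : (Cl α)ˣ) : Cl α) * (γ i * p.1) * ((p.1⁻¹ : (Cl α)ˣ) : Cl α) := by
          rw [mul_assoc, mul_assoc, Units.mul_inv, mul_one]
      _ = _ := by rw [← h, ← mul_assoc, e, one_mul]

/-- The projection onto the symmetric group. -/
noncomputable def proj (α : Type) [Fintype α] [DecidableEq α] : Pin α →* Perm α :=
  (MonoidHom.snd _ _).comp (Pin α).subtype

/-- The central involution. -/
noncomputable def zz (α : Type) [Fintype α] [DecidableEq α] : Pin α := ⟨(-1, 1), fun i => by simp⟩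

theorem proj_zz : proj α (zz α) = 1 := rfl

theorem zz_mul_zz : zz α * zz α = 1 := Subtype.ext (Prod.ext (by simp [zz]) (by simp [zz]))

theorem zz_ne_one : zz α ≠ 1 := fun h => by
  letI : Invertible (2 : ZMod 3) := ⟨2, rfl, rfl⟩
  have h1 : (-1 : Cl α) = 1 := congrArg (fun p : Pin α => ((p.1.1 : (Cl α)ˣ) : Cl α)) h
  exact one_ne_zero (eq_zero_of_add_self (x := (1 : Cl α)) (by nth_rewrite 1 [← h1]; simp))

theorem zz_comm (g : Pin α) : g * zz α = zz α * g :=
  Subtype.ext (Prod.ext (by simp [zz]) (by simp [zz]))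

theorem eq_of_proj_eq_one {g : Pin α} (h : proj α g = 1) : g = 1 ∨ g = zz α := by
  letI : Invertible (2 : ZMod 3) := ⟨2, rfl, rfl⟩
  have h2 : g.1.2 = 1 := h
  obtain ⟨c, hc⟩ := scalar (x := (g.1.1 : Cl α)) fun i => by simpa [h2] using g.2 i
  have h3 : ∀ c : ZMod 3, c = 0 ∨ c = 1 ∨ c = -1 := by decide
  rcases h3 c with rfl | rfl | rfl
  · exact absurd hc (by simp)
  · exact Or.inl (Subtype.ext (Prod.ext (Units.ext (by simpa using hc)) h2))
  · exact Or.inr (Subtype.ext (Prod.ext (Units.ext (by simpa [zz] using hc)) h2))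

theorem sub_sq {a b : α} (h : a ≠ b) : (γ a - γ b) * (γ a - γ b) = -1 := by
  have : (γ a - γ b) * (γ a - γ b) = γ a * γ a + γ b * γ b - (γ a * γ b + γ b * γ a) := by
    noncomm_ring
  rw [this, γ_sq, γ_sq, γ_anti h, neg_add_cancel, sub_zero, eq_neg_iff_add_eq_zero,
    ← three_eq_zero]
  norm_num

/-- The lift of a transposition. -/
noncomputable def tt {a b : α} (h : a ≠ b) : Pin α :=
  ⟨(⟨γ a - γ b, -(γ a - γ b), by rw [mul_neg, sub_sq h, neg_neg],
    by rw [neg_mul, sub_sq h, neg_neg]⟩, swap a b), fun i => by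
    simp only [map_sub, involute_γ]
    by_cases ha : i = a
    · subst ha
      rw [swap_apply_left, sub_mul, mul_sub, neg_mul, neg_mul, γ_sq, γ_sq]; abel
    by_cases hb : i = b
    · subst hb
      rw [swap_apply_right, sub_mul, mul_sub, neg_mul, neg_mul, γ_sq, γ_sq]; abel
    rw [swap_apply_of_ne_of_ne ha hb, sub_mul, mul_sub, neg_mul, neg_mul, γ_anti ha, γ_anti hb]⟩

theorem proj_tt {a b : α} (h : a ≠ b) : proj α (tt h) = swap a b := rfl

theorem tt_sq {a b : α} (h : a ≠ b) : tt h * tt h = zz α :=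
  Subtype.ext (Prod.ext (Units.ext (sub_sq h)) (swap_mul_self a b))

theorem tt_anti {a b c d : α} (h : a ≠ b) (h' : c ≠ d) (h1 : a ≠ c) (h2 : a ≠ d) (h3 : b ≠ c)
    (h4 : b ≠ d) : tt h * tt h' = zz α * (tt h' * tt h) := by
  refine Subtype.ext (Prod.ext (Units.ext ?_) ?_)
  · show (γ a - γ b) * (γ c - γ d) = -1 * ((γ c - γ d) * (γ a - γ b))
    simp only [sub_mul, mul_sub]
    rw [γ_anti h1, γ_anti h2, γ_anti h3, γ_anti h4]
    noncomm_ring
  · show swap a b * swap c d = 1 * (swap c d * swap a b)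
    ext x
    simp only [one_mul, Perm.mul_apply, swap_apply_def]
    grind

theorem proj_surjective : Function.Surjective (proj α) := by
  intro σ
  induction σ using Perm.swap_induction_on with
  | one => exact ⟨1, map_one _⟩
  | swap_mul f x y hxy ih =>
    obtain ⟨g, rfl⟩ := ih
    exact ⟨tt hxy * g, by rw [map_mul, proj_tt]⟩

theorem eq_or_eq_of_proj_eq {g h : Pin α} (e : proj α g = proj α h) : g = h ∨ g = h * zz α := by
  rcases eq_of_proj_eq_one (g := h⁻¹ * g) (by simp [e]) with h1 | h1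
  · exact Or.inl (inv_mul_eq_one.1 h1).symm
  · exact Or.inr (by rw [← h1]; group)

instance : Finite (Pin α) := by
  let s := Function.surjInv (proj_surjective (α := α))
  refine Finite.of_surjective (fun p : Perm α × Bool => if p.2 then s p.1 else s p.1 * zz α) ?_
  intro g
  rcases eq_or_eq_of_proj_eq (g := g) (h := s (proj α g)) (by
    simp only [s, Function.surjInv_eq]) with h | h
  · exact ⟨(proj α g, true), h.symm⟩
  · exact ⟨(proj α g, false), h.symm⟩

theorem sq_eq_of_proj_eq {g h : Pin α} (e : proj α g = proj α h) : g * g = h * h := by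
  rcases eq_or_eq_of_proj_eq e with rfl | rfl
  · rfl
  · rw [mul_assoc, ← mul_assoc (zz α), ← zz_comm h, mul_assoc, zz_mul_zz, mul_one]

theorem tt_tt_sq {a b c d : α} (h : a ≠ b) (h' : c ≠ d) (h1 : a ≠ c) (h2 : a ≠ d) (h3 : b ≠ c)
    (h4 : b ≠ d) : tt h * tt h' * (tt h * tt h') = zz α := by
  nth_rewrite 2 [tt_anti h h' h1 h2 h3 h4]
  rw [mul_assoc, ← mul_assoc (tt h'), zz_comm, mul_assoc, ← mul_assoc (tt h'), tt_sq,
    ← mul_assoc (zz α), zz_mul_zz, one_mul, tt_sq]

/-- Lifts of double transpositions have order four. -/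
theorem sq_of_double {g : Pin α} {a b c d : α} (h : a ≠ b) (h' : c ≠ d) (h1 : a ≠ c) (h2 : a ≠ d)
    (h3 : b ≠ c) (h4 : b ≠ d) (e : proj α g = swap a b * swap c d) : g * g = zz α := by
  rw [sq_eq_of_proj_eq (h := tt h * tt h') (by rw [e, map_mul, proj_tt, proj_tt]),
    tt_tt_sq h h' h1 h2 h3 h4]

/-- The double cover of the alternating group. -/
noncomputable abbrev Cov (α : Type) [Fintype α] [DecidableEq α] : Subgroup (Pin α) :=
  (alternatingGroup α).comap (proj α)

/-- The projection onto the alternating group. -/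
noncomputable def projA (α : Type) [Fintype α] [DecidableEq α] : Cov α →* alternatingGroup α :=
  ((proj α).comp (Cov α).subtype).codRestrict _ fun g => g.2

theorem coe_projA (g : Cov α) : (projA α g : Perm α) = proj α g := rfl

/-- The central involution of the cover of the alternating group. -/
noncomputable def zA (α : Type) [Fintype α] [DecidableEq α] : Cov α :=
  ⟨zz α, by rw [Subgroup.mem_comap, proj_zz]; exact one_mem _⟩

theorem projA_surjective : Function.Surjective (projA α) := by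
  intro σ
  obtain ⟨g, hg⟩ := proj_surjective σ.1
  exact ⟨⟨g, by rw [Subgroup.mem_comap, hg]; exact σ.2⟩, Subtype.ext hg⟩

theorem zA_mul_zA : zA α * zA α = 1 := Subtype.ext zz_mul_zz

theorem zA_ne_one : zA α ≠ 1 := fun h => zz_ne_one (congrArg Subtype.val h)

theorem orderOf_zA : orderOf (zA α) = 2 :=
  orderOf_eq_prime (by rw [pow_two, zA_mul_zA]) zA_ne_one

theorem zA_mem_center : zA α ∈ Subgroup.center (Cov α) :=
  Subgroup.mem_center_iff.2 fun g => Subtype.ext (zz_comm g.1)

theorem projA_zA : projA α (zA α) = 1 := rfl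

theorem projA_eq_one_iff {g : Cov α} : projA α g = 1 ↔ g = 1 ∨ g = zA α := by
  refine ⟨fun h => ?_, fun h => ?_⟩
  · rcases eq_of_proj_eq_one (g := g.1) (congrArg Subtype.val h) with h | h
    · exact Or.inl (Subtype.ext h)
    · exact Or.inr (Subtype.ext h)
  · rcases h with rfl | rfl
    · exact map_one _
    · rfl

theorem ker_projA : (projA α).ker = Subgroup.zpowers (zA α) := by
  apply le_antisymm
  · intro g hg
    rcases projA_eq_one_iff.1 hg with rfl | rfl
    · exact one_mem _
    · exact Subgroup.mem_zpowers _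
  · rw [Subgroup.zpowers_le]; exact projA_zA

theorem sq_of_doubleA {g : Cov α} {a b c d : α} (h : a ≠ b) (h' : c ≠ d) (h1 : a ≠ c)
    (h2 : a ≠ d) (h3 : b ≠ c) (h4 : b ≠ d) (e : (projA α g : Perm α) = swap a b * swap c d) :
    g * g = zA α :=
  Subtype.ext (sq_of_double h h' h1 h2 h3 h4 e)

/-- With four points the central involution is a commutator. -/
theorem exists_commutator_eq_zA {a b c d : α} (h : a ≠ b) (h' : c ≠ d) (h1 : a ≠ c)
    (h2 : a ≠ d) (h3 : b ≠ c) (h4 : b ≠ d) : ∃ x y : Cov α, x * y * x⁻¹ * y⁻¹ = zA α := by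
  obtain ⟨x, hx⟩ := projA_surjective (α := α)
    ⟨swap a b * swap c d, by simp [Perm.mem_alternatingGroup, h, h']⟩
  obtain ⟨y, hy⟩ := projA_surjective (α := α)
    ⟨swap a c * swap b d, by simp [Perm.mem_alternatingGroup, h1, h4]⟩
  have e1 := sq_of_doubleA h h' h1 h2 h3 h4 (congrArg Subtype.val hx)
  have e2 := sq_of_doubleA h1 h4 h h2 h3.symm h' (congrArg Subtype.val hy)
  have e3 := sq_of_doubleA (g := x * y) h2 h3 h h1 h4.symm h'.symm (by
    rw [map_mul, hx, hy]
    ext x
    simp only [Subgroup.coe_mul, Perm.mul_apply, swap_apply_def]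
    grind)
  refine ⟨x, y, ?_⟩
  have hz := Subgroup.mem_center_iff.1 (zA_mem_center (α := α))
  have i1 : x⁻¹ = x * zA α := by
    rw [inv_eq_iff_mul_eq_one, ← mul_assoc, e1, zA_mul_zA]
  have i2 : y⁻¹ = zA α * y := by
    rw [inv_eq_iff_mul_eq_one, ← hz, ← mul_assoc, e2, zA_mul_zA]
  rw [i1, i2]
  calc x * y * (x * zA α) * (zA α * y) = x * y * x * (zA α * zA α) * y := by group
    _ = x * y * (x * y) := by rw [zA_mul_zA]; group
    _ = _ := e3

end Cfsg.Agent.AltCover
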