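import Mathlib
import Cfsg.Agent.NT.ChooseCarry
import Cfsg.Agent.NT.TwoPrimes
import Cfsg.Agent.Perm.TwinCycle
import Cfsg.Agent.S0713

/-!
# Derangements of order the largest prime divisor of the degree for alternating groups
-/

set_option autoImplicit false
set_option linter.unusedSectionVars false
set_option linter.unusedSimpArgs false

namespace Cfsg.Agent.Perm.AltDer

open MulAction Equiv Equiv.Perm Subgroup
open scoped Pointwise

variable {β : Type*} [Fintype β] [DecidableEq β]

theorem exists_max_cycles {r : ℕ} (hr : r.Prime) (h : r ≤ Fintype.card β)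
    (h2 : r = 2 → 4 ∣ Fintype.card β) : ∃ x ∈ alternatingGroup β, orderOf x = r ∧
      x.support.card + Fintype.card β % r = Fintype.card β := by
  set n := Fintype.card β with hn
  have hj : 0 < n / r := Nat.div_pos h hr.pos
  obtain ⟨x, hx⟩ := (exists_with_cycleType_iff β (m := Multiset.replicate (n / r) r)).2
    ⟨by rw [Multiset.sum_replicate, smul_eq_mul]; exact Nat.div_mul_le_self n r,
      fun a ha => (Multiset.eq_of_mem_replicate ha) ▸ hr.two_le⟩
  refine ⟨x, ?_, ?_, ?_⟩
  · rw [mem_alternatingGroup, sign_of_cycleType, hx, Multiset.sum_replicate, Multiset.card_replicate,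
      smul_eq_mul]
    apply Even.neg_one_pow
    rcases hr.eq_two_or_odd' with e | e
    · obtain ⟨c, hc⟩ := h2 e
      subst e
      rw [hc]
      exact ⟨3 * c, by omega⟩
    · rw [← Nat.mul_succ]
      exact (e.add_one).mul_left _
  · rw [← lcm_cycleType, hx]
    obtain ⟨j, hj'⟩ : ∃ j, n / r = j + 1 := ⟨n / r - 1, by omega⟩
    rw [hj']
    clear hj'
    induction j with
    | zero => simp
    | succ j ih => rw [Multiset.replicate_succ, Multiset.lcm_cons, ih, lcm_same]; simp
  · rw [← sum_cycleType, hx, Multiset.sum_replicate, smul_eq_mul, mul_comm]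
    exact Nat.div_add_mod n r

theorem mod_le_of_inv {r : ℕ} (hr : r.Prime) {x : Perm β} (hx : orderOf x = r)
    (hs : x.support.card + Fintype.card β % r = Fintype.card β) {D : Finset β}
    (hD : ∀ a, x a ∈ D ↔ a ∈ D) : D.card % r ≤ Fintype.card β % r := by
  have := Fact.mk hr
  let f : Function.End {a // a ∈ D} := fun a => ⟨x a, (hD a).2 a.2⟩
  have h0 : ∀ (k : ℕ) (a : {a // a ∈ D}), (((f ^ k) a : {a // a ∈ D}) : β) = (x ^ k) a := by
    intro k
    induction k with
    | zero => intro a; rfl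
    | succ k ih => intro a; rw [pow_succ, pow_succ]; exact ih (f a)
  have h1 : f ^ r ^ 1 = 1 := by
    funext a
    refine Subtype.ext ?_
    rw [h0, pow_one, ← hx, pow_orderOf_eq_one]
    rfl
  have h2 := card_fixedPoints_modEq h1
  rw [Fintype.card_coe] at h2
  have h3 : Fintype.card (Function.fixedPoints f) ≤ x.supportᶜ.card := by
    rw [← Fintype.card_coe]
    refine Fintype.card_le_of_injective (fun a => ⟨a.1.1, ?_⟩) ?_
    · have := congrArg Subtype.val a.2
      simpa [f] using this
    · intro a b e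
      exact Subtype.ext (Subtype.ext (Subtype.mk.inj e))
  rw [Finset.card_compl] at h3
  rw [h2]
  exact (Nat.mod_le _ _).trans (by omega)

theorem relIndex_stab (h3 : 3 ≤ Fintype.card β) (D : Finset β) :
    (stabilizer (Perm β) D).relIndex (alternatingGroup β) = (Fintype.card β).choose D.card := by
  have := Set.powersetCard.isPretransitive_alternatingGroup (α := β) (n := D.card)
    (by rwa [Nat.card_eq_fintype_card])
  have e := index_stabilizer_of_transitive (alternatingGroup β) (Set.powersetCard.ofCard (s := D) rfl)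
  rw [Set.powersetCard.card, Nat.card_eq_fintype_card] at e
  rw [← e, relIndex]
  congr 1
  ext g
  simp only [mem_subgroupOf, mem_stabilizer_iff, Subtype.ext_iff, Set.powersetCard.coe_smul]
  rfl

theorem exists_fix_of_three {L : Subgroup (Perm β)} (h9 : ¬ 9 ∣ Nat.card L) {x y : Perm β}
    (hx : x ∈ L) (hy : y ∈ L) (ox : orderOf x = 3) (oy : orderOf y = 3) {a : β} (ha : x a = a) :
    ∃ b, y b = b := by
  have : Fact (Nat.Prime 3) := ⟨Nat.prime_three⟩
  have key : ∀ z : L, orderOf z = 3 → ∃ P : Sylow 3 L, (P : Subgroup L) = zpowers z := by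
    intro z hz
    have h1 : Nat.card (zpowers z) = 3 := by rw [Nat.card_zpowers, hz]
    refine ⟨(IsPGroup.of_card (n := 1) (h1.trans rfl)).toSylow ?_, rfl⟩
    intro h
    have := (zpowers z).card_mul_index
    rw [h1] at this
    exact h9 (this ▸ Nat.mul_dvd_mul_left 3 h)
  obtain ⟨P, hP⟩ := key ⟨x, hx⟩ (by rw [← ox, ← orderOf_coe])
  obtain ⟨Q, hQ⟩ := key ⟨y, hy⟩ (by rw [← oy, ← orderOf_coe])
  obtain ⟨g, hg⟩ := exists_smul_eq L P Q
  have : (⟨y, hy⟩ : L) ∈ ((g • P : Sylow 3 L) : Subgroup L) := by rw [hg, hQ]; exact mem_zpowers _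
  rw [Sylow.coe_subgroup_smul, hP, mem_pointwise_smul_iff_inv_smul_mem] at this
  obtain ⟨k, hk⟩ := this
  have hk' := congrArg (fun z : L => (z : Perm β) a) hk
  simp only [SubgroupClass.coe_zpow, zpow_apply_eq_self_of_apply_eq_self ha, ← map_inv,
    MulAut.smul_def, MulAut.conj_apply, inv_inv, Subgroup.coe_mul, Subgroup.coe_inv,
    Perm.mul_apply] at hk'
  exact ⟨(g : Perm β) a, by rw [eq_comm, inv_eq_iff_eq] at hk'; exact hk'⟩

theorem not_card_45 (h : Fintype.card β = 6) {L : Subgroup (Perm β)} (hA : L ≤ alternatingGroup β) :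
    Nat.card L ≠ 45 := by
  intro e
  have : Fact (Nat.Prime 3) := ⟨Nat.prime_three⟩
  have : Fact (Nat.Prime 5) := ⟨Nat.prime_five⟩
  obtain ⟨P⟩ : Nonempty (Sylow 3 L) := inferInstance
  obtain ⟨Q⟩ : Nonempty (Sylow 5 L) := inferInstance
  have cP : Nat.card P = 9 := by
    rw [P.card_eq_multiplicity, e, show (45 : ℕ) = 3 ^ 2 * 5 by norm_num,
      Nat.factorization_mul (by norm_num) (by norm_num), Nat.factorization_pow]
    simp [Nat.prime_three.factorization, Nat.prime_five.factorization]
  have cQ : Nat.card Q = 5 := by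
    rw [Q.card_eq_multiplicity, e, show (45 : ℕ) = 3 ^ 2 * 5 by norm_num,
      Nat.factorization_mul (by norm_num) (by norm_num), Nat.factorization_pow]
    simp [Nat.prime_three.factorization, Nat.prime_five.factorization]
  have iP : (P : Subgroup L).index = 5 := by
    have := (P : Subgroup L).card_mul_index; rw [cP, e] at this; omega
  have iQ : (Q : Subgroup L).index = 9 := by
    have := (Q : Subgroup L).card_mul_index; rw [cQ, e] at this; omega
  have nP : (P : Subgroup L).Normal := by
    have h1 := card_sylow_modEq_one 3 L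
    have h2 := P.card_dvd_index
    rw [iP] at h2
    have : Nat.card (Sylow 3 L) = 1 := by
      have := Nat.le_of_dvd (by norm_num) h2
      unfold Nat.ModEq at h1
      generalize Nat.card (Sylow 3 L) = c at *
      interval_cases c <;> omega
    have := (Nat.card_eq_one_iff_unique.1 this).1
    exact P.normal_of_subsingleton
  have nQ : (Q : Subgroup L).Normal := by
    have h1 := card_sylow_modEq_one 5 L
    have h2 := Q.card_dvd_index
    rw [iQ] at h2
    have : Nat.card (Sylow 5 L) = 1 := by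
      have := Nat.le_of_dvd (by norm_num) h2
      unfold Nat.ModEq at h1
      generalize Nat.card (Sylow 5 L) = c at *
      interval_cases c <;> omega
    have := (Nat.card_eq_one_iff_unique.1 this).1
    exact Q.normal_of_subsingleton
  obtain ⟨x, hx⟩ := exists_prime_orderOf_dvd_card' (G := P) 3 (by rw [cP]; norm_num)
  obtain ⟨y, hy⟩ := exists_prime_orderOf_dvd_card' (G := Q) 5 (by rw [cQ])
  have hc : Commute (x : L) (y : L) :=
    commute_of_normal_of_disjoint _ _ nP nQ
      (disjoint_of_coprime_natCard (by rw [cP, cQ]; norm_num)) _ _ x.2 y.2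
  have ho : orderOf ((x : L) * (y : L)) = 15 := by
    rw [hc.orderOf_mul_eq_mul_orderOf_of_coprime (by
      rw [orderOf_coe, orderOf_coe, hx, hy]; norm_num), orderOf_coe, orderOf_coe, hx, hy]
  exact (Twin.orderOf_ne_of_six h (hA ((x : L) * (y : L)).2)).2.2 (by rw [orderOf_coe, ho])

theorem exists_cycle {L : Subgroup (Perm β)} {p : ℕ} (hp : p.Prime) (h : Fintype.card β < 2 * p)
    (hd : p ∣ Nat.card L) : ∃ c ∈ L, c.IsCycle ∧ c.support.card = p := by
  have := Fact.mk hp
  obtain ⟨c, hc⟩ := exists_prime_orderOf_dvd_card' p hd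
  rw [← orderOf_coe] at hc
  have h1 : (c : Perm β).IsCycle := isCycle_of_prime_order' (hc ▸ hp) (by rwa [hc])
  exact ⟨c, c.2, h1, by rw [← h1.orderOf, hc]⟩

theorem core (h5 : 5 ≤ Fintype.card β) {L : Subgroup (Perm β)} (hA : L ≤ alternatingGroup β)
    (hne : ¬ alternatingGroup β ≤ L) {r : ℕ} (hr : r.Prime)
    (hd : r ∣ L.relIndex (alternatingGroup β))
    (hmax : ∀ s : ℕ, s.Prime → s ∣ L.relIndex (alternatingGroup β) → s ≤ r)
    (hM : 8 ≤ Fintype.card β → ∀ D : Finset β, Fintype.card β < 2 * D.card → D ≠ Finset.univ →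
      (∀ a ∈ D, ∀ b, b ∈ D ↔ ∃ l ∈ L, l a = b) →
      ∀ σ ∈ alternatingGroup β, σ ∈ stabilizer (Perm β) D → σ ∈ L) :
    ∃ x ∈ alternatingGroup β, orderOf x = r ∧ ∀ g : Perm β, g ∈ alternatingGroup β →
      g * x * g⁻¹ ∉ L := by
  set n := Fintype.card β with hn
  set d := L.relIndex (alternatingGroup β) with hdd
  have := Fact.mk hr
  have hc : Nat.card L * d = Nat.card (alternatingGroup β) := by
    rw [hdd, relIndex, ← (L.subgroupOf (alternatingGroup β)).card_mul_index,
      Nat.card_congr (subgroupOfEquivOfLe hA).toEquiv]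
  have hA2 : 2 * Nat.card (alternatingGroup β) = n.factorial := by
    have : Nontrivial β := Fintype.one_lt_card_iff_nontrivial.1 (by omega)
    rw [two_mul_nat_card_alternatingGroup, Nat.card_eq_fintype_card, Fintype.card_perm]
  by_cases hrL : ¬ r ∣ Nat.card L
  · obtain ⟨x, hx⟩ := exists_prime_orderOf_dvd_card' (G := alternatingGroup β) r
      (hc ▸ hd.mul_left _)
    refine ⟨x, x.2, by rw [orderOf_coe, hx], fun g _ hg => hrL ?_⟩
    have := orderOf_dvd_natCard (⟨_, hg⟩ : L)
    rw [← orderOf_coe] at this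
    change orderOf (MulAut.conj g (x : Perm β)) ∣ _ at this
    rwa [MulEquiv.orderOf_eq, orderOf_coe, hx] at this
  rw [not_not] at hrL
  have r2 : 2 * r ≤ n := by
    by_contra hlt
    have h1 : r ^ 2 ∣ n.factorial := by
      rw [← hA2, ← hc, sq]
      exact (Nat.mul_dvd_mul hrL hd).mul_left 2
    rw [hr.pow_dvd_factorial_iff (b := n + 1) ((Nat.log_le_self _ _).trans_lt (by omega))] at h1
    have h2 : ∑ i ∈ Finset.Ico 1 (n + 1), n / r ^ i ≤ ∑ i ∈ Finset.Ico 1 (n + 1),
        if i = 1 then 1 else 0 := by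
      refine Finset.sum_le_sum fun i hi => ?_
      have := (Finset.mem_Ico.1 hi).1
      split_ifs with e
      · rw [e, pow_one]
        exact Nat.lt_succ_iff.1 (Nat.div_lt_of_lt_mul (by omega))
      · refine (Nat.div_eq_of_lt ?_).le
        calc n < 2 * r := by omega
          _ ≤ r ^ 2 := by rw [sq]; exact Nat.mul_le_mul_right r hr.two_le
          _ ≤ r ^ i := Nat.pow_le_pow_right hr.pos (by omega)
    rw [Finset.sum_ite_eq'] at h2
    split_ifs at h2 <;> omega
  have big : ∀ p : ℕ, p.Prime → n < 2 * p → p ≤ n → p ∣ Nat.card L := by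
    intro p hp h1 h2
    have h3 : p ∣ 2 * (Nat.card L * d) := by rw [hc, hA2]; exact hp.dvd_factorial.2 h2
    rcases hp.dvd_mul.1 h3 with h4 | h4
    · have := Nat.le_of_dvd two_pos h4; omega
    · refine (hp.dvd_mul.1 h4).resolve_right fun h6 => ?_
      have := hmax p hp h6
      omega
  have hfac := Twin.card_dvd_index_factorial h5 hne
  rw [← hdd] at hfac
  have hd0 : 0 < d := Nat.pos_of_ne_zero index_ne_zero_of_finite
  by_cases n5 : n = 5
  · exfalso
    obtain ⟨a, ha⟩ := Nat.Coprime.mul_dvd_of_dvd_of_dvd (by norm_num)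
      (big 3 Nat.prime_three (by omega) (by omega)) (big 5 Nat.prime_five (by omega) (by omega))
    rw [n5] at hA2
    have e : Nat.card (alternatingGroup β) = 60 := by
      simp only [Nat.factorial] at hA2; omega
    rw [e] at hc hfac
    rw [ha] at hc
    have : d ≤ 4 := by
      have : a * d = 4 := by linarith [mul_assoc (3 * 5) a d]
      exact Nat.le_of_dvd (by norm_num) (this ▸ Nat.dvd_mul_left d a)
    interval_cases d <;> simp [Nat.factorial] at hfac
  by_cases n6 : n = 6
  · have h5L := big 5 Nat.prime_five (by omega) (by omega)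
    rw [n6] at hA2
    have e : Nat.card (alternatingGroup β) = 360 := by
      simp only [Nat.factorial] at hA2; omega
    rw [e] at hc hfac
    have h9 : ¬ 9 ∣ Nat.card L := by
      intro h9
      obtain ⟨a, ha⟩ := Nat.Coprime.mul_dvd_of_dvd_of_dvd (by norm_num) h9 h5L
      have h8 : a * d = 8 := by rw [ha] at hc; linarith [mul_assoc (9 * 5) a d]
      have : d ≤ 8 := Nat.le_of_dvd (by norm_num) (h8 ▸ Nat.dvd_mul_left d a)
      have h45 := not_card_45 n6 hA
      interval_cases d <;> first | omega | simp [Nat.factorial] at hfac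
    have h3d : 3 ∣ d := by
      by_contra h3
      refine h9 ((Nat.Coprime.pow_left 2 ((Nat.Prime.coprime_iff_not_dvd Nat.prime_three).2
        h3)).dvd_of_dvd_mul_right ?_)
      rw [hc]; norm_num
    have r3 : r = 3 := by
      have := hmax 3 Nat.prime_three h3d
      omega
    subst r3
    obtain ⟨y, hy, oy, sy⟩ := exists_max_cycles (β := β) Nat.prime_three (by omega) (by omega)
    rw [← hn, n6] at sy
    by_contra hcon
    push Not at hcon
    obtain ⟨x, hx⟩ := (exists_with_cycleType_iff β (m := {3})).2 ⟨by simp; omega, by simp⟩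
    have hx3 : x.IsThreeCycle := hx
    obtain ⟨g, -, hg⟩ := hcon x hx3.mem_alternatingGroup hx3.orderOf
    obtain ⟨k, -, hk⟩ := hcon y hy oy
    obtain ⟨a, ha⟩ : ∃ a, x a = a := by
      by_contra h
      push Not at h
      have : x.support = Finset.univ := Finset.eq_univ_of_forall fun a => mem_support.2 (h a)
      have h3 := hx3.card_support
      rw [this, Finset.card_univ] at h3
      omega
    obtain ⟨b, hb⟩ := exists_fix_of_three h9 hg hk
      (by rw [← MulAut.conj_apply, MulEquiv.orderOf_eq, hx3.orderOf])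
      (by rw [← MulAut.conj_apply, MulEquiv.orderOf_eq, oy]) (a := g a) (by simp [ha])
    have : y.support = Finset.univ := Finset.eq_univ_of_card _ (by omega)
    have h1 : k⁻¹ b ∈ y.support := this ▸ Finset.mem_univ _
    rw [mem_support] at h1
    apply h1
    simp only [Perm.mul_apply] at hb
    rw [eq_inv_iff_eq]; exact hb
  by_cases n7 : n = 7
  · exfalso
    obtain ⟨c, hc1, hc2, hc3⟩ := exists_cycle (by norm_num : Nat.Prime 7) (by omega)
      (big 7 (by norm_num) (by omega) (by omega))
    obtain ⟨c', hc1', hc2', hc3'⟩ := exists_cycle Nat.prime_five (by omega)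
      (big 5 Nat.prime_five (by omega) (by omega))
    have hu : c.support = Finset.univ := Finset.eq_univ_of_card _ (by omega)
    have : IsPretransitive L β := ⟨fun a b => by
      obtain ⟨i, hi⟩ := hc2.exists_zpow_eq (mem_support.1 (hu ▸ Finset.mem_univ a))
        (mem_support.1 (hu ▸ Finset.mem_univ b))
      exact ⟨⟨c ^ i, zpow_mem hc1 i⟩, hi⟩⟩
    exact hne (Twin.alt_le_of_seven n7 (Twin.isPreprimitive_of_cycle hc2' hc1'
      (hc3' ▸ Nat.prime_five) (by omega)) hA hc2' hc3' hc1')
  have n8 : 8 ≤ n := by omega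
  obtain ⟨p, hp, p1, p2⟩ : ∃ p : ℕ, p.Prime ∧ n < 2 * p ∧ p + 3 ≤ n := by
    by_cases h : n ≤ 16
    · exact NT.Carry.exists_prime_small n8 h
    · obtain ⟨p, q, h1, -, h2, h3, h4⟩ := NT.TwoPrimes.exists_primes (m := n) (by omega)
      exact ⟨p, h1, h2, by omega⟩
  obtain ⟨c, hc1, hc2, hc3⟩ := exists_cycle hp p1 (big p hp p1 (by omega))
  obtain ⟨a, ha, -⟩ := id hc2
  classical
  set D : Finset β := Finset.univ.filter fun b => ∃ l ∈ L, l a = b with hD
  have memD : ∀ b, b ∈ D ↔ ∃ l ∈ L, l a = b := fun b => by simp [hD]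
  have hDL : ∀ a' ∈ D, ∀ b, b ∈ D ↔ ∃ l ∈ L, l a' = b := by
    intro a' ha' b
    obtain ⟨l, hl, rfl⟩ := (memD a').1 ha'
    rw [memD]
    constructor
    · rintro ⟨m, hm, rfl⟩
      exact ⟨m * l⁻¹, mul_mem hm (inv_mem hl), by simp⟩
    · rintro ⟨m, hm, rfl⟩
      exact ⟨m * l, mul_mem hm hl, rfl⟩
  have hcD : p ≤ D.card := by
    rw [← hc3]
    refine Finset.card_le_card fun b hb => ?_
    obtain ⟨i, hi⟩ := hc2.exists_zpow_eq ha (mem_support.1 hb)
    exact (memD b).2 ⟨c ^ i, zpow_mem hc1 i, hi⟩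
  have hDu : D ≠ Finset.univ := by
    intro e
    have : IsPretransitive L β := ⟨fun u v => by
      obtain ⟨l, hl, h⟩ := (hDL u (e ▸ Finset.mem_univ u) v).1 (e ▸ Finset.mem_univ v)
      exact ⟨⟨l, hl⟩, h⟩⟩
    exact hne (S0713.result L (Twin.isPreprimitive_of_cycle hc2 hc1 (hc3 ▸ hp) (by omega)) hp h5 p2
      hc2 hc3 hc1)
  have hLD : ∀ l ∈ L, ∀ b, l b ∈ D ↔ b ∈ D := by
    intro l hl b
    constructor
    · intro h
      exact (hDL _ h b).2 ⟨l⁻¹, inv_mem hl, by simp⟩
    · intro h
      exact (hDL _ h _).2 ⟨l, hl, rfl⟩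
  have hLs : L.subgroupOf (alternatingGroup β) =
      (stabilizer (Perm β) D).subgroupOf (alternatingGroup β) := by
    ext σ
    simp only [mem_subgroupOf]
    refine ⟨fun h => ?_, hM n8 D (by omega) hDu hDL σ σ.2⟩
    rw [mem_stabilizer_finset']
    intro b hb
    exact (hLD _ h b).2 hb
  have hdc : d = n.choose D.card := by
    rw [hdd, relIndex, hLs, ← relIndex, relIndex_stab (by omega)]
  rw [hdc] at hd hmax
  have hk : D.card < n := (Finset.card_lt_iff_ne_univ D).2 hDu
  have hlt := NT.Carry.mod_lt_mod h5 hk.le hr hd hmax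
  obtain ⟨x, hx, ox, sx⟩ := exists_max_cycles (β := β) hr (by omega) fun e =>
    NT.Carry.four_dvd h5 (by have := hp.pos; omega) hk (e ▸ hmax)
  refine ⟨x, hx, ox, fun g _ hg => ?_⟩
  have := mod_le_of_inv hr (x := g * x * g⁻¹)
    (by rw [← MulAut.conj_apply, MulEquiv.orderOf_eq, ox]) (by rw [card_support_conj]; exact sx)
    (hLD _ hg)
  exact absurd hlt (not_lt.2 this)

end Cfsg.Agent.Perm.AltDer
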