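import Mathlib

/-!
# Binary affine groups, I: rotations, lines and points

`H` is the stabiliser of `0` in a binary affine group with translation group `V`.
A *rotation* is an element of order greater than two moving as few vectors as possible.
-/

set_option autoImplicit false
set_option linter.unusedSectionVars false

namespace Cfsg.Agent.Perm.BAff

section count

variable {V : Type*} [AddCommGroup V] [Finite V]

theorem card_le_index {A B : AddSubgroup V} (h : ∀ v ∈ A, v ∈ B → v = 0) :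
    Nat.card A ≤ B.index :=
  Nat.card_le_card_of_injective (fun a : A => ((a : V) : V ⧸ B)) fun a b hab => by
    have h1 : -(a : V) + b ∈ B := QuotientAddGroup.eq.1 hab
    exact Subtype.ext (neg_add_eq_zero.1 (h _ (A.add_mem (A.neg_mem a.2) b.2) h1))

theorem exists_ne_zero {A B : AddSubgroup V} (h : B.index < Nat.card A) :
    ∃ v ∈ A, v ∈ B ∧ v ≠ 0 := by
  by_contra hc
  push Not at hc
  exact absurd (card_le_index hc) (not_le.2 h)

theorem eq_of_index_le {A B : AddSubgroup V} (h : A ≤ B) (hi : A.index ≤ B.index) : A = B := by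
  refine AddSubgroup.eq_of_le_of_card_ge h ?_
  have h1 := A.index_mul_card
  have h2 := B.index_mul_card
  have h3 : 0 < B.index := Nat.pos_of_ne_zero AddSubgroup.index_ne_zero_of_finite
  refine Nat.le_of_mul_le_mul_left ?_ h3
  rw [h2, ← h1]
  exact Nat.mul_le_mul_right _ hi

theorem card_mul_le {A B C : AddSubgroup V} (hA : A ≤ C) (hB : B ≤ C)
    (h : ∀ v ∈ A, v ∈ B → v = 0) : Nat.card A * Nat.card B ≤ Nat.card C := by
  rw [← Nat.card_prod]
  refine Nat.card_le_card_of_injective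
    (fun p : A × B => (⟨p.1 + p.2, C.add_mem (hA p.1.2) (hB p.2.2)⟩ : C)) fun p r hpr => ?_
  have h1 : (p.1 : V) + p.2 = r.1 + r.2 := congrArg Subtype.val hpr
  have h2 : (p.1 : V) - r.1 = r.2 - p.2 := by rw [sub_eq_sub_iff_add_eq_add, h1, add_comm]
  have h3 := h _ (A.sub_mem p.1.2 r.1.2) (h2 ▸ B.sub_mem r.2.2 p.2.2)
  exact Prod.ext (Subtype.ext (sub_eq_zero.1 h3)) (Subtype.ext (sub_eq_zero.1 (h2 ▸ h3)).symm)

omit [Finite V] in
theorem le_or_le {W A B : AddSubgroup V} (h : ∀ v ∈ W, v ∈ A ∨ v ∈ B) : W ≤ A ∨ W ≤ B :=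
  AddSubgroupClass.subset_union.1 fun v hv => h v hv

end count

variable {H V : Type*} [Group H] [AddCommGroup V] [DistribMulAction H V]

/-- same orbit -/
def E (H : Type*) {V : Type*} [Group H] [AddCommGroup V] [DistribMulAction H V] (x y : V) : Prop :=
  ∃ h : H, h • x = y

theorem E.rfl' (x : V) : E H x x := ⟨1, one_smul _ _⟩
theorem E.symm {x y : V} (h : E H x y) : E H y x := by
  obtain ⟨g, rfl⟩ := h; exact ⟨g⁻¹, inv_smul_smul _ _⟩
theorem E.trans {x y z : V} (h : E H x y) (h' : E H y z) : E H x z := by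
  obtain ⟨g, rfl⟩ := h; obtain ⟨k, rfl⟩ := h'; exact ⟨k * g, mul_smul _ _ _⟩
theorem E.neg {x y : V} (h : E H x y) : E H (-x) (-y) := by
  obtain ⟨g, rfl⟩ := h; exact ⟨g, smul_neg _ _⟩
theorem E.sub_comm {a b c d : V} (h : E H (a - b) (c - d)) : E H (b - a) (d - c) := by
  have := h.neg; rwa [neg_sub, neg_sub] at this
theorem E.nsmul {x y : V} (h : E H x y) : E H (x + x) (y + y) := by
  obtain ⟨g, rfl⟩ := h; exact ⟨g, smul_add _ _ _⟩

/-- the stabiliser of `0` in a binary primitive affine group -/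
structure Bin (H V : Type*) [Group H] [AddCommGroup V] [DistribMulAction H V] : Prop where
  faith : ∀ h : H, (∀ v : V, h • v = v) → h = 1
  bin : ∀ R : Set (V × V), (∀ p ∈ R, E H p.1 p.2) →
    (∀ p ∈ R, ∀ r ∈ R, E H (p.1 - r.1) (p.2 - r.2)) → ∃ h : H, ∀ p ∈ R, h • p.1 = p.2
  irr : ∀ W : AddSubgroup V, (∀ h : H, ∀ v ∈ W, h • v ∈ W) → W = ⊥ ∨ W = ⊤

/-- `v ↦ h v - v` -/
def kap (V : Type*) [AddCommGroup V] [DistribMulAction H V] (h : H) : V →+ V where
  toFun v := h • v - v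
  map_zero' := by simp
  map_add' x y := by rw [smul_add]; abel

/-- fixed vectors -/
def fx (V : Type*) [AddCommGroup V] [DistribMulAction H V] (h : H) : AddSubgroup V := (kap V h).ker
/-- the commutator space -/
def mv (V : Type*) [AddCommGroup V] [DistribMulAction H V] (h : H) : AddSubgroup V := (kap V h).range

theorem mem_fx {h : H} {v : V} : v ∈ fx V h ↔ h • v = v := sub_eq_zero
theorem mem_mv {h : H} {v : V} : v ∈ mv V h ↔ ∃ w, h • w - w = v := Iff.rfl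
theorem sub_mem_mv (h : H) (v : V) : h • v - v ∈ mv V h := ⟨v, rfl⟩
theorem card_mv (h : H) : Nat.card (mv V h) = (fx V h).index := (AddSubgroup.index_ker _).symm

theorem neg_of_mv {t : H} (ht : t * t = 1) {v : V} (hv : v ∈ mv V t) : t • v = -v := by
  obtain ⟨w, rfl⟩ := hv
  change t • (t • w - w) = -(t • w - w)
  rw [smul_sub, ← mul_smul, ht, one_smul, neg_sub]

theorem smul_mem_mv_conj (g : H) {h : H} {v : V} (hv : v ∈ mv V h) : g • v ∈ mv V (g * h * g⁻¹) := by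
  obtain ⟨w, rfl⟩ := hv
  exact ⟨g • w, by change _ = g • (h • w - w); simp [kap, mul_smul, smul_sub]⟩

theorem smul_mem_mv {g h : H} (hc : Commute g h) {v : V} (hv : v ∈ mv V h) : g • v ∈ mv V h := by
  have := smul_mem_mv_conj g hv
  rwa [hc.eq, mul_inv_cancel_right] at this

theorem mv_inv (h : H) {v : V} (hv : v ∈ mv V h⁻¹) : v ∈ mv V h := by
  obtain ⟨w, rfl⟩ := hv
  exact ⟨-(h⁻¹ • w), by change _ = h⁻¹ • w - w; simp [kap]; abel⟩

theorem mv_mul (g h : H) : mv V (g * h) ≤ mv V g ⊔ mv V h := by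
  rintro _ ⟨w, rfl⟩
  have : kap V (g * h) w = (g • h • w - h • w) + (h • w - w) := by
    change (g * h) • w - w = _
    rw [mul_smul]; abel
  rw [this]
  exact AddSubgroup.add_mem_sup (sub_mem_mv _ _) (sub_mem_mv _ _)

theorem index_conj (g h : H) : (fx V (g * h * g⁻¹)).index = (fx V h).index := by
  have : fx V h = (fx V (g * h * g⁻¹)).comap (DistribMulAction.toAddEquiv V g).toAddMonoidHom := by
    ext v
    simp [mem_fx, mul_smul]
  rw [this]
  exact (AddSubgroup.index_comap_of_surjective _ (DistribMulAction.toAddEquiv V g).surjective).symm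

namespace Bin

theorem fixbin (hb : Bin H V) (U : Set V) (R : Set (V × V)) (h1 : ∀ p ∈ R, E H p.1 p.2)
    (h2 : ∀ u ∈ U, ∀ p ∈ R, E H (u - p.1) (u - p.2))
    (h3 : ∀ p ∈ R, ∀ r ∈ R, p = r ∨ E H (p.1 - r.1) (p.2 - r.2)) :
    ∃ g : H, (∀ u ∈ U, g • u = u) ∧ ∀ p ∈ R, g • p.1 = p.2 := by
  obtain ⟨g, hg⟩ := hb.bin ((fun u => (u, u)) '' U ∪ R) (by
    rintro p (⟨u, -, rfl⟩ | hp)
    · exact E.rfl' _
    · exact h1 p hp) (by
    rintro p (⟨u, hu, rfl⟩ | hp) r (⟨u', hu', rfl⟩ | hr)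
    · exact E.rfl' _
    · exact h2 u hu r hr
    · exact (h2 u' hu' p hp).sub_comm
    · rcases h3 p hp r hr with rfl | h4
      · simpa using E.rfl' (H := H) (0 : V)
      · exact h4)
  exact ⟨g, fun u hu => hg (u, u) (Or.inl ⟨u, hu, rfl⟩), fun p hp => hg p (Or.inr hp)⟩

theorem swap (hb : Bin H V) (U : Set V) {h : H} (hU : ∀ u ∈ U, h • u = u) (v : V) :
    ∃ g : H, (∀ u ∈ U, g • u = u) ∧ g • v = h • v ∧ g • h • v = v := by
  obtain ⟨g, hg, hg'⟩ := hb.fixbin (insert (v + h • v) U) {(v, h • v)} (by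
    rintro p rfl; exact ⟨h, rfl⟩) (by
    rintro x (rfl | hx) p rfl
    · exact ⟨h⁻¹, by simp⟩
    · exact ⟨h, by rw [smul_sub, hU x hx]⟩) (by rintro p rfl r rfl; exact Or.inl rfl)
  have h1 : g • v = h • v := hg' (v, h • v) rfl
  have h2 : g • (v + h • v) = v + h • v := hg _ (Or.inl rfl)
  refine ⟨g, fun u hu => hg u (Or.inr hu), h1, ?_⟩
  rw [smul_add, h1, add_comm] at h2
  exact add_right_cancel h2

theorem e_sub (hb : Bin H V) {x y : V} (h : E H x y) : E H (x - y) (y - x) := by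
  obtain ⟨h, rfl⟩ := h
  obtain ⟨g, -, h1, h2⟩ := hb.swap ∅ (h := h) (by simp) x
  exact ⟨g, by rw [smul_sub, h1, h2]⟩

theorem inv (hb : Bin H V) (U : Set V) (B : Set H) (hU : ∀ b ∈ B, ∀ u ∈ U, b • u = u)
    (hc : ∀ b ∈ B, ∀ c ∈ B, Commute b c) (v : V) :
    ∃ e : H, (∀ u ∈ U, e • u = u) ∧ ∀ b ∈ B, e • b • v = b⁻¹ • v := by
  obtain ⟨g, hg, hg'⟩ := hb.fixbin U ((fun b => (b • v, b⁻¹ • v)) '' B) (by
    rintro _ ⟨b, -, rfl⟩
    exact ⟨b⁻¹ * b⁻¹, by simp [mul_smul]⟩) (by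
    rintro x hx _ ⟨b, hb', rfl⟩
    have : b⁻¹ • x = x := by rw [inv_smul_eq_iff, hU b hb' x hx]
    exact ⟨b⁻¹ * b⁻¹, by simp [mul_smul, smul_sub, this]⟩) (by
    rintro _ ⟨b, hb1, rfl⟩ _ ⟨c, hc1, rfl⟩
    refine Or.inr (E.trans ⟨b⁻¹ * c⁻¹, ?_⟩ (hb.e_sub (x := c⁻¹ • v) (y := b⁻¹ • v) ⟨b⁻¹ * c, by
      simp [mul_smul]⟩))
    rw [smul_sub, mul_smul b⁻¹ c⁻¹ (c • v), inv_smul_smul, (hc b hb1 c hc1).inv_inv.eq, mul_smul,
      inv_smul_smul])
  exact ⟨g, hg, fun b hb' => hg' (_, _) ⟨b, hb', rfl⟩⟩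

/-- sum-freeness -/
theorem sf (hb : Bin H V) {x y s : V} (hx : E H x (x + s)) (hy : E H y (y + s))
    (hxy : E H (x + y) (x + y + s)) : s = 0 := by
  obtain ⟨g, hg, hg'⟩ := hb.fixbin {x, y} {(x + y, x + y + s)} (by rintro p rfl; exact hxy) (by
    rintro u (rfl | rfl) p rfl
    · refine E.sub_comm ?_
      rwa [show u + y - u = y by abel, show u + y + s - u = y + s by abel]
    · refine E.sub_comm ?_
      rwa [show x + u - u = x by abel, show x + u + s - u = x + s by abel])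
    (by rintro p rfl r rfl; exact Or.inl rfl)
  have h1 : g • x = x := hg x (by simp)
  have h2 : g • y = y := hg y (by simp)
  have h3 : g • (x + y) = x + y + s := hg' (_, _) rfl
  rw [smul_add, h1, h2] at h3
  exact left_eq_add.1 h3

end Bin

/-- the minimal number of moved directions of an element of order greater than two -/
noncomputable def Qm (H V : Type*) [Group H] [AddCommGroup V] [DistribMulAction H V] : ℕ :=
  sInf {n | ∃ g : H, g * g ≠ 1 ∧ (fx V g).index = n}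

/-- rotations -/
def Rot (V : Type*) [AddCommGroup V] [DistribMulAction H V] (ρ : H) : Prop :=
  ρ * ρ ≠ 1 ∧ (fx V ρ).index = Qm H V
/-- points -/
def Pt (V : Type*) [AddCommGroup V] [DistribMulAction H V] (e : H) : Prop :=
  e * e = 1 ∧ (fx V e).index * (fx V e).index = Qm H V
/-- `g` fixes all vectors fixed by `ρ` -/
def Lf (V : Type*) [AddCommGroup V] [DistribMulAction H V] (ρ g : H) : Prop :=
  ∀ u : V, ρ • u = u → g • u = u
/-- reflections of the line of `ρ` -/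
def In (V : Type*) [AddCommGroup V] [DistribMulAction H V] (ρ e : H) : Prop :=
  Lf V ρ e ∧ e * e = 1 ∧ e * ρ * (e * ρ) = 1

theorem Lf.mul {ρ g h : H} (hg : Lf V ρ g) (hh : Lf V ρ h) : Lf V ρ (g * h) := fun u hu => by
  rw [mul_smul, hh u hu, hg u hu]
theorem Lf.inv {ρ g : H} (hg : Lf V ρ g) : Lf V ρ g⁻¹ := fun u hu => by
  rw [inv_smul_eq_iff, hg u hu]
theorem Lf.self (ρ : H) : Lf V ρ ρ := fun _ hu => hu
theorem Lf.one (ρ : H) : Lf V ρ 1 := fun _ _ => one_smul _ _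

/-- the rotation group of the line of `ρ` -/
def Ar (V : Type*) [AddCommGroup V] [DistribMulAction H V] (ρ : H) : Subgroup H where
  carrier := {a | Lf V ρ a ∧ Commute a ρ}
  one_mem' := ⟨Lf.one ρ, Commute.one_left _⟩
  mul_mem' ha hb := ⟨ha.1.mul hb.1, ha.2.mul_left hb.2⟩
  inv_mem' ha := ⟨ha.1.inv, ha.2.inv_left⟩

theorem self_mem_Ar (ρ : H) : ρ ∈ Ar V ρ := ⟨Lf.self ρ, Commute.refl ρ⟩

theorem Qm_le {g : H} (hg : g * g ≠ 1) : Qm H V ≤ (fx V g).index := Nat.sInf_le ⟨g, hg, rfl⟩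

theorem exists_rot {g : H} (hg : g * g ≠ 1) : ∃ ρ : H, Rot V ρ :=
  Nat.sInf_mem (s := {n | ∃ g : H, g * g ≠ 1 ∧ (fx V g).index = n}) ⟨_, g, hg, rfl⟩

theorem Rot.conj {ρ : H} (h : Rot V ρ) (g : H) : Rot V (g * ρ * g⁻¹) :=
  ⟨fun h1 => h.1 (by
    calc ρ * ρ = g⁻¹ * (g * ρ * g⁻¹ * (g * ρ * g⁻¹)) * g := by group
      _ = 1 := by rw [h1]; group), by rw [index_conj, h.2]⟩

theorem Pt.conj {e : H} (h : Pt V e) (g : H) : Pt V (g * e * g⁻¹) :=
  ⟨by rw [show g * e * g⁻¹ * (g * e * g⁻¹) = g * (e * e) * g⁻¹ by group, h.1]; group,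
    by rw [index_conj, h.2]⟩

theorem Pt.card_eq {e e' : H} (h : Pt V e) (h' : Pt V e') :
    Nat.card (mv V e) = Nat.card (mv V e') := by
  rw [card_mv, card_mv]; exact Nat.mul_self_inj.1 (h.2.trans h'.2.symm)

theorem commute_of_sq {s t : H} (hs : s * s = 1) (ht : t * t = 1) (h : s * t * (s * t) = 1) :
    Commute s t := by
  have := eq_inv_of_mul_eq_one_left h
  rw [mul_inv_rev, inv_eq_of_mul_eq_one_left hs, inv_eq_of_mul_eq_one_left ht] at this
  exact this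

theorem sq_of_commute {s t : H} (hs : s * s = 1) (ht : t * t = 1) (h : Commute s t) :
    s * t * (s * t) = 1 := by
  rw [show s * t * (s * t) = s * (t * s) * t by group, ← h.eq,
    show s * (s * t) * t = (s * s) * (t * t) by group, hs, ht, one_mul]

theorem In.conj_eq {ρ e : H} (h : In V ρ e) : e * ρ * e⁻¹ = ρ⁻¹ := by
  rw [inv_eq_of_mul_eq_one_left h.2.1]
  exact eq_inv_of_mul_eq_one_left (by rw [← h.2.2]; group)

theorem In.smul_mem {ρ e : H} (h : In V ρ e) {v : V} (hv : v ∈ mv V ρ) : e • v ∈ mv V ρ := by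
  have := smul_mem_mv_conj e hv
  rw [h.conj_eq] at this
  exact mv_inv _ this

theorem In.mul_mem {ρ e e' : H} (h : In V ρ e) (h' : In V ρ e') : e * e' ∈ Ar V ρ := by
  refine ⟨h.1.mul h'.1, ?_⟩
  have h1 := h.conj_eq
  have h2 := h'.conj_eq
  have h3 : e * ρ⁻¹ * e⁻¹ = ρ := by
    rw [show e * ρ⁻¹ * e⁻¹ = (e * ρ * e⁻¹)⁻¹ by group, h1, inv_inv]
  calc e * e' * ρ = e * (e' * ρ * e'⁻¹) * e⁻¹ * (e * e') := by group
    _ = ρ * (e * e') := by rw [h2, h3]

variable [Finite V]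

theorem Rot.fx_eq {ρ g : H} (h : Rot V ρ) (hg : Lf V ρ g) (h2 : g * g ≠ 1) : fx V ρ = fx V g :=
  eq_of_index_le (fun u hu => mem_fx.2 (hg u (mem_fx.1 hu))) (h.2 ▸ Qm_le h2)

theorem Rot.of_lf {ρ g : H} (h : Rot V ρ) (hg : Lf V ρ g) (h2 : g * g ≠ 1) : Rot V g :=
  ⟨h2, by rw [← h.fx_eq hg h2, h.2]⟩

theorem Rot.sq {ρ g : H} (h : Rot V ρ) (hg : Lf V ρ g) {v : V} (hv : ρ • v ≠ v) (hgv : g • v = v) :
    g * g = 1 := by
  by_contra h2
  exact hv (mem_fx.1 (h.fx_eq hg h2 ▸ mem_fx.2 hgv))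

/-- two points which do not commute lie on a line -/
theorem Pt.line {s t : H} (hs : Pt V s) (ht : Pt V t) (h : ¬ Commute s t) :
    Rot V (s * t) ∧ In V (s * t) s ∧ In V (s * t) t := by
  have h1 : s * t * (s * t) ≠ 1 := fun h1 => h (commute_of_sq hs.1 ht.1 h1)
  have h2 : fx V s ⊓ fx V t = fx V (s * t) := by
    refine eq_of_index_le (fun u hu => mem_fx.2 ?_) (AddSubgroup.index_inf_le.trans ?_)
    · rw [mul_smul, mem_fx.1 hu.2, mem_fx.1 hu.1]
    · rw [← card_mv t, ← hs.card_eq ht, card_mv, hs.2]; exact Qm_le h1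
  refine ⟨⟨h1, le_antisymm ?_ (Qm_le h1)⟩, ⟨fun u hu => ?_, hs.1, ?_⟩, ⟨fun u hu => ?_, ht.1, ?_⟩⟩
  · rw [← h2]
    refine AddSubgroup.index_inf_le.trans ?_
    rw [← card_mv t, ← hs.card_eq ht, card_mv, hs.2]
  · exact mem_fx.1 (h2.ge (mem_fx.2 hu)).1
  · rw [← mul_assoc s s, hs.1, one_mul, ht.1]
  · exact mem_fx.1 (h2.ge (mem_fx.2 hu)).2
  · rw [show t * (s * t) * (t * (s * t)) = t * (s * (t * t) * s) * t by group, ht.1, mul_one, hs.1,
      mul_one, ht.1]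

/-- the facts on rotations whose proofs depend on the characteristic -/
structure Good (H V : Type*) [Group H] [AddCommGroup V] [DistribMulAction H V] : Prop
    extends Bin H V where
  dec : ∀ ρ : H, Rot V ρ → ∀ v ∈ mv V ρ, ρ • v = v → v = 0
  semi : ∀ ρ : H, Rot V ρ → ∀ a ∈ Ar V ρ, ∀ v ∈ mv V ρ, a • v = v → v = 0 ∨ a = 1
  semiNeg : ∀ ρ : H, Rot V ρ → ∀ a ∈ Ar V ρ, ∀ v ∈ mv V ρ, a • v = -v →
    v = 0 ∨ ∀ w ∈ mv V ρ, a • w = -w

theorem surj_of_dec {ρ : H} (hd : ∀ v ∈ mv V ρ, ρ • v = v → v = 0) {w : V} (hw : w ∈ mv V ρ) :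
    ∃ c ∈ mv V ρ, ρ • c - c = w := by
  have := Finite.surjective_of_injective
    (f := fun c : mv V ρ => (⟨ρ • (c : V) - c, sub_mem_mv _ _⟩ : mv V ρ)) fun a b hab => by
      have h1 : ρ • (a : V) - a = ρ • (b : V) - b := congrArg Subtype.val hab
      refine Subtype.ext (sub_eq_zero.1 (hd _ (sub_mem a.2 b.2) ?_))
      rw [smul_sub, sub_eq_sub_iff_sub_eq_sub, h1]
  obtain ⟨c, hc⟩ := this ⟨w, hw⟩
  exact ⟨c, c.2, congrArg Subtype.val hc⟩

theorem split_of_dec {ρ : H} (hd : ∀ v ∈ mv V ρ, ρ • v = v → v = 0) (v : V) :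
    ∃ c ∈ mv V ρ, ∃ u, ρ • u = u ∧ v = c + u := by
  obtain ⟨c, hc, e⟩ := surj_of_dec hd (sub_mem_mv ρ v)
  refine ⟨c, hc, v - c, ?_, by abel⟩
  rw [smul_sub, sub_eq_sub_iff_sub_eq_sub, e]

theorem Bin.eq_one_of_dec (hb : Bin H V) {ρ : H} (hd : ∀ v ∈ mv V ρ, ρ • v = v → v = 0) {g : H}
    (hg : Lf V ρ g) (h : ∀ v ∈ mv V ρ, g • v = v) : g = 1 :=
  hb.faith g fun v => by
    obtain ⟨c, hc, u, hu, rfl⟩ := split_of_dec hd v
    rw [smul_add, h c hc, hg u hu]

namespace Good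

variable (hg : Good H V) {ρ : H} (hρ : Rot V ρ)
include hg hρ

theorem eq_one {g : H} (h1 : Lf V ρ g) (h : ∀ v ∈ mv V ρ, g • v = v) : g = 1 :=
  hg.toBin.eq_one_of_dec (hg.dec ρ hρ) h1 h

theorem split (v : V) : ∃ c ∈ mv V ρ, ∃ u, ρ • u = u ∧ v = c + u := split_of_dec (hg.dec ρ hρ) v

theorem neg {v : V} (hv : v ∈ mv V ρ) (h : ρ • v = -v) : v = 0 :=
  (hg.semiNeg ρ hρ ρ (self_mem_Ar ρ) v hv h).resolve_right fun h1 =>
    hρ.1 (hg.eq_one hρ ((Lf.self ρ).mul (Lf.self ρ)) fun w hw => by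
      rw [mul_smul, h1 w hw, smul_neg, h1 w hw, neg_neg])

theorem sq {g : H} (h1 : Lf V ρ g) {v : V} (hv : v ∈ mv V ρ) (h0 : v ≠ 0) (h : g • v = v) :
    g * g = 1 :=
  hρ.sq h1 (fun h2 => h0 (hg.dec ρ hρ v hv h2)) h

theorem mv_le {g : H} (h1 : Lf V ρ g) (h : ∀ v ∈ mv V ρ, g • v ∈ mv V ρ) : mv V g ≤ mv V ρ := by
  rintro _ ⟨w, rfl⟩
  obtain ⟨c, hc, u, hu, rfl⟩ := hg.split hρ w
  change g • (c + u) - (c + u) ∈ _
  rw [smul_add, h1 u hu, add_sub_add_right_eq_sub]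
  exact sub_mem (h c hc) hc

theorem in_le {e : H} (he : In V ρ e) : mv V e ≤ mv V ρ :=
  hg.mv_le hρ he.1 fun _ hv => he.smul_mem hv

theorem cover {v : V} (hv : v ∈ mv V ρ) (h0 : v ≠ 0) : ∃ e : H, In V ρ e ∧ e • v = v := by
  obtain ⟨g, h1, h2, h3⟩ := hg.toBin.swap {u | ρ • u = u} (h := ρ) (fun _ hu => hu) v
  have h4 : g * g = 1 := hg.sq hρ h1 (add_mem hv (smul_mem_mv (Commute.refl ρ) hv))
    (fun h5 => h0 (hg.neg hρ hv (eq_neg_of_add_eq_zero_right h5)))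
    (by rw [smul_add, h2, h3, add_comm])
  have h5 : g * ρ * (g * ρ) = 1 := hg.sq hρ (Lf.mul h1 (Lf.self ρ)) hv h0 (by rw [mul_smul, h3])
  refine ⟨g * ρ, ⟨Lf.mul h1 (Lf.self ρ), h5, ?_⟩, by rw [mul_smul, h3]⟩
  have h6 : g * ρ * g = ρ⁻¹ := eq_inv_of_mul_eq_one_left (by rw [← h5]; group)
  calc g * ρ * ρ * (g * ρ * ρ) = g * ρ * (ρ * (g * ρ * g)) * g⁻¹ * ρ := by group
    _ = g * ρ * (g * ρ) := by rw [h6, inv_eq_of_mul_eq_one_left h4]; group
    _ = 1 := h5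

theorem uniq {e e' : H} (he : In V ρ e) (he' : In V ρ e') {v : V} (hv : v ∈ mv V ρ) (h0 : v ≠ 0)
    (h1 : e • v = v) (h2 : e' • v = v) : e = e' := by
  have := (hg.semi ρ hρ _ (he.mul_mem he') v hv (by rw [mul_smul, h2, h1])).resolve_left h0
  rw [eq_inv_of_mul_eq_one_left this, inv_eq_of_mul_eq_one_left he'.2.1]

theorem in_self {e : H} (he : In V ρ e) : In V ρ (e * ρ) := by
  refine ⟨he.1.mul (Lf.self ρ), he.2.2, ?_⟩
  have h6 : e * ρ * e = ρ⁻¹ := eq_inv_of_mul_eq_one_left (by rw [← he.2.2]; group)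
  calc e * ρ * ρ * (e * ρ * ρ) = e * ρ * (ρ * (e * ρ * e)) * e⁻¹ * ρ := by group
    _ = e * ρ * (e * ρ) := by rw [h6, inv_eq_of_mul_eq_one_left he.2.1]; group
    _ = 1 := he.2.2

theorem pt {e : H} (he : In V ρ e) : Pt V e := by
  have he' := hg.in_self hρ he
  have h1 : Qm H V ≤ (fx V e).index * (fx V (e * ρ)).index := by
    refine le_trans ?_ AddSubgroup.index_inf_le
    rw [← hρ.2]
    refine AddSubgroup.index_antitone fun u hu => mem_fx.2 ?_
    have := mem_fx.1 hu.2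
    rwa [mul_smul, smul_eq_iff_eq_inv_smul, inv_eq_of_mul_eq_one_left he.2.1, mem_fx.1 hu.1] at this
  have k : ∀ v ∈ mv V ρ, ∀ w, e • v = w → (e * ρ) • v = w → v = 0 := fun v hv w h2 h3 =>
    hg.dec ρ hρ v hv (by rw [mul_smul, ← h2] at h3; exact smul_left_cancel e h3)
  have k' : ∀ v ∈ mv V ρ, ∀ w, e • v = w → (e * ρ) • v = -w → v = 0 := fun v hv w h2 h3 =>
    hg.neg hρ hv (by rw [mul_smul, ← h2, ← smul_neg] at h3; exact smul_left_cancel e h3)
  have h2 : (fx V e).index * (fx V (e * ρ)).index ≤ Qm H V := by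
    rw [← hρ.2, ← card_mv, ← card_mv, ← card_mv]
    exact card_mul_le (hg.in_le hρ he) (hg.in_le hρ he') fun v hv hv' =>
      k v (hg.in_le hρ he hv) _ (neg_of_mv he.2.1 hv) (neg_of_mv he'.2.1 hv')
  have h3 : (fx V (e * ρ)).index ≤ (fx V e).index := by
    rw [← card_mv]
    exact card_le_index fun v hv hv' =>
      k' v (hg.in_le hρ he' hv) _ (mem_fx.1 hv') (neg_of_mv he'.2.1 hv)
  have h4 : (fx V e).index ≤ (fx V (e * ρ)).index := by
    rw [← card_mv]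
    exact card_le_index fun v hv hv' =>
      k' v (hg.in_le hρ he hv) _ (neg_of_mv he.2.1 hv) (by rw [neg_neg]; exact mem_fx.1 hv')
  rw [le_antisymm h3 h4] at h1 h2
  exact ⟨he.2.1, le_antisymm h2 h1⟩

omit hρ in
/-- a point fixing a non-zero vector of another point commutes with it -/
theorem comm_of_fix {s t : H} (hs : Pt V s) (ht : Pt V t) {v : V} (hv : v ∈ mv V t) (h0 : v ≠ 0)
    (h : s • v = v) : Commute s t := by
  by_contra hc
  obtain ⟨h1, -, h3⟩ := hs.line ht hc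
  exact h0 (hg.neg h1 (hg.in_le h1 h3 hv) (by rw [mul_smul, neg_of_mv ht.1 hv, smul_neg, h]))

theorem one_lt : 1 < Qm H V := by
  rw [← hρ.2]
  refine AddSubgroup.one_lt_index_of_ne_top fun h1 => hρ.1 ?_
  rw [hg.faith ρ fun v => mem_fx.1 (h1 ▸ AddSubgroup.mem_top v), one_mul]

theorem card_lt {e : H} (he : Pt V e) : (fx V e).index < Nat.card (mv V ρ) := by
  have h1 := hg.one_lt hρ
  rw [card_mv, hρ.2, ← he.2] at *
  nlinarith

theorem exists_fix {e : H} (he : Pt V e) : ∃ v ∈ mv V ρ, e • v = v ∧ v ≠ 0 := by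
  obtain ⟨v, h1, h2, h3⟩ := exists_ne_zero (hg.card_lt hρ he)
  exact ⟨v, h1, mem_fx.1 h2, h3⟩

theorem in_mul {e a : H} (he : In V ρ e) (ha : a ∈ Ar V ρ) : In V ρ (e * a) := by
  have key : ∀ a ∈ Ar V ρ, e * a * (e * a) = 1 := by
    intro a ha
    obtain ⟨v, hv, hev, h0⟩ := hg.exists_fix hρ (hg.pt hρ he)
    obtain ⟨f, hf, hf'⟩ := hg.toBin.inv {u | ρ • u = u} {1, ρ, a} (by
      rintro b (rfl | rfl | rfl)
      exacts [Lf.one ρ, Lf.self _, ha.1]) (by
      rintro b (rfl | rfl | rfl) c (rfl | rfl | rfl)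
      all_goals first
        | exact Commute.one_left _
        | exact Commute.one_right _
        | exact Commute.refl _
        | exact ha.2
        | exact ha.2.symm) v
    have f1 : f • v = v := by simpa using hf' 1 (by simp)
    have k : ∀ b ∈ Ar V ρ, f • b • v = b⁻¹ • v → b • v ≠ -v → f * b * (f * b) = 1 := by
      intro b hb h1 h2
      refine hg.sq hρ (Lf.mul hf hb.1) (add_mem hv (smul_mem_mv hb.2.inv_left hv)) (fun h3 => h2 ?_)
        (by rw [smul_add, mul_smul, h1, mul_smul, smul_inv_smul, f1, add_comm])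
      rw [← neg_eq_iff_eq_neg, ← smul_neg, ← eq_neg_of_add_eq_zero_right h3, smul_inv_smul]
    have f2 : In V ρ f := ⟨hf, hg.sq hρ hf hv h0 f1,
      k ρ (self_mem_Ar ρ) (hf' ρ (by simp)) fun h1 => h0 (hg.neg hρ hv h1)⟩
    obtain rfl := hg.uniq hρ he f2 hv h0 hev f1
    by_cases h1 : a • v = -v
    · have h2 := (hg.semiNeg ρ hρ a ha v hv h1).resolve_left h0
      refine hg.eq_one hρ ((he.1.mul ha.1).mul (he.1.mul ha.1)) fun w hw => ?_
      rw [mul_smul, mul_smul e a w, h2 w hw, smul_neg, smul_neg, mul_smul, h2 _ (he.smul_mem hw),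
        smul_neg, neg_neg, ← mul_smul, he.2.1, one_smul]
    · exact k a ha (hf' a (by simp)) h1
  exact ⟨he.1.mul ha.1, key a ha, by
    rw [mul_assoc e a]; exact key _ (mul_mem ha (self_mem_Ar ρ))⟩

theorem mul_in {e a : H} (he : In V ρ e) (ha : a ∈ Ar V ρ) : In V ρ (a * e) := by
  have h1 := hg.in_mul hρ he (inv_mem ha)
  have : a * e = e * a⁻¹ := by
    rw [← inv_eq_of_mul_eq_one_left h1.2.1, mul_inv_rev, inv_inv, inv_eq_of_mul_eq_one_left he.2.1]
  rwa [this]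

theorem exists_in : ∃ e : H, In V ρ e := by
  have h1 := hg.one_lt hρ
  rw [← hρ.2, ← card_mv] at h1
  have : Nontrivial (mv V ρ) := Finite.one_lt_card_iff_nontrivial.1 h1
  obtain ⟨v, hv⟩ := exists_ne (0 : mv V ρ)
  obtain ⟨e, he, -⟩ := hg.cover hρ v.2 fun h0 => hv (Subtype.ext h0)
  exact ⟨e, he⟩

/-- the rotation group has more elements than a point -/
theorem lt_card_Ar [Finite H] {e : H} (he : Pt V e) : (fx V e).index < Nat.card (Ar V ρ) := by
  classical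
  obtain ⟨e0, he0⟩ := hg.exists_in hρ
  have := Fintype.ofFinite V
  have := Fintype.ofFinite (Ar V ρ)
  set q := (fx V e).index with hq
  have hq1 : 1 < q := by
    have h1 := hg.one_lt hρ
    rw [← he.2] at h1
    nlinarith
  have h1 : (Finset.univ.filter fun v : V => v ∈ mv V ρ).erase 0 ⊆ Finset.univ.biUnion
      fun a : Ar V ρ => (Finset.univ.filter fun v : V => v ∈ mv V ρ ⊓ fx V (e0 * a)).erase 0 := by
    intro v hv
    simp only [Finset.mem_erase, Finset.mem_filter, Finset.mem_univ, true_and,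
      Finset.mem_biUnion] at hv ⊢
    obtain ⟨f, hf, hfv⟩ := hg.cover hρ hv.2 hv.1
    refine ⟨⟨e0 * f, he0.mul_mem hf⟩, hv.1, hv.2, mem_fx.2 ?_⟩
    rw [← mul_assoc, he0.2.1, one_mul, hfv]
  have cs : ∀ W : AddSubgroup V,
      ((Finset.univ.filter fun v : V => v ∈ W).erase 0).card = Nat.card W - 1 := fun W => by
    rw [Finset.card_erase_of_mem (by simp), Nat.card_eq_fintype_card, Fintype.card_subtype]
  have h2 := (Finset.card_le_card h1).trans (Finset.card_biUnion_le_card_mul _ _ (q - 1) (by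
    intro a _
    rw [cs]
    have hp := hg.pt hρ (hg.in_mul hρ he0 a.2)
    have h3 : Nat.card (mv V ρ ⊓ fx V (e0 * a) : AddSubgroup V) ≤ (fx V (e0 * a * ρ)).index :=
      card_le_index fun v hv hv' => hg.dec ρ hρ v hv.1 (by
        have h4 := mem_fx.1 hv'
        rw [mul_smul, ← mem_fx.1 hv.2] at h4
        have h5 := smul_left_cancel _ h4
        rwa [mem_fx.1 hv.2] at h5)
    rw [← card_mv, (hg.pt hρ (hg.in_self hρ (hg.in_mul hρ he0 a.2))).card_eq he, card_mv] at h3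
    omega))
  rw [cs, card_mv, hρ.2, ← he.2, Finset.card_univ, ← Nat.card_eq_fintype_card, ← hq] at h2
  by_contra hc
  obtain ⟨r, hr⟩ : ∃ r, q = r + 2 := ⟨q - 2, by omega⟩
  have h3 := h2.trans (Nat.mul_le_mul_right _ (not_lt.1 hc))
  rw [hr] at h3
  have h4 : (r + 2) * (r + 2) - 1 = r * r + 4 * r + 3 := by
    rw [show (r + 2) * (r + 2) = r * r + 4 * r + 3 + 1 by ring]; rfl
  rw [h4, show r + 2 - 1 = r + 1 from rfl] at h3
  nlinarith

/-- a point commuting with all reflections of a line centralises the line -/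
theorem fix_of_comm [Finite H] {t : H} (ht : Pt V t) (h : ∀ e, In V ρ e → Commute t e) :
    (∀ v ∈ mv V ρ, t • v = v) ∧ ∀ u ∈ mv V t, ρ • u = u := by
  obtain ⟨e0, he0⟩ := hg.exists_in hρ
  have hc : ∀ a ∈ Ar V ρ, Commute a t := fun a ha => by
    have := (h e0 he0).mul_right (h _ (hg.in_mul hρ he0 ha))
    rw [← mul_assoc, he0.2.1, one_mul] at this
    exact this.symm
  have h1 : ∀ v ∈ mv V ρ, t • v = v := by
    intro v hv
    by_contra hne
    have h2 : t • v - v ∈ mv V ρ := sub_mem (smul_mem_mv (hc ρ (self_mem_Ar ρ)).symm hv) hv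
    have h3 := Nat.card_le_card_of_injective
      (fun a : Ar V ρ => (⟨(a : H) • (t • v - v), smul_mem_mv (hc a a.2) (sub_mem_mv t v)⟩ : mv V t))
      fun a b hab => by
        have h4 : (a : H) • (t • v - v) = (b : H) • (t • v - v) := congrArg Subtype.val hab
        have := (hg.semi ρ hρ _ (mul_mem (inv_mem b.2) a.2) _ h2
          (by rw [mul_smul, h4, inv_smul_smul])).resolve_left (sub_ne_zero.2 hne)
        exact Subtype.ext (inv_mul_eq_one.1 this).symm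
    rw [card_mv] at h3
    exact absurd (hg.lt_card_Ar hρ ht) (not_lt.2 h3)
  refine ⟨h1, ?_⟩
  rintro _ ⟨w, rfl⟩
  obtain ⟨c, hc', u, hu, rfl⟩ := hg.split hρ w
  change ρ • (t • (c + u) - (c + u)) = t • (c + u) - (c + u)
  rw [smul_add, h1 c hc', add_sub_add_left_eq_sub, smul_sub, ← mul_smul,
    (hc ρ (self_mem_Ar ρ)).eq, mul_smul, hu]

end Good

end Cfsg.Agent.Perm.BAff
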