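import Cfsg.Agent.Perm.Bin1

/-!
# Binary affine groups, II: characteristic two
-/

set_option autoImplicit false
set_option linter.unusedSectionVars false

namespace Cfsg.Agent.Perm.BAff

variable {H V : Type*} [Group H] [AddCommGroup V] [DistribMulAction H V] [Finite V]

theorem mem_mv_conj {g h : H} {v : V} (hv : v ∈ mv V (g * h * g⁻¹)) : g⁻¹ • v ∈ mv V h := by
  have := smul_mem_mv_conj g⁻¹ hv
  rwa [show g⁻¹ * (g * h * g⁻¹) * g⁻¹⁻¹ = h by group] at this

theorem eq_of_mul_eq_one {e e' : H} (he' : e' * e' = 1) (h : e * e' = 1) : e = e' := by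
  rw [eq_inv_of_mul_eq_one_left h, inv_eq_of_mul_eq_one_left he']

theorem Pt.exists_mem {e : H} (he : Pt V e) (h1 : 1 < Qm H V) : ∃ v ∈ mv V e, v ≠ 0 := by
  have h2 : 1 < Nat.card (mv V e) := by
    rw [card_mv]
    rw [← he.2] at h1
    nlinarith
  have : Nontrivial (mv V e) := Finite.one_lt_card_iff_nontrivial.1 h2
  obtain ⟨v, hv⟩ := exists_ne (0 : mv V e)
  exact ⟨v, v.2, fun h0 => hv (Subtype.ext h0)⟩

/-- elements which are unipotent on a line with values in the axis act trivially on the line -/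
theorem Bin.klem (hb : Bin H V) {ρ : H} (hd : ∀ v ∈ mv V ρ, ρ • v = v → v = 0) {h : H}
    (h1 : ∀ v ∈ mv V ρ, ρ • (h • v - v) = h • v - v)
    (h2 : ∀ v ∈ mv V ρ, h • (h • v - v) = h • v - v) : ∀ w ∈ mv V ρ, h • w = w := by
  intro w hw
  obtain ⟨v, hv, rfl⟩ := surj_of_dec hd hw
  have hv' := smul_mem_mv (Commute.refl ρ) hv
  set a := h • v - v with ha
  set b := h • ρ • v - ρ • v with hb'
  have a1 : ρ • a = a := h1 v hv
  have a2 : h • a = a := h2 v hv
  have b1 : ρ • b = b := h1 _ hv'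
  have b2 : h • b = b := h2 _ hv'
  have e1 : h • v = v + a := by rw [ha]; abel
  have e2 : h • ρ • v = ρ • v + b := by rw [hb']; abel
  have k1 : E H v (v + a) := ⟨h, e1⟩
  have k2 : E H (v + (a - b)) v := by
    refine E.symm (E.trans (y := v - b) (E.trans ⟨ρ, rfl⟩ (E.symm (E.trans (y := ρ • v - b)
      ⟨ρ, by rw [smul_sub, b1]⟩ ⟨h, by rw [smul_sub, e2, b2]; abel⟩))) ⟨h, ?_⟩)
    rw [smul_sub, e1, b2]; abel
  have k3 : E H (ρ • v) (ρ • v + (b - a)) := by
    refine E.trans (y := ρ • v - a) (E.trans (E.symm ⟨ρ, rfl⟩) (E.trans (y := v - a)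
      (E.symm ⟨h, by rw [smul_sub, e1, a2]; abel⟩) ⟨ρ, by rw [smul_sub, a1]⟩)) ⟨h, ?_⟩
    rw [smul_sub, e2, a2]; abel
  have k4 : h • (ρ • v - v) = ρ • v - v + (b - a) := by rw [smul_sub, e1, e2]; abel
  have := hb.sf (x := -v) (y := ρ • v) (s := b - a) (by
    have := k2.symm.neg
    rwa [show -(v + (a - b)) = -v + (b - a) by abel] at this) k3
    ⟨h, by rw [show -v + ρ • v = ρ • v - v by abel, k4]⟩
  rw [k4, this, add_zero]

namespace Good

variable (hg : Good H V) {ρ : H} (hρ : Rot V ρ)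
include hg hρ

theorem mv_eq {a : H} (ha : a ∈ Ar V ρ) (h2 : a * a ≠ 1) : mv V a = mv V ρ :=
  AddSubgroup.eq_of_le_of_card_ge (hg.mv_le hρ ha.1 fun _ hv => smul_mem_mv ha.2 hv)
    (by rw [card_mv, card_mv, hρ.fx_eq ha.1 h2])

theorem ne_self (e : H) : e ≠ e * ρ := fun h =>
  hρ.1 (by rw [left_eq_mul.1 h, one_mul])

theorem in_conj {e f : H} (he : In V ρ e) (hf : In V ρ f) : In V ρ (e * f * e) :=
  hg.mul_in hρ he (he.mul_mem hf)

theorem card_fix_le {e : H} (he : In V ρ e) :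
    Nat.card (mv V ρ ⊓ fx V e : AddSubgroup V) ≤ Nat.card (mv V e) := by
  rw [(hg.pt hρ he).card_eq (hg.pt hρ (hg.in_self hρ he)), card_mv]
  exact card_le_index fun v hv hv' => hg.dec ρ hρ v hv.1 (by
    have h4 := mem_fx.1 hv'
    rw [mul_smul, ← mem_fx.1 hv.2] at h4
    have h5 := smul_left_cancel _ h4
    rwa [mem_fx.1 hv.2] at h5)

theorem exists_mem : ∃ v ∈ mv V ρ, v ≠ 0 := by
  obtain ⟨e, he⟩ := hg.exists_in hρ
  obtain ⟨v, hv, h0⟩ := (hg.pt hρ he).exists_mem (hg.one_lt hρ)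
  exact ⟨v, hg.in_le hρ he hv, h0⟩

/-- a line which is not orthogonal to any of its conjugates is the whole space -/
theorem eq_top (h1 : ∀ h : H, mv V (h * ρ * h⁻¹) ≤ mv V ρ) : mv V ρ = ⊤ := by
  refine (hg.irr _ fun h v hv => h1 h (smul_mem_mv_conj h hv)).resolve_left fun h0 => ?_
  obtain ⟨v, hv, h2⟩ := hg.exists_mem hρ
  exact h2 (by simpa [h0] using hv)

theorem lf_of_top (h1 : mv V ρ = ⊤) (g : H) : Lf V ρ g := fun u hu => by
  rw [hg.dec ρ hρ u (h1 ▸ AddSubgroup.mem_top u) hu, smul_zero]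

end Good

section two

variable (h2 : ∀ v : V, v + v = 0)
include h2

theorem neg_eq (v : V) : -v = v := neg_eq_of_add_eq_zero_left (h2 v)
theorem sub_eq (v w : V) : v - w = v + w := by rw [sub_eq_add_neg, neg_eq h2]

theorem fix_of_mv {t : H} (ht : t * t = 1) {v : V} (hv : v ∈ mv V t) : t • v = v := by
  rw [neg_of_mv ht hv, neg_eq h2]

theorem Bin.no4 (hb : Bin H V) {g : H} (h : g * g * (g * g) = 1) : g * g = 1 := by
  have key : ∀ v : V, g • (v + g • g • v) = v + g • g • v → g • g • v = v := by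
    intro v hv
    have := hb.sf (x := v) (y := v + g • v) (s := v + g • g • v)
      ⟨g * g, by rw [mul_smul, ← add_assoc, h2, zero_add]⟩
      ⟨g, by rw [smul_add, add_add_add_comm, h2, zero_add]⟩
      ⟨g * g, by
        rw [← hv, ← add_assoc v v, h2, zero_add, smul_add, ← add_assoc, h2, zero_add, mul_smul]⟩
    rw [← sub_eq h2, sub_eq_zero] at this
    exact this.symm
  have h4 : ∀ v : V, g • g • g • g • v = v := fun v => by
    rw [← mul_smul, ← mul_smul, ← mul_smul, mul_assoc, h, one_smul]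
  refine hb.faith _ fun w => ?_
  rw [mul_smul]
  have h5 := key (w + g • w) (by simp only [smul_add, h4]; abel)
  refine key w ?_
  simp only [smul_add] at h5 ⊢
  rw [← sub_eq_zero, ← sub_eq_zero.2 h5]
  simp only [sub_eq h2]
  abel

theorem Bin.sq_of_pow (hb : Bin H V) (k : ℕ) : ∀ g : H, g ^ 2 ^ k = 1 → g * g = 1 := by
  induction k with
  | zero => intro g h; rw [pow_zero, pow_one] at h; rw [h, one_mul]
  | succ k ih =>
    intro g h
    refine hb.no4 h2 (ih (g * g) ?_)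
    rw [← pow_two, ← pow_mul, ← pow_succ', h]

theorem Bin.dec2 (hb : Bin H V) {ρ : H} (hρ : Rot V ρ) : ∀ v ∈ mv V ρ, ρ • v = v → v = 0 := by
  rintro _ ⟨w, rfl⟩ h
  change ρ • (ρ • w - w) = ρ • w - w at h
  have h3 : (ρ * ρ) • w = w := by
    rw [smul_sub, sub_eq h2, sub_eq h2, add_comm (ρ • w)] at h
    rw [mul_smul]; exact add_right_cancel h
  have h4 := hρ.fx_eq ((Lf.self ρ).mul (Lf.self ρ)) fun h5 => hρ.1 (hb.no4 h2 h5)
  exact h4.ge (mem_fx.2 h3)

/-- an involution commuting with `ρ` fixes the line of `ρ` -/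
theorem Bin.fix2 (hb : Bin H V) {ρ f : H} (hf : f * f = 1) (hc : Commute f ρ) :
    ∀ v ∈ mv V ρ, f • v = v := by
  rintro _ ⟨w, rfl⟩
  change f • (ρ • w - w) = ρ • w - w
  have h3 : f • ρ • w = ρ • f • w := by rw [← mul_smul, hc.eq, mul_smul]
  have h4 : f • f • w = w := by rw [← mul_smul, hf, one_smul]
  have := hb.sf (x := ρ • w + w) (y := w + f • w) (s := (ρ • w + w) + f • (ρ • w + w))
    ⟨f, by rw [← add_assoc, h2, zero_add]⟩
    ⟨ρ, by
      rw [smul_add, smul_add, h3, ← sub_eq_zero]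
      calc _ = -((w + w) + (f • w + f • w)) := by abel
        _ = 0 := by rw [h2, h2, add_zero, neg_zero]⟩
    ⟨f, by
      simp only [smul_add, h4]
      rw [← sub_eq_zero]
      calc _ = -((ρ • w + ρ • w) + (w + w)) := by abel
        _ = 0 := by rw [h2, h2, add_zero, neg_zero]⟩
  rw [sub_eq h2, ← sub_eq h2 (ρ • w + w), sub_eq_zero] at *
  exact this.symm

theorem Bin.good2 (hb : Bin H V) : Good H V := by
  have semi : ∀ ρ : H, Rot V ρ → ∀ a ∈ Ar V ρ, ∀ v ∈ mv V ρ, a • v = v → v = 0 ∨ a = 1 := by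
    intro ρ hρ a ha v hv h
    refine or_iff_not_imp_left.2 fun h0 => hb.eq_one_of_dec (hb.dec2 h2 hρ) ha.1 ?_
    exact hb.fix2 h2 (hρ.sq ha.1 (fun h3 => h0 (hb.dec2 h2 hρ v hv h3)) h) ha.2
  refine ⟨hb, fun ρ hρ => hb.dec2 h2 hρ, semi, fun ρ hρ a ha v hv h => ?_⟩
  rw [neg_eq h2] at h
  refine (semi ρ hρ a ha v hv h).imp_right ?_
  rintro rfl w -
  rw [one_smul, neg_eq h2]

namespace Good

variable (hg : Good H V) {ρ : H} (hρ : Rot V ρ)
include hg hρ

theorem ar_sq {a : H} (ha : a ∈ Ar V ρ) (h : a * a = 1) : a = 1 :=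
  hg.eq_one hρ ha.1 (hg.toBin.fix2 h2 h ha.2)

theorem mem_mv2 {e : H} (he : In V ρ e) {v : V} (hv : v ∈ mv V ρ) (h : e • v = v) : v ∈ mv V e :=
  (AddSubgroup.eq_of_le_of_card_ge (H := mv V e) (K := mv V ρ ⊓ fx V e)
    (fun _ hw => ⟨hg.in_le hρ he hw, mem_fx.2 (fix_of_mv h2 he.2.1 hw)⟩)
    (hg.card_fix_le hρ he)).ge ⟨hv, mem_fx.2 h⟩

/-- an involution commuting with two reflections of a line centralises it -/
theorem comm_uniq {t e e' : H} (ht : t * t = 1) (hn : ¬ mv V t ≤ fx V ρ) (he : In V ρ e)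
    (he' : In V ρ e') (hc : Commute t e) (hc' : Commute t e') : e = e' := by
  by_contra hne
  have ha := he.mul_mem he'
  have h3 : e * e' * (e * e') ≠ 1 := fun h =>
    hne (eq_of_mul_eq_one he'.2.1 (hg.ar_sq h2 hρ ha h))
  have h4 := hg.toBin.fix2 h2 ht (hc.mul_right hc')
  refine hn ?_
  rw [hρ.fx_eq ha.1 h3]
  rintro _ ⟨w, rfl⟩
  obtain ⟨c, hc1, u, hu, rfl⟩ := hg.split (hρ.of_lf ha.1 h3) w
  change (e * e') • (t • (c + u) - (c + u)) - (t • (c + u) - (c + u)) = 0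
  rw [smul_add, h4 c hc1, add_sub_add_left_eq_sub, smul_sub, ← mul_smul,
    ← (hc.mul_right hc').eq, mul_smul, hu, sub_self]

theorem exists_fix_in (v : V) : ∃ e, In V ρ e ∧ e • v = v := by
  obtain ⟨c, hc, u, hu, rfl⟩ := hg.split hρ v
  by_cases h0 : c = 0
  · obtain ⟨e, he⟩ := hg.exists_in hρ
    exact ⟨e, he, by rw [h0, zero_add, he.1 u hu]⟩
  · obtain ⟨e, he, h⟩ := hg.cover hρ hc h0
    exact ⟨e, he, by rw [smul_add, h, he.1 u hu]⟩

/-- a reflection of a line fixes the vectors of any point commuting with it -/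
theorem fix_of_comm2 {t e : H} (ht : Pt V t) (he : In V ρ e) (hc : Commute t e) :
    ∀ v ∈ mv V t, e • v = v := by
  intro v hv
  by_cases hn : mv V t ≤ fx V ρ
  · exact he.1 v (mem_fx.1 (hn hv))
  by_cases h0 : v = 0
  · rw [h0, smul_zero]
  obtain ⟨f, hf, hfv⟩ := hg.exists_fix_in h2 hρ v
  rwa [hg.comm_uniq h2 hρ ht.1 hn he hf hc (hg.comm_of_fix (hg.pt hρ hf) ht hv h0 hfv).symm]

theorem not_le {e e' σ : H} (he : In V ρ e) (he' : In V ρ e') (hne : e ≠ e') (h : Lf V σ e') :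
    ¬ mv V e ≤ fx V σ := fun hle => by
  obtain ⟨v, hv, h0⟩ := (hg.pt hρ he).exists_mem (hg.one_lt hρ)
  exact hne (hg.uniq hρ he he' (hg.in_le hρ he hv) h0 (fix_of_mv h2 he.2.1 hv)
    (h v (mem_fx.1 (hle hv))))

theorem exists_conj [Finite H] {k e : H} (hk : In V ρ k) (he : In V ρ e) :
    ∃ f, In V ρ f ∧ f * k * f = e := by
  have := Finite.surjective_of_injective (α := {f // In V ρ f})
    (f := fun f => ⟨f.1 * k * f.1, hg.in_conj hρ f.2 hk⟩) fun f g hfg => by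
      have h3 : f.1 * k * f.1 = g.1 * k * g.1 := congrArg Subtype.val hfg
      have h4 := (hg.in_mul hρ hk (g.2.mul_mem f.2)).2.1
      refine Subtype.ext (eq_of_mul_eq_one f.2.2.1 (hg.ar_sq h2 hρ (g.2.mul_mem f.2) ?_)).symm
      have h5 : k * (g.1 * f.1) * k = g.1 * f.1 := by
        calc k * (g.1 * f.1) * k = k * g.1 * (f.1 * k * f.1) * f.1⁻¹ := by group
          _ = k * (g.1 * g.1) * k * g.1 * f.1⁻¹ := by rw [h3]; group
          _ = g.1 * f.1 := by
            rw [g.2.2.1, mul_one, hk.2.1, one_mul, inv_eq_of_mul_eq_one_left f.2.2.1]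
      rw [← h4, ← mul_assoc (k * _), h5]
  obtain ⟨f, hf⟩ := this ⟨e, he⟩
  exact ⟨f, f.2, congrArg Subtype.val hf⟩

/-- a point not orthogonal to a line acts on it as a reflection of the line -/
theorem main2 [Finite H] {e' : H} (ht : Pt V e') (hn : ¬ mv V e' ≤ fx V ρ) :
    ∃ e, In V ρ e ∧ ∀ v ∈ mv V ρ, e' • v = e • v := by
  obtain ⟨v0, hv0, h0⟩ := ht.exists_mem (hg.one_lt hρ)
  obtain ⟨e, he, hev⟩ := hg.exists_fix_in h2 hρ v0
  have hp := hg.pt hρ he
  have hc : Commute e e' := hg.comm_of_fix hp ht hv0 h0 hev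
  set d := e * ρ with hd
  have hdI : In V ρ d := hg.in_self hρ he
  have hdp := hg.pt hρ hdI
  have hne : e ≠ d := hg.ne_self hρ e
  have hnc : ¬ Commute e' d := fun h => hne (hg.comm_uniq h2 hρ ht.1 hn he hdI hc.symm h)
  obtain ⟨hρ', he'I, hdI'⟩ := ht.line hdp hnc
  have f1 := hg.fix_of_comm2 h2 hρ ht he hc.symm
  have f2 := hg.fix_of_comm2 h2 hρ' hp he'I hc
  have key : ∀ v ∈ mv V d, d • e' • e • v = e' • e • v := by
    intro v hv
    by_cases h0 : v = 0
    · simp [h0]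
    obtain ⟨k, hk, hkv⟩ := hg.exists_fix_in h2 hρ' (e • v)
    obtain ⟨f, hf, hfk⟩ := hg.exists_conj h2 hρ' hk hdI'
    have h3 : d • f • e • v = f • e • v := by
      rw [← hfk, mul_smul, mul_smul, ← mul_smul f f, hf.2.1, one_smul, hkv]
    by_cases hfe : Commute e f
    · rwa [hg.comm_uniq h2 hρ' he.2.1 (hg.not_le h2 hρ he hdI hne hdI'.1) he'I hf hc hfe]
    exfalso
    obtain ⟨hσ, hfσ, heσ⟩ := (hg.pt hρ' hf).line hp fun h => hfe h.symm
    obtain ⟨c, hc1, u, hu, rfl⟩ := hg.split hσ v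
    have hc0 : c ≠ 0 := by
      rintro rfl
      exact hne (hg.uniq hρ he hdI (hg.in_le hρ hdI hv) h0 (by rw [zero_add, heσ.1 u hu])
        (fix_of_mv h2 hdI.2.1 hv))
    obtain ⟨t, htσ, htc⟩ := hg.cover hσ hc1 hc0
    have htd : Commute t d := hg.comm_of_fix (hg.pt hσ htσ) hdp hv h0
      (by rw [smul_add, htc, htσ.1 u hu])
    have hct := hg.mem_mv2 h2 hσ htσ hc1 htc
    have h4 : d • c = c := hg.fix_of_comm2 h2 hρ (hg.pt hσ htσ) hdI htd c hct
    have h5 : d • u = u := by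
      have := fix_of_mv h2 hdI.2.1 hv
      rwa [smul_add, h4, add_right_inj] at this
    have h6 : d • (f * e) • c = (f * e) • c := by
      rw [← mul_smul f e, smul_add, hu, smul_add, h5] at h3
      exact add_right_cancel h3
    have h7 : In V (f * e) (f * e * t * (f * e)⁻¹) :=
      hg.in_mul hσ (hg.mul_in hσ htσ (self_mem_Ar _)) (inv_mem (self_mem_Ar _))
    have h8 := hg.comm_of_fix hdp (hg.pt hσ h7) (smul_mem_mv_conj (f * e) hct)
      (fun h => hc0 ((smul_eq_zero_iff_eq _).1 h)) h6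
    have h9 := hg.comm_uniq h2 hσ hdI.2.1 (hg.not_le h2 hρ hdI he hne.symm heσ.1) h7 htσ h8 htd.symm
    refine hσ.1 ?_
    have h10 := htσ.2.2
    rw [mul_inv_eq_iff_eq_mul] at h9
    calc f * e * (f * e) = f * e * (t * t) * (f * e) := by rw [htσ.2.1, mul_one]
      _ = f * e * t * (t * (f * e)) := by group
      _ = t * (f * e) * (t * (f * e)) := by rw [h9]
      _ = 1 := h10
  have hs : ∀ v, (e' * e) • v - v = (e' • v - v) + (e • v - v) := fun v => by
    rw [← f2 _ (sub_mem_mv e v), smul_sub, mul_smul, sub_add_sub_cancel']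
  have g1 : ∀ v, e • ((e' * e) • v - v) = (e' * e) • v - v := fun v => by
    rw [hs, smul_add, f1 _ (sub_mem_mv _ _), fix_of_mv h2 he.2.1 (sub_mem_mv _ _)]
  have g2 : ∀ v, e' • ((e' * e) • v - v) = (e' * e) • v - v := fun v => by
    rw [hs, smul_add, f2 _ (sub_mem_mv _ _), fix_of_mv h2 ht.1 (sub_mem_mv _ _)]
  have hρe : ρ = e * d := by rw [hd, ← mul_assoc, he.2.1, one_mul]
  have := hg.toBin.klem (hg.dec ρ hρ) (h := e' * e) (fun v hv => by
    have hv' : v ∈ mv V e ⊔ mv V d := mv_mul e d (hρe ▸ hv)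
    obtain ⟨a, ha, b, hb, rfl⟩ := AddSubgroup.mem_sup.1 hv'
    have : d • ((e' * e) • (a + b) - (a + b)) = (e' * e) • (a + b) - (a + b) := by
      rw [smul_add, mul_smul e' e a, fix_of_mv h2 he.2.1 ha, f2 a ha, add_sub_add_left_eq_sub,
        smul_sub, mul_smul e' e b, key b hb, fix_of_mv h2 hdI.2.1 hb]
    conv_lhs => rw [hρe, mul_smul, this, g1]) fun v _ => by rw [mul_smul, g1, g2]
  refine ⟨e, he, fun v hv => ?_⟩
  have h3 := this _ (he.smul_mem hv)
  rwa [← mul_smul, mul_assoc, he.2.1, mul_one] at h3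

theorem pt_le2 [Finite H] {t : H} (ht : Pt V t) : mv V t ≤ mv V ρ ∨ mv V t ≤ fx V ρ := by
  refine or_iff_not_imp_right.2 fun hn => ?_
  obtain ⟨e, he, h⟩ := hg.main2 h2 hρ ht hn
  have : mv V e = mv V t := by
    refine AddSubgroup.eq_of_le_of_card_ge ?_ (ht.card_eq (hg.pt hρ he)).le
    rintro _ ⟨w, rfl⟩
    obtain ⟨c, hc, u, hu, rfl⟩ := hg.split hρ w
    change e • (c + u) - (c + u) ∈ _
    rw [smul_add, he.1 u hu, add_sub_add_right_eq_sub, ← h c hc]
    exact sub_mem_mv _ _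
  exact this ▸ hg.in_le hρ he

theorem top2 [Finite H] : mv V ρ = ⊤ := by
  refine hg.eq_top hρ fun h => ?_
  refine (le_or_le fun v hv => ?_).resolve_right (b := mv V (h * ρ * h⁻¹) ≤ fx V ρ) fun hle => ?_
  · obtain ⟨e, he, hev⟩ := hg.exists_fix_in h2 (hρ.conj h) v
    have := hg.mem_mv2 h2 (hρ.conj h) he hv hev
    exact (hg.pt_le2 h2 hρ (hg.pt (hρ.conj h) he)).imp (fun h => h this) fun h => h this
  obtain ⟨b, hb, h0⟩ := hg.exists_mem hρ
  have hU : ρ • h • b = h • b := mem_fx.1 (hle (smul_mem_mv_conj h hb))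
  obtain ⟨g, -, g1, g2⟩ := hg.toBin.swap ∅ (h := h) (by simp) b
  obtain ⟨k, m, hm, hkm⟩ := Nat.exists_eq_two_pow_mul_odd (orderOf_pos g).ne'
  have hy : g ^ m * g ^ m = 1 := hg.toBin.sq_of_pow h2 k _ (by
    rw [← pow_mul, mul_comm, ← hkm, pow_orderOf_eq_one])
  have hyb : g ^ m • b = h • b := by
    obtain ⟨j, rfl⟩ := hm
    have : (g ^ 2) • b = b := by rw [pow_two, mul_smul, g1, g2]
    rw [pow_succ', pow_mul, mul_smul, MulAction.mem_stabilizer_iff.1
      (pow_mem (MulAction.mem_stabilizer_iff.2 this) j), g1]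
  set y := g ^ m
  obtain ⟨e, he, heb⟩ := hg.cover hρ hb h0
  have h3 : h • b ∈ mv V (y * e * y⁻¹) := hyb ▸ smul_mem_mv_conj y (hg.mem_mv2 h2 hρ he hb heb)
  have hb0 : h • b ≠ 0 := fun h => h0 ((smul_eq_zero_iff_eq _).1 h)
  have hp := hg.pt hρ he
  have h4 := sq_of_commute he.2.1 (hp.conj y).1 (hg.comm_of_fix hp (hp.conj y) h3 hb0 (he.1 _ hU))
  rw [inv_eq_of_mul_eq_one_left hy] at h3 h4
  have h5 : e * y * (e * y) = 1 := hg.toBin.no4 h2 (by rw [← h4]; group)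
  have h6 : y * e * y = e := (eq_of_mul_eq_one (e := e) (by
    rw [show y * e * y * (y * e * y) = y * (e * (y * y) * e) * y by group, hy, mul_one, he.2.1,
      mul_one, hy]) (by rw [← h5]; group)).symm
  rw [h6] at h3
  exact hb0 (hg.dec ρ hρ _ (hg.in_le hρ he h3) hU)

theorem all2 [Finite H] (g : H) : g ∈ Ar V ρ ∨ In V ρ g := by
  have htop := hg.top2 h2 hρ
  have hm : ∀ v, v ∈ mv V ρ := fun v => htop ▸ AddSubgroup.mem_top v
  have hn : ∀ t : H, mv V t ≤ fx V ρ → t = 1 := fun t h => hg.faith t fun v =>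
    sub_eq_zero.1 (hg.dec ρ hρ _ (hm _) (mem_fx.1 (h (sub_mem_mv t v))))
  have k1 : ∀ t, Pt V t → In V ρ t := fun t ht => by
    obtain ⟨e, he, h⟩ := hg.main2 h2 hρ ht fun hle => by
      obtain ⟨v, hv, h0⟩ := ht.exists_mem (hg.one_lt hρ)
      exact h0 (hg.dec ρ hρ _ (hm _) (mem_fx.1 (hle hv)))
    have : e⁻¹ * t = 1 := hg.faith _ fun v => by rw [mul_smul, h v (hm v), inv_smul_smul]
    rwa [← inv_mul_eq_one.1 this]
  by_cases hsq : g * g = 1
  · by_cases h1 : g = 1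
    · exact Or.inl (h1 ▸ one_mem _)
    refine Or.inr (k1 g ⟨hsq, ?_⟩)
    have hc : ∀ (v : V) e, v ≠ 0 → g • v = v → In V ρ e → e • v = v → Commute g e :=
      fun v e h0 h3 he h4 => commute_of_sq hsq he.2.1
        (hg.sq hρ (hg.lf_of_top hρ htop _) (hm v) h0 (by rw [mul_smul, h4, h3]))
    obtain ⟨w, hw⟩ : ∃ w : V, g • w ≠ w := by
      by_contra h3; push Not at h3; exact h1 (hg.faith g h3)
    have hw1 := fix_of_mv h2 hsq (sub_mem_mv g w)
    obtain ⟨e, he, hew⟩ := hg.exists_fix_in h2 hρ (g • w - w)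
    have h3 : fx V g ≤ fx V e := fun v hv => by
      by_cases h0 : v = 0
      · rw [h0]; exact zero_mem _
      obtain ⟨f, hf, hfv⟩ := hg.exists_fix_in h2 hρ v
      rw [hg.comm_uniq h2 hρ hsq (fun h => h1 (hn g h)) he hf
        (hc _ e (sub_ne_zero.2 hw) hw1 he hew) (hc v f h0 (mem_fx.1 hv) hf hfv)]
      exact mem_fx.2 hfv
    have h4 : (fx V g).index = (fx V e).index := by
      refine le_antisymm ?_ (AddSubgroup.index_antitone h3)
      rw [← card_mv, ← card_mv]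
      exact AddSubgroup.card_le_of_le fun v hv => hg.mem_mv2 h2 hρ he (hm v)
        (mem_fx.1 (h3 (mem_fx.2 (fix_of_mv h2 hsq hv))))
    rw [h4, (hg.pt hρ he).2]
  · have hr := hρ.of_lf (hg.lf_of_top hρ htop g) hsq
    obtain ⟨e, he⟩ := hg.exists_in hr
    have := (k1 e (hg.pt hr he)).mul_mem (k1 _ (hg.pt hr (hg.in_self hr he)))
    rw [← mul_assoc, he.2.1, one_mul] at this
    exact Or.inl this

end Good

end two

end Cfsg.Agent.Perm.BAff
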