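import Cfsg.Agent.Perm.Bin2

/-!
# Binary affine groups, III: odd characteristic
-/

set_option autoImplicit false
set_option linter.unusedSectionVars false

namespace Cfsg.Agent.Perm.BAff

/-- a polarity of a finite projective plane has an absolute point -/
theorem no_polarity {P : Type*} [Fintype P] [Nonempty P] (r : P → P → Prop) [DecidableRel r]
    (p : ℕ) [hp : Fact p.Prime] (hs : ∀ s t, r s t → r t s) (hi : ∀ s, ¬ r s s)
    (h1 : ∀ s, ((Finset.univ.filter (r s)).card : ZMod p) = 1)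
    (h2 : ∀ s t, s ≠ t → ∃! u, r s u ∧ r t u) : False := by
  classical
  obtain ⟨A, hA⟩ : ∃ A : Matrix P P (ZMod p), ∀ s t, A s t = if r s t then 1 else 0 :=
    ⟨Matrix.of fun s t => if r s t then 1 else 0, fun _ _ => rfl⟩
  obtain ⟨J, hJ⟩ : ∃ J : Matrix P P (ZMod p), ∀ s t, J s t = 1 :=
    ⟨Matrix.of fun _ _ => 1, fun _ _ => rfl⟩
  have e1 : A * J = J := by
    ext s t
    simp only [Matrix.mul_apply, hA, hJ, mul_one]
    rw [Finset.sum_boole, h1]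
  have e2 : A * A = J := by
    ext s t
    simp only [Matrix.mul_apply, hA, hJ, ite_zero_mul_ite_zero, mul_one]
    rw [Finset.sum_boole]
    by_cases h : s = t
    · subst h
      rw [← h1 s]
      congr 2
      ext u
      simp only [Finset.mem_filter, Finset.mem_univ, true_and]
      exact ⟨fun h => h.1, fun h => ⟨h, hs _ _ h⟩⟩
    · obtain ⟨u, hu, hu'⟩ := h2 s t h
      rw [Finset.card_eq_one.2 ⟨u, ?_⟩, Nat.cast_one]
      ext w
      simp only [Finset.mem_filter, Finset.mem_univ, true_and, Finset.mem_singleton]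
      exact ⟨fun h => hu' w ⟨h.1, hs _ _ h.2⟩, by rintro rfl; exact ⟨hu.1, hs _ _ hu.2⟩⟩
  have e3 : ∀ k, A ^ (k + 2) = J := by
    intro k
    induction k with
    | zero => rw [← e2, zero_add, pow_two]
    | succ k ih => rw [show k + 1 + 2 = (k + 2) + 1 by ring, pow_succ', ih, e1]
  have e4 : J * J = J := by
    calc J * J = A * (A * J) := by rw [← mul_assoc, e2]
      _ = J := by rw [e1, e1]
  obtain ⟨s⟩ := ‹Nonempty P›
  have e5 : (J * J) s s = J s s := by rw [e4]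
  simp only [Matrix.mul_apply, hJ, mul_one] at e5
  have e6 := ZMod.trace_pow_card A
  obtain ⟨k, hk⟩ := Nat.exists_eq_add_of_le' hp.out.two_le
  have e7 : A.trace = 0 := by simp [Matrix.trace, hA, hi]
  have e8 : A ^ p = J := by rw [← e3 k, ← hk]
  rw [e8, e7, zero_pow hp.out.ne_zero] at e6
  simp only [Matrix.trace, Matrix.diag, hJ] at e6
  exact one_ne_zero (e5.symm.trans e6)

variable {H V : Type*} [Group H] [AddCommGroup V] [DistribMulAction H V] [Finite V]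

section odd

variable (ho : ∀ v : V, v + v = 0 → v = 0)
include ho

theorem eq_of_add {x y : V} (h : x + x = y + y) : x = y :=
  sub_eq_zero.1 (ho _ (by rw [sub_add_sub_comm, h, sub_self]))

theorem zero_of_neg {x : V} (h : x = -x) : x = 0 := ho x (by nth_rw 1 [h]; rw [neg_add_cancel])

theorem Bin.deco (hb : Bin H V) (h : H) : ∀ v ∈ mv V h, h • v = v → v = 0 := by
  rintro _ ⟨w, rfl⟩ h1
  change h • (h • w - w) = h • w - w at h1
  change h • w - w = 0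
  set u := h • w - w with hu
  have e1 : h • w = w + u := by rw [hu]; abel
  have e2 : E H w (w + (u + u)) := ⟨h * h, by rw [mul_smul, e1, smul_add, e1, h1, add_assoc]⟩
  exact ho _ (hb.sf e2 e2 ⟨h, by rw [smul_add, e1]; abel⟩)

theorem Bin.mem_mv_of_neg (hb : Bin H V) {t : H} (ht : t * t = 1) {y : V} (h : t • y = -y) :
    y ∈ mv V t := by
  obtain ⟨c, hc, u, hu, rfl⟩ := split_of_dec (hb.deco ho t) y
  rw [smul_add, neg_of_mv ht hc, hu, neg_add, add_right_inj] at h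
  rwa [zero_of_neg ho h, add_zero]

omit ho in
theorem Bin.exists_z (hb : Bin H V) (ρ : H) : ∃ z : H, Lf V ρ z ∧ ∀ c ∈ mv V ρ, z • c = -c := by
  have key : ∀ c ∈ mv V ρ, ∃ g : H, Lf V ρ g ∧ g • c = -c := by
    rintro _ ⟨w, rfl⟩
    obtain ⟨g, h1, h2, h3⟩ := hb.swap {u | ρ • u = u} (h := ρ) (fun _ hu => hu) w
    exact ⟨g, h1, by change g • (ρ • w - w) = -(ρ • w - w); rw [smul_sub, h2, h3, neg_sub]⟩
  obtain ⟨z, h1, h2⟩ := hb.fixbin {u | ρ • u = u} ((fun c => (c, -c)) '' mv V ρ) (by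
    rintro _ ⟨c, hc, rfl⟩
    obtain ⟨g, -, h⟩ := key c hc
    exact ⟨g, h⟩) (by
    rintro u hu _ ⟨c, hc, rfl⟩
    obtain ⟨g, h1, h⟩ := key c hc
    exact ⟨g, by rw [smul_sub, h, h1 u hu]⟩) (by
    rintro _ ⟨c, hc, rfl⟩ _ ⟨d, hd, rfl⟩
    obtain ⟨g, -, h⟩ := key _ (sub_mem hc hd)
    exact Or.inr ⟨g, by rw [h]; simp only; abel⟩)
  exact ⟨z, h1, fun c hc => h2 (c, -c) ⟨c, hc, rfl⟩⟩

omit ho in
/-- the central involution of the line of `ρ` -/
noncomputable def Bin.z (hb : Bin H V) (ρ : H) : H := (hb.exists_z ρ).choose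

namespace Bin

variable (hb : Bin H V) (ρ : H)

omit ho in
theorem z_lf : Lf V ρ (hb.z ρ) := (hb.exists_z ρ).choose_spec.1
omit ho in
theorem z_neg {ρ : H} {c : V} (hc : c ∈ mv V ρ) : hb.z ρ • c = -c :=
  (hb.exists_z ρ).choose_spec.2 c hc

theorem z_sq : hb.z ρ * hb.z ρ = 1 :=
  hb.eq_one_of_dec (hb.deco ho ρ) ((hb.z_lf ρ).mul (hb.z_lf ρ)) fun v hv => by
    rw [mul_smul, hb.z_neg hv, smul_neg, hb.z_neg hv, neg_neg]

theorem z_add (v : V) : ρ • (hb.z ρ • v + v) = hb.z ρ • v + v := by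
  obtain ⟨c, hc, u, hu, rfl⟩ := split_of_dec (hb.deco ho ρ) v
  rw [smul_add (hb.z ρ), hb.z_neg hc, hb.z_lf ρ u hu, add_add_add_comm, neg_add_cancel, zero_add,
    smul_add, hu]

theorem z_comm {ρ g : H} (h : Lf V ρ g) : Commute g (hb.z ρ) := by
  have h1 : Lf V ρ (g * hb.z ρ * g⁻¹ * hb.z ρ) :=
    ((h.mul (hb.z_lf ρ)).mul h.inv).mul (hb.z_lf ρ)
  have h2 : g * hb.z ρ * g⁻¹ * hb.z ρ = 1 := hb.faith _ fun v =>
    sub_eq_zero.1 (hb.deco ho _ _ (sub_mem_mv _ v) (h1 _ (by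
      have h3 := hb.z_add ho ρ (g⁻¹ • hb.z ρ • v)
      have h4 : (g * hb.z ρ * g⁻¹ * hb.z ρ) • v - v =
          (hb.z ρ • g⁻¹ • hb.z ρ • v + g⁻¹ • hb.z ρ • v) - (hb.z ρ • v + v) := by
        rw [← h _ h3, smul_add, smul_inv_smul]
        simp only [mul_smul]
        abel
      rw [h4, smul_sub, h3, hb.z_add ho ρ])))
  exact mul_inv_eq_iff_eq_mul.1 (eq_of_mul_eq_one (hb.z_sq ho ρ) h2)

theorem mem_of_z {ρ : H} {v : V} (h : hb.z ρ • v = -v) : v ∈ mv V ρ := by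
  obtain ⟨c, hc, u, hu, rfl⟩ := split_of_dec (hb.deco ho ρ) v
  rw [smul_add, hb.z_neg hc, hb.z_lf ρ u hu, neg_add, add_right_inj] at h
  rwa [zero_of_neg ho h, add_zero]

theorem fix_of_z {ρ : H} {v : V} (h : hb.z ρ • v = v) : ρ • v = v := by
  obtain ⟨c, hc, u, hu, rfl⟩ := split_of_dec (hb.deco ho ρ) v
  rw [smul_add, hb.z_neg hc, hb.z_lf ρ u hu, add_left_inj] at h
  rwa [zero_of_neg ho h.symm, zero_add]

theorem smul_mem_of_comm {ρ g : H} (h : Commute g (hb.z ρ)) {v : V} (hv : v ∈ mv V ρ) :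
    g • v ∈ mv V ρ :=
  hb.mem_of_z ho (by rw [← mul_smul, ← h.eq, mul_smul, hb.z_neg hv, smul_neg])

theorem z_mem : hb.z ρ ∈ Ar V ρ := ⟨hb.z_lf ρ, (hb.z_comm ho (Lf.self ρ)).symm⟩

include hb

theorem nego {ρ : H} (hρ : Rot V ρ) {m : V} (hm : m ∈ mv V ρ) (h : ρ • ρ • m = m) : m = 0 := by
  by_contra h0
  have h1 := hb.deco ho ρ _ (add_mem hm (smul_mem_mv (Commute.refl ρ) hm))
    (by rw [smul_add, h, add_comm])
  have h2 := hρ.sq ((hb.z_lf ρ).mul (Lf.self ρ)) (fun h => h0 (hb.deco ho ρ m hm h))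
    (v := m) (by rw [mul_smul, eq_neg_of_add_eq_zero_right h1, smul_neg, hb.z_neg hm, neg_neg])
  refine hρ.1 ?_
  rwa [mul_assoc, ← mul_assoc ρ, (hb.z_comm ho (Lf.self ρ)).eq, ← mul_assoc, ← mul_assoc,
    hb.z_sq ho, one_mul] at h2

theorem semio [Finite H] {ρ : H} (hρ : Rot V ρ) :
    ∀ a ∈ Ar V ρ, ∀ v ∈ mv V ρ, a • v = v → v = 0 ∨ a = 1 := by
  intro a ha w hw haw
  by_contra hc
  push Not at hc
  have hsq : ∀ g, Lf V ρ g → g • w = w → g * g = 1 := fun g h1 h2 =>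
    hρ.sq h1 (fun h => hc.1 (hb.deco ho ρ w hw h)) h2
  have hcm : ∀ g k, Lf V ρ g → g • w = w → Lf V ρ k → k • w = w → Commute g k :=
    fun g k h1 h2 h3 h4 => commute_of_sq (hsq g h1 h2) (hsq k h3 h4)
      (hsq _ (h1.mul h3) (by rw [mul_smul, h4, h2]))
  have ha2 := hsq a ha.1 haw
  let S : V → Set H := fun m => {g | Lf V ρ g ∧ g • w = w ∧ g • m = m}
  obtain ⟨m0, hm0⟩ : ∃ m0 : V, a • m0 ≠ m0 := by
    by_contra h; push Not at h; exact hc.2 (hb.faith a h)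
  obtain ⟨m, ⟨hm, hmz⟩, hmin⟩ := Set.exists_min_image {m | m ∈ mv V a ∧ m ≠ 0}
    (fun m => (S m).ncard) (Set.toFinite _) ⟨_, sub_mem_mv a m0, sub_ne_zero.2 hm0⟩
  have triv : ∀ s ∈ S m, ∀ n ∈ mv V a, s • n = n := by
    intro s hs n hn
    by_contra hne
    have h1 : s • (s • n - n) = -(s • n - n) := neg_of_mv (hsq s hs.1 hs.2.1) (sub_mem_mv s n)
    have h2 : s • n - n ∈ mv V a := sub_mem (smul_mem_mv (hcm s a hs.1 hs.2.1 ha.1 haw) hn) hn
    set n' := s • n - n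
    have h3 : s ∉ S (m + n') := fun h => by
      have := h.2.2
      rw [smul_add, hs.2.2, h1, add_right_inj] at this
      exact sub_ne_zero.2 hne (zero_of_neg ho this.symm)
    have h4 : S (m + n') ⊆ S m := fun g hg => by
      refine ⟨hg.1, hg.2.1, eq_of_add ho ?_⟩
      have h5 : g • s • (m + n') = s • (m + n') := by
        rw [← mul_smul, (hcm g s hg.1 hg.2.1 hs.1 hs.2.1).eq, mul_smul, hg.2.2]
      rw [smul_add s, hs.2.2, h1] at h5
      have h6 : m + m = (m + n') + (m + -n') := by abel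
      rw [← smul_add, h6, smul_add, hg.2.2, h5]
    refine absurd (hmin (m + n') ⟨add_mem hm h2, fun h0 => h3 ⟨hs.1, hs.2.1, ?_⟩⟩)
      (not_le.2 (Set.ncard_lt_ncard ⟨h4, fun h => h3 (h hs)⟩))
    rw [h0, smul_zero]
  obtain ⟨e, he, he'⟩ := hb.inv {u | ρ • u = u} {1, a, ρ, ρ * a} (by
    rintro b (rfl | rfl | rfl | rfl)
    exacts [Lf.one ρ, ha.1, Lf.self _, (Lf.self ρ).mul ha.1]) (by
    have h1 := ha.2
    have h2 : Commute a (ρ * a) := h1.mul_right (Commute.refl a)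
    have h3 : Commute ρ (ρ * a) := (Commute.refl ρ).mul_right h1.symm
    rintro b (rfl | rfl | rfl | rfl) c (rfl | rfl | rfl | rfl)
    all_goals first
      | exact Commute.one_left _
      | exact Commute.one_right _
      | exact Commute.refl _
      | assumption
      | exact Commute.symm (by assumption)) (w + m)
  have ham := neg_of_mv ha2 hm
  have e1 := he' 1 (by simp)
  have e2 := he' a (by simp)
  have e3 := he' ρ (by simp)
  have e4 := he' (ρ * a) (by simp)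
  rw [ha.2.symm.eq, mul_inv_rev, ← ha.2.symm.eq] at e4
  simp only [inv_eq_of_mul_eq_one_left ha2, one_smul, inv_one, mul_smul, smul_add, haw, ham,
    smul_neg] at e1 e2 e3 e4
  have f1 : e • w = w := eq_of_add ho (by
    calc e • w + e • w = (e • w + e • m) + (e • w + -(e • m)) := by abel
      _ = w + w := by rw [e1, e2]; abel)
  have f2 : e • m = m := by rwa [f1, add_right_inj] at e1
  have f3 : e • ρ • m = ρ⁻¹ • m := eq_of_add ho (by
    calc e • ρ • m + e • ρ • m = (e • ρ • w + e • ρ • m) - (e • ρ • w + -(e • ρ • m)) := by abel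
      _ = ρ⁻¹ • m + ρ⁻¹ • m := by rw [e3, e4]; abel)
  rw [triv e ⟨he, f1, f2⟩ _ (smul_mem_mv ha.2.symm hm)] at f3
  refine hmz (hb.nego ho hρ (hb.mem_of_z ho ?_) (by rw [f3, smul_inv_smul]))
  obtain ⟨c, hc1, u, hu, rfl⟩ := split_of_dec (hb.deco ho ρ) m
  have h5 : u + u = -c - a • c := by
    rw [smul_add, ha.1 u hu] at ham
    rw [← sub_eq_zero] at ham ⊢
    rw [← ham]; abel
  have h6 := ho u (hb.deco ho ρ _ (h5 ▸ sub_mem (neg_mem hc1) (smul_mem_mv ha.2 hc1))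
    (by rw [smul_add, hu]))
  rw [h6, add_zero, hb.z_neg hc1]

theorem goodo [Finite H] : Good H V := by
  refine ⟨hb, fun ρ _ => hb.deco ho ρ, fun ρ hρ => hb.semio ho hρ, fun ρ hρ a ha v hv h => ?_⟩
  refine (hb.semio ho hρ _ (mul_mem (hb.z_mem ho ρ) ha) v hv
    (by rw [mul_smul, h, smul_neg, hb.z_neg hv, neg_neg])).imp_right fun h1 w hw => ?_
  rw [eq_of_mul_eq_one (hb.z_sq ho ρ) ((hb.z_comm ho ha.1).eq.trans h1), hb.z_neg hw]

end Bin

namespace Good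

variable (hg : Good H V) {ρ : H} (hρ : Rot V ρ)
include hg hρ

theorem zin {e : H} (he : In V ρ e) : In V ρ (hg.z ρ * e) := hg.mul_in hρ he (hg.z_mem ho ρ)

omit ho in
theorem lf_sq {a : H} (h1 : Lf V ρ a) (h2 : ∀ c ∈ mv V ρ, a • c ∈ mv V ρ) (h : a * a = 1) :
    a = hg.z ρ ∨ ∃ v ∈ mv V ρ, v ≠ 0 ∧ a • v = v := by
  refine or_iff_not_imp_right.2 fun hn => ?_
  push Not at hn
  refine (inv_mul_eq_one.1 (hg.eq_one hρ ((hg.z_lf ρ).inv.mul h1) fun c hc => ?_)).symm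
  have : c + a • c = 0 := by
    by_contra h0
    exact hn _ (add_mem hc (h2 c hc)) h0 (by rw [smul_add, ← mul_smul, h, one_smul, add_comm])
  rw [mul_smul, inv_smul_eq_iff, hg.z_neg hc, eq_neg_of_add_eq_zero_right this]

omit ho in
theorem ar_sqo {a : H} (ha : a ∈ Ar V ρ) (h : a * a = 1) : a = 1 ∨ a = hg.z ρ := by
  rcases hg.lf_sq hρ ha.1 (fun c hc => smul_mem_mv ha.2 hc) h with h1 | ⟨v, hv, h0, h1⟩
  · exact Or.inr h1
  · exact Or.inl ((hg.semi ρ hρ a ha v hv h1).resolve_left h0)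

omit ho in
theorem z_eq {a : H} (ha : a ∈ Ar V ρ) (h : a * a ≠ 1) : hg.z a = hg.z ρ := by
  refine (inv_mul_eq_one.1 (hg.eq_one hρ ((hg.z_lf ρ).inv.mul fun u hu =>
    hg.z_lf a u (ha.1 u hu)) fun c hc => ?_)).symm
  rw [mul_smul, inv_smul_eq_iff, hg.z_neg hc, hg.z_neg (hg.mv_eq hρ ha h ▸ hc)]

/-- the involutions fixing the axis of a line -/
theorem inv_cases {g : H} (h1 : Lf V ρ g) (h2 : g * g = 1) : g = 1 ∨ g = hg.z ρ ∨ In V ρ g := by
  by_contra hn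
  push Not at hn
  have hz := hg.z_comm ho h1
  have hp : ∀ c ∈ mv V ρ, g • c ∈ mv V ρ := fun c hc => hg.smul_mem_of_comm ho hz hc
  have C : ∀ k, Lf V ρ k → k * k = 1 → ∀ x ∈ mv V ρ, x ≠ 0 → k • x = x → ∀ f, In V ρ f →
      f • x = x → Commute k f := fun k k1 k2 x hx h0 k3 f hf h3 =>
    commute_of_sq k2 hf.2.1 (hg.sq hρ (k1.mul hf.1) hx h0 (by rw [mul_smul, h3, k3]))
  obtain ⟨v, hv, h0, hgv⟩ := (hg.lf_sq hρ h1 hp h2).resolve_left hn.2.1
  obtain ⟨e, he, hev⟩ := hg.cover hρ hv h0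
  have hge := C g h1 h2 v hv h0 hgv e he hev
  have D : ∀ x ∈ mv V ρ, (∀ f, x ≠ 0 → In V ρ f → f • x = x → Commute g f) →
      x ∈ fx V e ∨ x ∈ fx V (hg.z ρ * e) := by
    intro x hx h
    by_cases hx0 : x = 0
    · exact Or.inl (hx0 ▸ zero_mem _)
    obtain ⟨f, hf, hfx⟩ := hg.cover hρ hx hx0
    have ha := hf.mul_mem he
    by_cases h3 : f * e * (f * e) = 1
    · rcases hg.ar_sqo hρ ha h3 with h4 | h4
      · exact Or.inl (eq_of_mul_eq_one he.2.1 h4 ▸ mem_fx.2 hfx)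
      · refine Or.inr ?_
        rw [← h4, mul_assoc, he.2.1, mul_one]
        exact mem_fx.2 hfx
    · have hr := hρ.of_lf ha.1 h3
      have h4 := hg.ar_sqo hr (a := g) ⟨fun u hu =>
        h1 u (mem_fx.1 ((hρ.fx_eq ha.1 h3).ge (mem_fx.2 hu))), (h f hx0 hf hfx).mul_right hge⟩ h2
      rw [hg.z_eq hρ ha h3] at h4
      exact (h4.elim hn.1 hn.2.1).elim
  have F : mv V ρ ⊓ fx V g ≤ fx V e := by
    refine (le_or_le (W := mv V ρ ⊓ fx V g) fun x hx => D x hx.1 fun f hx0 hf h3 =>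
      C g h1 h2 x hx.1 hx0 (mem_fx.1 hx.2) f hf h3).resolve_right fun h => h0 ?_
    have := mem_fx.1 (h ⟨hv, mem_fx.2 hgv⟩)
    rw [mul_smul, hev, hg.z_neg hv] at this
    exact zero_of_neg ho this.symm
  have N := le_or_le (W := mv V ρ ⊓ fx V (hg.z ρ * g)) fun x hx => D x hx.1 fun f hx0 hf h3 => by
    have := (hg.z_comm ho hf.1).symm.mul_left (C _ ((hg.z_lf ρ).mul h1)
      (sq_of_commute (hg.z_sq ho ρ) h2 hz.symm) x hx.1 hx0 (mem_fx.1 hx.2) f hf h3)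
    rwa [← mul_assoc, hg.z_sq ho, one_mul] at this
  have k0 : ∀ c : V, g • g • c = c := fun c => by rw [← mul_smul, h2, one_smul]
  have k1 : ∀ c ∈ mv V ρ, e • (c + g • c) = c + g • c := fun c hc =>
    mem_fx.1 (F ⟨add_mem hc (hp c hc), mem_fx.2 (by rw [smul_add, k0, add_comm])⟩)
  have k2 : ∀ c ∈ mv V ρ, c - g • c ∈ mv V ρ ⊓ fx V (hg.z ρ * g) := fun c hc =>
    AddSubgroup.mem_inf.2 ⟨sub_mem hc (hp c hc), mem_fx.2 (by
      rw [mul_smul, smul_sub, k0, hg.z_neg (sub_mem (hp c hc) hc), neg_sub])⟩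
  have k3 : ∀ c : V, e • c + e • c = e • (c + g • c) + e • (c - g • c) := fun c => by
    rw [← smul_add, ← smul_add]; congr 1; abel
  rcases N with N | N
  · have : e = 1 := hg.eq_one hρ he.1 fun c hc => eq_of_add ho (by
      rw [k3, k1 c hc, mem_fx.1 (N (k2 c hc))]; abel)
    exact hρ.1 (by have h3 := he.2.2; rwa [this, one_mul] at h3)
  · have : g⁻¹ * e = 1 := hg.eq_one hρ (h1.inv.mul he.1) fun c hc => by
      have h3 := mem_fx.1 (N (k2 c hc))
      rw [mul_smul, hg.z_neg (he.smul_mem (k2 c hc).1), neg_eq_iff_eq_neg] at h3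
      rw [mul_smul, inv_smul_eq_iff]
      exact eq_of_add ho (by rw [k3, k1 c hc, h3]; abel)
    exact hn.2.2 (inv_mul_eq_one.1 this ▸ he)

theorem pt_lf {t : H} (ht : Pt V t) (h1 : Lf V ρ t) : In V ρ t := by
  rcases hg.inv_cases ho hρ h1 ht.1 with h | h | h
  · obtain ⟨v, hv, h0⟩ := ht.exists_mem (hg.one_lt hρ)
    have := neg_of_mv ht.1 hv
    rw [h, one_smul] at this
    exact absurd (zero_of_neg ho this) h0
  · obtain ⟨v, hv, h2, h0⟩ := hg.exists_fix hρ ht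
    rw [h, hg.z_neg hv] at h2
    exact absurd (zero_of_neg ho h2.symm) h0
  · exact h

theorem lf_cases {g : H} (h1 : Lf V ρ g) : g ∈ Ar V ρ ∨ In V ρ g := by
  by_cases h2 : g * g = 1
  · rcases hg.inv_cases ho hρ h1 h2 with h | h | h
    · exact Or.inl (h ▸ one_mem _)
    · exact Or.inl (h ▸ hg.z_mem ho ρ)
    · exact Or.inr h
  · have hr := hρ.of_lf h1 h2
    have k : ∀ e, In V g e → In V ρ e := fun e he => hg.pt_lf ho hρ (hg.pt hr he) fun u hu =>
      he.1 u (h1 u hu)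
    obtain ⟨e, he⟩ := hg.exists_in hr
    have := (k e he).mul_mem (k _ (hg.in_self hr he))
    rw [← mul_assoc, he.2.1, one_mul] at this
    exact Or.inl this

theorem covero {v : V} (hv : v ∈ mv V ρ) : ∃ e, In V ρ e ∧ v ∈ mv V e := by
  by_cases h0 : v = 0
  · obtain ⟨e, he⟩ := hg.exists_in hρ
    exact ⟨e, he, h0 ▸ zero_mem _⟩
  obtain ⟨e, he, h⟩ := hg.cover hρ hv h0
  exact ⟨_, hg.zin ho hρ he, hg.mem_mv_of_neg ho (hg.zin ho hρ he).2.1
    (by rw [mul_smul, h, hg.z_neg hv])⟩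

variable [Finite H]

theorem pt_in {t : H} (ht : Pt V t) {v : V} (hv : v ∈ mv V ρ) (hvt : v ∈ mv V t) (h0 : v ≠ 0) :
    In V ρ t := by
  obtain ⟨e, he, hev⟩ := hg.cover hρ hv h0
  have h1 := hg.comm_of_fix (hg.pt hρ he) ht hvt h0 hev
  have h2 : Commute (hg.z ρ * e) t := by
    by_contra h
    obtain ⟨h3, -, h4⟩ := (hg.pt hρ (hg.zin ho hρ he)).line ht h
    exact h0 (hg.dec _ h3 v (hg.in_le h3 h4 hvt) (by
      rw [mul_smul, neg_of_mv ht.1 hvt, smul_neg, mul_smul, hev, hg.z_neg hv, neg_neg]))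
  have h3 := h2.mul_left h1
  rw [mul_assoc, he.2.1, mul_one] at h3
  refine hg.pt_lf ho hρ ht fun u hu => ?_
  by_contra hne
  have h4 : ρ • t • u = t • u := hg.fix_of_z ho (by rw [← mul_smul, h3.eq, mul_smul, hg.z_lf ρ u hu])
  have h5 := (hg.fix_of_comm hρ ht fun f hf => (hg.comm_of_fix (hg.pt hρ hf) ht (sub_mem_mv t u)
    (sub_ne_zero.2 hne) (hf.1 _ (by rw [smul_sub, h4, hu]))).symm).1 v hv
  rw [neg_of_mv ht.1 hvt] at h5
  exact h0 (zero_of_neg ho h5.symm)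

theorem pt_uniq {s t : H} (hs : In V ρ s) (ht : Pt V t) (hne : s ≠ t) {v : V} (h1 : v ∈ mv V s)
    (h2 : v ∈ mv V t) : v = 0 := by
  by_contra h0
  have hv := hg.in_le hρ hs h1
  exact hne (mul_left_cancel (hg.uniq hρ (hg.zin ho hρ hs) (hg.zin ho hρ (hg.pt_in ho hρ ht hv h2 h0))
    hv h0 (by rw [mul_smul, neg_of_mv hs.2.1 h1, smul_neg, hg.z_neg hv, neg_neg])
    (by rw [mul_smul, neg_of_mv ht.1 h2, smul_neg, hg.z_neg hv, neg_neg])))

theorem fix_of_commo {s t : H} (hs : In V ρ s) (ht : Pt V t) (hne : s ≠ t) (hc : Commute s t)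
    {v : V} (h : v ∈ mv V t) : s • v = v :=
  sub_eq_zero.1 (hg.pt_uniq ho hρ hs ht hne (sub_mem_mv s v) (sub_mem (smul_mem_mv hc h) h))

section alpha

variable {t : H} (ht : Pt V t) (hl : ∀ v ∈ mv V t, v ∈ mv V ρ → v = 0)
  (hU : ∀ v ∈ mv V t, ρ • v = v → v = 0)
include ht hl hU

theorem al_uniq {e e' : H} (he : In V ρ e) (he' : In V ρ e') (h1 : Commute t e)
    (h2 : Commute t e') : e = e' := by
  by_contra hne
  have ha := he.mul_mem he'
  have h3 := h1.mul_right h2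
  have h4 : (∀ c ∈ mv V ρ, t • c ∈ mv V ρ) ∧ ∀ u : V, ρ • u = u → ρ • t • u = t • u := by
    by_cases h : e * e' * (e * e') = 1
    · rw [(hg.ar_sqo hρ ha h).resolve_left fun h => hne (eq_of_mul_eq_one he'.2.1 h)] at h3
      exact ⟨fun c hc => hg.smul_mem_of_comm ho h3 hc, fun u hu =>
        hg.fix_of_z ho (by rw [← mul_smul, ← h3.eq, mul_smul, hg.z_lf ρ u hu])⟩
    · refine ⟨fun c hc => ?_, fun u hu => mem_fx.1 ((hρ.fx_eq ha.1 h).ge (mem_fx.2 ?_))⟩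
      · rw [← hg.mv_eq hρ ha h] at hc ⊢
        exact smul_mem_mv h3 hc
      · rw [← mul_smul, ← h3.eq, mul_smul, ha.1 u hu]
  obtain ⟨_, ⟨w, rfl⟩, h0⟩ := ht.exists_mem (hg.one_lt hρ)
  obtain ⟨c, hc, u, hu, rfl⟩ := hg.split hρ w
  refine h0 ?_
  rw [map_add]
  change t • c - c + (t • u - u) = 0
  rw [hl _ (sub_mem_mv t c) (sub_mem (h4.1 c hc) hc),
    hU _ (sub_mem_mv t u) (by rw [smul_sub, h4.2 u hu, hu]), add_zero]

theorem al_cover {y : V} (hy : y ∈ mv V ρ ⊔ mv V t) :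
    ∃ r : H, ((∃ σ, Rot V σ ∧ In V σ r) ∧ mv V r ≤ mv V ρ ⊔ mv V t) ∧ y ∈ mv V r := by
  have cov : ∀ s, Pt V s → mv V s ≤ mv V ρ ⊔ mv V t → ∀ f, In V ρ f → ¬ Commute f s →
      ∀ c ∈ mv V f, ∀ x ∈ mv V s, ∃ r : H, ((∃ σ, Rot V σ ∧ In V σ r) ∧
        mv V r ≤ mv V ρ ⊔ mv V t) ∧ c + x ∈ mv V r := by
    intro s hs h1 f hf h2 c hc x hx
    obtain ⟨h3, h4, h5⟩ := (hg.pt hρ hf).line hs h2
    obtain ⟨r, hr, h6⟩ := hg.covero ho h3 (add_mem (hg.in_le h3 h4 hc) (hg.in_le h3 h5 hx))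
    exact ⟨r, ⟨⟨_, h3, hr⟩, (hg.in_le h3 hr).trans ((mv_mul f s).trans
      (sup_le ((hg.in_le hρ hf).trans le_sup_left) h1))⟩, h6⟩
  obtain ⟨c, hc, x, hx, rfl⟩ := AddSubgroup.mem_sup.1 hy
  obtain ⟨f, hf, hcf⟩ := hg.covero ho hρ hc
  by_cases hx0 : x = 0
  · exact ⟨f, ⟨⟨ρ, hρ, hf⟩, (hg.in_le hρ hf).trans le_sup_left⟩, by rwa [hx0, add_zero]⟩
  by_cases h1 : Commute f t
  swap
  · exact cov t ht le_sup_right f hf h1 c hcf x hx
  have h2 := hg.fix_of_commo ho hρ hf ht (fun h => hx0 (hl x hx (hg.in_le hρ hf (h ▸ hx)))) h1 hx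
  obtain ⟨d, hd, u, hu, rfl⟩ := hg.split hρ x
  rw [smul_add, hf.1 u hu, add_left_inj] at h2
  obtain ⟨f', hf', hcf'⟩ := hg.covero ho hρ (add_mem hc (add_mem hd hd))
  have h3 := cov _ (ht.conj (hg.z ρ)) (fun w hw => by
    have h4 := mem_mv_conj hw
    rw [inv_eq_of_mul_eq_one_left (hg.z_sq ho ρ)] at h4
    rw [show w = -(hg.z ρ • w - w) + hg.z ρ • w by abel]
    exact AddSubgroup.add_mem_sup (neg_mem (hg.mv_le hρ (hg.z_lf ρ)
      (fun c hc => smul_mem_mv (hg.z_mem ho ρ).2 hc) (sub_mem_mv _ w))) h4) f' hf' (fun h => by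
      have h4 := hg.z_comm ho hf'.1
      have h5 := (h4.inv_right.mul_right h).mul_right h4
      rw [show (hg.z ρ)⁻¹ * (hg.z ρ * t * (hg.z ρ)⁻¹) * hg.z ρ = t by group] at h5
      obtain rfl := hg.al_uniq ho hρ ht hl hU hf hf' h1.symm h5.symm
      have h6 := neg_of_mv hf.2.1 (sub_mem hcf' hcf)
      rw [add_sub_cancel_left, smul_add, h2] at h6
      obtain rfl := ho d (zero_of_neg ho h6)
      exact hx0 (hU _ hx (by rwa [zero_add]))) _ hcf' _ (smul_mem_mv_conj (hg.z ρ) hx)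
  rwa [smul_add, hg.z_neg hd, hg.z_lf ρ u hu, show c + (d + d) + (-d + u) = c + (d + u) by abel] at h3

theorem al_false : False := by
  classical
  set Y := mv V ρ ⊔ mv V t with hY
  set q := (fx V t).index with hq
  have hq1 : 1 < q := by
    have h1 := hg.one_lt hρ
    rw [← ht.2] at h1
    nlinarith
  have hQ : Qm H V = q * q := ht.2.symm
  have cY : Nat.card Y = q * q * q := by
    refine le_antisymm ?_ ?_
    · rw [← hQ, ← hρ.2, hq, ← card_mv, ← card_mv, ← Nat.card_prod]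
      refine Nat.card_le_card_of_surjective
        (fun p : mv V ρ × mv V t => (⟨p.1 + p.2, AddSubgroup.add_mem_sup p.1.2 p.2.2⟩ : Y)) ?_
      rintro ⟨y, hy⟩
      obtain ⟨c, hc, x, hx, rfl⟩ := AddSubgroup.mem_sup.1 hy
      exact ⟨(⟨c, hc⟩, ⟨x, hx⟩), rfl⟩
    · rw [← hQ, ← hρ.2, hq, ← card_mv, ← card_mv]
      exact card_mul_le le_sup_left le_sup_right fun v h1 h2 => hl v h2 h1
  let P := {r : H // (∃ σ, Rot V σ ∧ In V σ r) ∧ mv V r ≤ Y}
  have pP : ∀ r : P, Pt V r.1 := fun r => by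
    obtain ⟨σ, h1, h2⟩ := r.2.1
    exact hg.pt h1 h2
  have cP : ∀ r : P, Nat.card (mv V r.1) = q := fun r => by rw [(pP r).card_eq ht, card_mv]
  have uP : ∀ r s : P, r ≠ s → ∀ v ∈ mv V r.1, v ∈ mv V s.1 → v = 0 := fun r s h v h1 h2 => by
    obtain ⟨σ, h3, h4⟩ := r.2.1
    exact hg.pt_uniq ho h3 h4 (pP s) (fun h5 => h (Subtype.ext h5)) h1 h2
  have fP : ∀ r s : P, r ≠ s → Commute r.1 s.1 → mv V s.1 ≤ Y ⊓ fx V r.1 := fun r s h h1 v hv => by
    obtain ⟨σ, h3, h4⟩ := r.2.1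
    exact ⟨s.2.2 hv, mem_fx.2 (hg.fix_of_commo ho h3 h4 (pP s) (fun h5 => h (Subtype.ext h5)) h1 hv)⟩
  have oP : ∀ (s r : P) (v : V), v ≠ 0 → v ∈ mv V r.1 → s.1 • v = v → s ≠ r ∧ Commute s.1 r.1 :=
    fun s r v h0 h1 h2 => ⟨by rintro rfl; exact h0 (hg.deco ho _ v h1 h2),
      hg.comm_of_fix (pP s) (pP r) h1 h0 h2⟩
  have cF : ∀ s : P, Nat.card (Y ⊓ fx V s.1 : AddSubgroup V) = q * q := fun s => by
    have h1 : Nat.card (Y ⊓ fx V s.1 : AddSubgroup V) * Nat.card (mv V s.1) ≤ Nat.card Y :=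
      card_mul_le inf_le_left s.2.2 fun v h1 h2 => hg.deco ho _ v h2 (mem_fx.1 h1.2)
    have h2 := ((fx V s.1).addSubgroupOf Y).index_mul_card
    have h3 : ((fx V s.1).addSubgroupOf Y).index ≤ q := by
      rw [← cP s, card_mv]
      exact Nat.le_of_dvd (Nat.pos_of_ne_zero AddSubgroup.index_ne_zero_of_finite)
        (AddSubgroup.relIndex_dvd_index_of_normal _ _)
    have h4 : Nat.card ((fx V s.1).addSubgroupOf Y) = Nat.card (Y ⊓ fx V s.1 : AddSubgroup V) := by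
      rw [← AddSubgroup.inf_addSubgroupOf_left]
      exact Nat.card_congr (AddSubgroup.addSubgroupOfEquivOfLe inf_le_left).toEquiv
    rw [h4, cY] at h2
    rw [cP, cY] at h1
    refine le_antisymm (Nat.le_of_mul_le_mul_right h1 (by omega))
      (Nat.le_of_mul_le_mul_right ?_ (by omega : 0 < q))
    rw [← h2, mul_comm]
    exact Nat.mul_le_mul_left _ h3
  have := Fintype.ofFinite P
  have := Fintype.ofFinite V
  obtain ⟨e0, he0⟩ := hg.exists_in hρ
  have : Nonempty P := ⟨⟨e0, ⟨ρ, hρ, he0⟩, (hg.in_le hρ he0).trans le_sup_left⟩⟩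
  obtain ⟨p, hp, hpq⟩ := Nat.exists_prime_and_dvd hq1.ne'
  have := Fact.mk hp
  have cs : ∀ W : AddSubgroup V,
      ((Finset.univ.filter fun v : V => v ∈ W).erase 0).card + 1 = Nat.card W := fun W => by
    rw [Finset.card_erase_add_one (by simp), Nat.card_eq_fintype_card, Fintype.card_subtype]
  refine no_polarity (fun s r : P => s ≠ r ∧ Commute s.1 r.1) p
    (fun s r h => ⟨h.1.symm, h.2.symm⟩) (fun s h => h.1 rfl) (fun s => ?_) fun s r hne => ?_
  · have h1 : (Finset.univ.filter fun v : V => v ∈ Y ⊓ fx V s.1).erase 0 =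
        (Finset.univ.filter fun r : P => s ≠ r ∧ Commute s.1 r.1).biUnion
          fun r => (Finset.univ.filter fun v : V => v ∈ mv V r.1).erase 0 := by
      ext v
      simp only [Finset.mem_erase, Finset.mem_filter, Finset.mem_univ, true_and,
        Finset.mem_biUnion]
      constructor
      · rintro ⟨h0, h1⟩
        obtain ⟨r, hr, h2⟩ := hg.al_cover ho hρ ht hl hU h1.1
        exact ⟨⟨r, hr⟩, oP s _ v h0 h2 (mem_fx.1 h1.2), h0, h2⟩
      · rintro ⟨r, hr, h0, h1⟩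
        exact ⟨h0, fP s r hr.1 hr.2 h1⟩
    have h2 := cs (Y ⊓ fx V s.1)
    rw [h1, Finset.card_biUnion (fun r _ r' _ hne => Finset.disjoint_left.2 fun v h1 h2 => by
      simp only [Finset.mem_erase, Finset.mem_filter, Finset.mem_univ, true_and] at h1 h2
      exact h1.1 (uP r r' hne v h1.2 h2.2)), cF] at h2
    have h3 := congrArg (Nat.cast : ℕ → ZMod p) h2
    have h4 : (q : ZMod p) = 0 := (ZMod.natCast_eq_zero_iff _ _).2 hpq
    have h5 : ∀ r : P, (((Finset.univ.filter fun v : V => v ∈ mv V r.1).erase 0).card : ZMod p) = -1 :=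
      fun r => by
        have := congrArg (Nat.cast : ℕ → ZMod p) (cs (mv V r.1))
        rw [cP, h4, Nat.cast_add, Nat.cast_one] at this
        exact eq_neg_of_add_eq_zero_left this
    simp only [Nat.cast_add, Nat.cast_sum, h5, Nat.cast_mul, h4, Finset.sum_const, nsmul_eq_mul,
      Nat.cast_one] at h3
    linear_combination -h3
  · obtain ⟨v, h1, h2, h0⟩ := exists_ne_zero (A := Y) (B := fx V s.1 ⊓ fx V r.1)
      (lt_of_le_of_lt AddSubgroup.index_inf_le (by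
        rw [← card_mv, ← card_mv, cP, cP, cY]; nlinarith))
    obtain ⟨u, hu, h3⟩ := hg.al_cover ho hρ ht hl hU h1
    refine ⟨⟨u, hu⟩, ⟨oP s _ v h0 h3 (mem_fx.1 h2.1), oP r _ v h0 h3 (mem_fx.1 h2.2)⟩, ?_⟩
    rintro w ⟨hw1, hw2⟩
    by_contra hwu
    have k1 := oP s ⟨u, hu⟩ v h0 h3 (mem_fx.1 h2.1)
    have k2 := oP r ⟨u, hu⟩ v h0 h3 (mem_fx.1 h2.2)
    have h4 := card_mul_le (C := (Y ⊓ fx V s.1) ⊓ (Y ⊓ fx V r.1))
      (le_inf (fP _ _ hw1.1 hw1.2) (fP _ _ hw2.1 hw2.2))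
      (le_inf (fP _ _ k1.1 k1.2) (fP _ _ k2.1 k2.2)) (uP _ _ hwu)
    rw [cP, cP] at h4
    by_cases hc : Commute s.1 r.1
    · have h5 := card_mul_le (A := (Y ⊓ fx V s.1) ⊓ (Y ⊓ fx V r.1)) inf_le_left (fP _ _ hne hc)
        fun v h5 h6 => hg.deco ho _ v h6 (mem_fx.1 h5.2.2)
      rw [cP, cF] at h5
      nlinarith
    · obtain ⟨h5, -, -⟩ := (pP s).line (pP r) hc
      have h6 := card_mul_le (A := (Y ⊓ fx V s.1) ⊓ (Y ⊓ fx V r.1)) (inf_le_left.trans inf_le_left)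
        ((mv_mul s.1 r.1).trans (sup_le s.2.2 r.2.2)) fun v h6 h7 => hg.deco ho _ v h7
          (by rw [mul_smul, mem_fx.1 h6.2.2, mem_fx.1 h6.1.2])
      rw [card_mv, h5.2, hQ, cY] at h6
      have h7 := Nat.le_of_mul_le_mul_right ((Nat.mul_le_mul_right _ h4).trans
        (h6.trans_eq (mul_comm _ _))) (by positivity)
      nlinarith

end alpha

theorem line_le {σ : H} (hσ : Rot V σ) : mv V σ ≤ mv V ρ ∨ mv V σ ≤ fx V ρ := by
  refine le_or_le fun v hv => ?_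
  obtain ⟨t, ht, hvt⟩ := hg.covero ho hσ hv
  have hp := hg.pt hσ ht
  by_contra hn
  push Not at hn
  refine hg.al_false ho hρ hp (fun w h1 h2 => ?_) fun w h1 h2 => ?_
  · by_contra h0
    exact hn.1 (hg.in_le hρ (hg.pt_in ho hρ hp h2 h1 h0) hvt)
  · by_contra h0
    exact hn.2 (mem_fx.2 ((hg.fix_of_comm hρ hp fun f hf =>
      (hg.comm_of_fix (hg.pt hρ hf) hp h1 h0 (hf.1 w h2)).symm).2 v hvt))

theorem topo : mv V ρ = ⊤ := by
  refine hg.eq_top hρ fun h => (hg.line_le ho hρ (hρ.conj h)).resolve_right fun hle => ?_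
  have h2 := hρ.conj h
  obtain ⟨b, hb, h0⟩ := hg.exists_mem hρ
  have hle' : mv V ρ ≤ fx V (h * ρ * h⁻¹) := (hg.line_le ho h2 hρ).resolve_left fun h3 =>
    h0 (hg.dec ρ hρ b hb (mem_fx.1 (hle (h3 hb))))
  obtain ⟨s, hs, hbs⟩ := hg.covero ho hρ hb
  have hsb := neg_of_mv hs.2.1 hbs
  have hc := smul_mem_mv_conj h hb
  have hc0 : h • b ≠ 0 := fun h => h0 ((smul_eq_zero_iff_eq _).1 h)
  have key : ∀ y ∈ mv V ρ, s • y = y → E H b (b + y) := by
    intro y hy hsy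
    obtain ⟨k, k1, k2⟩ := hg.fixbin {h • b + (b + y)} {(b + b, h • b + h • b)}
      (by rintro _ rfl; exact E.nsmul ⟨h, rfl⟩) (by
        rintro _ rfl _ rfl
        refine ⟨s * hg.z (h * ρ * h⁻¹), ?_⟩
        simp only [mul_smul, smul_sub, smul_add, hg.z_neg hc, hg.z_lf _ b (mem_fx.1 (hle' hb)),
          hg.z_lf _ y (mem_fx.1 (hle' hy)), smul_neg, hsb, hsy, hs.1 _ (mem_fx.1 (hle hc))]
        abel) (by rintro _ rfl _ rfl; exact Or.inl rfl)
    have k3 : k • b = h • b := eq_of_add ho (by rw [← smul_add]; exact k2 (_, _) rfl)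
    have k4 := k1 _ rfl
    have k5 : k • (b + y) ∈ mv V (h * ρ * h⁻¹) :=
      (hg.line_le ho h2 (hρ.conj k)).resolve_right (fun h3 => hc0 (hg.dec _ h2 _ hc
        (mem_fx.1 (h3 (k3 ▸ smul_mem_mv_conj k hb))))) (smul_mem_mv_conj k (add_mem hb hy))
    have k6 := hle' (add_mem hb hy)
    rw [smul_add] at k4
    rcases hg.line_le ho h2 (h2.conj k) with h3 | h3
    · have h4 := sub_mem (add_mem (h3 (smul_mem_mv_conj k hc)) k5) hc
      rw [k4, add_sub_cancel_left] at h4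
      have h5 := hg.dec _ h2 _ h4 (mem_fx.1 k6)
      have h6 : s • (b + y) = 0 := by rw [h5, smul_zero]
      rw [smul_add, hsb, hsy, neg_add_eq_zero] at h6
      rw [← h6] at h5
      exact absurd (ho b h5) h0
    · have h4 : k • (b + y) - h • b = b + y - k • h • b := by
        rw [sub_eq_sub_iff_add_eq_add, add_comm, k4, add_comm]
      have h5 := hg.dec _ h2 _ (sub_mem k5 hc)
        (mem_fx.1 (h4 ▸ sub_mem k6 (h3 (smul_mem_mv_conj k hc))))
      rw [h4, sub_eq_zero] at h5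
      exact ⟨k * h, by rw [mul_smul, h5]⟩
  obtain ⟨y, hy, hsy, hy0⟩ := hg.exists_fix hρ (hg.pt hρ hs)
  have k1 := key _ (add_mem hy hy) (by rw [smul_add, hsy])
  exact hy0 (ho y (hg.sf k1 k1 (by
    have := (key y hy hsy).nsmul
    rwa [add_add_add_comm] at this)))

end Good

end odd

/-- the structure of a binary affine group containing an element of order greater than two -/
theorem Bin.main [Finite H] (hb : Bin H V) {g : H} (h : g * g ≠ 1) :
    Good H V ∧ ∃ ρ : H, Rot V ρ ∧ mv V ρ = ⊤ ∧ ∀ g : H, g ∈ Ar V ρ ∨ In V ρ g := by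
  obtain ⟨ρ, hρ⟩ := exists_rot (V := V) h
  rcases hb.irr (nsmulAddMonoidHom 2 : V →+ V).ker (fun h v hv => by
    rw [AddMonoidHom.mem_ker, nsmulAddMonoidHom_apply, two_nsmul] at hv ⊢
    rw [← smul_add, hv, smul_zero]) with h1 | h1
  · have ho : ∀ v : V, v + v = 0 → v = 0 := fun v hv => by
      rw [← AddSubgroup.mem_bot, ← h1, AddMonoidHom.mem_ker, nsmulAddMonoidHom_apply, two_nsmul, hv]
    have hg := hb.goodo ho
    exact ⟨hg, ρ, hρ, hg.topo ho hρ, fun g => hg.lf_cases ho hρ (hg.lf_of_top hρ (hg.topo ho hρ) g)⟩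
  · have h2 : ∀ v : V, v + v = 0 := fun v => by
      have := h1 ▸ AddSubgroup.mem_top v
      rwa [AddMonoidHom.mem_ker, nsmulAddMonoidHom_apply, two_nsmul] at this
    have hg := hb.good2 h2
    exact ⟨hg, ρ, hρ, hg.top2 h2 hρ, hg.all2 h2 hρ⟩

end Cfsg.Agent.Perm.BAff
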