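import Cfsg.Agent.Perm.Bin3

/-!
# Binary affine groups, IV: identification with the anisotropic plane
-/

set_option autoImplicit false
set_option linter.unusedSectionVars false

namespace Cfsg.Agent.Perm.BAff

/-- a finite field with an involutory automorphism -/
theorem field_data (E : Type) [Field E] [Finite E] (σ : E ≃+* E) (h1 : σ ≠ 1) (h2 : σ ^ 2 = 1) :
    ∃ (F : Type) (_ : Field F) (_ : Fintype F) (_ : Algebra F E), Module.finrank F E = 2 ∧
      (∀ φ : E ≃ₐ[F] E, (∀ x, φ x = x) ∨ ∀ x, φ x = σ x) ∧ (∃ φ : E ≃ₐ[F] E, ∀ x, φ x = σ x) ∧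
      (∀ a : E, Algebra.norm F a = 1 ↔ a * σ a = 1) ∧
      ∀ q, Nat.card E = q * q → Nat.card {a : E // a * σ a = 1} ≤ q + 1 := by
  classical
  let G : Subgroup (RingAut E) := Subgroup.zpowers σ
  have ho : orderOf (σ : RingAut E) = 2 := orderOf_eq_prime h2 h1
  have : Finite (RingAut E) := DFunLike.finite _
  have := Fintype.ofFinite G
  have hG : ∀ g : G, g.1 = 1 ∨ g.1 = σ := fun g => by
    obtain ⟨k, hk⟩ := (mem_zpowers_iff_mem_range_orderOf.1 g.2 |> Finset.mem_image.1)
    rw [ho, Finset.mem_range] at hk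
    obtain ⟨h3, h4⟩ := hk
    interval_cases k
    · exact Or.inl (by rw [← h4, pow_zero])
    · exact Or.inr (by rw [← h4, pow_one])
  let F := FixedPoints.subfield G E
  have hr : Module.finrank F E = 2 := by
    rw [FixedPoints.finrank_eq_card, ← Nat.card_eq_fintype_card, Nat.card_zpowers, ho]
  have k1 : ∀ φ : E ≃ₐ[F] E, (∀ x, φ x = x) ∨ ∀ x, φ x = σ x := fun φ => by
    obtain ⟨g, rfl⟩ := FixedPoints.toAlgAut_surjective G E φ
    refine (hG g).imp (fun h x => ?_) fun h x => ?_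
    · change g.1 x = x
      rw [h]; rfl
    · change g.1 x = σ x
      rw [h]
  let φ0 : E ≃ₐ[F] E := MulSemiringAction.toAlgAut G F E ⟨σ, Subgroup.mem_zpowers σ⟩
  have k2 : ∀ x, φ0 x = σ x := fun _ => rfl
  have k3 : ∀ a : E, Algebra.norm F a = 1 ↔ a * σ a = 1 := fun a => by
    have hu : (Finset.univ : Finset (E ≃ₐ[F] E)) = {1, φ0} := by
      ext φ
      simp only [Finset.mem_univ, Finset.mem_insert, Finset.mem_singleton, true_iff]
      exact (k1 φ).imp (fun h => AlgEquiv.ext h) fun h => AlgEquiv.ext h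
    rw [← (algebraMap F E).injective.eq_iff, Algebra.norm_eq_prod_automorphisms, hu,
      Finset.prod_pair (fun h => h1 (RingEquiv.ext fun x => by rw [← k2, ← h]; rfl)), map_one]
    rfl
  refine ⟨F, inferInstance, Fintype.ofFinite F, inferInstance, hr, k1, ⟨φ0, k2⟩, k3, fun q hq => ?_⟩
  have h3 := Module.natCard_eq_pow_finrank (K := F) (V := E)
  rw [hr, hq, pow_two] at h3
  have h4 : Nat.card F = q := (Nat.mul_self_inj.1 h3).symm
  have h5 : 1 < q := h4 ▸ Finite.one_lt_card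
  have h6 : (Nat.card E - 1) / (Nat.card F - 1) = q + 1 := by
    rw [hq, h4]
    obtain ⟨r, rfl⟩ : ∃ r, q = r + 1 := ⟨q - 1, by omega⟩
    rw [show (r + 1) * (r + 1) = (r + 1 + 1) * r + 1 by ring]
    exact Nat.mul_div_cancel _ (by omega)
  refine le_trans ?_ ((Multiset.toFinset_card_le _).trans (Polynomial.card_nthRoots (q + 1) (1 : E)))
  rw [← Nat.card_eq_finsetCard]
  refine Nat.card_le_card_of_injective (fun a => ⟨a.1, ?_⟩) fun a b hab =>
    Subtype.ext (Subtype.mk.inj hab)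
  rw [Multiset.mem_toFinset, Polynomial.mem_nthRoots (by omega), ← h6,
    ← FiniteField.algebraMap_norm_eq_pow, (k3 _).2 a.2, map_one]

variable {H V : Type*} [Group H] [AddCommGroup V] [DistribMulAction H V] [Finite V] [Finite H]

theorem Good.field (hg : Good H V) {ρ : H} (hρ : Rot V ρ) (htop : mv V ρ = ⊤)
    (hall : ∀ g : H, g ∈ Ar V ρ ∨ In V ρ g) :
    ∃ (F E : Type) (_ : Field F) (_ : Fintype F) (_ : Field E) (_ : Fintype E) (_ : Algebra F E)
      (e : V ≃+ E), Module.finrank F E = 2 ∧ ∀ τ : V → V, (∃ h : H, ∀ v, h • v = τ v) ↔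
        ∃ (a : E) (φ : E ≃ₐ[F] E), Algebra.norm F a = 1 ∧ ∀ v, e (τ v) = a * φ (e v) := by
  classical
  have hm : ∀ v, v ∈ mv V ρ := fun v => htop ▸ AddSubgroup.mem_top v
  obtain ⟨v0, -, hv0⟩ := hg.exists_mem hρ
  obtain ⟨s, hs, hsv⟩ := hg.cover hρ (hm v0) hv0
  set q := (fx V s).index with hq
  have hA : q < Nat.card (Ar V ρ) := hg.lt_card_Ar hρ (hg.pt hρ hs)
  have hV : Nat.card V = q * q := by
    rw [(hg.pt hρ hs).2, ← hρ.2, ← card_mv, htop, AddSubgroup.card_top]
  have big : ∀ W : AddSubgroup V, (∀ a ∈ Ar V ρ, ∀ v ∈ W, a • v ∈ W) → ∀ v ∈ W, v ≠ 0 →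
      q < Nat.card W := fun W hW v hv h0 =>
    hA.trans_le (Nat.card_le_card_of_injective
      (fun a : Ar V ρ => (⟨(a : H) • v, hW a a.2 v hv⟩ : W)) fun a b hab => by
        have h4 : (a : H) • v = (b : H) • v := congrArg Subtype.val hab
        have := (hg.semi ρ hρ _ (mul_mem (inv_mem b.2) a.2) _ (hm v)
          (by rw [mul_smul, h4, inv_smul_smul])).resolve_left h0
        exact Subtype.ext (inv_mul_eq_one.1 this).symm)
  have sinv : ∀ a ∈ Ar V ρ, s * a * s = a⁻¹ := fun a ha =>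
    eq_inv_of_mul_eq_one_left (by rw [← (hg.in_mul hρ hs ha).2.1]; group)
  have hab : ∀ a ∈ Ar V ρ, ∀ b ∈ Ar V ρ, a * b = b * a := fun a ha b hb => by
    have := sinv _ (mul_mem ha hb)
    rw [show s * (a * b) * s = s * a * s * (s * s)⁻¹ * (s * b * s) by group, hs.2.1, sinv a ha,
      sinv b hb, inv_one, mul_one, ← mul_inv_rev] at this
    exact (inv_injective this).symm
  let f := DistribMulAction.toAddMonoidEnd H V
  let R : Subring (AddMonoid.End V) := Subring.centralizer (f '' Ar V ρ)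
  have hR : ∀ r : AddMonoid.End V, r ∈ R ↔ ∀ a ∈ Ar V ρ, ∀ v, a • r v = r (a • v) := fun r => by
    rw [Subring.mem_centralizer_iff]
    constructor
    · intro h a ha v
      exact DFunLike.congr_fun (h _ ⟨a, ha, rfl⟩) v
    · rintro h _ ⟨a, ha, rfl⟩
      exact AddMonoidHom.ext (h a ha)
  have inj : ∀ r : R, ∀ v, r.1 v = 0 → r = 0 ∨ v = 0 := fun r v hv => by
    by_contra hn
    push Not at hn
    obtain ⟨w, hw⟩ : ∃ w, r.1 w ≠ 0 := by
      by_contra h; push Not at h; exact hn.1 (Subtype.ext (AddMonoidHom.ext h))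
    have h1 := big (AddMonoidHom.ker r.1) (fun a ha x hx => by
      change r.1 _ = 0
      rw [← (hR r).1 r.2 a ha]
      exact (congrArg (a • ·) hx).trans (smul_zero a)) v hv hn.2
    have h2 := big (AddMonoidHom.range r.1) (by
      rintro a ha _ ⟨x, rfl⟩
      exact ⟨a • x, ((hR r).1 r.2 a ha x).symm⟩) _ ⟨w, rfl⟩ hw
    have h3 := (AddMonoidHom.ker r.1).index_mul_card
    rw [AddSubgroup.index_ker (r.1 : V →+ V), hV] at h3
    nlinarith
  have : Nontrivial R := ⟨⟨1, 0, fun h => hv0 (DFunLike.congr_fun (congrArg Subtype.val h) v0)⟩⟩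
  have : NoZeroDivisors R := ⟨fun {a b} h => or_iff_not_imp_left.2 fun ha =>
    Subtype.ext (AddMonoidHom.ext fun v =>
      (inj a _ (DFunLike.congr_fun (congrArg Subtype.val h) v)).resolve_left ha)⟩
  have : IsDomain R := NoZeroDivisors.to_isDomain R
  have : Finite (AddMonoid.End V) := DFunLike.finite _
  have hF := Finite.isDomain_to_isField R
  have fA : ∀ a ∈ Ar V ρ, f a ∈ R := fun a ha => (hR _).2 fun b hb v => by
    change b • a • v = a • b • v
    rw [← mul_smul, hab b hb a ha, mul_smul]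
  let ev : V → R →+ V := fun v =>
    { toFun := fun r => r.1 v, map_zero' := rfl, map_add' := fun _ _ => rfl }
  have evb : ∀ v, v ≠ 0 → q < Nat.card (ev v).range := fun v h0 => big _ (by
    rintro a ha _ ⟨r, rfl⟩
    exact ⟨⟨f a, fA a ha⟩ * r, rfl⟩) v ⟨1, rfl⟩ h0
  have hbij : Function.Bijective (ev v0) := by
    refine ⟨(injective_iff_map_eq_zero _).2 fun r h => (inj r v0 h).resolve_right hv0, fun v => ?_⟩
    by_contra hn
    have h0 : v ≠ 0 := fun h => hn ⟨0, h.symm⟩
    have h1 := card_mul_le (A := (ev v0).range) (B := (ev v).range) (C := ⊤) le_top le_top (by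
      rintro _ ⟨r, rfl⟩ ⟨t, ht⟩
      by_contra h2
      obtain ⟨u, hu⟩ := hF.mul_inv_cancel (a := t) (by rintro rfl; exact h2 ht.symm)
      rw [hF.mul_comm] at hu
      refine hn ⟨u * r, ?_⟩
      change u.1 (ev v0 r) = v
      rw [← ht]
      exact DFunLike.congr_fun (congrArg Subtype.val hu) v)
    rw [AddSubgroup.card_top, hV] at h1
    have := evb v0 hv0
    have := evb v h0
    nlinarith
  have ss : ∀ v : V, s • s • v = v := fun v => by rw [← mul_smul, hs.2.1, one_smul]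
  have cm : ∀ r : R, f s * r.1 * f s ∈ R := fun r => (hR _).2 fun a ha v => by
    change a • s • r.1 (s • v) = s • r.1 (s • a • v)
    have h1 : ∀ w : V, a • s • w = s • a⁻¹ • w := fun w => by
      rw [← sinv a ha, mul_smul, mul_smul, ss]
    have h2 : ∀ w : V, s • a • w = a⁻¹ • s • w := fun w => by
      rw [← sinv a ha, mul_smul, mul_smul, ss]
    rw [h1, h2, (hR _).1 r.2 _ (inv_mem ha)]
  let σ0 : R ≃+* R :=
    { toFun := fun r => ⟨_, cm r⟩
      invFun := fun r => ⟨_, cm r⟩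
      left_inv := fun r => Subtype.ext (AddMonoidHom.ext fun v => by
        change s • s • r.1 (s • s • v) = r.1 v
        rw [ss, ss])
      right_inv := fun r => Subtype.ext (AddMonoidHom.ext fun v => by
        change s • s • r.1 (s • s • v) = r.1 v
        rw [ss, ss])
      map_mul' := fun r t => Subtype.ext (AddMonoidHom.ext fun v => by
        change s • r.1 (t.1 (s • v)) = s • r.1 (s • s • t.1 (s • v))
        rw [ss])
      map_add' := fun r t => Subtype.ext (AddMonoidHom.ext fun v => smul_add s _ _) }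
  have σA : ∀ a (ha : a ∈ Ar V ρ), σ0 ⟨f a, fA a ha⟩ = ⟨f a⁻¹, fA _ (inv_mem ha)⟩ := fun a ha =>
    Subtype.ext (by change f s * f a * f s = _; rw [← map_mul, ← map_mul, sinv a ha])
  let _ := hF.toField
  let ψ : Shrink.{0} R ≃+* R := Shrink.ringEquiv.{0} R
  let σ := (ψ.trans σ0).trans ψ.symm
  have hσ : ∀ x, ψ (σ x) = σ0 (ψ x) := fun x => ψ.apply_symm_apply _
  have : Finite (Shrink.{0} R) := Finite.of_equiv _ ψ.symm.toEquiv
  obtain ⟨F, _, _, _, hr, k1, ⟨φ0, k2⟩, k3, k4⟩ := field_data (Shrink.{0} R) σ (fun h => by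
    have h1 := hσ (ψ.symm ⟨f ρ, fA ρ (self_mem_Ar ρ)⟩)
    rw [h, ψ.apply_symm_apply, σA ρ (self_mem_Ar ρ)] at h1
    replace h1 := (ψ.apply_symm_apply _).symm.trans h1
    refine hρ.1 (hg.faith _ fun v => ?_)
    have h2 : ρ • ρ • v = ρ⁻¹ • ρ • v := DFunLike.congr_fun (congrArg Subtype.val h1) (ρ • v)
    rw [mul_smul, h2, inv_smul_smul]) (RingEquiv.ext fun x => ψ.injective (by
      rw [pow_two]
      change ψ (σ (σ x)) = ψ x
      rw [hσ, hσ]
      exact σ0.left_inv _))
  let e : V ≃+ Shrink.{0} R := (ψ.toAddEquiv.trans (AddEquiv.ofBijective _ hbij)).symm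
  have he : ∀ v, (ψ (e v)).1 v0 = v := fun v => e.symm_apply_apply v
  have he' : ∀ v x, (ψ x).1 v0 = v → e v = x := fun v x h => by
    rw [← h]; exact e.apply_symm_apply x
  let c : Ar V ρ → Shrink.{0} R := fun a => ψ.symm ⟨f a, fA a a.2⟩
  have c1 : ∀ (a : Ar V ρ) v, e ((a : H) • v) = c a * e v := fun a v => he' _ _ (by
    rw [map_mul, ψ.apply_symm_apply]
    change (a : H) • (ψ (e v)).1 v0 = _
    rw [he])
  have c2 : ∀ v, e (s • v) = σ (e v) := fun v => he' _ _ (by
    rw [hσ]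
    change s • (ψ (e v)).1 (s • v0) = _
    rw [hsv, he])
  have c3 : ∀ a, c a * σ (c a) = 1 := fun a => ψ.injective (by
    rw [map_mul, hσ, ψ.apply_symm_apply, σA a a.2, map_one]
    exact Subtype.ext (by change f a * f (a : H)⁻¹ = 1; rw [← map_mul, mul_inv_cancel, map_one]))
  have c4 : ∀ x, x * σ x = 1 → ∃ a, c a = x := fun x hx => by
    have h1 : Function.Injective fun a => (⟨c a, c3 a⟩ : {x // x * σ x = 1}) := fun a b h => by
      have h2 : c a = c b := congrArg Subtype.val h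
      refine Subtype.ext (inv_mul_eq_one.1 (hg.faith _ fun v => ?_)).symm
      rw [mul_smul, inv_smul_eq_iff]
      exact e.injective (by rw [c1, c1, h2])
    obtain ⟨a, ha⟩ := ((Nat.bijective_iff_injective_and_card _).2 ⟨h1, le_antisymm
      (Nat.card_le_card_of_injective _ h1)
      ((k4 q (by rw [← hV, Nat.card_congr e.toEquiv])).trans hA)⟩).2 ⟨x, hx⟩
    exact ⟨a, congrArg Subtype.val ha⟩
  refine ⟨F, Shrink.{0} R, inferInstance, inferInstance, inferInstance, Fintype.ofFinite _,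
    inferInstance, e, hr, fun τ => ⟨?_, ?_⟩⟩
  · rintro ⟨h, hh⟩
    rcases hall h with h1 | h1
    · exact ⟨c ⟨h, h1⟩, 1, (k3 _).2 (c3 _), fun v => by rw [← hh]; exact c1 ⟨h, h1⟩ v⟩
    · refine ⟨c ⟨_, h1.mul_mem hs⟩, φ0, (k3 _).2 (c3 _), fun v => ?_⟩
      rw [← hh, k2, ← c2, ← c1, ← mul_smul, mul_assoc, hs.2.1, mul_one]
  · rintro ⟨x, φ, h1, h2⟩
    obtain ⟨a, rfl⟩ := c4 x ((k3 _).1 h1)
    rcases k1 φ with h3 | h3
    · exact ⟨a, fun v => e.injective (by rw [c1, h2, h3])⟩
    · exact ⟨a * s, fun v => e.injective (by rw [mul_smul, c1, c2, h2, h3])⟩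

/-- the case of exponent two -/
theorem Bin.small [Nontrivial V] (hb : Bin H V) (h : ∀ g : H, g * g = 1) :
    (Nat.card V).Prime ∧ Nat.card H ≤ 2 := by
  have k : ∀ g : H, g = 1 ∨ ∀ v : V, g • v = -v := fun g => by
    rcases hb.irr (fx V g) (fun x v hv => mem_fx.2 (by
      rw [← mul_smul, (commute_of_sq (h g) (h x) (h _)).eq, mul_smul, mem_fx.1 hv])) with h1 | h1
    · refine Or.inr fun v => eq_neg_of_add_eq_zero_left ?_
      rw [← AddSubgroup.mem_bot, ← h1, mem_fx, smul_add, ← mul_smul, h, one_smul, add_comm]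
    · exact Or.inl (hb.faith g fun v => mem_fx.1 (h1 ▸ AddSubgroup.mem_top v))
  constructor
  · have : IsSimpleAddGroup V := ⟨fun W _ => hb.irr W fun g v hv => by
      rcases k g with rfl | h1
      · rwa [one_smul]
      · rw [h1]; exact neg_mem hv⟩
    exact IsSimpleAddGroup.prime_card
  · classical
    refine le_trans (Nat.card_le_card_of_injective (fun g : H => decide (g = 1)) fun a b hab => ?_)
      (by simp)
    have hab' : a = 1 ↔ b = 1 := by simpa using hab
    by_cases ha : a = 1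
    · rw [ha, hab'.1 ha]
    · refine (inv_mul_eq_one.1 (hb.faith _ fun v => ?_)).symm
      rw [mul_smul, inv_smul_eq_iff, (k a).resolve_left ha, (k b).resolve_left (mt hab'.2 ha)]

end Cfsg.Agent.Perm.BAff
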