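import Mathlib
import Cfsg.Agent.Perm.CompDeg
import Cfsg.Agent.Perm.Derangement

/-!
# Two-point stabilisers of a doubly transitive group and the proportion of derangements
-/

set_option autoImplicit false

namespace Cfsg.Agent.Perm.DerTwo

open MulAction Cfsg.Agent.Perm.Onl

variable {G : Type*} [Group G] {Ω : Type*} [MulAction G Ω]

/-- two point stabiliser -/
def Hs (G : Type*) [Group G] [MulAction G Ω] (u v : Ω) : Subgroup G :=
  stabilizer G u ⊓ stabilizer G v

theorem mem_Hs {u v : Ω} {g : G} : g ∈ Hs G u v ↔ g • u = u ∧ g • v = v := Iff.rfl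

theorem Hs_smul (g : G) (u v : Ω) : Hs G (g • u) (g • v) = cj g (Hs G u v) := by
  ext x
  rw [mem_cj, mem_Hs, mem_Hs, mul_smul, mul_smul, mul_smul, mul_smul, inv_smul_eq_iff,
    inv_smul_eq_iff]

theorem Hs_comm (u v : Ω) : Hs G u v = Hs G v u := inf_comm _ _

/-- double transitivity -/
def Two (G : Type*) [Group G] (Ω : Type*) [MulAction G Ω] : Prop :=
  ∀ a b c d : Ω, a ≠ b → c ≠ d → ∃ g : G, g • a = c ∧ g • b = d

/-- the line through two points -/
def line (G : Type*) [Group G] [MulAction G Ω] (u v : Ω) : Set Ω :=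
  {x | ∀ h ∈ Hs G u v, h • x = x}

theorem card_Hs (h2 : Two G Ω) {a b c d : Ω} (hab : a ≠ b) (hcd : c ≠ d) :
    Nat.card (Hs G c d) = Nat.card (Hs G a b) := by
  obtain ⟨g, rfl, rfl⟩ := h2 a b c d hab hcd
  rw [Hs_smul, card_cj]

theorem Hs_eq_of_le [Finite G] (h2 : Two G Ω) {a b c d : Ω} (hab : a ≠ b) (hcd : c ≠ d)
    (h : Hs G a b ≤ Hs G c d) : Hs G a b = Hs G c d :=
  Subgroup.eq_of_le_of_card_ge h (card_Hs h2 hab hcd).le

theorem ncard_line (h2 : Two G Ω) {a b c d : Ω} (hab : a ≠ b) (hcd : c ≠ d) :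
    (line G c d).ncard = (line G a b).ncard := by
  obtain ⟨g, rfl, rfl⟩ := h2 a b c d hab hcd
  rw [← Set.ncard_image_of_injective (line G a b) (MulAction.injective g)]
  congr 1
  ext x
  constructor
  · intro hx
    refine ⟨g⁻¹ • x, fun h hh => ?_, smul_inv_smul g x⟩
    have := hx (g * h * g⁻¹) (by rw [Hs_smul]; exact conj_mem_cj hh)
    rw [mul_smul, mul_smul, smul_eq_iff_eq_inv_smul] at this
    exact this
  · rintro ⟨y, hy, rfl⟩ h hh
    rw [Hs_smul, mem_cj] at hh
    have := hy _ hh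
    rw [mul_smul, mul_smul, inv_smul_eq_iff] at this
    exact this

theorem line_eq [Finite G] (h2 : Two G Ω) {a b c d : Ω} (hab : a ≠ b) (hcd : c ≠ d)
    (hc : c ∈ line G a b) (hd : d ∈ line G a b) : line G a b = line G c d := by
  rw [line, line, Hs_eq_of_le h2 hab hcd fun h hh => ⟨hc h hh, hd h hh⟩]

theorem left_mem_line (a b : Ω) : a ∈ line G a b := fun _ h => h.1
theorem right_mem_line (a b : Ω) : b ∈ line G a b := fun _ h => h.2

/-- fixed point sets are proper subspaces -/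
theorem fix_bound [Finite G] [Finite Ω] [FaithfulSMul G Ω] (h2 : Two G Ω) {a b : Ω} (hab : a ≠ b)
    {h : G} (h1 : h ≠ 1) :
    Nat.card (fixedBy Ω h) * ((line G a b).ncard - 1) + 1 ≤ Nat.card Ω := by
  classical
  have := Fintype.ofFinite Ω
  obtain ⟨x, hx⟩ : ∃ x : Ω, h • x ≠ x := by
    by_contra hc
    push Not at hc
    exact h1 (FaithfulSMul.eq_of_smul_eq_smul (α := Ω) fun ω => by rw [hc, one_smul])
  have hne : ∀ u ∈ (fixedBy Ω h).toFinset, x ≠ u := fun u hu h => hx (h ▸ by simpa using hu)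
  have e : ((fixedBy Ω h).toFinset.biUnion fun u => (line G x u).toFinset.erase x).card =
      Nat.card (fixedBy Ω h) * ((line G a b).ncard - 1) := by
    rw [Finset.card_biUnion, Finset.sum_congr rfl (g := fun _ => (line G a b).ncard - 1),
      Finset.sum_const, smul_eq_mul, Set.toFinset_card, Nat.card_eq_fintype_card]
    · intro u hu
      rw [Finset.card_erase_of_mem (by simpa using left_mem_line x u), ← Set.ncard_eq_toFinset_card',
        ncard_line h2 hab (hne u hu)]
    · intro u hu v hv huv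
      refine Finset.disjoint_left.2 fun y hy hy' => hx ?_
      simp only [Finset.mem_erase, Set.mem_toFinset] at hy hy'
      have e1 := line_eq h2 (hne u hu) hy.1.symm (left_mem_line x u) hy.2
      have e2 := line_eq h2 (hne v hv) hy.1.symm (left_mem_line x v) hy'.2
      have e3 := line_eq h2 (hne u hu) huv (right_mem_line x u)
        (e1 ▸ e2 ▸ right_mem_line (G := G) x v)
      exact (e3 ▸ left_mem_line (G := G) x u) h ⟨by simpa using hu, by simpa using hv⟩
  rw [← e, Nat.card_eq_fintype_card]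
  exact Finset.card_lt_card ⟨Finset.subset_univ _, fun hs => by simpa using hs (Finset.mem_univ x)⟩

open Classical in
theorem sum_pairs [Fintype G] [Finite Ω] (h2 : Two G Ω) {a b : Ω} (hab : a ≠ b) (φ : G → ℚ)
    (hφ : ∀ g x, φ (g * x * g⁻¹) = φ x) :
    ∑ g, (Nat.card (fixedBy Ω g) : ℚ) * (Nat.card (fixedBy Ω g) - 1) * φ g =
      Nat.card Ω * (Nat.card Ω - 1) * ∑ h with h ∈ Hs G a b, φ h := by
  have := Fintype.ofFinite Ω
  have e1 : ∀ s : Finset Ω, ((s.offDiag.card : ℕ) : ℚ) = s.card * (s.card - 1) := fun s => by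
    rw [Finset.offDiag_card, Nat.cast_sub (Nat.le_mul_self _)]
    push_cast; ring
  have e2 : ∀ g : G, (Nat.card (fixedBy Ω g) : ℚ) * (Nat.card (fixedBy Ω g) - 1) * φ g =
      ∑ p ∈ (Finset.univ : Finset Ω).offDiag, if g ∈ Hs G p.1 p.2 then φ g else 0 := by
    intro g
    rw [← Finset.sum_filter, Finset.sum_const, nsmul_eq_mul, Nat.card_eq_fintype_card,
      ← Set.toFinset_card, ← e1]
    congr 3
    ext p
    simp only [Finset.mem_offDiag, Set.mem_toFinset, mem_fixedBy, Finset.mem_filter,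
      Finset.mem_univ, true_and, mem_Hs]
    tauto
  simp only [e2]
  rw [Finset.sum_comm, Finset.sum_congr rfl (g := fun _ => ∑ h with h ∈ Hs G a b, φ h),
    Finset.sum_const, nsmul_eq_mul, e1, Finset.card_univ, Nat.card_eq_fintype_card]
  rintro ⟨c, d⟩ hp
  obtain ⟨g, rfl, rfl⟩ := h2 a b c d hab (by simpa using hp)
  rw [← Finset.sum_filter]
  symm
  refine Finset.sum_bij (fun x _ => g * x * g⁻¹) (fun x hx => ?_) (fun x _ y _ h => by simpa using h)
    (fun y hy => ⟨g⁻¹ * y * g, ?_, by group⟩) fun x _ => (hφ g x).symm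
  · simp only [Finset.mem_filter, Finset.mem_univ, true_and, Hs_smul] at hx ⊢
    exact conj_mem_cj hx
  · simp only [Finset.mem_filter, Finset.mem_univ, true_and, Hs_smul] at hy ⊢
    exact mem_cj.1 hy

theorem card_fixedBy_conj (g x : G) :
    Nat.card (fixedBy Ω (g * x * g⁻¹)) = Nat.card (fixedBy Ω x) := by
  rw [← smul_fixedBy]
  exact Nat.card_congr (Equiv.Set.image _ _ (MulAction.injective g)).symm

/-- points in long orbits -/
def big (H : Subgroup G) : Set Ω := {ω | 3 ≤ (orbit H ω).ncard}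

theorem orbit_count [Finite G] [Finite Ω] (H : Subgroup G) :
    6 * CompDeg.nOrb H Ω + (big H : Set Ω).ncard ≤
      3 * Nat.card Ω + 3 * {x : Ω | ∀ h ∈ H, h • x = x}.ncard := by
  classical
  have := Fintype.ofFinite Ω
  have := Fintype.ofFinite (orbitRel.Quotient H Ω)
  let w : Ω → ℕ := fun ω => if ω ∈ {x : Ω | ∀ h ∈ H, h • x = x} then 6 else
    if ω ∈ (big H : Set Ω) then 2 else 3
  have h1 : ∑ ω, (w ω + if ω ∈ (big H : Set Ω) then 1 else 0) ≤
      ∑ ω : Ω, (3 + if ω ∈ {x : Ω | ∀ h ∈ H, h • x = x} then 3 else 0) := by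
    refine Finset.sum_le_sum fun ω _ => ?_
    simp only [w]
    split_ifs with h h'
    · exfalso
      have : orbit H ω ⊆ {ω} := by rintro _ ⟨g, rfl⟩; exact h g g.2
      have := Set.ncard_le_ncard this
      rw [Set.ncard_singleton] at this
      have h'' : 3 ≤ (orbit H ω).ncard := h'
      omega
    all_goals omega
  rw [Finset.sum_add_distrib, Finset.sum_add_distrib, ← Finset.sum_filter, ← Finset.sum_filter,
    Finset.sum_const, Finset.sum_const, Finset.sum_const, smul_eq_mul, smul_eq_mul, smul_eq_mul,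
    Finset.card_univ] at h1
  have h2 : 6 * CompDeg.nOrb H Ω ≤ ∑ ω, w ω := by
    rw [← Finset.sum_fiberwise Finset.univ (fun ω => (Quotient.mk'' ω : orbitRel.Quotient H Ω)),
      CompDeg.nOrb, Nat.card_eq_fintype_card, mul_comm, ← Finset.card_univ, ← smul_eq_mul,
      ← Finset.sum_const]
    refine Finset.sum_le_sum fun q _ => ?_
    induction q using Quotient.inductionOn' with
    | h ω =>
    have e : (Finset.univ.filter fun x => (Quotient.mk'' x : orbitRel.Quotient H Ω) =
        Quotient.mk'' ω) = (orbit H ω).toFinset := by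
      ext x
      simp only [Finset.mem_filter, Finset.mem_univ, true_and, Set.mem_toFinset, Quotient.eq'']
      rfl
    rw [e]
    have h0 : 0 < (orbit H ω).toFinset.card := Finset.card_pos.2 ⟨ω, by simp⟩
    have hb : ∀ x ∈ (orbit H ω).toFinset, x ∈ (big H : Set Ω) ↔ 3 ≤ (orbit H ω).toFinset.card := by
      intro x hx
      rw [← Set.ncard_eq_toFinset_card', ← orbit_eq_iff.2 (Set.mem_toFinset.1 hx)]
      rfl
    by_cases h3 : 3 ≤ (orbit H ω).toFinset.card
    · have := Finset.card_nsmul_le_sum (orbit H ω).toFinset w 2 fun x _ => by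
        simp only [w]; split_ifs <;> omega
      rw [smul_eq_mul] at this
      exact le_trans (by omega) this
    by_cases h4 : 2 ≤ (orbit H ω).toFinset.card
    · have := Finset.card_nsmul_le_sum (orbit H ω).toFinset w 3 fun x hx => by
        simp only [w, hb x hx]; split_ifs <;> omega
      rw [smul_eq_mul] at this
      exact le_trans (by omega) this
    · have h5 : ω ∈ {x : Ω | ∀ h ∈ H, h • x = x} := fun h hh =>
        Finset.card_le_one.1 (by omega : (orbit H ω).toFinset.card ≤ 1) _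
          (Set.mem_toFinset.2 ⟨⟨h, hh⟩, rfl⟩) _ (by simp)
      have := Finset.single_le_sum (f := w) (s := (orbit H ω).toFinset) (fun _ _ => Nat.zero_le _)
        (a := ω) (by simp)
      simp only [w, if_pos h5] at this
      exact this
  have e : ∀ s : Set Ω, (Finset.univ.filter fun ω => ω ∈ s).card = s.ncard := fun s => by
    rw [Set.ncard_eq_toFinset_card']
    congr 1; ext; simp
  rw [e, e] at h1
  rw [Nat.card_eq_fintype_card]
  omega

theorem sq_fix [Finite Ω] {H : Subgroup G} {ω : Ω} (hω : ω ∉ (big H : Set Ω)) {h : G} (hh : h ∈ H) :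
    h • h • ω = ω := by
  by_contra hc
  have h1 : h • ω ≠ ω := fun e => hc (by rw [e, e])
  refine hω (le_trans ?_ (Set.ncard_le_ncard (s := {ω, h • ω, h • h • ω}) ?_))
  · rw [Set.ncard_eq_three.2 ⟨_, _, _, h1.symm, Ne.symm hc,
      fun e => h1 (MulAction.injective h e).symm, rfl⟩]
  · rintro x (rfl | rfl | rfl)
    exacts [mem_orbit_self _, ⟨⟨h, hh⟩, rfl⟩, ⟨⟨h * h, H.mul_mem hh hh⟩, mul_smul h h ω⟩]

/-- if all two-point stabilisers have orbits of length at most two, they have order at most 2 -/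
theorem card_le_two [Finite G] [Finite Ω] [FaithfulSMul G Ω] (h2 : Two G Ω)
    (hb : ∀ u v : Ω, u ≠ v → (big (Hs G u v) : Set Ω) = ∅) {α β : Ω} (hαβ : α ≠ β) :
    Nat.card (Hs G α β) ≤ 2 := by
  by_contra hm
  have hsq : ∀ u v : Ω, u ≠ v → ∀ h ∈ Hs G u v, h * h = 1 := fun u v huv h hh =>
    FaithfulSMul.eq_of_smul_eq_smul (α := Ω) fun ω => by
      rw [one_smul, mul_smul]; exact sq_fix (by rw [hb u v huv]; simp) hh
  have hcomm : ∀ u v : Ω, u ≠ v → ∀ h ∈ Hs G u v, ∀ k ∈ Hs G u v, h * k = k * h := by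
    intro u v huv h hh k hk
    have e1 := hsq u v huv h hh
    have e2 := hsq u v huv k hk
    have e3 := hsq u v huv _ (Subgroup.mul_mem _ hh hk)
    calc h * k = (k * k) * (h * k) * 1 := by rw [e2]; group
      _ = k * (h * h) * k * (h * k) := by rw [e1]; group
      _ = k * h * (h * k * (h * k)) := by group
      _ = k * h := by rw [e3, mul_one]
  -- index at most two
  have hidx : ∀ u v : Ω, u ≠ v → ∀ w : Ω, ∀ h ∈ Hs G u v, ∀ k ∈ Hs G u v, h • w ≠ w → k • w ≠ w →
      h • w = k • w := by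
    intro u v huv w h hh k hk h1 h3
    by_contra h4
    have : w ∈ (big (Hs G u v) : Set Ω) := by
      refine le_trans ?_ (Set.ncard_le_ncard (s := {w, h • w, k • w}) ?_)
      · rw [Set.ncard_eq_three.2 ⟨_, _, _, h1.symm, h3.symm, h4, rfl⟩]
      · rintro x (rfl | rfl | rfl)
        exacts [mem_orbit_self _, ⟨⟨h, hh⟩, rfl⟩, ⟨⟨k, hk⟩, rfl⟩]
    rw [hb u v huv] at this
    exact this
  have hcard : ∀ u v : Ω, u ≠ v → ∀ w : Ω, Nat.card (Hs G α β) ≤
      2 * Nat.card (Hs G u v ⊓ stabilizer G w : Subgroup G) := by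
    intro u v huv w
    have h1 := Der.ncard_orbit_subgroup (Hs G u v) w
    have h3 : ¬ 3 ≤ (orbit (Hs G u v) w).ncard := fun h => by
      have : w ∈ (big (Hs G u v) : Set Ω) := h
      rw [hb u v huv] at this
      exact this
    have h4 := ((stabilizer G w).subgroupOf (Hs G u v)).card_mul_index
    rw [card_Hs h2 hαβ huv, ← Subgroup.inf_subgroupOf_left,
      Nat.card_congr (Subgroup.subgroupOfEquivOfLe inf_le_left).toEquiv,
      Subgroup.inf_subgroupOf_left] at h4
    change _ * (stabilizer G w).relIndex _ = _ at h4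
    rw [← h4, ← h1, mul_comm]
    exact Nat.mul_le_mul_right _ (by omega)
  have hmove : ∀ g : G, g ≠ 1 → ∃ x : Ω, g • x ≠ x := fun g hg => by
    by_contra hc
    push Not at hc
    exact hg (FaithfulSMul.eq_of_smul_eq_smul (α := Ω) fun ω => by rw [hc, one_smul])
  have hex : ∀ K : Subgroup G, 1 < Nat.card K → ∃ g ∈ K, g ≠ 1 := fun K hK => by
    by_contra hc
    push Not at hc
    rw [(Subgroup.eq_bot_iff_forall K).2 hc] at hK
    simp at hK
  obtain ⟨k, hk, hk1⟩ := hex (Hs G α β) (by omega)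
  obtain ⟨γ, hγ⟩ := hmove k hk1
  have hαγ : α ≠ γ := fun e => hγ (e ▸ hk.1)
  have hβγ : β ≠ γ := fun e => hγ (e ▸ hk.2)
  have hlt : 2 * Nat.card (Hs G α β ⊓ stabilizer G γ : Subgroup G) ≤ Nat.card (Hs G α β) := by
    have h4 := ((stabilizer G γ).subgroupOf (Hs G α β)).card_mul_index
    have h5 : ((stabilizer G γ).subgroupOf (Hs G α β)).index ≠ 1 := fun h =>
      hγ (Subgroup.subgroupOf_eq_top.1 (Subgroup.index_eq_one.1 h) hk)
    have h6 : ((stabilizer G γ).subgroupOf (Hs G α β)).index ≠ 0 :=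
      Subgroup.index_ne_zero_of_finite
    rw [← Subgroup.inf_subgroupOf_left,
      Nat.card_congr (Subgroup.subgroupOfEquivOfLe inf_le_left).toEquiv,
      Subgroup.inf_subgroupOf_left] at h4
    rw [← h4, mul_comm]
    exact Nat.mul_le_mul_left _ (by omega)
  obtain ⟨r, hr, hr1⟩ := hex (Hs G α β ⊓ stabilizer G γ) (by have := hcard α β hαβ γ; omega)
  obtain ⟨δ, hδ⟩ := hmove r hr1
  have key : ∀ x y : Ω, r • x = x → r • y = y → x ≠ y → x ≠ γ →
      Hs G x y = Hs G α β → Hs G x δ = Hs G δ (r • δ) := by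
    intro x y hx hy hxy hxγ e
    have hxδ : x ≠ δ := fun e => hδ (e ▸ hx)
    refine Hs_eq_of_le h2 hxδ hδ.symm fun g hg => ⟨hg.2, ?_⟩
    have c1 : ∀ z, r • z = z → x ≠ z → ∀ g ∈ Hs G x δ, g • z = z → g • r • δ = r • δ := by
      intro z hz hxz g hg hgz
      rw [← mul_smul, hcomm x z hxz g ⟨hg.1, hgz⟩ r ⟨hx, hz⟩, mul_smul, hg.2]
    by_cases hgy : g • y = y
    · exact c1 y hy hxy g hg hgy
    by_cases hgγ : g • γ = γ
    · exact c1 γ hr.2 hxγ g hg hgγ
    by_cases h3 : Hs G x δ ⊓ stabilizer G y ≤ stabilizer G γ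
    · exfalso
      have h4 : Hs G x δ ⊓ stabilizer G y ≤ Hs G α β ⊓ stabilizer G γ := fun g hg =>
        ⟨e ▸ ⟨hg.1.1, hg.2⟩, h3 hg⟩
      have h5 := Subgroup.eq_of_le_of_card_ge h4 (by have := hcard x δ hxδ y; omega)
      rw [← h5] at hr
      exact hδ hr.1.2
    · obtain ⟨g', hg', hg'γ⟩ := SetLike.not_le_iff_exists.1 h3
      have h4 := hidx x δ hxδ γ g hg g' hg'.1 hgγ hg'γ
      have h5 := c1 γ hr.2 hxγ (g'⁻¹ * g) (Subgroup.mul_mem _ (Subgroup.inv_mem _ hg'.1) hg)
        (by rw [mul_smul, h4, inv_smul_smul])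
      rw [mul_smul, inv_smul_eq_iff, c1 y hy hxy g' hg'.1 hg'.2] at h5
      exact h5
  have e1 := key α β hr.1.1 hr.1.2 hαβ hαγ rfl
  have e2 := key β α hr.1.2 hr.1.1 hαβ.symm hβγ (Hs_comm _ _)
  have hαδ : α ≠ δ := fun e => hδ (e ▸ hr.1.1)
  have e3 := Hs_eq_of_le h2 hαδ hαβ fun g hg => ⟨hg.1, by
    rw [e1, ← e2] at hg; exact hg.1⟩
  have := hr.1
  rw [← e3] at this
  exact hδ this.2

/-- a non-empty set of at most three points in long orbits gives an element of order three moving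
exactly these points -/
theorem exists_three [Finite G] [Finite Ω] {H : Subgroup G} (h0 : (big H : Set Ω) ≠ ∅)
    (h3 : (big H : Set Ω).ncard ≤ 3) :
    ∃ x ∈ H, orderOf x = 3 ∧ ∀ ω : Ω, ω ∉ (big H : Set Ω) → x • ω = ω := by
  obtain ⟨ω, hω⟩ := Set.nonempty_iff_ne_empty.2 h0
  have h1 : orbit H ω ⊆ big H := fun x hx => by
    change 3 ≤ _
    rw [orbit_eq_iff.2 hx]; exact hω
  have h4 : (orbit H ω).ncard = 3 := le_antisymm ((Set.ncard_le_ncard h1).trans h3) hω
  have h5 : 3 ∣ Nat.card H := by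
    rw [← h4, Der.ncard_orbit_subgroup]
    exact Subgroup.relIndex_dvd_card _ _
  obtain ⟨x, hx⟩ := exists_prime_orderOf_dvd_card' (p := 3) h5
  rw [← Subgroup.orderOf_coe] at hx
  refine ⟨x, x.2, hx, fun ω hω => ?_⟩
  have h6 := sq_fix hω (H.mul_mem x.2 x.2)
  have h7 : (x : G) * x * (x * x) = x := by
    have := pow_orderOf_eq_one (x : G)
    rw [hx] at this
    calc (x : G) * x * (x * x) = x ^ 3 * x := by simp [pow_succ, mul_assoc]
      _ = x := by rw [this, one_mul]
  rwa [← mul_smul, h7] at h6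

theorem not_three [Finite G] [Finite Ω] [FaithfulSMul G Ω] (h2 : Two G Ω) (hn : 7 ≤ Nat.card Ω)
    (hb : ∀ u v : Ω, u ≠ v → (big (Hs G u v) : Set Ω).ncard ≤ 3) {α β : Ω} (hαβ : α ≠ β) :
    (big (Hs G α β) : Set Ω) = ∅ := by
  classical
  by_contra h0
  obtain ⟨x, hx, hx3, hfix⟩ := exists_three h0 (hb α β hαβ)
  obtain ⟨c, hc⟩ : ∃ c : Ω, x • c ≠ c := by
    by_contra hc
    push Not at hc
    have : x = 1 := FaithfulSMul.eq_of_smul_eq_smul (α := Ω) fun ω => by rw [hc, one_smul]
    rw [this, orderOf_one] at hx3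
    exact absurd hx3 (by norm_num)
  have hx3' : x * x * x = 1 := by
    have := pow_orderOf_eq_one x
    rw [hx3] at this
    simpa [pow_succ] using this
  have hc2 : x • x • c ≠ c := fun e => hc (by
    calc x • c = x • x • x • c := by rw [e]
      _ = c := by rw [← mul_smul, ← mul_smul, hx3', one_smul])
  have hc3 : x • x • c ≠ x • c := fun e => hc (MulAction.injective x e)
  have hcα : c ≠ α := fun e => hc (e ▸ hx.1)
  obtain ⟨g, hg1, hg2⟩ := h2 c (x • c) c α hc.symm hcα
  -- the support of `x`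
  have hsupp : ∀ ω : Ω, x • ω ≠ ω → ω ∈ ({c, x • c, x • x • c} : Set Ω) := by
    have : ({c, x • c, x • x • c} : Set Ω) = big (Hs G α β) := by
      refine Set.eq_of_subset_of_ncard_le ?_ ?_
      · intro ω hω
        by_contra h
        have := hfix ω h
        rcases hω with rfl | rfl | rfl
        exacts [hc this, hc3 this, hc3 (MulAction.injective x this)]
      · rw [Set.ncard_eq_three.2 ⟨_, _, _, hc.symm, hc2.symm, hc3.symm, rfl⟩]
        exact hb α β hαβ
    intro ω hω
    rw [this]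
    by_contra h
    exact hω (hfix ω h)
  have := Fintype.ofFinite Ω
  obtain ⟨u, hu, v, hv, huv⟩ : ∃ u ∈ ({c, x • c, x • x • c, α, g • x • x • c} : Finset Ω)ᶜ,
      ∃ v ∈ ({c, x • c, x • x • c, α, g • x • x • c} : Finset Ω)ᶜ, u ≠ v := by
    rw [← Finset.one_lt_card, Finset.card_compl, ← Nat.card_eq_fintype_card]
    have : ({c, x • c, x • x • c, α, g • x • x • c} : Finset Ω).card ≤ 5 := Finset.card_le_five
    omega
  have hxu : ∀ u ∈ ({c, x • c, x • x • c, α, g • x • x • c} : Finset Ω)ᶜ,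
      x • u = u ∧ (g * x * g⁻¹) • u = u := by
    intro u hu
    simp only [Finset.mem_compl, Finset.mem_insert, Finset.mem_singleton, not_or] at hu
    constructor
    · by_contra h
      rcases hsupp u h with h | h | h
      exacts [hu.1 h, hu.2.1 h, hu.2.2.1 h]
    · rw [mul_smul, mul_smul, smul_eq_iff_eq_inv_smul]
      by_contra h
      have h' := hsupp _ h
      simp only [Set.mem_insert_iff, Set.mem_singleton_iff, inv_smul_eq_iff] at h'
      rcases h' with h | h | h
      exacts [hu.1 (h.trans hg1), hu.2.2.2.1 (h.trans hg2), hu.2.2.2.2 h]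
  have hxH : x ∈ Hs G u v := ⟨(hxu u hu).1, (hxu v hv).1⟩
  have hyH : g * x * g⁻¹ ∈ Hs G u v := ⟨(hxu u hu).2, (hxu v hv).2⟩
  have h4 : 4 ≤ (orbit (Hs G u v) c).ncard := by
    refine le_trans ?_ (Set.ncard_le_ncard (s := {α, c, x • c, x • x • c}) ?_)
    · rw [Set.ncard_insert_of_notMem, Set.ncard_eq_three.2 ⟨_, _, _, hc.symm, hc2.symm, hc3.symm, rfl⟩]
      have hα : x • α = α := hx.1
      rintro (h | h | h)
      · exact hcα h.symm
      · exact hcα (MulAction.injective x (hα.trans h)).symm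
      · exact hcα (MulAction.injective x (hα.trans (MulAction.injective x (hα.trans h)))).symm
    · rintro y (rfl | rfl | rfl | rfl)
      · refine ⟨⟨_, hyH⟩, ?_⟩
        change (g * x * g⁻¹) • c = _
        rw [mul_smul, mul_smul, inv_smul_eq_iff.2 hg1.symm, hg2]
      exacts [mem_orbit_self _, ⟨⟨x, hxH⟩, rfl⟩,
        ⟨⟨x * x, Subgroup.mul_mem _ hxH hxH⟩, mul_smul x x c⟩]
  have h5 : orbit (Hs G u v) c ⊆ big (Hs G u v) := fun y hy => by
    change 3 ≤ _
    rw [orbit_eq_iff.2 hy]; omega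
  have := (Set.ncard_le_ncard h5).trans (hb u v huv)
  omega

end Cfsg.Agent.Perm.DerTwo
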