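import Mathlib

/-! Fourier analysis on the group ring of a dihedral group, with values in the algebraic integers. -/

set_option autoImplicit false

namespace Cfsg.Agent.DihSR

open Finset DihedralGroup

/-- the ring of algebraic integers -/
abbrev O : Type := integralClosure ℤ ℂ

theorem O_int_dvd {c m : ℤ} (hc : c ≠ 0) (h : (c : O) ∣ (m : O)) : c ∣ m := by
  obtain ⟨y, hy⟩ := h
  have h1 : (m : ℂ) = c * (y : ℂ) := by exact_mod_cast congrArg Subtype.val hy
  have hc' : (c : ℂ) ≠ 0 := by exact_mod_cast hc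
  have h2 : (y : ℂ) = algebraMap ℚ ℂ ((m : ℚ) / c) := by
    rw [map_div₀]; simp only [eq_ratCast, Rat.cast_intCast]
    rw [h1]; field_simp
  have h3 : IsIntegral ℤ ((m : ℚ) / c) := by
    have := y.2
    rw [mem_integralClosure_iff, h2] at this
    exact (isIntegral_algebraMap_iff (algebraMap ℚ ℂ).injective).1 this
  obtain ⟨k, hk⟩ := IsIntegrallyClosed.isIntegral_iff.1 h3
  refine ⟨k, ?_⟩
  have hc'' : (c : ℚ) ≠ 0 := by exact_mod_cast hc
  have : (m : ℚ) = c * k := by
    rw [show (k : ℚ) = m / c from hk]; field_simp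
  exact_mod_cast this

theorem O_sqrt (a : O) : ∃ s : O, s ^ 2 = a := by
  obtain ⟨s, hs⟩ := IsAlgClosed.exists_pow_nat_eq (a : ℂ) two_pos
  exact ⟨⟨s, IsIntegral.of_pow two_pos (hs ▸ a.2)⟩, Subtype.ext hs⟩

theorem O_dvd_of_sq {c x : O} (hc : c ≠ 0) (h : c ^ 2 ∣ x ^ 2) : c ∣ x := by
  obtain ⟨y, hy⟩ := h
  have hc' : (c : ℂ) ≠ 0 := fun e => hc (Subtype.ext e)
  have h1 : (x : ℂ) ^ 2 = c ^ 2 * (y : ℂ) := congrArg Subtype.val hy
  refine ⟨⟨x / c, IsIntegral.of_pow two_pos ?_⟩, Subtype.ext ?_⟩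
  · rw [div_pow, h1, mul_div_cancel_left₀ _ (pow_ne_zero _ hc')]; exact y.2
  · show (x : ℂ) = c * (x / c)
    field_simp

section Lift

variable {R : Type*} [CommRing R] {p : ℕ}

theorem sub_pow_eq (hp : p.Prime) (x y : R) :
    ∃ g, x ^ p - y ^ p = (x - y) * ((x - y) ^ (p - 1) + p * g) := by
  obtain ⟨r, hr⟩ := exists_add_pow_prime_eq hp (x - y) y
  rw [sub_add_cancel] at hr
  refine ⟨y * r, ?_⟩
  rw [hr, mul_add, ← pow_succ', Nat.sub_add_cancel hp.one_le]; ring

theorem lift_pow (hp : p.Prime) (K : Ideal R) (hK : (p : R) ∈ K) {x y : R} (h : x - y ∈ K) (N : ℕ) :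
    x ^ p ^ N - y ^ p ^ N ∈ K ^ (N + 1) := by
  induction N with
  | zero => simpa using h
  | succ N ih =>
    obtain ⟨g, hg⟩ := sub_pow_eq hp (x ^ p ^ N) (y ^ p ^ N)
    rw [pow_succ p, pow_mul, pow_mul, hg, pow_succ K (N + 1)]
    refine Ideal.mul_mem_mul ih (K.add_mem ?_ (K.mul_mem_right _ hK))
    exact K.pow_mem_of_mem (Ideal.pow_le_self (Nat.succ_ne_zero N) ih) _ (by have := hp.two_le; omega)

theorem lift_pow2 (hp : p.Prime) (K : Ideal R) (hK : (p : R) ∈ K) {x y y' : R}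
    (h : (x - y) * (x - y') ∈ K) (N : ℕ) :
    (x ^ p ^ N - y ^ p ^ N) * (x ^ p ^ N - y' ^ p ^ N) ∈ K ^ (N + 1) := by
  induction N with
  | zero => simpa using h
  | succ N ih =>
    obtain ⟨g, hg⟩ := sub_pow_eq hp (x ^ p ^ N) (y ^ p ^ N)
    obtain ⟨g', hg'⟩ := sub_pow_eq hp (x ^ p ^ N) (y' ^ p ^ N)
    rw [pow_succ p, pow_mul, pow_mul, pow_mul, hg, hg', pow_succ K (N + 1), mul_mul_mul_comm]
    refine Ideal.mul_mem_mul ih ?_
    rw [add_mul, mul_add, ← mul_pow]
    refine K.add_mem (K.add_mem ?_ (K.mul_mem_left _ (K.mul_mem_right _ hK)))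
      (K.mul_mem_right _ (K.mul_mem_right _ hK))
    exact K.pow_mem_of_mem (Ideal.pow_le_self (Nat.succ_ne_zero N) ih) _ (by have := hp.two_le; omega)

theorem lift_tr (hp : p.Prime) (K : Ideal R) (hK : (p : R) ∈ K) {a s a' s' : R}
    (h1 : a - a' ∈ K) (h2 : s ^ 2 - s' ^ 2 ∈ K) (N : ℕ) :
    (((a + s) ^ p ^ N + (a - s) ^ p ^ N) - ((a' + s') ^ p ^ N + (a' - s') ^ p ^ N)) ^ 2 ∈
      K ^ (N + 1) := by
  have key : ∀ {a s a' s' : R}, a - a' ∈ K → s ^ 2 - s' ^ 2 ∈ K →
      ((a + s) ^ p ^ N - (a' + s') ^ p ^ N) * ((a + s) ^ p ^ N - (a' - s') ^ p ^ N) ∈ K ^ (N + 1) := by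
    intro a s a' s' h1 h2
    refine lift_pow2 hp K hK ?_ N
    have : (a + s - (a' + s')) * (a + s - (a' - s')) = (a - a') * (a - a' + 2 * s) + (s ^ 2 - s' ^ 2) := by
      ring
    rw [this]; exact K.add_mem (K.mul_mem_right _ h1) h2
  have k1 := key h1 h2
  have k2 := key (s := -s) (s' := s') h1 (by rwa [neg_sq])
  have h1' : a' - a ∈ K := by simpa using K.neg_mem h1
  have h2' : s' ^ 2 - s ^ 2 ∈ K := by simpa using K.neg_mem h2
  have k3 := key h1' h2'
  have k4 := key (s := -s') (s' := s) h1' (by rwa [neg_sq])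
  rw [← sub_eq_add_neg] at k2 k4
  generalize (a + s) ^ p ^ N = u at *
  generalize (a - s) ^ p ^ N = v at *
  generalize (a' + s') ^ p ^ N = u' at *
  generalize (a' - s') ^ p ^ N = v' at *
  have := (K ^ (N + 1)).add_mem ((K ^ (N + 1)).add_mem k1 k2) ((K ^ (N + 1)).add_mem k3 k4)
  convert this using 1
  ring

end Lift

variable {n : ℕ} [NeZero n]

/-- the standard character -/
noncomputable def ω (n : ℕ) [NeZero n] : AddChar (ZMod n) O where
  toFun x := ⟨ZMod.stdAddChar x, IsIntegral.of_pow (NeZero.pos n) (by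
    rw [← AddChar.map_nsmul_eq_pow, nsmul_eq_mul, ZMod.natCast_self, zero_mul,
      AddChar.map_zero_eq_one]; exact isIntegral_one)⟩
  map_zero_eq_one' := Subtype.ext (AddChar.map_zero_eq_one _)
  map_add_eq_mul' x y := Subtype.ext (AddChar.map_add_eq_mul _ x y)

theorem ω_eq_one {x : ZMod n} : ω n x = 1 ↔ x = 0 := by
  constructor
  · intro h
    have : ZMod.stdAddChar x = ZMod.stdAddChar (0 : ZMod n) := by
      rw [AddChar.map_zero_eq_one]; exact congrArg Subtype.val h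
    exact ZMod.injective_stdAddChar this
  · rintro rfl; exact AddChar.map_zero_eq_one _

theorem sum_ω (b : ZMod n) : ∑ x, ω n (x * b) = if b = 0 then (n : O) else 0 := by
  have := AddChar.sum_mulShift (ψ := ω n) b
    (AddChar.zmod_char_primitive_of_eq_one_only_at_zero _ _ fun t ht => ω_eq_one.1 ht)
  rw [this, ZMod.card]
  split_ifs <;> simp

/-- Fourier transform -/
noncomputable def ft (a : ZMod n → ℤ) (j : ZMod n) : O := ∑ i, (a i : O) * ω n (i * j)

theorem ft_inv (a : ZMod n → ℤ) (z : ZMod n) : ∑ j, ft a j * ω n (-(j * z)) = n * (a z : O) := by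
  simp only [ft, sum_mul]
  rw [sum_comm]
  have : ∀ i, ∑ j, (a i : O) * ω n (i * j) * ω n (-(j * z)) = (a i : O) * if i = z then (n : O) else 0 := by
    intro i
    simp only [mul_assoc, ← AddChar.map_add_eq_mul]
    rw [← mul_sum, ← if_congr (sub_eq_zero (a := i) (b := z)) rfl rfl, ← sum_ω]
    congr 1
    exact sum_congr rfl fun j _ => by congr 1; ring
  simp only [this]
  simp [mul_comm]

theorem ft_conv (a b : ZMod n → ℤ) (j : ZMod n) :
    ft (fun z => ∑ x, a x * b (z - x)) j = ft a j * ft b j := by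
  simp only [ft, Int.cast_sum, Int.cast_mul, sum_mul, mul_sum]
  rw [sum_comm]
  conv_rhs => rw [sum_comm]
  refine sum_congr rfl fun x _ => ?_
  rw [← Equiv.sum_comp (Equiv.addRight x)]
  refine sum_congr rfl fun y _ => ?_
  simp only [Equiv.coe_addRight, add_sub_cancel_right, add_mul, AddChar.map_add_eq_mul]
  ring

theorem ft_neg (a : ZMod n → ℤ) (j : ZMod n) : ft (fun x => a (-x)) j = ft a (-j) := by
  simp only [ft]
  rw [← Equiv.sum_comp (Equiv.neg _)]
  simp

theorem ft_corr (a b : ZMod n → ℤ) (j : ZMod n) :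
    ft (fun z => ∑ x, a x * b (z + x)) j = ft a (-j) * ft b j := by
  rw [← ft_neg, ← ft_conv]
  congr 1
  funext z
  rw [← Equiv.sum_comp (Equiv.neg _)]
  simp [sub_eq_add_neg]

theorem ft_add (a b : ZMod n → ℤ) (j : ZMod n) : ft (fun z => a z + b z) j = ft a j + ft b j := by
  simp [ft, add_mul, sum_add_distrib]

theorem ft_zero (a : ZMod n → ℤ) : ft a 0 = ((∑ i, a i : ℤ) : O) := by simp [ft]

theorem ft_unit (a : ZMod n → ℤ) {u : ZMod n} (hu : IsUnit u) (h : ∀ i, a (u * i) = a i)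
    (j : ZMod n) : ft a (u * j) = ft a j := by
  obtain ⟨u, rfl⟩ := hu
  simp only [ft]
  conv_rhs => rw [← Equiv.sum_comp u.mulLeft]
  refine sum_congr rfl fun i _ => ?_
  simp only [Units.mulLeft_apply, h]
  congr 2; ring

theorem ft_shift (a : ZMod n → ℤ) (y j : ZMod n) :
    ft (fun x => a (x + y)) j * ω n (y * j) = ft a j := by
  simp only [ft, sum_mul]
  conv_rhs => rw [← Equiv.sum_comp (Equiv.addRight y)]
  refine sum_congr rfl fun i _ => ?_
  simp only [Equiv.coe_addRight, add_mul, AddChar.map_add_eq_mul, mul_assoc]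

theorem ft_of_per {a : ZMod n → ℤ} {y j : ZMod n} (h : ∀ x, a (x + y) = a x) (hj : y * j ≠ 0) :
    ft a j = 0 := by
  have := ft_shift a y j
  simp only [h] at this
  by_contra h0
  exact hj (ω_eq_one.1 (mul_left_cancel₀ h0 (this.trans (mul_one _).symm)))

theorem per_of_ft {a : ZMod n → ℤ} {y : ZMod n} (h : ∀ j, y * j ≠ 0 → ft a j = 0) (x : ZMod n) :
    a (x + y) = a x := by
  have h1 : (n : O) * (a (x + y) : O) = n * (a x : O) := by
    rw [← ft_inv, ← ft_inv]
    refine sum_congr rfl fun j _ => ?_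
    by_cases hj : y * j = 0
    · rw [mul_add, mul_comm j y, hj, add_zero]
    · rw [h j hj, zero_mul, zero_mul]
  have h2 : (n : O) ≠ 0 := Nat.cast_ne_zero.2 (NeZero.ne n)
  exact_mod_cast mul_left_cancel₀ h2 h1

theorem ft_conj (a : ZMod n → ℤ) (j : ZMod n) :
    ((ft a (-j) : O) : ℂ) = (starRingEnd ℂ) (ft a j : O) := by
  simp only [ft, AddSubmonoidClass.coe_finsetSum, MulMemClass.coe_mul, map_sum, map_mul,
    SubringClass.coe_intCast, map_intCast]
  refine sum_congr rfl fun i _ => ?_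
  congr 1
  rw [mul_neg]
  exact AddChar.map_neg_eq_conj ZMod.stdAddChar (i * j)

theorem ft_eq_zero_of {a : ZMod n → ℤ} {j : ZMod n} (h : ft a (-j) * ft a j = 0) : ft a j = 0 := by
  rcases mul_eq_zero.1 h with h1 | h1
  · have := ft_conj a j
    rw [h1] at this
    exact Subtype.ext ((map_eq_zero _).1 this.symm)
  · exact h1

/-- the integral group ring of the dihedral group -/
abbrev ZD (n : ℕ) : Type := MonoidAlgebra ℤ (DihedralGroup n)

theorem sum_dih {M : Type*} [AddCommMonoid M] (F : DihedralGroup n → M) :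
    ∑ h, F h = ∑ i, F (r i) + ∑ i, F (sr i) := by
  rw [← Equiv.sum_comp equivSum.symm, Fintype.sum_sum_type]; rfl

theorem coeff_mul' (f g : ZD n) (h : DihedralGroup n) :
    (f * g).coeff h = ∑ x, f.coeff x * g.coeff (x⁻¹ * h) := by
  rw [MonoidAlgebra.coeff_mul_apply_left, Finsupp.sum_fintype _ _ (by simp)]

theorem mul_r (f g : ZD n) (z : ZMod n) : (f * g).coeff (r z) =
    ∑ x, f.coeff (r x) * g.coeff (r (z - x)) + ∑ x, f.coeff (sr x) * g.coeff (sr (z + x)) := by
  rw [coeff_mul', sum_dih]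
  simp [neg_add_eq_sub, add_comm z]

theorem mul_sr (f g : ZD n) (z : ZMod n) : (f * g).coeff (sr z) =
    ∑ x, f.coeff (r x) * g.coeff (sr (z + x)) + ∑ x, f.coeff (sr x) * g.coeff (r (z - x)) := by
  rw [coeff_mul', sum_dih]
  simp

/-- transform of the rotation part -/
noncomputable def α (f : ZD n) : ZMod n → O := ft fun i => f.coeff (r i)
/-- transform of the reflection part -/
noncomputable def β (f : ZD n) : ZMod n → O := ft fun i => f.coeff (sr i)

theorem α_mul (f g : ZD n) (j : ZMod n) : α (f * g) j = α f j * α g j + β f (-j) * β g j := by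
  simp only [α, β, mul_r]
  rw [ft_add, ft_conv (fun i => f.coeff (r i)) (fun i => g.coeff (r i)),
    ft_corr (fun i => f.coeff (sr i)) (fun i => g.coeff (sr i))]

theorem β_mul (f g : ZD n) (j : ZMod n) : β (f * g) j = α f (-j) * β g j + β f j * α g j := by
  simp only [α, β, mul_sr]
  rw [ft_add, ft_conv (fun i => f.coeff (sr i)) (fun i => g.coeff (r i)),
    ft_corr (fun i => f.coeff (r i)) (fun i => g.coeff (sr i))]

theorem α_one (j : ZMod n) : α (1 : ZD n) j = 1 := by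
  simp only [α, ft, MonoidAlgebra.one_def, MonoidAlgebra.coeff_single_apply, one_def, r.injEq]
  rw [sum_eq_single 0] <;> simp +contextual [eq_comm]

theorem β_one (j : ZMod n) : β (1 : ZD n) j = 0 := by
  refine sum_eq_zero fun i _ => ?_
  have : (1 : DihedralGroup n) ≠ sr i := by rw [one_def]; exact fun h => by cases h
  simp [MonoidAlgebra.one_def, this]

theorem α_neg {f : ZD n} (hf : ∀ i, f.coeff (r (-i)) = f.coeff (r i)) (j : ZMod n) :
    α f (-j) = α f j := by
  simp only [α, ← ft_neg, hf]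

theorem α_pow {f : ZD n} (hf : ∀ i, f.coeff (r (-i)) = f.coeff (r i)) (j : ZMod n) {s : O}
    (hs : s ^ 2 = β f (-j) * β f j) (M : ℕ) :
    2 * α (f ^ M) j = (α f j + s) ^ M + (α f j - s) ^ M := by
  suffices h : ∃ Q : O, β (f ^ M) j = Q * β f j ∧
      (α f j + s) ^ M = α (f ^ M) j + Q * s ∧ (α f j - s) ^ M = α (f ^ M) j - Q * s by
    obtain ⟨Q, -, h1, h2⟩ := h
    rw [h1, h2]; ring
  induction M with
  | zero => exact ⟨0, by simp [β_one], by simp [α_one], by simp [α_one]⟩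
  | succ M ih =>
    obtain ⟨Q, h0, h1, h2⟩ := ih
    refine ⟨α f j * Q + α (f ^ M) j, ?_, ?_, ?_⟩
    · rw [pow_succ', β_mul, α_neg hf, h0]; ring
    · rw [pow_succ', pow_succ', α_mul, h0, h1]; linear_combination Q * hs
    · rw [pow_succ', pow_succ', α_mul, h0, h2]; linear_combination Q * hs

theorem ft_sub_mem (a : ZMod n → ℤ) (j d : ZMod n) :
    ft a (j + d) - ft a j ∈ Ideal.span {ω n d - 1} := by
  simp only [ft, ← sum_sub_distrib]
  refine Ideal.sum_mem _ fun i _ => ?_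
  rw [mul_add, AddChar.map_add_eq_mul, ← mul_sub, ← mul_sub_one]
  refine Ideal.mul_mem_left _ _ (Ideal.mul_mem_left _ _ ?_)
  rw [Ideal.mem_span_singleton, ← ZMod.natCast_zmod_val i, ← nsmul_eq_mul, AddChar.map_nsmul_eq_pow]
  exact sub_one_dvd_pow_sub_one _ _

/-- Teichmüller type congruence -/
theorem teich {p k m : ℕ} (hp : p.Prime) (hp2 : p ≠ 2) (hn : n = p ^ k * m) (hm : m.Coprime p)
    (e : ℕ) : ∃ N0, ∀ N, N0 ≤ N → ∀ f : ZD n, (∀ i, f.coeff (r (-i)) = f.coeff (r i)) →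
      ∀ z : ZMod n, (m : ZMod n) * z ≠ 0 → (p : ℤ) ^ e ∣ (f ^ p ^ N).coeff (r z) := by
  let K : Ideal O := Ideal.span {ω n m - 1, (p : O)}
  have hpK : (p : O) ∈ K := Ideal.subset_span (by simp)
  have hη : ω n m ^ p ^ k = 1 := by
    rw [← AddChar.map_nsmul_eq_pow, ω_eq_one, nsmul_eq_mul, ← Nat.cast_mul, ← hn, ZMod.natCast_self]
  obtain ⟨L, hL⟩ : ∃ L, K ^ L ≤ Ideal.span {(p : O)} := by
    refine Ideal.exists_pow_le_of_le_radical_of_fg (Ideal.span_le.2 ?_) (Submodule.fg_span (by simp))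
    rintro x (rfl | rfl)
    · refine ⟨p ^ k, ?_⟩
      obtain ⟨c, hc⟩ := exists_add_pow_prime_pow_eq hp (ω n m - 1) 1 k
      rw [sub_add_cancel, hη, one_pow] at hc
      rw [Ideal.mem_span_singleton]
      exact ⟨-((ω n m - 1) * 1 * c), by linear_combination -hc⟩
    · exact Ideal.le_radical (Ideal.mem_span_singleton_self _)
  set E := e + 2 * k with hE
  refine ⟨L * (E * 2), fun N hN f hf z hz => ?_⟩
  have hp0 : (p : O) ≠ 0 := Nat.cast_ne_zero.2 hp.ne_zero
  have h1 : ∀ j, (p : O) ^ E ∣ 2 * α (f ^ p ^ N) (j + m) - 2 * α (f ^ p ^ N) j := by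
    intro j
    obtain ⟨s, hs⟩ := O_sqrt (β f (-j) * β f j)
    obtain ⟨s', hs'⟩ := O_sqrt (β f (-(j + m)) * β f (j + m))
    rw [α_pow hf j hs, α_pow hf _ hs']
    have hI : Ideal.span {ω n m - 1} ≤ K := Ideal.span_mono (by simp)
    have h2 := lift_tr hp K hpK (hI (ft_sub_mem (fun i => f.coeff (r i)) j m)) (s := s') (s' := s)
      (by
        have a1 := hI (ft_sub_mem (fun i => f.coeff (sr i)) j m)
        have a2 := hI (ft_sub_mem (fun i => f.coeff (sr i)) (-(j + m)) m)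
        rw [show -(j + (m : ZMod n)) + m = -j by ring] at a2
        rw [hs, hs']
        have := K.sub_mem (K.mul_mem_left (β f (-(j + m))) a1) (K.mul_mem_right (β f j) a2)
        convert this using 1
        simp only [β]; ring) N
    refine O_dvd_of_sq (pow_ne_zero _ hp0) ?_
    rw [← pow_mul, ← Ideal.mem_span_singleton, ← Ideal.span_singleton_pow]
    refine Ideal.pow_right_mono hL _ ?_
    rw [← pow_mul]
    exact Ideal.pow_le_pow_right (by omega) h2
  have h2 : ∀ (t : ℕ) j, (p : O) ^ E ∣ 2 * α (f ^ p ^ N) (j + t * m) - 2 * α (f ^ p ^ N) j := by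
    intro t j
    induction t with
    | zero => simp
    | succ t ih =>
      have := dvd_add (h1 (j + t * m)) ih
      rwa [sub_add_sub_cancel, add_assoc, ← add_one_mul, ← Nat.cast_succ] at this
  set c := (f ^ p ^ N).coeff (r z) with hc
  have h3 : ∀ t : ℕ, (p : O) ^ E ∣ 2 * n * (c : O) - 2 * n * (c : O) * ω n (-(m * z)) ^ t := by
    intro t
    have e1 := ft_inv (fun i => (f ^ p ^ N).coeff (r i)) z
    have e2 := e1
    rw [← Equiv.sum_comp (Equiv.addRight ((t : ZMod n) * m))] at e2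
    rw [mul_assoc, ← e1]
    nth_rw 1 [e1]
    rw [← e2, mul_sum, mul_sum, sum_mul, ← sum_sub_distrib]
    refine dvd_sum fun j _ => ?_
    have e3 : ω n (-((j + t * m) * z)) = ω n (-(j * z)) * ω n (-(m * z)) ^ t := by
      rw [← AddChar.map_nsmul_eq_pow, ← AddChar.map_add_eq_mul, nsmul_eq_mul]
      congr 1; ring
    simp only [Equiv.coe_addRight, e3]
    have := (h2 t j).mul_right (ω n (-(j * z)) * ω n (-(m * z)) ^ t)
    convert this using 1
    simp only [α]; ring
  have h4 : ∑ t ∈ range (p ^ k), ω n (-(m * z)) ^ t = 0 := by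
    have h5 : ω n (-(m * z)) - 1 ≠ 0 := fun h => hz (neg_eq_zero.1 (ω_eq_one.1 (sub_eq_zero.1 h)))
    refine (mul_eq_zero.1 ((geom_sum_mul _ _).trans ?_)).resolve_right h5
    rw [← AddChar.map_nsmul_eq_pow, sub_eq_zero, ω_eq_one, nsmul_eq_mul, mul_neg, ← mul_assoc,
      ← Nat.cast_mul, ← hn, ZMod.natCast_self, zero_mul, neg_zero]
  have h5 := dvd_sum (s := range (p ^ k)) fun t _ => h3 t
  rw [sum_sub_distrib, sum_const, card_range, nsmul_eq_mul, ← mul_sum, h4, mul_zero, sub_zero] at h5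
  have h6 : (p : ℤ) ^ E ∣ (p : ℤ) ^ (2 * k) * ((2 * m : ℕ) * c) := by
    refine O_int_dvd (pow_ne_zero _ (Int.natCast_ne_zero.2 hp.ne_zero)) ?_
    convert h5 using 1
    · push_cast; rfl
    · rw [hn]; push_cast; ring
  rw [hE, pow_add, mul_comm] at h6
  have h7 := Int.dvd_of_mul_dvd_mul_left (pow_ne_zero _ (Int.natCast_ne_zero.2 hp.ne_zero)) h6
  refine IsCoprime.dvd_of_dvd_mul_left ?_ h7
  rw [← Nat.cast_pow, Nat.isCoprime_iff_coprime]
  exact (Nat.Coprime.mul_right ((Nat.coprime_primes hp Nat.prime_two).2 hp2) hm.symm).pow_left e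

end Cfsg.Agent.DihSR
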