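import Cfsg.Agent.Perm.DihSR1

/-! Primitive Schur rings over a dihedral group: basic properties, multipliers, rational closure. -/

set_option autoImplicit false

namespace Cfsg.Agent.DihSR

open Finset DihedralGroup

variable {n : ℕ}

/-- elements constant on the classes -/
def IV (E : Setoid (DihedralGroup n)) (f : ZD n) : Prop := ∀ x y, E x y → f.coeff x = f.coeff y

/-- primitive Schur ring -/
structure SR (E : Setoid (DihedralGroup n)) : Prop where
  one : ∀ x, E x 1 → x = 1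
  inv : ∀ x y, E x y → E x⁻¹ y⁻¹
  mul : ∀ f g, IV E f → IV E g → IV E (f * g)
  prim : ∀ K : Subgroup (DihedralGroup n), (∀ x y, E x y → x ∈ K → y ∈ K) → K = ⊥ ∨ K = ⊤

variable [NeZero n] {E : Setoid (DihedralGroup n)}

/-- element with given coefficients -/
noncomputable def mkD (F : DihedralGroup n → ℤ) : ZD n := .ofCoeff (Finsupp.equivFunOnFinite.symm F)

@[simp] theorem coeff_mkD (F : DihedralGroup n → ℤ) (x : DihedralGroup n) : (mkD F).coeff x = F x := rfl

open Classical in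
/-- class sum -/
noncomputable def cls (E : Setoid (DihedralGroup n)) (x : DihedralGroup n) : ZD n :=
  mkD fun y => if E x y then 1 else 0

open Classical in
theorem coeff_cls (x y : DihedralGroup n) : (cls E x).coeff y = if E x y then 1 else 0 := rfl

theorem cls_pos {x y : DihedralGroup n} (h : E x y) : (cls E x).coeff y = 1 := by
  rw [coeff_cls, if_pos h]

theorem cls_neg {x y : DihedralGroup n} (h : ¬ E x y) : (cls E x).coeff y = 0 := by
  rw [coeff_cls, if_neg h]

theorem cls_01 (x y : DihedralGroup n) : (cls E x).coeff y = 0 ∨ (cls E x).coeff y = 1 := by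
  by_cases h : E x y
  · exact Or.inr (cls_pos h)
  · exact Or.inl (cls_neg h)

theorem cls_iv (x : DihedralGroup n) : IV E (cls E x) := fun y z h => by
  classical
  simp only [coeff_cls]
  exact if_congr ⟨fun h' => E.trans h' h, fun h' => E.trans h' (E.symm h)⟩ rfl rfl

theorem cls_mul_pos (a b : DihedralGroup n) : 0 < (cls E a * cls E b).coeff (a * b) := by
  rw [coeff_mul']
  refine sum_pos' (fun x _ => mul_nonneg ?_ ?_) ⟨a, mem_univ _, ?_⟩
  · rcases cls_01 (E := E) a x with h | h <;> omega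
  · rcases cls_01 (E := E) b (x⁻¹ * (a * b)) with h | h <;> omega
  · rw [inv_mul_cancel_left, cls_pos (E.refl a), cls_pos (E.refl b)]; exact one_pos

theorem SR.mul_cls (h : SR E) {a b y : DihedralGroup n} (hy : E (a * b) y) :
    ∃ a' b', E a a' ∧ E b b' ∧ y = a' * b' := by
  have h1 := cls_mul_pos (E := E) a b
  rw [h.mul _ _ (cls_iv a) (cls_iv b) _ _ hy, coeff_mul'] at h1
  obtain ⟨x, -, hx⟩ := exists_ne_zero_of_sum_ne_zero h1.ne'
  refine ⟨x, x⁻¹ * y, ?_, ?_, (mul_inv_cancel_left _ _).symm⟩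
  · by_contra hc; exact hx (by rw [cls_neg hc, zero_mul])
  · by_contra hc; exact hx (by rw [cls_neg hc, mul_zero])

theorem SR.core (h : SR E) (P : DihedralGroup n → Prop) (h1 : P 1) (hi : ∀ y, P y → P y⁻¹)
    (hm : ∀ a b, (∀ y, E a y → P y) → (∀ y, E b y → P y) → P (a * b)) {w : DihedralGroup n}
    (hw : ¬ P w) {x : DihedralGroup n} (hx : x ≠ 1) : ∃ y, E x y ∧ ¬ P y := by
  let K : Subgroup (DihedralGroup n) :=
    { carrier := {a | ∀ y, E a y → P y}
      one_mem' := fun y hy => by rw [h.one y (E.symm hy)]; exact h1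
      inv_mem' := fun {a} ha y hy => by
        simpa using hi _ (ha y⁻¹ (by simpa using h.inv _ _ hy))
      mul_mem' := fun {a b} ha hb y hy => by
        obtain ⟨a', b', e1, e2, rfl⟩ := h.mul_cls hy
        exact hm _ _ (fun z hz => ha z (E.trans e1 hz)) fun z hz => hb z (E.trans e2 hz) }
  rcases h.prim K (fun a b hab ha y hy => ha y (E.trans hab hy)) with hK | hK
  · by_contra hc
    push Not at hc
    exact hx (Subgroup.mem_bot.1 (hK ▸ (hc : x ∈ K)))
  · exact (hw ((hK ▸ Subgroup.mem_top w : w ∈ K) w (E.refl w))).elim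

theorem SR.meet_sr (h : SR E) {x : DihedralGroup n} (hx : x ≠ 1) : ∃ i, E x (sr i) := by
  obtain ⟨y, hy, hy'⟩ := h.core (fun y => ∃ i, y = r i) ⟨0, rfl⟩
    (by rintro _ ⟨i, rfl⟩; exact ⟨-i, rfl⟩)
    (fun a b ha hb => by
      obtain ⟨i, rfl⟩ := ha a (E.refl a)
      obtain ⟨j, rfl⟩ := hb b (E.refl b)
      exact ⟨_, rfl⟩) (w := sr 0) (by simp) hx
  cases y with
  | r i => exact (hy' ⟨i, rfl⟩).elim
  | sr i => exact ⟨i, hy⟩

theorem SR.self_inv (h : SR E) (x : DihedralGroup n) : E x⁻¹ x := by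
  by_cases hx : x = 1
  · rw [hx, inv_one]
  · obtain ⟨i, hi⟩ := h.meet_sr hx
    exact E.trans (by simpa using h.inv _ _ hi) (E.symm hi)

theorem SR.sym (h : SR E) {f : ZD n} (hf : IV E f) (i : ZMod n) : f.coeff (r (-i)) = f.coeff (r i) :=
  hf _ _ (h.self_inv (r i))

omit [NeZero n] in
theorem r_eq_one {i : ZMod n} : (r i : DihedralGroup n) = 1 ↔ i = 0 := by rw [one_def, r.injEq]

omit [NeZero n] in
theorem sr_ne_one (i : ZMod n) : (sr i : DihedralGroup n) ≠ 1 := by
  rw [one_def]; exact fun h => by cases h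

omit [NeZero n] in
theorem r_one_ne (hn : 1 < n) : (r 1 : DihedralGroup n) ≠ 1 := by
  haveI : Fact (1 < n) := ⟨hn⟩
  simp [r_eq_one]

omit [NeZero n] in
theorem unit_surj {u : ZMod n} (hu : IsUnit u) (i : ZMod n) : ∃ j, u * j = i := by
  obtain ⟨u, rfl⟩ := hu
  exact ⟨u⁻¹ * i, by simp⟩

theorem SR.meet_r (h : SR E) (hn : 1 < n) (x : DihedralGroup n) : ∃ i, E x (r i) := by
  by_contra hc
  push Not at hc
  have h1 : ∀ y, E x y → ∃ i, y = sr i := fun y hy => by
    cases y with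
    | r i => exact (hc i hy).elim
    | sr i => exact ⟨i, rfl⟩
  obtain ⟨a, rfl⟩ := h1 x (E.refl x)
  have h2 : ∀ y, E (sr a) y → y = sr a := fun y hy => by
    by_contra hne
    obtain ⟨c, hc'⟩ := h.meet_sr (x := sr a * y) fun e => hne (by simpa using eq_inv_of_mul_eq_one_right e)
    obtain ⟨a', b', e1, e2, e3⟩ := h.mul_cls hc'
    obtain ⟨i, rfl⟩ := h1 _ e1
    obtain ⟨j, rfl⟩ := h1 _ (E.trans hy e2)
    simp at e3
  obtain ⟨y, hy, hy'⟩ := h.core (fun y => y = 1 ∨ y = sr a) (Or.inl rfl)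
    (by rintro _ (rfl | rfl) <;> simp)
    (fun b c hb hc => by
      rcases hb b (E.refl b) with rfl | rfl <;> rcases hc c (E.refl c) with rfl | rfl <;> simp)
    (w := r 1) (by simp [r_one_ne hn]) (sr_ne_one a)
  exact hy' (Or.inr (h2 y hy))

theorem SR.comm (h : SR E) {f g : ZD n} (hf : IV E f) (hg : IV E g) : Commute f g := by
  refine MonoidAlgebra.coeff_injective (Finsupp.ext fun x => ?_)
  rw [← h.mul _ _ hf hg _ _ (h.self_inv x), coeff_mul', coeff_mul',
    ← Equiv.sum_comp (Equiv.mulLeft x⁻¹)]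
  refine sum_congr rfl fun y _ => ?_
  rw [mul_comm, ← hf _ _ (h.self_inv _), ← hg _ _ (h.self_inv _)]
  simp

omit [NeZero n] in
theorem SR.iv_one (h : SR E) : IV E (1 : ZD n) := fun x y hxy => by
  classical
  simp only [MonoidAlgebra.one_def, MonoidAlgebra.coeff_single, Finsupp.single_apply]
  refine if_congr ⟨?_, ?_⟩ rfl rfl
  · rintro rfl; exact (h.one _ (E.symm hxy)).symm
  · rintro rfl; exact (h.one _ hxy).symm

omit [NeZero n] in
theorem SR.pow (h : SR E) {f : ZD n} (hf : IV E f) (N : ℕ) : IV E (f ^ N) := by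
  induction N with
  | zero => rw [pow_zero]; exact h.iv_one
  | succ N ih => rw [pow_succ]; exact h.mul _ _ ih hf

omit [NeZero n] in
theorem IV.sub {f g : ZD n} (hf : IV E f) (hg : IV E g) : IV E (f - g) := fun x y h => by
  simp [hf _ _ h, hg _ _ h]

/-- all coefficients are divisible by `q` -/
def Dv (q : ℤ) (f : ZD n) : Prop := ∀ x, q ∣ f.coeff x

theorem SR.dv (h : SR E) (hn : 1 < n) {f : ZD n} (hf : IV E f) {q : ℤ}
    (hq : ∀ i, q ∣ f.coeff (r i)) : Dv q f := fun x => by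
  obtain ⟨i, hi⟩ := h.meet_r hn x
  rw [hf _ _ hi]; exact hq i

theorem Dv.mul_sub {q : ℤ} {f f' g g' : ZD n} (hf : Dv q (f - f')) (hg : Dv q (g - g')) :
    Dv q (f * g - f' * g') := fun x => by
  rw [show f * g - f' * g' = (f - f') * g + f' * (g - g') by noncomm_ring, MonoidAlgebra.coeff_add,
    Finsupp.add_apply, coeff_mul', coeff_mul']
  exact dvd_add (dvd_sum fun y _ => (hf y).mul_right _) (dvd_sum fun y _ => (hg _).mul_left _)

theorem sum_pow_comm {R ι : Type*} [Ring R] {q : ℕ} (hq : q.Prime) (s : Finset ι) (x : ι → R)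
    (hc : ∀ i j, Commute (x i) (x j)) : ∃ k, (∑ i ∈ s, x i) ^ q = ∑ i ∈ s, x i ^ q + q * k := by
  classical
  induction s using Finset.induction_on with
  | empty => exact ⟨0, by simp [hq.ne_zero]⟩
  | insert a s ha ih =>
    obtain ⟨k, hk⟩ := ih
    obtain ⟨c, hc'⟩ := (Commute.sum_right s x (x a) fun i _ => hc a i).exists_add_pow_prime_eq hq
    refine ⟨k + x a * (∑ i ∈ s, x i) * c, ?_⟩
    rw [sum_insert ha, sum_insert ha, hc', hk]; noncomm_ring

omit [NeZero n] in
theorem coeff_cast_mul (q : ℕ) (k : ZD n) (x : DihedralGroup n) :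
    ((q : ZD n) * k).coeff x = q * k.coeff x := by
  rw [← nsmul_eq_mul, MonoidAlgebra.coeff_smul_apply, nsmul_eq_mul]

theorem frob {q : ℕ} (hq : q.Prime) (hq2 : q ≠ 2) {f : ZD n}
    (hf : ∀ i, f.coeff (r (-i)) = f.coeff (r i)) (z : ZMod n) :
    (q : ℤ) ∣ (f ^ q).coeff (r z) - ∑ i, if (q : ZMod n) * i = z then f.coeff (r i) else 0 := by
  classical
  set a : ZD n := ∑ i, MonoidAlgebra.single (r i) (f.coeff (r i)) with ha
  have a1 : ∀ i, a.coeff (r i) = f.coeff (r i) := fun i => by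
    simp [ha, MonoidAlgebra.coeff_sum, Finsupp.finsetSum_apply, Finsupp.single_apply]
  have a2 : ∀ i, a.coeff (sr i) = 0 := fun i => by
    simp [ha, MonoidAlgebra.coeff_sum, Finsupp.finsetSum_apply]
  obtain ⟨J, hJ⟩ : ∃ J, f = a + J := ⟨f - a, by abel⟩
  have j1 : ∀ i, J.coeff (r i) = 0 := fun i => by
    have := a1 i
    rw [hJ] at this
    simpa using this
  have hc : Commute a J := by
    refine MonoidAlgebra.coeff_injective (Finsupp.ext fun x => ?_)
    cases x with
    | r i => simp [mul_r, a2, j1]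
    | sr i =>
      simp only [mul_sr, a2, j1, mul_zero, zero_mul, sum_const_zero, add_zero, zero_add, a1]
      conv_rhs => rw [← Equiv.sum_comp (Equiv.addLeft i)]
      simp [hf, mul_comm]
  have j2 : ∀ t i, (J ^ (2 * t + 1)).coeff (r i) = 0 := by
    intro t
    induction t with
    | zero => simpa using j1
    | succ t ih =>
      intro i
      rw [show 2 * (t + 1) + 1 = 2 * t + 1 + 1 + 1 by ring, pow_succ, pow_succ]
      simp [mul_r, mul_sr, ih, j1]
  obtain ⟨t, ht⟩ := hq.odd_of_ne_two hq2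
  obtain ⟨c, hc'⟩ := hc.exists_add_pow_prime_eq hq
  obtain ⟨k, hk⟩ := sum_pow_comm hq univ (fun i => (MonoidAlgebra.single (r i) (f.coeff (r i)) : ZD n))
    fun i j => by simp [Commute, SemiconjBy, MonoidAlgebra.single_mul_single, mul_comm, add_comm]
  rw [← ha, ← hJ] at *
  have j3 := j2 t z
  rw [← ht] at j3
  rw [hc', hk, mul_assoc, mul_assoc]
  simp only [MonoidAlgebra.coeff_add, Finsupp.add_apply, coeff_cast_mul, j3, add_zero,
    MonoidAlgebra.coeff_sum, Finsupp.finsetSum_apply, MonoidAlgebra.single_pow,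
    MonoidAlgebra.coeff_single, Finsupp.single_apply, r_pow, r.injEq]
  rw [add_assoc, add_sub_right_comm, ← sum_sub_distrib]
  refine dvd_add (dvd_sum fun i _ => ?_) (dvd_add (dvd_mul_right _ _) (dvd_mul_right _ _))
  rw [mul_comm]
  split_ifs
  · haveI := Fact.mk hq
    rw [← ZMod.intCast_zmod_eq_zero_iff_dvd]
    simp
  · simp

theorem frob_unit {q : ℕ} (hq : q.Prime) (hq2 : q ≠ 2) (hu : IsUnit (q : ZMod n)) {f : ZD n}
    (hf : ∀ i, f.coeff (r (-i)) = f.coeff (r i)) (z : ZMod n) :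
    (q : ℤ) ∣ (f ^ q).coeff (r (q * z)) - f.coeff (r z) := by
  simpa [hu.mul_right_inj] using frob hq hq2 hf (q * z)

theorem SR.unit_refl (h : SR E) {u : ZMod n} (hu : IsUnit u) {i j : ZMod n}
    (hij : E (r (u * i)) (r (u * j))) : E (r i) (r j) := by
  obtain ⟨q, hq2, hq, rfl⟩ := Nat.forall_exists_prime_gt_and_eq_mod hu 2
  have h1 := frob_unit hq hq2.ne' hu (h.sym (cls_iv (r i))) i
  have h2 := frob_unit hq hq2.ne' hu (h.sym (cls_iv (r i))) j
  rw [h.pow (cls_iv _) q _ _ hij, cls_pos (E.refl _)] at h1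
  by_contra hc
  rw [cls_neg hc] at h2
  have := Int.le_of_dvd one_pos (by simpa using dvd_sub h2 h1 : (q : ℤ) ∣ 1)
  omega

theorem SR.unit_iff (h : SR E) {u : ZMod n} (hu : IsUnit u) {i j : ZMod n} :
    E (r (u * i)) (r (u * j)) ↔ E (r i) (r j) := by
  refine ⟨h.unit_refl hu, fun hij => ?_⟩
  obtain ⟨u, rfl⟩ := hu
  exact h.unit_refl (u⁻¹).isUnit (by simpa using hij)

/-- invariance under multipliers -/
def Rt (f : ZD n) : Prop := ∀ u, IsUnit u → ∀ i, f.coeff (r (u * i)) = f.coeff (r i)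

/-- rational closure -/
def ratE (E : Setoid (DihedralGroup n)) : Setoid (DihedralGroup n) where
  r x y := ∀ f, IV E f → Rt f → f.coeff x = f.coeff y
  iseqv := ⟨fun _ _ _ _ => rfl, fun h f a b => (h f a b).symm,
    fun h h' f a b => (h f a b).trans (h' f a b)⟩

omit [NeZero n] in
theorem ratE_unit {u : ZMod n} (hu : IsUnit u) (i : ZMod n) : ratE E (r (u * i)) (r i) :=
  fun _ _ b => b u hu i

omit [NeZero n] in
theorem iv_ratE {f : ZD n} : IV (ratE E) f ↔ IV E f ∧ Rt f :=
  ⟨fun h => ⟨fun _ _ hxy => h _ _ fun _ a _ => a _ _ hxy, fun _ hu i => h _ _ (ratE_unit hu i)⟩,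
    fun h _ _ hxy => hxy f h.1 h.2⟩

theorem eq_of_primes {u : ZMod n} (hu : IsUnit u) {a b : ℤ}
    (h : ∀ q : ℕ, q.Prime → q ≠ 2 → (q : ZMod n) = u → (q : ℤ) ∣ a - b) : a = b := by
  obtain ⟨q, hq2, hq, e⟩ := Nat.forall_exists_prime_gt_and_eq_mod hu (2 + (a - b).natAbs)
  exact sub_eq_zero.1 (Int.eq_zero_of_dvd_of_natAbs_lt_natAbs (h q hq (by omega) e) (by omega))

theorem SR.rat (h : SR E) (hn : 1 < n) : SR (ratE E) where
  one x hx := by
    classical
    have := hx 1 h.iv_one fun u hu i => by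
      simp [MonoidAlgebra.one_def, Finsupp.single_apply, one_def, -r_zero, eq_comm, hu.mul_right_eq_zero]
    by_contra hc
    simp [MonoidAlgebra.one_def, Ne.symm hc] at this
  inv x y hxy f a b := by rw [a _ _ (h.self_inv x), a _ _ (h.self_inv y), hxy f a b]
  prim K hK := h.prim K fun x y hxy => hK x y fun _ a _ => a _ _ hxy
  mul f g hf hg := by
    rw [iv_ratE] at *
    refine ⟨h.mul _ _ hf.1 hg.1, fun u hu z => eq_of_primes hu ?_⟩
    rintro q hq hq2 rfl
    have key : ∀ {f : ZD n}, IV E f ∧ Rt f → Dv q (f ^ q - f) := fun {f} hf =>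
      h.dv hn ((h.pow hf.1 q).sub hf.1) fun i => by
        obtain ⟨j, rfl⟩ := unit_surj hu i
        simpa [hf.2 _ hu] using frob_unit hq hq2 hu (h.sym hf.1) j
    have h1 := (key hf).mul_sub (key hg) (r (q * z))
    have h2 := frob_unit hq hq2 hu (h.sym (h.mul _ _ hf.1 hg.1)) z
    rw [(h.comm hf.1 hg.1).mul_pow] at h2
    simpa using dvd_sub h2 h1

theorem aug_mul (f g : ZD n) : ∑ x, (f * g).coeff x = (∑ x, f.coeff x) * ∑ x, g.coeff x := by
  simp only [coeff_mul', sum_mul]
  rw [sum_comm]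
  refine sum_congr rfl fun y _ => ?_
  rw [← mul_sum]
  congr 1
  exact Equiv.sum_comp (Equiv.mulLeft y⁻¹) _

theorem aug_pow (f : ZD n) (N : ℕ) : ∑ x, (f ^ N).coeff x = (∑ x, f.coeff x) ^ N := by
  classical
  induction N with
  | zero => simp [MonoidAlgebra.one_def, Finsupp.single_apply]
  | succ N ih => rw [pow_succ, aug_mul, ih, pow_succ]

theorem SR.of_rat (h : SR E) (hn : 1 < n) (h2 : ∀ x y, x ≠ 1 → y ≠ 1 → ratE E x y)
    {x y : DihedralGroup n} (hx : x ≠ 1) (hy : y ≠ 1) : E x y := by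
  classical
  have hc : ∀ {a b}, E a b → cls E a = cls E b := fun {a b} hab =>
    MonoidAlgebra.coeff_injective (Finsupp.ext fun z => by
      simp only [coeff_cls]
      exact if_congr ⟨E.trans (E.symm hab), E.trans hab⟩ rfl rfl)
  have hu' : ∀ {u : ZMod n}, IsUnit u → ∀ i j,
      (cls E (r (u * i))).coeff (r (u * j)) = (cls E (r i)).coeff (r j) := fun hu i j => by
    simp only [coeff_cls]
    exact if_congr (h.unit_iff hu) rfl rfl
  let A : ZD n := mkD fun a => ∑ i, (cls E a).coeff (r i)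
  let B : ZD n := mkD fun a => ∑ z, (cls E a).coeff z
  have hA : ∀ a, a ≠ 1 → A.coeff a = A.coeff x := fun a ha =>
    h2 a x ha hx A (fun a b hab => by simp only [A, coeff_mkD, hc hab]) fun u hu i => by
      simp only [A, coeff_mkD]
      rw [← Equiv.sum_comp hu.unit.mulLeft]
      exact sum_congr rfl fun j _ => hu' hu i j
  have hB : ∀ a, a ≠ 1 → B.coeff a = B.coeff x := fun a ha =>
    h2 a x ha hx B (fun a b hab => by simp only [B, coeff_mkD, hc hab]) fun u hu i => by
      simp only [B, coeff_mkD]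
      refine (eq_of_primes hu ?_).symm
      rintro q hq hq2 rfl
      have h1 : Dv q (cls E (r i) ^ q - cls E (r (q * i))) :=
        h.dv hn ((h.pow (cls_iv _) q).sub (cls_iv _)) fun j => by
          obtain ⟨j, rfl⟩ := unit_surj hu j
          simpa [hu' hu] using frob_unit hq hq2 hu (h.sym (cls_iv (r i))) j
      have h3 := dvd_sum (s := univ) fun z _ => h1 z
      simp only [MonoidAlgebra.coeff_sub, Finsupp.sub_apply, sum_sub_distrib, aug_pow] at h3
      haveI := Fact.mk hq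
      rw [← ZMod.intCast_zmod_eq_zero_iff_dvd] at h3 ⊢
      rwa [Int.cast_sub, Int.cast_pow, ZMod.pow_card, ← Int.cast_sub] at h3
  have h1 : ∀ z, (cls E 1).coeff z = if z = 1 then 1 else 0 := fun z => by
    rw [coeff_cls]
    exact if_congr ⟨fun e => h.one _ (E.symm e), fun e => e ▸ E.refl _⟩ rfl rfl
  have A1 : A.coeff 1 = 1 := by simp [A, h1, r_eq_one]
  have B1 : B.coeff 1 = 1 := by simp [B, h1]
  have hd : ∑ a, A.coeff a = ∑ i, B.coeff (r i) := by
    simp only [A, B, coeff_mkD]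
    rw [sum_comm]
    refine sum_congr rfl fun i _ => sum_congr rfl fun a _ => ?_
    simp only [coeff_cls]
    exact if_congr ⟨E.symm, E.symm⟩ rfl rfl
  rw [← add_sum_erase _ _ (mem_univ 1), ← add_sum_erase _ _ (mem_univ 0), A1, ← one_def, B1,
    sum_congr rfl fun a ha => hA a (ne_of_mem_erase ha),
    sum_congr rfl fun i hi => hB (r i) fun e => ne_of_mem_erase hi (r.inj e)] at hd
  simp only [sum_const, card_erase_of_mem (mem_univ _), card_univ, DihedralGroup.card, ZMod.card,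
    nsmul_eq_mul, add_right_inj] at hd
  have hd2 : ((2 * n - 1 : ℕ) : ℤ) ∣ B.coeff x := by
    refine IsCoprime.dvd_of_dvd_mul_left ?_ ⟨_, hd.symm⟩
    exact ⟨1, -2, by omega⟩
  have hb : B.coeff x = (#{z | E x z} : ℕ) := by simp [B, coeff_cls]
  rw [hb, Int.natCast_dvd_natCast] at hd2
  have hs : ({z | E x z} : Finset _) ⊆ univ.erase 1 := fun z hz =>
    mem_erase.2 ⟨fun e => hx (h.one _ (e ▸ (mem_filter.1 hz).2)), mem_univ _⟩
  have := eq_of_subset_of_card_le hs (by
    rw [card_erase_of_mem (mem_univ _), card_univ, DihedralGroup.card]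
    exact Nat.le_of_dvd (card_pos.2 ⟨x, by simp⟩) hd2)
  exact (mem_filter.1 (this ▸ mem_erase.2 ⟨hy, mem_univ _⟩ : y ∈ ({z | E x z} : Finset _))).2

end Cfsg.Agent.DihSR
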