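import Cfsg.Agent.Perm.DihSR2

/-! Primitive rational Schur rings over a dihedral group: reduction to a difference set. -/

set_option autoImplicit false

namespace Cfsg.Agent.DihSR

open Finset DihedralGroup

variable {n : ℕ}

theorem zero_of_coprime {a b : ℕ} (h : a.Coprime b) {z : ZMod n} (ha : (a : ZMod n) * z = 0)
    (hb : (b : ZMod n) * z = 0) : z = 0 := by
  obtain ⟨u, v, huv⟩ := (Nat.isCoprime_iff_coprime.2 h).map (Int.castRingHom (ZMod n))
  simp only [map_natCast] at huv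
  linear_combination u * ha + v * hb - z * huv

variable [NeZero n] {E : Setoid (DihedralGroup n)}

theorem assoc_of {z z' : ZMod n} (h : ∀ t : ℕ, (t : ZMod n) * z = 0 ↔ (t : ZMod n) * z' = 0) :
    ∃ u, IsUnit u ∧ z' = u * z := by
  have key : ∀ {u u' : ZMod n} {d d' : ℕ}, d ∣ n → IsUnit u' →
      (∀ t : ℕ, (t : ZMod n) * (u * d) = 0 → (t : ZMod n) * (u' * d') = 0) → d ∣ d' := by
    rintro u u' d d' ⟨e, he⟩ hu' h
    have h1 := h e (by rw [mul_left_comm, ← Nat.cast_mul, mul_comm e, ← he]; simp)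
    rw [mul_left_comm, hu'.mul_right_eq_zero, ← Nat.cast_mul, ZMod.natCast_eq_zero_iff] at h1
    have he0 : 0 < e := Nat.pos_of_ne_zero (by rintro rfl; exact NeZero.ne n he)
    rw [mul_comm] at he
    exact Nat.dvd_of_mul_dvd_mul_left he0 (he ▸ h1)
  obtain ⟨d, hd, u, hu, rfl⟩ := z.eq_unit_mul_divisor
  obtain ⟨d', hd', u', hu', rfl⟩ := z'.eq_unit_mul_divisor
  obtain rfl := Nat.dvd_antisymm (key hd hu' fun t => (h t).1) (key hd' hu fun t => (h t).2)
  obtain ⟨u, rfl⟩ := hu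
  exact ⟨u' * u⁻¹, hu'.mul (Units.isUnit _), by simp [mul_assoc]⟩

theorem assoc_lev {q c m l : ℕ} (hq : q.Prime) (hn : n = q ^ c * m) {z z' : ZMod n}
    (hz : ((q ^ l * m : ℕ) : ZMod n) * z ≠ 0) (hz' : ((q ^ l * m : ℕ) : ZMod n) * z' ≠ 0)
    (h : ((q ^ (l + 1) : ℕ) : ZMod n) * z = ((q ^ (l + 1) : ℕ) : ZMod n) * z') :
    ∃ u, IsUnit u ∧ z' = u * z := by
  have key : ∀ {z z' : ZMod n}, ((q ^ l * m : ℕ) : ZMod n) * z ≠ 0 →
      ((q ^ (l + 1) : ℕ) : ZMod n) * z = ((q ^ (l + 1) : ℕ) : ZMod n) * z' →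
      ∀ t : ℕ, (t : ZMod n) * z = 0 → (t : ZMod n) * z' = 0 := by
    intro z z' hz h t ht
    by_cases h1 : q ^ (l + 1) ∣ t
    · obtain ⟨s, rfl⟩ := h1
      rw [Nat.cast_mul] at *
      linear_combination ht - s * h
    obtain ⟨v, s, hs, rfl⟩ := Nat.exists_eq_pow_mul_and_not_dvd (n := t)
      (by rintro rfl; exact h1 (dvd_zero _)) q hq.ne_one
    obtain ⟨w, rfl⟩ : ∃ w, l = v + w := Nat.exists_eq_add_of_le (by
      by_contra hc
      exact h1 ((pow_dvd_pow q (by omega)).mul_right _))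
    refine (hz (zero_of_coprime (a := q ^ c) (b := s)
      (((Nat.Prime.coprime_iff_not_dvd hq).2 hs).pow_left _) ?_ ?_)).elim
    · have : ((q ^ c * m : ℕ) : ZMod n) = 0 := by rw [← hn, ZMod.natCast_self]
      push_cast at *
      linear_combination q ^ (v + w) * z * this
    · push_cast at *
      linear_combination q ^ w * m * ht
  exact assoc_of fun t => ⟨key hz h t, key hz' h.symm t⟩

theorem card_fiber {p : ℕ} (hp : p ∣ n) (x0 : ZMod n) :
    #{x | (p : ZMod n) * x = p * x0} = p := by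
  have h1 := IsAddCyclic.card_nsmulAddMonoidHom_ker (ZMod n) p
  rw [Nat.card_zmod, Nat.gcd_eq_right hp] at h1
  conv_rhs => rw [← h1]
  rw [← Fintype.card_subtype, ← Nat.card_eq_fintype_card]
  refine Nat.card_congr ((Equiv.subRight x0).subtypeEquiv fun x => ?_)
  simp [mul_sub, sub_eq_zero]

theorem dvd_sum_fiber {R : Type*} [CommRing R] {p : ℕ} (hp : p ∣ n) (F : ZMod n → R) (z : ZMod n)
    (hF : ∀ x x', (p : ZMod n) * x = z → (p : ZMod n) * x' = z → F x = F x') {c : R}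
    (hc : ∀ x, c ∣ F x) : (p : R) * c ∣ ∑ x with (p : ZMod n) * x = z, F x := by
  by_cases h : ∃ x0, (p : ZMod n) * x0 = z
  · obtain ⟨x0, rfl⟩ := h
    rw [sum_congr rfl fun x hx => hF x x0 (mem_filter.1 hx).2 rfl, sum_const, card_fiber hp,
      nsmul_eq_mul]
    exact mul_dvd_mul_left _ (hc _)
  · rw [sum_eq_zero fun x hx => (h ⟨x, (mem_filter.1 hx).2⟩).elim]
    exact dvd_zero _

theorem exists_div {f : ZD n} (hf : IV E f) {q : ℕ} (h : Dv q f) : ∃ k, IV E k ∧ f = q * k := by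
  refine ⟨mkD fun x => f.coeff x / q, fun x y hxy => by simp [hf _ _ hxy], ?_⟩
  refine MonoidAlgebra.coeff_injective (Finsupp.ext fun x => ?_)
  rw [coeff_cast_mul, coeff_mkD, Int.mul_ediv_cancel' (h x)]

theorem SR.pow_cong (h : SR E) {p m : ℕ} (hp : p.Prime) (hp2 : p ≠ 2) (hm : m.Coprime p) {f : ZD n}
    (hf : IV E f) (h1 : ∀ z, (m : ZMod n) * z ≠ 0 → (p : ℤ) ∣ f.coeff (r z)) (N : ℕ) :
    (∀ z, (m : ZMod n) * z ≠ 0 → (p : ℤ) ∣ (f ^ p ^ N).coeff (r z)) ∧
      ∀ z, (m : ZMod n) * z = 0 → (p : ℤ) ∣ (f ^ p ^ N).coeff (r (p ^ N * z)) - f.coeff (r z) := by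
  induction N with
  | zero => exact ⟨by simpa using h1, by simp⟩
  | succ N ih =>
    have h2 := frob hp hp2 (h.sym (h.pow hf (p ^ N)))
    rw [pow_succ, pow_mul]
    refine ⟨fun z hz => ?_, fun z hz => ?_⟩
    · refine (dvd_sub_left (dvd_sum fun i _ => ?_)).1 (h2 z)
      split_ifs with hi
      · exact ih.1 i fun e => hz (by rw [← hi]; linear_combination p * e)
      · exact dvd_zero _
    · have h3 := h2 (p ^ (N + 1) * z)
      rw [← add_sum_erase _ _ (mem_univ (p ^ N * z)), if_pos (by ring), ← sub_sub] at h3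
      have h4 := dvd_add ((dvd_sub_left (dvd_sum fun i hi => ?_)).1 h3) (ih.2 z hz)
      · simpa using h4
      split_ifs with hi'
      · refine ih.1 i fun e => ne_of_mem_erase hi (sub_eq_zero.1 (zero_of_coprime hm ?_ ?_))
        · linear_combination e - p ^ N * hz
        · linear_combination hi'
      · exact dvd_zero _

theorem SR.v_mul (h : SR E) (hn1 : 1 < n) {p k m : ℕ} (hp : p.Prime) (hp2 : p ≠ 2)
    (hn : n = p ^ k * m) (hm : m.Coprime p) (e : ℕ) : ∀ f g : ZD n, IV E f → IV E g →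
      (∀ z, (m : ZMod n) * z ≠ 0 → (p : ℤ) ^ e ∣ f.coeff (r z)) →
      (∀ z, (m : ZMod n) * z ≠ 0 → (p : ℤ) ^ e ∣ g.coeff (r z)) →
      ∀ z, (m : ZMod n) * z ≠ 0 → (p : ℤ) ^ e ∣ (f * g).coeff (r z) := by
  induction e with
  | zero => simp
  | succ e ih =>
    obtain ⟨N0, hN0⟩ := teich hp hp2 hn hm (e + 1)
    have hm0 : 0 < m := Nat.pos_of_ne_zero (by rintro rfl; exact NeZero.ne n (by simpa using hn))
    have hN := hN0 (m.totient * N0) (Nat.le_mul_of_pos_left _ (Nat.totient_pos.2 hm0))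
    obtain ⟨w, hw⟩ : (m : ℤ) ∣ (p : ℤ) ^ (m.totient * N0) - 1 := by
      have := ((Nat.ModEq.pow_totient hm.symm).pow N0).symm.dvd
      rw [one_pow, ← pow_mul] at this
      exact_mod_cast this
    have hw' : (p : ZMod n) ^ (m.totient * N0) = 1 + m * w := by
      have := congrArg (Int.cast : ℤ → ZMod n) hw
      push_cast at this
      linear_combination this
    generalize m.totient * N0 = N at *
    have hp0 : (p : ℤ) ≠ 0 := Int.natCast_ne_zero.2 hp.ne_zero
    have key : ∀ f : ZD n, IV E f → (∀ z, (m : ZMod n) * z ≠ 0 → (p : ℤ) ^ (e + 1) ∣ f.coeff (r z)) →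
        ∃ f1, IV E f1 ∧ f = f ^ p ^ N + p * f1 ∧
          ∀ z, (m : ZMod n) * z ≠ 0 → (p : ℤ) ^ e ∣ f1.coeff (r z) := by
      intro f hf h1
      have h2 : ∀ z, (m : ZMod n) * z ≠ 0 → (p : ℤ) ∣ f.coeff (r z) := fun z hz =>
        (dvd_pow_self _ (Nat.succ_ne_zero e)).trans (h1 z hz)
      obtain ⟨h3, h4⟩ := h.pow_cong hp hp2 hm hf h2 N
      have h5 := hf.sub (h.pow hf (p ^ N))
      obtain ⟨f1, a, b⟩ := exists_div h5 (q := p) (h.dv hn1 h5 fun z => by
        by_cases hz : (m : ZMod n) * z = 0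
        · have := h4 z hz
          rw [show (p : ZMod n) ^ N * z = z by rw [hw']; linear_combination w * hz] at this
          simpa using dvd_sub_comm.1 this
        · simpa using dvd_sub (h2 z hz) (h3 z hz))
      refine ⟨f1, a, by rw [← b]; abel, fun z hz => Int.dvd_of_mul_dvd_mul_left hp0 ?_⟩
      rw [← coeff_cast_mul, ← b, ← pow_succ']
      simpa using dvd_sub (h1 z hz) (hN f (h.sym hf) z hz)
    intro f g hf hg h1 h2 z hz
    obtain ⟨f1, a1, a2, a3⟩ := key f hf h1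
    obtain ⟨g1, b1, b2, b3⟩ := key g hg h2
    have h3 : f * g = (f * g) ^ p ^ N + p * (f ^ p ^ N * g1 + f1 * g) := by
      rw [(h.comm hf hg).mul_pow, mul_add, ← mul_assoc, (Nat.cast_commute p _).eq, mul_assoc,
        ← add_assoc, ← mul_add, ← b2, ← mul_assoc, ← add_mul, ← a2]
    rw [h3, MonoidAlgebra.coeff_add, Finsupp.add_apply, coeff_cast_mul, MonoidAlgebra.coeff_add,
      Finsupp.add_apply]
    refine dvd_add (hN _ (h.sym (h.mul _ _ hf hg)) z hz) ?_
    rw [pow_succ']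
    refine mul_dvd_mul_left _ (dvd_add (ih _ _ (h.pow hf _) b1 (fun z hz => ?_) b3 z hz)
      (ih _ _ a1 hg a3 (fun z hz => ?_) z hz))
    · exact (pow_dvd_pow _ e.le_succ).trans (hN f (h.sym hf) z hz)
    · exact (pow_dvd_pow _ e.le_succ).trans (h2 z hz)

theorem SR.meet_p (h : SR E) (hn1 : 1 < n) {p k m : ℕ} (hp : p.Prime) (hp2 : p ≠ 2)
    (hn : n = p ^ k * m) (hm : m.Coprime p) (hm0 : (m : ZMod n) ≠ 0) {x : DihedralGroup n}
    (hx : x ≠ 1) : ∃ i, E x (r i) ∧ (m : ZMod n) * i ≠ 0 := by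
  obtain ⟨y, hy, hy'⟩ := h.core (fun y => ∀ i, y = r i → (m : ZMod n) * i = 0)
    (fun i hi => by rw [r_eq_one.1 hi.symm, mul_zero])
    (fun y hy i hi => by simpa using hy (-i) (by simpa using congrArg Inv.inv hi))
    (fun a b ha hb z hz => by
      by_contra hc
      have h1 := cls_mul_pos (E := E) a b
      obtain ⟨e, he⟩ := pow_unbounded_of_one_lt ((cls E a * cls E b).coeff (a * b))
        (show (1 : ℤ) < p by exact_mod_cast hp.one_lt)
      have h2 := h.v_mul hn1 hp hp2 hn hm e _ _ (cls_iv a) (cls_iv b)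
        (fun i hi => by rw [cls_neg fun e => hi (ha _ e i rfl)]; exact dvd_zero _)
        (fun i hi => by rw [cls_neg fun e => hi (hb _ e i rfl)]; exact dvd_zero _) z hc
      rw [← hz] at h2
      exact absurd (Int.le_of_dvd h1 h2) he.not_ge)
    (w := r 1) (fun e => hm0 (by simpa using e 1 rfl)) hx
  push Not at hy'
  obtain ⟨i, rfl, hi⟩ := hy'
  exact ⟨i, hy, hi⟩

theorem SR.ec (h : SR E) (hn1 : 1 < n) (hr : ∀ u, IsUnit u → ∀ i, E (r (u * i)) (r i)) :
    ∃ p : ℕ, p.Prime ∧ p ∣ n ∧ ∀ i j : ZMod n, (p : ZMod n) * i ≠ 0 → (p : ZMod n) * j = p * i →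
      E (r i) (r j) := by
  classical
  by_cases h2 : ∀ {d}, d.Prime → d ∣ n → d = 2
  · have hn := Nat.eq_prime_pow_of_unique_prime_dvd (NeZero.ne n) h2
    obtain ⟨p, hp, hpn⟩ := Nat.exists_prime_and_dvd hn1.ne'
    obtain rfl := h2 hp hpn
    refine ⟨2, hp, hpn, fun i j hi hj => ?_⟩
    obtain ⟨u, hu, rfl⟩ := assoc_lev (l := 1) hp (hn.trans (mul_one _).symm) (z := i) (z' := j)
      (by simpa using hi) (by simpa using hj ▸ hi) (by push_cast at *; linear_combination -2 * hj)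
    exact E.symm (hr u hu i)
  push Not at h2
  obtain ⟨p, hp, hpn, hp2⟩ := h2
  obtain ⟨k, m, hm, hn⟩ := Nat.exists_eq_pow_mul_and_not_dvd (NeZero.ne n) p hp.ne_one
  have hm0 : (m : ZMod n) ≠ 0 := fun e => hm (hpn.trans ((ZMod.natCast_eq_zero_iff _ _).1 e))
  refine ⟨p, hp, hpn, fun i j hi hj => ?_⟩
  obtain ⟨z, hz, hz'⟩ := h.meet_p hn1 hp hp2 hn ((Nat.Prime.coprime_iff_not_dvd hp).2 hm).symm hm0
    (x := r (p * i)) fun e => hi (r_eq_one.1 e)
  have h1 := frob hp hp2 (h.sym (cls_iv (E := E) (r i)))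
  have h3 := dvd_sum_fiber hpn (fun x => (cls E (r i)).coeff (r x)) z (fun x x' hx hx' => by
    obtain ⟨u, hu, rfl⟩ := assoc_lev (l := 1) hp hn (z := x) (z' := x')
      (fun e => hz' (by push_cast at e; linear_combination e - m * hx))
      (fun e => hz' (by push_cast at e; linear_combination e - m * hx'))
      (by push_cast; linear_combination p * hx - p * hx')
    exact (cls_iv _ _ _ (hr u hu x)).symm) (fun _ => one_dvd _)
  rw [mul_one, sum_filter] at h3
  have h4 := (dvd_sub_left h3).1 (h1 z)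
  rw [← h.pow (cls_iv _) p _ _ hz] at h4
  have h5 := (dvd_sub_right h4).1 (h1 (p * i))
  simp only [coeff_cls, ← ite_and, sum_boole, Int.natCast_dvd_natCast] at h5
  have hs : ({x | (p : ZMod n) * x = p * i ∧ E (r i) (r x)} : Finset _) ⊆
      ({x | (p : ZMod n) * x = p * i} : Finset _) := fun x hx =>
    mem_filter.2 ⟨mem_univ _, (mem_filter.1 hx).2.1⟩
  have := eq_of_subset_of_card_le hs (by
    rw [card_fiber hpn]
    exact Nat.le_of_dvd (card_pos.2 ⟨i, by simp⟩) h5)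
  exact (mem_filter.1 (this ▸ mem_filter.2 ⟨mem_univ _, hj⟩ :
    j ∈ ({x | (p : ZMod n) * x = p * i ∧ E (r i) (r x)} : Finset _))).2.2

theorem SR.stab (h : SR E) {f : ZD n} (hf : IV E f) {y : DihedralGroup n} (hy : y ≠ 1)
    (hp : ∀ x, f.coeff (y * x) = f.coeff x) (x : DihedralGroup n) : f.coeff x = f.coeff 1 := by
  let K : Subgroup (DihedralGroup n) :=
    { carrier := {a | ∀ x, f.coeff (a * x) = f.coeff x}
      one_mem' := fun x => by rw [one_mul]
      mul_mem' := fun {a b} ha hb x => by rw [mul_assoc, ha, hb]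
      inv_mem' := fun {a} ha x => by rw [← ha, mul_inv_cancel_left] }
  have h1 : ∀ a, (f * f).coeff a⁻¹ = ∑ x, f.coeff x * f.coeff (a * x) := fun a => by
    rw [coeff_mul']
    exact sum_congr rfl fun x _ => by rw [← mul_inv_rev, hf _ _ (h.self_inv _)]
  have h2 : ∀ a, ∑ x, (f.coeff (a * x) - f.coeff x) ^ 2 =
      2 * ((f * f).coeff 1⁻¹ - (f * f).coeff a⁻¹) := fun a => by
    have := Equiv.sum_comp (Equiv.mulLeft a) fun x => f.coeff x * f.coeff x
    simp only [Equiv.coe_mulLeft] at this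
    rw [h1, h1, two_mul, ← sum_sub_distrib]
    simp only [one_mul]
    nth_rw 1 [sum_sub_distrib]
    rw [← this, ← sum_sub_distrib, ← sum_add_distrib]
    exact sum_congr rfl fun x _ => by ring
  rcases h.prim K (fun a b hab ha x => by
    have h3 := h2 b
    rw [← h.mul _ _ hf hf _ _ (h.inv _ _ hab), ← h2, sum_eq_zero (s := univ) (f := fun x =>
      (f.coeff (a * x) - f.coeff x) ^ 2) fun x _ => by rw [ha, sub_self, sq, mul_zero],
      sum_eq_zero_iff_of_nonneg fun _ _ => sq_nonneg _] at h3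
    exact sub_eq_zero.1 (pow_eq_zero_iff two_ne_zero |>.1 (h3 x (mem_univ x)))) with hK | hK
  · exact (hy (Subgroup.mem_bot.1 (hK ▸ (hp : y ∈ K)))).elim
  · simpa using (hK ▸ Subgroup.mem_top x : x ∈ K) 1

theorem SR.diff (h : SR E) (hn1 : 1 < n) (hr : ∀ u, IsUnit u → ∀ i, E (r (u * i)) (r i)) :
    ∃ y : ZMod n, y ≠ 0 ∧ ∀ x, x ≠ 1 → ¬ E x (r y) →
      ∃ l, ∀ z, z ≠ 1 → (cls E x * cls E x).coeff z = l := by
  classical
  obtain ⟨p, hp, ⟨y, hy⟩, hec⟩ := h.ec hn1 hr
  have hy0 : (p : ZMod n) * y = 0 := by rw [← Nat.cast_mul, ← hy, ZMod.natCast_self]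
  have hy1 : (y : ZMod n) ≠ 0 := fun e => by
    have := Nat.le_of_dvd (Nat.pos_of_ne_zero (by rintro rfl; omega)) ((ZMod.natCast_eq_zero_iff _ _).1 e)
    have := hp.two_le
    nlinarith
  have h1 : ∀ i : ZMod n, (p : ZMod n) * i = 0 → i ≠ 0 → E (r i) (r y) := fun i hi hi0 => by
    have key : ∀ {a b : ZMod n}, (p : ZMod n) * b = 0 → (p : ZMod n) * a = 0 → a ≠ 0 →
        ∀ t : ℕ, (t : ZMod n) * a = 0 → (t : ZMod n) * b = 0 := fun {a b} hb ha ha0 t ht => by
      by_cases hpt : p ∣ t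
      · obtain ⟨s, rfl⟩ := hpt
        push_cast; linear_combination s * hb
      · exact (ha0 (zero_of_coprime ((Nat.Prime.coprime_iff_not_dvd hp).2 hpt) ha ht)).elim
    obtain ⟨u, hu, rfl⟩ := assoc_of fun t => ⟨key hi hy0 hy1 t, key hy0 hi hi0 t⟩
    exact hr u hu _
  have per : ∀ {f : ZD n}, IV E f → f.coeff 1 = f.coeff (r y) → ∀ i,
      f.coeff (r (i + y)) = f.coeff (r i) := fun {f} hf h0 i => by
    have h2 : ∀ i : ZMod n, (p : ZMod n) * i = 0 → f.coeff (r i) = f.coeff (r y) := fun i hi => by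
      by_cases hi0 : i = 0
      · rw [hi0, r_zero, h0]
      · exact hf _ _ (h1 i hi hi0)
    by_cases hi : (p : ZMod n) * i = 0
    · rw [h2 i hi, h2 _ (by linear_combination hi + hy0)]
    · exact (hf _ _ (hec i _ hi (by linear_combination hy0))).symm
  refine ⟨y, hy1, fun x hx hxy => ?_⟩
  have hg := h.mul _ _ (cls_iv x) (cls_iv (E := E) x)
  have ha : ∀ j, (y : ZMod n) * j ≠ 0 → α (cls E x) j = 0 := fun j hj =>
    ft_of_per (per (cls_iv x) (by rw [cls_neg hxy, cls_neg fun e => hx (h.one _ e)])) hj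
  have hb := per_of_ft (a := fun i => (cls E x * cls E x).coeff (sr i)) (y := y) fun j hj => by
    change β _ j = 0
    rw [β_mul, ha j hj, ha (-j) (by simpa using hj), zero_mul, mul_zero, add_zero]
  generalize cls E x * cls E x = g at *
  let f : ZD n := mkD fun z => if z = 1 then g.coeff (r y) else g.coeff z
  have hf : IV E f := fun a b hab => by
    simp only [f, coeff_mkD]
    refine if_congr ⟨?_, ?_⟩ rfl (hg _ _ hab)
    · rintro rfl; exact h.one _ (E.symm hab)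
    · rintro rfl; exact h.one _ hab
  refine ⟨g.coeff (r y), fun z hz => ?_⟩
  simpa [f, hz] using h.stab hf (y := r y) (fun e => hy1 (r_eq_one.1 e)) (fun w => by
    cases w with
    | r i => rw [r_mul_r, add_comm]; exact per hf (by simp [f, r_eq_one, hy1]) i
    | sr i => simpa [f, sr_ne_one] using (hb (i - y)).symm) z

end Cfsg.Agent.DihSR
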