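import Cfsg.Agent.Perm.DihSR3

/-! Wielandt's theorem: a primitive Schur ring over a dihedral group is trivial. -/

set_option autoImplicit false

namespace Cfsg.Agent.DihSR

open Finset DihedralGroup

variable {n : ℕ} [NeZero n] {E : Setoid (DihedralGroup n)}

theorem per_pp {A : ZMod n → ℤ} (hr : ∀ u, IsUnit u → ∀ i, A (u * i) = A i)
    (h01 : ∀ i, A i = 0 ∨ A i = 1) {q v : ℕ} (hq : q.Prime) (hd : q ^ (v + 1) ∣ n)
    (hA : ∀ j, (q : O) ^ (v + 1) ∣ ft A j) {j : ZMod n} (hj : ft A j ≠ 0) : q ^ (v + 1) ∣ j.val := by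
  classical
  obtain ⟨c, m, hm, hn⟩ := Nat.exists_eq_pow_mul_and_not_dvd (NeZero.ne n) q hq.ne_one
  have hm' : m.Coprime q := ((Nat.Prime.coprime_iff_not_dvd hq).2 hm).symm
  obtain ⟨w, rfl⟩ : ∃ w, c = v + 1 + w := Nat.exists_eq_add_of_le
    ((Nat.pow_dvd_pow_iff_le_right hq.one_lt).1 ((hm'.symm.pow_left _).dvd_of_dvd_mul_right (hn ▸ hd)))
  have hn0 : ((q ^ (v + 1 + w) * m : ℕ) : ZMod n) = 0 := by rw [← hn, ZMod.natCast_self]
  set y : ZMod n := ((q ^ w * m : ℕ) : ZMod n) with hy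
  set d : ZMod n := ((q ^ v * m : ℕ) : ZMod n) with hdd
  have hqy : ((q ^ (v + 1) : ℕ) : ZMod n) * y = 0 := by
    rw [hy]; push_cast at *; linear_combination hn0
  have hdy : d * y ≠ 0 := by
    rw [hy, hdd, ← Nat.cast_mul, Ne, ZMod.natCast_eq_zero_iff]
    intro h
    have h1 : q ^ (v + w) * q ∣ q ^ (v + w) * (m * m) := by
      refine (Dvd.intro m ?_).trans (h.trans (dvd_of_eq (by ring)))
      rw [hn]; ring
    exact hm ((hq.dvd_mul.1 (Nat.dvd_of_mul_dvd_mul_left (pow_pos hq.pos _) h1)).elim id id)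
  let D : ZMod n → ℤ := fun z => if d * z = 0 then A (z + y) - A z else 0
  have h0 : ∀ z z', d * z ≠ 0 → d * z' ≠ 0 →
      ((q ^ (v + 1) : ℕ) : ZMod n) * z = ((q ^ (v + 1) : ℕ) : ZMod n) * z' → A z' = A z :=
    fun z z' a b e => by
      obtain ⟨u, hu, rfl⟩ := assoc_lev hq hn a b e
      exact hr u hu z
  have h1 : ∀ z, A (z + y) + D (z + y) = A z + D z := fun z => by
    simp only [D]
    by_cases a : d * z = 0
    · rw [if_pos a, if_neg fun e => hdy (by linear_combination e - a)]; ring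
    · rw [if_neg a]
      split_ifs with b
      · rw [h0 z (z + y + y) a (fun e => hdy (by linear_combination e - b))
          (by linear_combination -2 * hqy)]; ring
      · rw [h0 z (z + y) a b (by linear_combination -hqy)]
  have h2 : ∀ j, y * j ≠ 0 → ft A j + ft D j = 0 := fun j hj => by
    rw [← ft_add]; exact ft_of_per h1 hj
  have h3 : ∀ z j j', d * z = 0 → ((q ^ (w + 1) : ℕ) : ZMod n) * j = ((q ^ (w + 1) : ℕ) : ZMod n) * j' →
      z * j = z * j' := fun z j j' a b => by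
    rw [hdd, ← ZMod.natCast_zmod_val z, ← Nat.cast_mul, ZMod.natCast_eq_zero_iff] at a
    obtain ⟨t, ht⟩ : q ^ (w + 1) ∣ z.val := by
      refine Nat.dvd_of_mul_dvd_mul_left (k := q ^ v * m) (Nat.mul_pos (pow_pos hq.pos _)
        (Nat.pos_of_ne_zero (by rintro rfl; exact hm (dvd_zero _)))) ((dvd_of_eq ?_).trans a)
      rw [hn]; ring
    rw [← ZMod.natCast_zmod_val z, ht, Nat.cast_mul]
    linear_combination t * b
  have h4 : ∀ j j', ((q ^ (w + 1) : ℕ) : ZMod n) * j = ((q ^ (w + 1) : ℕ) : ZMod n) * j' →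
      ft D j = ft D j' := fun j j' b => sum_congr rfl fun z _ => by
    by_cases a : d * z = 0
    · rw [h3 z j j' a b]
    · simp [D, a]
  have h5 : ∀ j, (q : O) ^ (v + 1) ∣ ft D j := fun j => by
    have key : ∀ j, y * j ≠ 0 → (q : O) ^ (v + 1) ∣ ft D j := fun j hj => by
      rw [eq_neg_of_add_eq_zero_right (h2 j hj)]; exact (hA j).neg_right
    by_cases a : y * j = 0
    · rw [h4 j (j + d) (by rw [hdd]; push_cast at *; linear_combination -hn0)]
      exact key _ fun e => hdy (by linear_combination e - a)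
    · exact key j a
  have h6 : ∀ z, D z = 0 := fun z => by
    by_cases a : d * z = 0
    swap
    · simp [D, a]
    have b : ((q ^ (w + 1) : ℕ) : O) * (q : O) ^ (v + 1) ∣ n * (D z : O) := by
      rw [← ft_inv, ← sum_fiberwise (s := univ) (g := fun j => ((q ^ (w + 1) : ℕ) : ZMod n) * j)]
      refine dvd_sum fun t _ => dvd_sum_fiber ⟨q ^ v * m, by rw [hn]; ring⟩ _ _ (fun j j' e e' => ?_)
        fun j => (h5 j).mul_right _
      rw [h4 j j' (e.trans e'.symm), mul_comm j, mul_comm j', h3 z j j' a (e.trans e'.symm)]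
    have hq0 : (q : ℤ) ≠ 0 := Int.natCast_ne_zero.2 hq.ne_zero
    have c : (q : ℤ) ^ (v + 1 + w) * q ∣ (q : ℤ) ^ (v + 1 + w) * (m * D z) := by
      refine O_int_dvd (mul_ne_zero (pow_ne_zero _ hq0) hq0) ?_
      convert b using 1
      · push_cast; ring
      · rw [hn]; push_cast; ring
    have c2 : (q : ℤ) ∣ D z := (Nat.isCoprime_iff_coprime.2 hm'.symm).dvd_of_dvd_mul_left
      (Int.dvd_of_mul_dvd_mul_left (pow_ne_zero _ hq0) c)
    refine Int.eq_zero_of_dvd_of_natAbs_lt_natAbs c2 ?_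
    have := hq.two_le
    simp only [D, if_pos a]
    rcases h01 z with e | e <;> rcases h01 (z + y) with e' | e' <;> omega
  have h7 : y * j = 0 := by
    by_contra a
    have := h2 j a
    rw [show ft D j = 0 by simp [ft, h6], add_zero] at this
    exact hj this
  rw [hy, ← ZMod.natCast_zmod_val j, ← Nat.cast_mul, ZMod.natCast_eq_zero_iff] at h7
  refine Nat.dvd_of_mul_dvd_mul_left (k := q ^ w * m) (Nat.mul_pos (pow_pos hq.pos _)
    (Nat.pos_of_ne_zero (by rintro rfl; exact hm (dvd_zero _)))) ((dvd_of_eq ?_).trans h7)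
  rw [hn]; ring

theorem arith {n a b s X l : ℤ} (h1 : n * a = a ^ 2 + s ^ 2 * X) (h2 : s * (X + 1) ≤ n) (hs : 0 < s)
    (sa : s ∣ a) (sn : s ∣ n) (a1 : 1 ≤ a) (a2 : a + 2 ≤ n) (b1 : 1 ≤ b)
    (h3 : (a - b) ^ 2 = s ^ 2) (h4 : a + b = s ^ 2 + l) (h5 : 2 * a * b = l * n) : n = 8 := by
  obtain ⟨a, rfl⟩ := sa
  obtain ⟨n, rfl⟩ := sn
  have e1 : n * a = a ^ 2 + X := mul_left_cancel₀ (pow_pos hs 2).ne' (by linear_combination h1)
  have e2 : X + 1 ≤ n := le_of_mul_le_mul_left h2 hs
  have e3 : 0 < a := by by_contra h; nlinarith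
  have e4 : a < n := by by_contra h; nlinarith
  have e5 : a = 1 ∨ n = a + 1 := by
    by_contra h
    push Not at h
    have : 2 ≤ a := by omega
    have : a + 2 ≤ n := by omega
    nlinarith
  have e6 : b = s * a + s ∨ b = s * a - s := by
    rcases sq_eq_sq_iff_eq_or_eq_neg.1 h3 with h | h
    · right; linarith
    · left; linarith
  obtain rfl : l = s * a + b - s ^ 2 := by linarith
  have key : ∀ n : ℤ, s * (3 - s) * n = 4 * s → 3 ≤ s * n → s * n = 8 := fun n h h' => by
    have h6 : (3 - s) * n = 4 := mul_left_cancel₀ hs.ne' (by linear_combination h)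
    have hn : 0 < n := by by_contra; nlinarith
    have : s < 3 := by by_contra; nlinarith
    interval_cases s <;> omega
  rcases e5 with rfl | rfl <;> rcases e6 with rfl | rfl
  · exact key n (mul_left_cancel₀ hs.ne' (by linear_combination -h5)) (by omega)
  · omega
  · have h6 : s * s * (a + 1) * (s - 1) = 0 := by linear_combination h5
    have : s = 1 := by
      rcases mul_eq_zero.1 h6 with h | h
      · exact absurd h (by positivity)
      · omega
    subst this; omega
  · exact key _ (mul_left_cancel₀ hs.ne' (by linear_combination -h5)) (by omega)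

theorem d16 : ∀ x y w b0 b1 b2 b3 b4 b5 b6 b7 : Fin 2, ∀ A B : Fin 8 → ℤ,
    A = ![(0 : ℤ), x.val, y.val, x.val, w.val, x.val, y.val, x.val] →
    B = ![(b0.val : ℤ), b1.val, b2.val, b3.val, b4.val, b5.val, b6.val, b7.val] →
    (∀ z : Fin 8, z ≠ 0 → ∑ i, A i * A (z - i) + ∑ i, B i * B (z + i) =
      ∑ i, A i * B (z + i) + ∑ i, B i * A (z - i)) →
    (∀ z : Fin 8, ∑ i, A i * B (0 + i) + ∑ i, B i * A (0 - i) =
      ∑ i, A i * B (z + i) + ∑ i, B i * A (z - i)) → (∀ i, B i = 0) ∨ (x = y ∧ y = w) := by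
  simp only [forall_eq_apply_imp_iff, forall_eq]
  decide +kernel

theorem no_diff {g : ZD n} (h01 : ∀ x, g.coeff x = 0 ∨ g.coeff x = 1) (hr : Rt g)
    (hs : ∀ i, g.coeff (r (-i)) = g.coeff (r i)) (h1 : g.coeff 1 = 0) {y : ZMod n} (hy : y ≠ 0)
    (hy1 : g.coeff (r y) = 0) {i0 j0 : ZMod n} (hi : g.coeff (r i0) = 1) (hj : g.coeff (sr j0) = 1)
    {l : ℤ} (hl : ∀ z, z ≠ 1 → (g * g).coeff z = l) : False := by
  classical
  have g0 : ∀ x, 0 ≤ g.coeff x := fun x => by rcases h01 x with h | h <;> omega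
  have g1 : ∀ x, g.coeff x ≤ 1 := fun x => by rcases h01 x with h | h <;> omega
  have g2 : ∀ x, g.coeff x * g.coeff x = g.coeff x := fun x => by rcases h01 x with h | h <;> simp [h]
  set a := ∑ i, g.coeff (r i) with ha
  set b := ∑ i, g.coeff (sr i) with hb
  have a1 : 1 ≤ a := hi ▸ single_le_sum (f := fun i => g.coeff (r i)) (fun i _ => g0 _) (mem_univ i0)
  have b1 : 1 ≤ b := hj ▸ single_le_sum (f := fun i => g.coeff (sr i)) (fun i _ => g0 _) (mem_univ j0)
  have a2 : a + 2 ≤ n := by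
    have h2 : ∑ i ∈ ({0, y} : Finset (ZMod n)), (1 - g.coeff (r i)) ≤ ∑ i, (1 - g.coeff (r i)) :=
      sum_le_sum_of_subset_of_nonneg (subset_univ _) fun i _ _ => sub_nonneg.2 (g1 _)
    rw [sum_pair hy.symm, sum_sub_distrib, hy1, r_zero, h1] at h2
    simp only [sum_const, card_univ, ZMod.card, nsmul_eq_mul] at h2
    omega
  have k1 : (g * g).coeff (r 0) = a + b := by simp [mul_r, hs, g2, ha, hb, -r_zero]
  have α0 : α g 0 = a := ft_zero _
  have β0 : β g 0 = b := ft_zero _
  have e1 : ∀ j, α (g * g) j = (a + b - l : ℤ) + if j = 0 then (l * n : O) else 0 := fun j => by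
    have : ∀ i, (g * g).coeff (r i) = (if i = 0 then a + b - l else 0) + l := fun i => by
      split_ifs with h
      · rw [h, k1]; ring
      · rw [hl _ fun e => h (r_eq_one.1 e), zero_add]
    simp only [α, ft, this, Int.cast_add, add_mul, sum_add_distrib, ← mul_sum, sum_ω]
    congr 1
    · rw [sum_eq_single 0] <;> simp +contextual
    · simp
  have e2 : ∀ j, β (g * g) j = if j = 0 then (l * n : O) else 0 := fun j => by
    simp only [β, ft, hl _ (sr_ne_one _), ← mul_sum, sum_ω]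
    simp
  have z1 : a ^ 2 + b ^ 2 = a + b - l + l * n := by
    have := e1 0
    rw [α_mul, neg_zero, α0, β0, if_pos rfl] at this
    exact_mod_cast (show ((a ^ 2 + b ^ 2 : ℤ) : O) = (a + b - l + l * n : ℤ) by
      push_cast at *; linear_combination this)
  have z2 : 2 * a * b = l * n := by
    have := e2 0
    rw [β_mul, neg_zero, α0, β0, if_pos rfl] at this
    exact_mod_cast (show ((2 * a * b : ℤ) : O) = (l * n : ℤ) by push_cast at *; linear_combination this)
  obtain ⟨s, hs2⟩ : ∃ s : ℕ, (a - b) ^ 2 = (s : ℤ) ^ 2 := ⟨(a - b).natAbs, by simp⟩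
  have z3 : a + b = s ^ 2 + l := by linear_combination z2 + hs2 - z1
  have e3 : ∀ j, j ≠ 0 → α g j ≠ 0 → α g j ^ 2 = (s : O) ^ 2 := fun j hj0 h0 => by
    have t1 := e1 j
    have t2 := e2 j
    rw [if_neg hj0] at t1 t2
    rw [β_mul, α_neg hs, mul_comm (β g j), ← two_mul, mul_eq_zero, mul_eq_zero] at t2
    rw [α_mul, (t2.resolve_left two_ne_zero).resolve_left h0, z3] at t1
    push_cast at t1
    linear_combination t1
  have e4 : ∀ j, j ≠ 0 → (s : O) ∣ α g j := fun j hj0 => by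
    by_cases h0 : α g j = 0
    · rw [h0]; exact dvd_zero _
    · rcases sq_eq_sq_iff_eq_or_eq_neg.1 (e3 j hj0 h0) with h | h <;> simp [h]
  have e5 : (s : O) ∣ α g 0 := by
    have := ft_inv (fun i => g.coeff (r i)) 0
    simp only [r_zero, h1, mul_zero, neg_zero, AddChar.map_zero_eq_one, mul_one, Int.cast_zero] at this
    rw [← add_sum_erase _ _ (mem_univ 0)] at this
    rw [α, eq_neg_of_add_eq_zero_left this]
    exact (dvd_sum fun j hj => e4 j (ne_of_mem_erase hj)).neg_right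
  have e6 : ∀ j, (s : O) ∣ α g j := fun j => by
    by_cases hj0 : j = 0
    · rw [hj0]; exact e5
    · exact e4 j hj0
  have s0 : s ≠ 0 := by
    rintro rfl
    rw [α0, Nat.cast_zero, zero_dvd_iff, Int.cast_eq_zero] at e5
    omega
  have sa : (s : ℤ) ∣ a := O_int_dvd (by omega) (by rw [← α0]; exact_mod_cast e5)
  have sn : s ∣ n := by
    have := ft_inv (fun i => g.coeff (r i)) i0
    simp only [hi, Int.cast_one, mul_one] at this
    refine Int.natCast_dvd_natCast.1 (O_int_dvd (by omega) ?_)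
    push_cast
    rw [← this]
    exact dvd_sum fun j _ => (e6 j).mul_right _
  have e7 : ∀ j, α g j ≠ 0 → s ∣ j.val := fun j hj0 =>
    (Nat.dvd_iff_prime_pow_dvd_dvd _ _).2 fun q v hq hv => by
      cases v with
      | zero => simp
      | succ v =>
        exact per_pp (A := fun i => g.coeff (r i)) hr (fun i => h01 _) hq (hv.trans sn)
          (fun j => dvd_trans (by exact_mod_cast Nat.cast_dvd_cast (α := O) hv) (e6 j)) hj0
  set X : Finset (ZMod n) := {j ∈ univ.erase 0 | α g j ≠ 0} with hX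
  have e8 : s * (#X + 1) ≤ n := by
    obtain ⟨t, ht⟩ := sn
    have h2 : #X ≤ #(Ioo 0 t) := card_le_card_of_injOn (fun j => j.val / s) (fun j hj => by
      obtain ⟨h3, h4⟩ := mem_filter.1 hj
      obtain ⟨c, hc⟩ := e7 j h4
      have h5 := j.val_lt
      have h6 : j.val ≠ 0 := fun e => ne_of_mem_erase h3 ((ZMod.val_eq_zero _).1 e)
      simp only [hc, Nat.mul_div_cancel_left _ (Nat.pos_of_ne_zero s0), coe_Ioo, Set.mem_Ioo]
      rw [hc] at h5 h6
      exact ⟨Nat.pos_of_ne_zero (by rintro rfl; simp at h6), lt_of_mul_lt_mul_left (ht ▸ h5) s.zero_le⟩)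
      fun j hj j' hj' e => ZMod.val_injective _ (by
        rw [← Nat.mul_div_cancel' (e7 j (mem_filter.1 hj).2),
          ← Nat.mul_div_cancel' (e7 j' (mem_filter.1 hj').2)]
        exact congrArg _ e)
    rw [Nat.card_Ioo] at h2
    have t0 : 0 < t := Nat.pos_of_ne_zero (by rintro rfl; exact NeZero.ne n ht)
    exact (Nat.mul_le_mul_left _ (by omega)).trans ht.ge
  have e9 : (n : ℤ) * a = a ^ 2 + s ^ 2 * #X := by
    have := ft_inv (fun z => ∑ x, g.coeff (r x) * g.coeff (r (z - x))) 0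
    simp only [ft_conv (fun i => g.coeff (r i)) (fun i => g.coeff (r i)), mul_zero, neg_zero,
      AddChar.map_zero_eq_one, mul_one, zero_sub, hs, g2] at this
    change ∑ j, α g j * α g j = _ at this
    rw [← add_sum_erase _ _ (mem_univ 0), α0, ← sum_filter_of_ne (p := fun j => α g j ≠ 0)
      (fun j _ h e => h (by rw [e, zero_mul])), ← hX, sum_congr rfl fun j hj => (sq _).symm.trans
        (e3 j (ne_of_mem_erase (mem_filter.1 hj).1) (mem_filter.1 hj).2), sum_const, ← ha] at this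
    exact_mod_cast (show ((n * a : ℤ) : O) = (a ^ 2 + s ^ 2 * #X : ℤ) by
      push_cast [nsmul_eq_mul] at *; linear_combination -this)
  obtain rfl : n = 8 := by
    exact_mod_cast arith e9 (by exact_mod_cast e8) (by omega) sa (by exact_mod_cast sn) a1 a2 b1 hs2 z3 z2
  have hb' : ∀ x, ∃ t : Fin 2, g.coeff x = t.val := fun x => by
    rcases h01 x with h | h
    · exact ⟨0, h⟩
    · exact ⟨1, h⟩
  choose t ht using hb'
  have u3 : IsUnit (3 : ZMod 8) := by decide
  have u5 : IsUnit (5 : ZMod 8) := by decide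
  have u7 : IsUnit (7 : ZMod 8) := by decide
  have hA : (fun i : Fin 8 => g.coeff (r (n := 8) i)) = ![(0 : ℤ), (t (r 1)).val, (t (r 2)).val, (t (r 1)).val,
      (t (r 4)).val, (t (r 1)).val, (t (r 2)).val, (t (r 1)).val] := by
    funext i
    fin_cases i
    · exact h1
    · exact ht _
    · exact ht _
    · exact (hr 3 u3 1).trans (ht _)
    · exact ht _
    · exact (hr 5 u5 1).trans (ht _)
    · exact (hr 3 u3 2).trans (ht _)
    · exact (hr 7 u7 1).trans (ht _)
  obtain c0 | ⟨c1, c2⟩ := d16 _ _ _ (t (sr 0)) (t (sr 1)) (t (sr 2)) (t (sr 3)) (t (sr 4)) (t (sr 5)) (t (sr 6))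
    (t (sr 7)) _ (fun i : Fin 8 => g.coeff (sr (n := 8) i)) hA
    (by funext i; fin_cases i <;> exact ht _)
    (fun z hz => ((mul_r g g z).symm.trans ((hl _ fun e => hz (r_eq_one.1 e)).trans
      (hl _ (sr_ne_one z)).symm)).trans (mul_sr g g z))
    (fun z => ((mul_sr g g 0).symm.trans ((hl _ (sr_ne_one _)).trans
      (hl _ (sr_ne_one z)).symm)).trans (mul_sr g g z))
  · exact zero_ne_one ((c0 j0).symm.trans hj)
  have c3 : ∀ i : Fin 8, i ≠ 0 → g.coeff (r (n := 8) i) = (t (r 4)).val := fun i hi0 => by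
    rw [congrFun hA i, c1, c2]
    fin_cases i
    · exact (hi0 rfl).elim
    all_goals rfl
  have := (c3 y hy).trans (c3 i0 (by rintro rfl; exact zero_ne_one (h1.symm.trans hi))).symm
  omega

theorem SR.main (h : SR E) {x y : DihedralGroup n} (hx : x ≠ 1) (hy : y ≠ 1) : E x y := by
  by_cases hn : n = 1
  · subst hn
    have : ∀ x : DihedralGroup 1, x ≠ 1 → x = sr 0 := by decide
    rw [this x hx, this y hy]
  have hn1 : 1 < n := by have := NeZero.ne n; omega
  have h' := h.rat hn1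
  obtain ⟨z, hz, h2⟩ := h'.diff hn1 fun u hu i => ratE_unit hu i
  have key : ∀ x, x ≠ 1 → ratE E x (r z) := fun x hx => by
    by_contra hc
    obtain ⟨l, hl⟩ := h2 x hx hc
    obtain ⟨i, hi⟩ := h'.meet_r hn1 x
    obtain ⟨j, hj⟩ := h'.meet_sr hx
    exact no_diff (cls_01 x) (iv_ratE.1 (cls_iv x)).2 (h'.sym (cls_iv x))
      (cls_neg fun e => hx (h'.one _ e)) hz (cls_neg hc) (cls_pos hi) (cls_pos hj) hl
  exact h.of_rat hn1 (fun a b ha hb => (ratE E).trans (key a ha) ((ratE E).symm (key b hb))) hx hy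

end Cfsg.Agent.DihSR
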