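import Cfsg.Agent.Perm.TwoInv

/-!
# Local fusion graphs of symmetric groups
-/

set_option autoImplicit false
set_option linter.unusedSectionVars false
set_option linter.unusedVariables false

namespace Cfsg.Agent.LocFus

open Equiv Equiv.Perm Finset TwoInv

variable {Ω : Type*} [Fintype Ω] [DecidableEq Ω]

theorem sign_of_odd {ρ : Perm Ω} (h : Odd (orderOf ρ)) : sign ρ = 1 := by
  have := map_pow sign ρ (orderOf ρ)
  rw [pow_orderOf_eq_one, map_one] at this
  rcases Int.units_eq_one_or (sign ρ) with e | e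
  · exact e
  · rw [e, h.neg_one_pow] at this
    exact absurd this (by decide)

theorem odd_iff {σ : Perm Ω} :
    Odd (orderOf σ) ↔ ∀ ρ τ : Perm Ω, σ = ρ * τ → Perm.Disjoint ρ τ → sign ρ = 1 := by
  constructor
  · rintro h ρ τ rfl hd
    rw [hd.orderOf] at h
    exact sign_of_odd (h.of_dvd_nat (Nat.dvd_lcm_left _ _))
  · intro h
    have : ∀ m : Multiset ℕ, (∀ n ∈ m, Odd n) → Odd m.lcm := fun m => by
      induction m using Multiset.induction_on with
      | empty => simp
      | cons a m ih =>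
        intro hm
        rw [Multiset.lcm_cons]
        exact ((hm a (by simp)).mul (ih fun n hn => hm n (by simp [hn]))).of_dvd_nat
          (lcm_dvd_mul _ _)
    rw [← lcm_cycleType]
    refine this _ fun n hn => ?_
    obtain ⟨c, τ, h1, h2, h3, rfl⟩ := mem_cycleType_iff.1 hn
    have := h c τ h1 h2
    rw [h3.sign] at this
    by_contra h0
    rw [(Nat.not_odd_iff_even.1 h0).neg_one_pow] at this
    exact absurd this (by decide)

/-- Inserting two points into a cycle. -/
theorem odd_insert {v : Perm Ω} (hv : Odd (orderOf v)) {a b w : Ω} (ha : v a = a) (hb : v b = b)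
    (h1 : a ≠ b) (h2 : a ≠ w) (h3 : b ≠ w) : Odd (orderOf (swap b w * swap a b * v)) := by
  have sc : sign (swap b w * swap a b) = 1 := by
    rw [Perm.sign_mul, sign_swap h1, sign_swap h3]; simp
  have key : ∀ ρ τ : Perm Ω, swap b w * swap a b * v = ρ * τ → Perm.Disjoint ρ τ → τ a = a →
      sign ρ = 1 := fun ρ τ e hd ta => by
    have ea := congrArg (fun f : Perm Ω => f a) e
    have eb := congrArg (fun f : Perm Ω => f b) e
    simp only [mul_apply, ha, hb, ta, swap_apply_left, swap_apply_right] at ea eb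
    rw [swap_apply_of_ne_of_ne h1 h2] at eb
    have tw : τ w = w := (hd w).resolve_left fun h => h2 (ρ.injective (ea.symm.trans h.symm))
    have tb : τ b = b := by
      by_contra h
      have := (hd (τ b)).resolve_right fun k => h (τ.injective k)
      exact h1 (τ.injective (by rw [ta, eb, this]))
    have d : Perm.Disjoint (swap b w * swap a b) τ :=
      (disj_swap tb tw).mul_left (disj_swap ta tb)
    have := odd_iff.1 hv ((swap b w * swap a b)⁻¹ * ρ) τ (by rw [mul_assoc, ← e]; group)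
      (d.inv_left.mul_left hd)
    rwa [Perm.sign_mul, sign_inv, sc, one_mul] at this
  refine odd_iff.2 fun ρ τ e hd => ?_
  rcases hd a with h | h
  · have := key τ ρ (e.trans hd.commute.eq) hd.symm h
    have e' := congrArg sign e
    rw [Perm.sign_mul, sc, sign_of_odd hv, Perm.sign_mul, this, mul_one, mul_one] at e'
    exact e'.symm
  · exact key ρ τ e hd h

theorem inv_iff {x : Perm Ω} : x * x = 1 ↔ ∀ w, x (x w) = w := Equiv.ext_iff

theorem stepA {x : Perm Ω} (hx : x * x = 1) {a b : Ω} (ha : x a = a) (hb : x b ≠ b) :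
    ∃ x' : Perm Ω, x' * x' = 1 ∧ #x.support = #x'.support + 2 ∧
      x'.support ⊆ x.support \ {a, b} ∧ ∀ z : Perm Ω, z a = a → z b = b → Odd (orderOf (x' * z)) →
        Odd (orderOf (x * (swap a b * z))) := by
  obtain ⟨r, h1, h2, h3, h4, h5, h6⟩ := split hx hb
  have ab : a ≠ b := fun h => hb (h ▸ ha)
  have ab' : a ≠ x b := fun h => ab (x.injective (ha.trans h))
  have ra : r a = a := by rw [h6 a ab ab', ha]
  refine ⟨r, h1, h5, fun w hw => ?_, fun z za zb h => ?_⟩
  · simp only [mem_sdiff, mem_support, mem_insert, mem_singleton] at hw ⊢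
    have := h6 w
    by_cases w = b <;> by_cases w = x b <;> grind
  · have := odd_insert h (a := a) (b := b) (w := x b) (by rw [mul_apply, za, ra])
      (by rw [mul_apply, zb, h2]) ab ab' hb.symm
    rwa [mul_assoc, ← mul_assoc (swap a b), (disj_swap ra h2).commute.eq, mul_assoc r,
      ← mul_assoc, ← h4] at this

theorem caseA (n : ℕ) : ∀ (S : Finset Ω) (x y : Perm Ω), #x.support = n → x * x = 1 → y * y = 1 →
    x.support ⊆ S → y.support ⊆ S → #y.support = n → n < #S →
    ∃ z : Perm Ω, z * z = 1 ∧ z.support ⊆ S ∧ #z.support = n ∧ Odd (orderOf (x * z)) ∧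
      Odd (orderOf (y * z)) := by
  induction n using Nat.strong_induction_on with | _ n ih => ?_
  intro S x y hn hx hy xS yS hn' hS
  by_cases e : x = y
  · exact ⟨x, hx, xS, hn, by simp [hx], by simp [← e, hx]⟩
  obtain ⟨a, b, aS, bS, h1, h2, h3⟩ : ∃ a b, a ∈ S ∧ b ∈ S ∧ x a = a ∧ x b ≠ b ∧
      ((y a = a ∧ y b ≠ b) ∨ (y b = b ∧ y a ≠ a)) := by
    by_cases e' : x.support = y.support
    · obtain ⟨a, a1, a2⟩ := not_subset.1 fun k : S ⊆ x.support => by
        have := card_le_card k; omega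
      obtain ⟨b, hb⟩ : x.support.Nonempty := by
        rw [nonempty_iff_ne_empty]
        intro h
        exact e ((support_eq_empty_iff.1 h).trans (support_eq_empty_iff.1 (e' ▸ h)).symm)
      exact ⟨a, b, a1, xS hb, notMem_support.1 a2, mem_support.1 hb,
        Or.inl ⟨notMem_support.1 (e' ▸ a2), mem_support.1 (e' ▸ hb)⟩⟩
    · obtain ⟨j, j1, j2⟩ := not_subset.1 fun k => e' (eq_of_subset_of_card_le k (by omega))
      obtain ⟨i, i1, i2⟩ := not_subset.1 fun k => e' (eq_of_subset_of_card_le k (by omega)).symm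
      exact ⟨i, j, yS i1, xS j1, notMem_support.1 i2, mem_support.1 j1,
        Or.inr ⟨notMem_support.1 j2, mem_support.1 i1⟩⟩
  have ab : a ≠ b := fun h => h2 (h ▸ h1)
  obtain ⟨x', x1, x2, x3, x4⟩ := stepA hx h1 h2
  obtain ⟨y', y1, y2, y3, y4⟩ : ∃ y' : Perm Ω, y' * y' = 1 ∧ #y.support = #y'.support + 2 ∧
      y'.support ⊆ y.support \ {a, b} ∧ ∀ z : Perm Ω, z a = a → z b = b →
        Odd (orderOf (y' * z)) → Odd (orderOf (y * (swap a b * z))) := by
    rcases h3 with ⟨k1, k2⟩ | ⟨k1, k2⟩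
    · exact stepA hy k1 k2
    · obtain ⟨y', y1, y2, y3, y4⟩ := stepA hy k1 k2
      exact ⟨y', y1, y2, pair_comm a b ▸ y3, fun z za zb h => swap_comm a b ▸ y4 z zb za h⟩
  have sub : ({a, b} : Finset Ω) ⊆ S := by simp [insert_subset_iff, aS, bS]
  obtain ⟨z, z1, z2, z3, z4, z5⟩ := ih (n - 2) (by omega) (S \ {a, b}) x' y' (by omega) x1 y1
    (x3.trans (sdiff_subset_sdiff xS le_rfl)) (y3.trans (sdiff_subset_sdiff yS le_rfl)) (by omega)
    (by rw [card_sdiff_of_subset sub, card_pair ab]; omega)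
  have za : z a = a := notMem_support.1 fun h => by simpa using z2 h
  have zb : z b = b := notMem_support.1 fun h => by simpa using z2 h
  refine ⟨swap a b * z, swap_mul_sq z1 za zb, (support_mul_le _ _).trans (sup_le ?_
    (z2.trans sdiff_subset)), by rw [card_swap_mul ab za zb]; omega, x4 z za zb z4, y4 z za zb z5⟩
  rw [support_swap ab]; exact sub

theorem support_swap_mul {z : Perm Ω} {a b : Ω} (ab : a ≠ b) (za : z a = a) (zb : z b = b) :
    (swap a b * z).support = {a, b} ∪ z.support := by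
  rw [(disj_swap za zb).support_mul, support_swap ab]

theorem stepD {x : Perm Ω} (hx : x * x = 1) {a b : Ω} (ab : a ≠ b) (h : x a = b) :
    ∃ x' : Perm Ω, x' * x' = 1 ∧ x'.support = x.support \ {a, b} ∧
      (∀ w, w ≠ a → w ≠ b → x' w = x w) ∧ ∀ z : Perm Ω, x * (swap a b * z) = x' * z := by
  subst h
  obtain ⟨r, h1, h2, h3, h4, h5, h6⟩ := split hx ab.symm
  refine ⟨r, h1, ?_, h6, fun z => ?_⟩
  · ext w
    simp only [mem_sdiff, mem_support, mem_insert, mem_singleton]
    have := h6 w
    by_cases w = a <;> by_cases w = x a <;> grind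
  · nth_rewrite 1 [h4]
    rw [(disj_swap h2 h3).commute.eq, mul_assoc, ← mul_assoc (swap _ _), swap_mul_self, one_mul]

theorem stepK {x : Perm Ω} (hx : x * x = 1) {a b c d p q : Ω} (h : [a, b, c, d, p, q].Nodup)
    (ha : x a = p) (hb : x b = c) (hd : x d = q) :
    ∃ x' : Perm Ω, x' * x' = 1 ∧ x'.support = x.support \ {a, b, c, d} ∧
      ∀ z : Perm Ω, z a = a → z b = b → z c = c → z d = d → Odd (orderOf (x' * z)) →
        Odd (orderOf (x * (swap a b * (swap c d * z)))) := by
  have xx := inv_iff.1 hx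
  have hp : x p = a := by rw [← ha, xx]
  have hc : x c = b := by rw [← hb, xx]
  have hq : x q = d := by rw [← hd, xx]
  simp only [List.nodup_cons, List.mem_cons, not_or, List.not_mem_nil] at h
  obtain ⟨x', e⟩ : ∃ x' : Perm Ω, x' = x * swap a p * swap b c * swap d q * swap p q := ⟨_, rfl⟩
  have f : ∀ w, x' w = if w = a ∨ w = b ∨ w = c ∨ w = d then w else if w = p then q
      else if w = q then p else x w := fun w => by
    rw [e]
    simp only [mul_apply, swap_apply_def]
    grind
  refine ⟨x', inv_iff.2 fun w => ?_, ?_, fun z za zb zc zd hz => ?_⟩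
  · rw [f, f]; grind
  · ext w
    simp only [mem_sdiff, mem_support, mem_insert, mem_singleton, f]
    grind
  · have e1 : x * (swap a b * swap c d) = swap a q * swap c a * (swap d p * swap b d * x') := by
      ext w
      simp only [mul_apply, swap_apply_def, f]
      grind
    have o1 := odd_insert hz (a := b) (b := d) (w := p) (by rw [mul_apply, zb, f]; simp)
      (by rw [mul_apply, zd, f]; simp) (by grind) (by grind) (by grind)
    have o2 := odd_insert o1 (a := c) (b := a) (w := q)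
      (by simp only [mul_apply, zc, f, swap_apply_def]; grind)
      (by simp only [mul_apply, za, f, swap_apply_def]; grind) (by grind) (by grind) (by grind)
    rwa [← mul_assoc _ x', ← mul_assoc, ← e1, mul_assoc, mul_assoc] at o2

theorem exists_avoid {S : Finset Ω} (l : List Ω) (h : l.length < #S) : ∃ a ∈ S, a ∉ l := by
  obtain ⟨a, a1, a2⟩ := not_subset.1 fun k : S ⊆ l.toFinset => by
    have := (card_le_card k).trans (List.toFinset_card_le l); omega
  exact ⟨a, a1, fun h => a2 (List.mem_toFinset.2 h)⟩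

/-- The conclusion for a pair of involutions with equal supports. -/
def Mid (x y : Perm Ω) : Prop :=
  ∃ z : Perm Ω, z * z = 1 ∧ z.support = x.support ∧ Odd (orderOf (x * z)) ∧ Odd (orderOf (y * z))

theorem nodup6 {a b c d e f : Ω} : [a, b, c, d, e, f].Nodup ↔
    (a ≠ b ∧ a ≠ c ∧ a ≠ d ∧ a ≠ e ∧ a ≠ f) ∧ (b ≠ c ∧ b ≠ d ∧ b ≠ e ∧ b ≠ f) ∧
      (c ≠ d ∧ c ≠ e ∧ c ≠ f) ∧ (d ≠ e ∧ d ≠ f) ∧ e ≠ f := by
  simp

theorem step4 {x y : Perm Ω} (hx : x * x = 1) (hy : y * y = 1) (e : y.support = x.support)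
    {a b c d p q p' q' : Ω} (n1 : [a, b, c, d, p, q].Nodup) (n2 : [a, b, d, c, p', q'].Nodup)
    (x1 : x a = p) (x2 : x b = c) (x3 : x d = q) (y1 : y a = p') (y2 : y b = d) (y3 : y c = q')
    (ih : ∀ x' y' : Perm Ω, #x'.support + 4 = #x.support → x' * x' = 1 → y' * y' = 1 →
      y'.support = x'.support → Mid x' y') : Mid x y := by
  obtain ⟨x', x4, x5, x6⟩ := stepK hx n1 x1 x2 x3
  obtain ⟨y', y4, y5, y6⟩ := stepK hy n2 y1 y2 y3
  have x7 : x c = b := by rw [← x2, inv_iff.1 hx]
  rw [nodup6] at n1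
  have sub : ({a, b, c, d} : Finset Ω) ⊆ x.support := by
    simp only [insert_subset_iff, singleton_subset_iff, mem_support, x1, x2, x3, x7]
    clear ih x6 y6; grind
  have c4 : #({a, b, c, d} : Finset Ω) = 4 := by
    rw [card_insert_of_notMem (by simp; tauto), card_eq_three.2 ⟨_, _, _, by tauto, by tauto,
      by tauto, rfl⟩]
  obtain ⟨z, z1, z2, z3, z4⟩ := ih x' y'
    (by rw [x5, card_sdiff_of_subset sub, c4]; have := card_le_card sub; omega) x4 y4
    (by rw [x5, y5, e, pair_comm])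
  have zf : ∀ w, w = a ∨ w = b ∨ w = c ∨ w = d → z w = w := fun w hw =>
    notMem_support.1 (by
      rw [z2, x5]; simp only [mem_sdiff, mem_insert, mem_singleton]; exact fun h => h.2 hw)
  have za := zf a (by simp)
  have zb := zf b (by simp)
  have zc := zf c (by simp)
  have zd := zf d (by simp)
  have ta : (swap c d * z) a = a := by
    rw [mul_apply, za, swap_apply_of_ne_of_ne (by tauto) (by tauto)]
  have tb : (swap c d * z) b = b := by
    rw [mul_apply, zb, swap_apply_of_ne_of_ne (by tauto) (by tauto)]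
  refine ⟨swap a b * (swap c d * z), swap_mul_sq (swap_mul_sq z1 zc zd) ta tb, ?_,
    x6 z za zb zc zd z3, swap_comm c d ▸ y6 z za zb zd zc z4⟩
  rw [support_swap_mul (by tauto) ta tb, support_swap_mul (by tauto) zc zd, z2, x5, ← union_assoc,
    insert_union, singleton_union]
  exact union_sdiff_of_subset sub

theorem swap3 {a a' b b' c d : Ω} (n0 : [a, a', b, b', c, d].Nodup) :
    swap a a' * (swap d c * swap b b') = swap b b' * (swap c d * swap a a') := by
  rw [nodup6] at n0
  ext w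
  simp only [mul_apply, swap_apply_def]; grind

theorem fs1 (S : Finset Ω) (a a' b b' c d : Ω) :
    (S \ {a, a'}) \ {d, c, b, b'} = S \ {a, a', b, b', c, d} := by
  ext w; simp only [mem_sdiff, mem_insert, mem_singleton]; tauto

theorem fs2 (S : Finset Ω) (a a' b b' c d : Ω) :
    (S \ {b, b'}) \ {c, d, a, a'} = S \ {a, a', b, b', c, d} := by
  ext w; simp only [mem_sdiff, mem_insert, mem_singleton]; tauto

theorem fs3 (S : Finset Ω) (a a' b b' c d : Ω) :
    {a, a'} ∪ ({d, c} ∪ ({b, b'} ∪ S)) = {a, a', b, b', c, d} ∪ S := by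
  ext w; simp only [mem_union, mem_insert, mem_singleton]; tauto

theorem step6 {x y : Perm Ω} (hx : x * x = 1) (hy : y * y = 1) (e : y.support = x.support)
    {a a' b b' c d p q p' q' : Ω} (n0 : [a, a', b, b', c, d].Nodup)
    (n1 : [d, c, b, b', p, q].Nodup) (n2 : [c, d, a, a', p', q'].Nodup)
    (x0 : x a = a') (x1 : x d = p) (x2 : x c = b) (x3 : x b' = q)
    (y0 : y b = b') (y1 : y c = p') (y2 : y d = a) (y3 : y a' = q')
    (ih : ∀ x' y' : Perm Ω, #x'.support + 6 = #x.support → x' * x' = 1 → y' * y' = 1 →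
      y'.support = x'.support → Mid x' y') : Mid x y := by
  have t5 := swap3 n0
  have c6 : #({a, a', b, b', c, d} : Finset Ω) = 6 := by
    have := List.toFinset_card_of_nodup n0
    simpa using this
  rw [nodup6] at n0
  obtain ⟨⟨k1, k2, k3, k4, k5⟩, ⟨k6, k7, k8, k9⟩, ⟨k10, k11, k12⟩, ⟨k13, k14⟩, k15⟩ := n0
  obtain ⟨x0', x01, x02, x03, x04⟩ := stepD hx k1 x0
  obtain ⟨y0', y01, y02, y03, y04⟩ := stepD hy k10 y0
  obtain ⟨x', x4, x5, x6⟩ := stepK x01 n1 ((x03 _ k5.symm k9.symm).trans x1)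
    ((x03 _ k4.symm k8.symm).trans x2) ((x03 _ k3.symm k7.symm).trans x3)
  obtain ⟨y', y4, y5, y6⟩ := stepK y01 n2 ((y03 _ k11.symm k13.symm).trans y1)
    ((y03 _ k12.symm k14.symm).trans y2) ((y03 _ k6 k7).trans y3)
  have x7 : x a' = a := by rw [← x0, inv_iff.1 hx]
  have x8 : x b = c := by rw [← x2, inv_iff.1 hx]
  rw [nodup6] at n1
  have sub : ({a, a', b, b', c, d} : Finset Ω) ⊆ x.support := by
    simp only [insert_subset_iff, singleton_subset_iff, mem_support, x0, x1, x2, x3, x7, x8]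
    exact ⟨k1.symm, k1, k11.symm, n1.2.2.2.1.2.symm, k11, n1.1.2.2.2.1.symm⟩
  have x2' : x'.support = x.support \ {a, a', b, b', c, d} := by
    rw [x5, x02, fs1]
  have y2' : y'.support = x.support \ {a, a', b, b', c, d} := by
    rw [y5, y02, e, fs2]
  obtain ⟨z, z1, z2, z3, z4⟩ := ih x' y'
    (by rw [x2', card_sdiff_of_subset sub, c6]; have := card_le_card sub; omega) x4 y4
    (by rw [x2', y2'])
  have zf : ∀ w, w = a ∨ w = a' ∨ w = b ∨ w = b' ∨ w = c ∨ w = d → z w = w := fun w hw =>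
    notMem_support.1 (by
      rw [z2, x2']; simp only [mem_sdiff, mem_insert, mem_singleton]; exact fun h => h.2 hw)
  have z5 := zf a (by simp)
  have z6 := zf a' (by simp)
  have z7 := zf b (by simp)
  have z8 := zf b' (by simp)
  have z9 := zf c (by simp)
  have z10 := zf d (by simp)
  have t1 : (swap b b' * z) d = d := by
    rw [mul_apply, z10, swap_apply_of_ne_of_ne k12.symm k14.symm]
  have t2 : (swap b b' * z) c = c := by
    rw [mul_apply, z9, swap_apply_of_ne_of_ne k11.symm k13.symm]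
  have t3 : (swap d c * (swap b b' * z)) a = a := by
    rw [mul_apply, mul_apply, z5, swap_apply_of_ne_of_ne k2 k3, swap_apply_of_ne_of_ne k5 k4]
  have t4 : (swap d c * (swap b b' * z)) a' = a' := by
    rw [mul_apply, mul_apply, z6, swap_apply_of_ne_of_ne k6 k7, swap_apply_of_ne_of_ne k9 k8]
  refine ⟨swap a a' * (swap d c * (swap b b' * z)),
    swap_mul_sq (swap_mul_sq (swap_mul_sq z1 z7 z8) t1 t2) t3 t4, ?_, ?_, ?_⟩
  · rw [support_swap_mul k1 t3 t4, support_swap_mul k15.symm t1 t2,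
      support_swap_mul k10 z7 z8, z2, x2', fs3]
    exact union_sdiff_of_subset sub
  · rw [x04]; exact x6 z z10 z9 z7 z8 z3
  · rw [← mul_assoc (swap d c), ← mul_assoc (swap a a'), t5, mul_assoc (swap b b'),
      y04, mul_assoc]
    exact y6 z z9 z10 z5 z6 z4

theorem nd4 {x y : Ω → Ω} (xx : ∀ w, x (x w) = w) (yy : ∀ w, y (y w) = w)
    (fx : ∀ w, x w = w ↔ y w = w) {a b : Ω} (hb : x b ≠ y b) (ha : x a ≠ a)
    (h : a ∉ [b, x b, y b, x (y b), y (x b)]) :
    [a, b, x b, y b, x a, x (y b)].Nodup ∧ [a, b, y b, x b, y a, y (x b)].Nodup := by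
  simp only [List.mem_cons, not_or, List.not_mem_nil] at h
  rw [nodup6, nodup6]
  have := fx a
  have := fx b
  have := fx (x b)
  have := fx (y b)
  repeat' apply And.intro
  all_goals grind

theorem nd6 {x y : Ω → Ω} (xx : ∀ w, x (x w) = w) (yy : ∀ w, y (y w) = w)
    (fx : ∀ w, x w = w ↔ y w = w) (h3 : ∀ w, x w ≠ w → x w ≠ y w) {a b : Ω} (hb : x b ≠ b)
    (ha : x a ≠ a) (h : b ∉ [a, x a, y a, y (x a), x (y a), y (x (y a)), x (y (x a))]) :
    [a, x a, b, y b, x b, y a].Nodup ∧ [y a, x b, b, y b, x (y a), x (y b)].Nodup ∧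
      [x b, y a, a, x a, y (x b), y (x a)].Nodup := by
  simp only [List.mem_cons, not_or, List.not_mem_nil] at h
  rw [nodup6, nodup6, nodup6]
  have := fx a
  have := fx b
  have := fx (x b)
  have := fx (y b)
  have := fx (x a)
  have := fx (y a)
  have := h3 a
  have := h3 b
  repeat' apply And.intro
  all_goals grind

theorem caseB (n : ℕ) : ∀ x y : Perm Ω, #x.support = n → x * x = 1 → y * y = 1 →
    y.support = x.support → n ≠ 4 → Mid x y := by
  induction n using Nat.strong_induction_on with | _ n ih => ?_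
  intro x y hn hx hy e h4
  by_cases e' : x = y
  · exact ⟨x, hx, rfl, by simp [hx], by simp [← e', hx]⟩
  have xx := inv_iff.1 hx
  have yy := inv_iff.1 hy
  have fx : ∀ w, x w = w ↔ y w = w := fun w => by rw [← notMem_support, ← e, notMem_support]
  have ev : 2 ∣ n := by
    have : Fact (Nat.Prime 2) := ⟨Nat.prime_two⟩
    rw [← hn, ← sum_cycleType, cycleType_of_pow_prime_eq_one (p := 2) (by rw [pow_two, hx]),
      Multiset.sum_replicate, smul_eq_mul]
    exact dvd_mul_left _ _
  obtain ⟨b, hb⟩ : ∃ b, x b ≠ y b := by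
    by_contra h; push Not at h; exact e' (Equiv.ext h)
  have c3 : 3 ≤ n := by
    have k1 : x b ≠ b := fun h => hb (h.trans ((fx b).1 h).symm)
    have k2 : y b ≠ b := mt (fx b).2 k1
    have : ({b, x b, y b} : Finset Ω) ⊆ x.support := by
      simp only [insert_subset_iff, singleton_subset_iff, mem_support, Ne, xx, fx (y b), yy]
      exact ⟨k1, k1.symm, k2.symm⟩
    have h2 := card_le_card this
    rw [card_eq_three.2 ⟨_, _, _, k1.symm, k2.symm, hb, rfl⟩] at h2
    omega
  by_cases h2 : n % 4 = 2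
  · obtain ⟨a, a1, a2⟩ := exists_avoid (S := x.support) [b, x b, y b, x (y b), y (x b)]
      (by simp; omega)
    obtain ⟨n1, n2⟩ := nd4 xx yy fx hb (mem_support.1 a1) a2
    exact step4 hx hy e n1 n2 rfl rfl rfl rfl rfl rfl fun x' y' h h1 h2 h3 =>
      ih _ (by omega) x' y' rfl h1 h2 h3 (by omega)
  by_cases h3 : ∃ a, x a ≠ a ∧ x a = y a
  · obtain ⟨a, a1, a2⟩ := h3
    obtain ⟨x', x1, x2, -, x3⟩ := stepD hx a1.symm rfl
    obtain ⟨y', y1, y2, -, y3⟩ := stepD hy a1.symm a2.symm
    have sub : ({a, x a} : Finset Ω) ⊆ x.support := by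
      simp only [insert_subset_iff, singleton_subset_iff, mem_support, Ne, xx]
      exact ⟨a1, a1.symm⟩
    obtain ⟨z, z1, z2, z3, z4⟩ := ih (n - 2) (by omega) x' y'
      (by rw [x2, card_sdiff_of_subset sub, card_pair a1.symm, hn]) x1 y1
      (by rw [x2, y2, e]) (by omega)
    have za : z a = a := notMem_support.1 (by rw [z2, x2]; simp)
    have zb : z (x a) = x a := notMem_support.1 (by rw [z2, x2]; simp)
    refine ⟨swap a (x a) * z, swap_mul_sq z1 za zb, ?_, by rwa [x3], by rwa [y3]⟩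
    rw [support_swap_mul a1.symm za zb, z2, x2]
    exact union_sdiff_of_subset sub
  push Not at h3
  obtain ⟨a, ha⟩ := card_pos.1 (show 0 < #x.support by omega)
  obtain ⟨c, hc, b2⟩ := exists_avoid (S := x.support)
    [a, x a, y a, y (x a), x (y a), y (x (y a)), x (y (x a))] (by simp; omega)
  obtain ⟨n0, n1, n2⟩ := nd6 xx yy fx h3 (mem_support.1 hc) (mem_support.1 ha) b2
  exact step6 hx hy e n0 n1 n2 rfl rfl (xx c) rfl rfl rfl (yy a) rfl fun x' y' h h1 h2 h3 =>
    ih _ (by omega) x' y' rfl h1 h2 h3 (by omega)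

theorem exists_mid (hn : 5 ≤ Fintype.card Ω) {x y : Perm Ω} (hx : x * x = 1) (hy : y * y = 1)
    (h : #y.support = #x.support) : ∃ z : Perm Ω, z * z = 1 ∧ #z.support = #x.support ∧
      Odd (orderOf (x * z)) ∧ Odd (orderOf (y * z)) := by
  by_cases h1 : #x.support < Fintype.card Ω
  · obtain ⟨z, z1, -, z2⟩ := caseA _ univ x y rfl hx hy (subset_univ _) (subset_univ _) h h1
    exact ⟨z, z1, z2⟩
  · have := card_le_univ x.support
    obtain ⟨z, z1, z2, z3⟩ := caseB _ x y rfl hx hy (by
      rw [(card_eq_iff_eq_univ _).1 (show #x.support = _ by omega),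
        (card_eq_iff_eq_univ _).1 (show #y.support = _ by omega)]) (by omega)
    exact ⟨z, z1, by rw [z2], z3⟩

end Cfsg.Agent.LocFus
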