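import Mathlib
import Cfsg.Prelude.Def_Perm
import Cfsg.Agent.Char.PermRank
import Cfsg.Agent.Char.RepEquiv
import Cfsg.Agent.Char.Integrality
import Cfsg.Agent.Perm.TwoPMain

/-!
# The centraliser ring of a representation; orbital matrices

For an endomorphism `T` commuting with a representation `ρ`, the class function
`g ↦ trace (ρ g * T)` is a combination of the constituents of `ρ`; on a constituent of multiplicity
one its coefficient is multiplicative in `T`.
-/

set_option autoImplicit false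
set_option linter.unusedSectionVars false

namespace Cfsg.Agent.Perm.Orbital

open Cfsg Cfsg.Agent.Char Module MulAction Representation

variable {G : Type*} [Group G] [Fintype G] {V : Type*} [AddCommGroup V] [Module ℂ V]
  [FiniteDimensional ℂ V] {ρ : Representation ℂ G V}

/-- `T` commutes with the representation. -/
def Comm (ρ : Representation ℂ G V) (T : End ℂ V) : Prop := ∀ g, Commute T (ρ g)

theorem Comm.apply {T : End ℂ V} (h : Comm ρ T) (g : G) (v : V) : T (ρ g v) = ρ g (T v) :=
  LinearMap.congr_fun (h g).eq v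

theorem Comm.mul {S T : End ℂ V} (hS : Comm ρ S) (hT : Comm ρ T) : Comm ρ (S * T) :=
  fun g => (hS g).mul_left (hT g)

/-- The twisted trace function. -/
noncomputable def tau (ρ : Representation ℂ G V) (T : End ℂ V) : G → ℂ :=
  fun g => LinearMap.trace ℂ V (ρ g * T)

theorem tau_one : tau ρ 1 = ρ.character := by ext g; simp [tau, character]

theorem tau_add (S T : End ℂ V) : tau ρ (S + T) = tau ρ S + tau ρ T := by
  ext g; simp [tau, mul_add]

theorem tau_smul (c : ℂ) (T : End ℂ V) : tau ρ (c • T) = c • tau ρ T := by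
  ext g; simp [tau]

theorem tau_apply_one (T : End ℂ V) : tau ρ T 1 = LinearMap.trace ℂ V T := by simp [tau]

/-- A generalised eigenspace of a commuting endomorphism. -/
def genEig {T : End ℂ V} (hT : Comm ρ T) (μ : ℂ) : Subrepresentation ρ :=
  ⟨T.maxGenEigenspace μ, fun g _ hv => T.mapsTo_maxGenEigenspace_of_comm (hT g) μ hv⟩

theorem Comm.exists_sum {T : End ℂ V} (hT : Comm ρ T) : ∃ s : Finset ℂ,
    (∀ μ ∈ s, T.HasEigenvalue μ) ∧
    ρ.character = ∑ μ ∈ s, (genEig hT μ).toRepresentation.character ∧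
    tau ρ T = ∑ μ ∈ s, μ • (genEig hT μ).toRepresentation.character := by
  classical
  have hds := DirectSum.isInternal_submodule_of_iSupIndep_of_iSup_eq_top
    T.independent_maxGenEigenspace T.iSup_maxGenEigenspace_eq_top
  have h_fin : {μ | T.maxGenEigenspace μ ≠ ⊥}.Finite :=
    WellFoundedGT.finite_ne_bot_of_iSupIndep T.independent_maxGenEigenspace
  have hg : ∀ g μ, Set.MapsTo (ρ g) (T.maxGenEigenspace μ) (T.maxGenEigenspace μ) :=
    fun g μ => T.mapsTo_maxGenEigenspace_of_comm (hT g) μ
  have hf : ∀ μ, Set.MapsTo T (T.maxGenEigenspace μ) (T.maxGenEigenspace μ) :=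
    fun μ => T.mapsTo_maxGenEigenspace_of_comm (Commute.refl _) μ
  refine ⟨h_fin.toFinset, fun μ hμ => ?_, ?_, ?_⟩
  · rw [Set.Finite.mem_toFinset] at hμ
    exact Module.End.HasUnifEigenvalue.lt zero_lt_one (show T.HasUnifEigenvalue μ ⊤ from hμ)
  · ext g
    rw [Finset.sum_apply]
    exact LinearMap.trace_eq_sum_trace_restrict' hds h_fin (hg g)
  · ext g
    rw [Finset.sum_apply]
    refine (LinearMap.trace_eq_sum_trace_restrict' hds h_fin
      (f := ρ g ∘ₗ T) fun μ => (hg g μ).comp (hf μ)).trans (Finset.sum_congr rfl fun μ _ => ?_)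
    rw [LinearMap.restrict_comp (hf μ) (hg g μ)]
    exact LinearMap.trace_comp_eq_mul_of_commute_of_isNilpotent μ
      (LinearMap.restrict_commute (hT g).symm _ _)
      (T.isNilpotent_restrict_maxGenEigenspace_sub_algebraMap μ)

theorem Comm.isClassFunction {T : End ℂ V} (hT : Comm ρ T) : IsClassFunction G (tau ρ T) := by
  obtain ⟨s, -, -, h⟩ := hT.exists_sum
  rw [h]
  exact isClassFunction_sum _ _ fun μ _ => (isCharacter_character _).isClassFunction.smul μ

theorem Comm.isIntegral_inner {T : End ℂ V} (hT : Comm ρ T) (hi : IsIntegral ℤ T) {χ : G → ℂ}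
    (hχ : IsCharacter G χ) : IsIntegral ℤ (classInner (tau ρ T) χ) := by
  obtain ⟨s, h1, -, h⟩ := hT.exists_sum
  rw [h, classInner_sum_left]
  refine IsIntegral.sum _ fun μ hμ => ?_
  obtain ⟨n, hn⟩ := (isCharacter_character (genEig hT μ).toRepresentation).exists_nat_inner hχ
  rw [classInner_smul_left, hn]
  refine IsIntegral.mul ?_ (isIntegral_natCast n)
  obtain ⟨v, hv⟩ := (h1 μ hμ).exists_hasEigenvector
  obtain ⟨p, hp, hp0⟩ := hi
  refine ⟨p, hp, ?_⟩
  have h2 := Module.End.aeval_apply_of_hasEigenvector (p := p.map (Int.castRingHom ℂ)) hv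
  rw [Polynomial.eval_map] at h2
  have h3 : Polynomial.aeval T (p.map (Int.castRingHom ℂ)) = 0 := by
    rw [← hp0, Polynomial.aeval_def, Polynomial.eval₂_map]; congr 1; exact Subsingleton.elim _ _
  rw [h3] at h2
  exact (smul_eq_zero.1 h2.symm).resolve_right hv.2

theorem Comm.inner_eq_zero {T : End ℂ V} (hT : Comm ρ T) {χ : G → ℂ} (hχ : IsCharacter G χ)
    (h0 : classInner ρ.character χ = 0) : classInner (tau ρ T) χ = 0 := by
  obtain ⟨s, -, h1, h⟩ := hT.exists_sum
  choose n hn using fun μ =>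
    (isCharacter_character (genEig hT μ).toRepresentation).exists_nat_inner hχ
  rw [h1, classInner_sum_left] at h0
  simp only [hn, ← Nat.cast_sum, Nat.cast_eq_zero, Finset.sum_eq_zero_iff] at h0
  rw [h, classInner_sum_left]
  exact Finset.sum_eq_zero fun μ hμ => by rw [classInner_smul_left, hn, h0 μ hμ]; simp

/-- The inclusion of a subrepresentation. -/
def incl (U : Subrepresentation ρ) : U.toRepresentation.IntertwiningMap ρ :=
  ⟨U.toSubmodule.subtype, fun _ => rfl⟩

/-- A commuting endomorphism as an intertwining map. -/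
def Comm.toMap {T : End ℂ V} (hT : Comm ρ T) : ρ.IntertwiningMap ρ := ⟨T, fun g => (hT g).eq⟩

theorem exists_smul_eq {W : Type*} [AddCommGroup W] [Module ℂ W] [FiniteDimensional ℂ W]
    {σ : Representation ℂ G W} (h1 : classInner ρ.character σ.character = 1)
    {j : σ.IntertwiningMap ρ} (hj : j ≠ 0) (k : σ.IntertwiningMap ρ) :
    ∃ c : ℂ, ∀ w, k w = c • j w := by
  rw [classInner_character, Nat.cast_eq_one, finrank_eq_one_iff_of_nonzero' j hj] at h1
  obtain ⟨c, rfl⟩ := h1 k
  exact ⟨c, fun _ => rfl⟩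

/-- On a constituent of multiplicity one the coefficient is the common eigenvalue. -/
theorem exists_eigenvector {χ : G → ℂ} (hχ : IsIrrCharacter G χ)
    (h1 : classInner ρ.character χ = 1) :
    ∃ u : V, u ≠ 0 ∧ ∀ T, Comm ρ T → T u = classInner (tau ρ T) χ • u := by
  obtain ⟨n, σ, hσ, rfl⟩ := hχ
  obtain ⟨j, hj⟩ := exists_injective_of_inner_ne_zero σ ρ (by rw [h1]; exact one_ne_zero)
  have := nontrivial_of_isIrreducible σ
  obtain ⟨w, hw⟩ := exists_ne (0 : Fin n → ℂ)
  have hjw : j w ≠ 0 := fun h => hw (hj (by rw [h, map_zero]))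
  have hj0 : j ≠ 0 := fun h => hjw (by rw [h]; rfl)
  refine ⟨j w, hjw, fun T hT => ?_⟩
  obtain ⟨c, hc⟩ := exists_smul_eq h1 hj0 (hT.toMap.comp j)
  refine (hc w).trans ?_
  congr 1
  obtain ⟨s, -, h2, h⟩ := hT.exists_sum
  rw [h, classInner_sum_left, ← mul_one c, ← h1, h2, classInner_sum_left, Finset.mul_sum]
  refine Finset.sum_congr rfl fun μ _ => ?_
  rw [classInner_smul_left]
  by_cases hμ : c = μ
  · rw [hμ]
  by_cases h0 : classInner (genEig hT μ).toRepresentation.character σ.character = 0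
  · rw [h0, mul_zero, mul_zero]
  obtain ⟨f, hf⟩ := exists_injective_of_inner_ne_zero σ _ h0
  obtain ⟨d, hd⟩ := exists_smul_eq h1 hj0 ((incl _).comp f)
  have h3 : (f w : V) ∈ T.genEigenspace c 1 := by
    rw [Module.End.mem_eigenspace_iff, show (f w : V) = d • j w from hd w, map_smul,
      show T (j w) = c • j w from hc w, smul_comm]
  have h4 := Submodule.disjoint_def.1 (T.disjoint_genEigenspace hμ 1 ⊤) _ h3 (f w).2
  exact absurd (hf (by rw [map_zero]; exact Subtype.ext h4)) hw

theorem inner_mul {χ : G → ℂ} (hχ : IsIrrCharacter G χ) (h1 : classInner ρ.character χ = 1)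
    {S T : End ℂ V} (hS : Comm ρ S) (hT : Comm ρ T) :
    classInner (tau ρ (S * T)) χ = classInner (tau ρ S) χ * classInner (tau ρ T) χ := by
  obtain ⟨u, hu, h⟩ := exists_eigenvector hχ h1
  apply smul_left_injective ℂ hu
  simp only
  rw [← h _ (hS.mul hT), Module.End.mul_apply, h T hT, map_smul, h S hS, smul_smul, mul_comm]

/-- Multiplicity-freeness is equivalent to commutativity of the centraliser ring. -/
theorem multFree_iff : (∀ χ : G → ℂ, IsIrrCharacter G χ →
      classInner ρ.character χ = 0 ∨ classInner ρ.character χ = 1) ↔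
    ∀ S T, Comm ρ S → Comm ρ T → S * T = T * S := by
  constructor
  · intro h S T hS hT
    have hC : Comm ρ (S * T - T * S) := fun g => (hS.mul hT g).sub_left (hT.mul hS g)
    obtain ⟨U, hU⟩ := exists_isCompl_subrep hC.toMap.ker
    have h1 := char_eq_add_of_isCompl _ _ hU
    by_contra h0
    have h2 : U.toRepresentation.character ≠ 0 := by
      intro h2
      have h3 := congrFun h2 1
      rw [char_one, Pi.zero_apply, Nat.cast_eq_zero, Submodule.finrank_eq_zero] at h3
      have h4 := hU.codisjoint.eq_top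
      rw [h3, sup_bot_eq] at h4
      refine h0 (sub_eq_zero.1 (LinearMap.ext fun v => ?_))
      exact (h4 ▸ Submodule.mem_top : v ∈ hC.toMap.ker.toSubmodule)
    obtain ⟨χ, hχ, h3⟩ := (isCharacter_character _).isClassFunction.exists_irr_inner_ne_zero h2
    have h4 : classInner ρ.character χ = 1 := by
      refine (h χ hχ).resolve_left fun h4 => h3 ?_
      obtain ⟨a, ha⟩ := (isCharacter_character
        hC.toMap.ker.toRepresentation).exists_nat_inner hχ.isCharacter
      obtain ⟨b, hb⟩ := (isCharacter_character U.toRepresentation).exists_nat_inner hχ.isCharacter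
      rw [h1, classInner_add_left, ha, hb, ← Nat.cast_add, Nat.cast_eq_zero] at h4
      rw [hb, Nat.cast_eq_zero]; omega
    obtain ⟨n, σ, hσ, rfl⟩ := hχ
    obtain ⟨f, hf⟩ := exists_injective_of_inner_ne_zero σ _ h3
    have := nontrivial_of_isIrreducible σ
    obtain ⟨w, hw⟩ := exists_ne (0 : Fin n → ℂ)
    have hfw : (f w : V) ≠ 0 := fun h => hw (hf (by rw [map_zero]; exact Subtype.ext h))
    have hj0 : (incl U).comp f ≠ 0 := fun h => hfw (DFunLike.congr_fun h w)
    obtain ⟨c, hc⟩ := exists_smul_eq h4 hj0 (hS.toMap.comp ((incl U).comp f))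
    obtain ⟨d, hd⟩ := exists_smul_eq h4 hj0 (hT.toMap.comp ((incl U).comp f))
    have hc' : S (f w) = c • (f w : V) := hc w
    have hd' : T (f w) = d • (f w : V) := hd w
    refine hfw (Submodule.disjoint_def.1 hU.disjoint _ ?_ (f w).2)
    change (S * T - T * S) (f w : V) = 0
    simp only [LinearMap.sub_apply, Module.End.mul_apply, hc', hd', map_smul, smul_comm c d,
      sub_self]
  · intro h χ hχ
    by_contra! h0
    obtain ⟨U, hU, h1⟩ := exists_subrep_of_inner_ne_zero ρ hχ h0.1
    obtain ⟨U', hU'⟩ := exists_isCompl_subrep U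
    have h2 := h0.2
    rw [char_eq_add_of_isCompl _ _ hU', classInner_add_left, h1, hχ.inner_self, ← h1] at h2
    obtain ⟨f, hf⟩ := exists_injective_of_inner_ne_zero U.toRepresentation U'.toRepresentation
      fun h3 => h2 (by rw [h3, add_zero])
    let P : ρ.IntertwiningMap U.toRepresentation :=
      (IntertwiningMap.fst ℂ _ _).comp (prodEquivOfIsCompl U U' hU').symm.toIntertwiningMap
    have hP : ∀ u : U.toSubmodule, ∀ u' : U'.toSubmodule, P (u + u') = u := fun u u' => by
      have := congrArg Prod.fst ((Submodule.prodEquivOfIsCompl _ _ hU').symm_apply_apply (u, u'))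
      exact this
    have h3 := h ((incl U).comp P).toLinearMap (((incl U').comp f).comp P).toLinearMap
      (fun g => ((incl U).comp P).2 g) (fun g => (((incl U').comp f).comp P).2 g)
    have := nontrivial_of_isIrreducible U.toRepresentation
    obtain ⟨w, hw⟩ := exists_ne (0 : U.toSubmodule)
    have h4 : ((P (f (P w)) : U.toSubmodule) : V) = f (P (P w)) := LinearMap.congr_fun h3 w
    have h5 : P w = w := by simpa using hP w 0
    have h6 : P (f w) = 0 := by simpa using hP 0 (f w)
    rw [h5, h5, h6] at h4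
    exact hw (hf (by rw [map_zero]; exact Subtype.ext h4.symm))

section Perm
open Cfsg.Agent.Perm.TwoP
variable {Ω : Type*} [Fintype Ω] [DecidableEq Ω] [MulAction G Ω]

theorem char_permRep : (permRep ℂ G Ω).character = permChar G Ω := by
  ext g
  rw [character, LinearMap.trace_eq_matrix_trace ℂ (Pi.basisFun ℂ Ω), permChar_apply,
    Nat.card_eq_fintype_card, Fintype.card_subtype, Finset.card_filter]
  push_cast
  refine Finset.sum_congr rfl fun x _ => ?_
  have : g⁻¹ • x = x ↔ g • x = x := by rw [inv_smul_eq_iff, eq_comm]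
  simp [permRep, Pi.single_apply, this]

/-- The operator of a rational matrix on the complex permutation module. -/
noncomputable def op : Matrix Ω Ω ℚ →+* End ℂ (Ω → ℂ) :=
  (Matrix.toLinAlgEquiv' : Matrix Ω Ω ℂ ≃ₐ[ℂ] _).toRingEquiv.toRingHom.comp
    (algebraMap ℚ ℂ).mapMatrix

theorem op_apply (A : Matrix Ω Ω ℚ) (φ : Ω → ℂ) (x : Ω) : op A φ x = ∑ y, (A x y : ℂ) * φ y := rfl

theorem op_smul (c : ℚ) (A : Matrix Ω Ω ℚ) : op (c • A) = (c : ℂ) • op A := by
  ext φ x
  simp [op_apply, Finset.mul_sum, mul_assoc]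

theorem comm_op {A : Matrix Ω Ω ℚ} (hA : Inv G A) : Comm (permRep ℂ G Ω) (op A) := by
  intro g
  refine LinearMap.ext fun φ => funext fun x => ?_
  change ∑ y, (A x y : ℂ) * φ (g⁻¹ • y) = ∑ y, (A (g⁻¹ • x) y : ℂ) * φ y
  exact Fintype.sum_equiv (MulAction.toPerm g⁻¹) _ _ fun y => by simp [hA g⁻¹]

theorem trace_op (A : Matrix Ω Ω ℚ) :
    LinearMap.trace ℂ _ (op A) = ((∑ x, A x x : ℚ) : ℂ) := by
  push_cast
  exact Matrix.trace_toLin'_eq (A.map (algebraMap ℚ ℂ))

theorem isIntegral_op_adj (R : Ω → Ω → Prop) : IsIntegral ℤ (op (adj R)) := by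
  classical
  have h : adj R = (Int.castRingHom ℚ).mapMatrix (Matrix.of fun x y => if R x y then 1 else 0) := by
    ext x y; simp [adj_apply]
  rw [h]
  exact map_isIntegral_int _ (map_isIntegral_int _ (Matrix.isIntegral _))

/-- The all-one matrix. -/
def ones (Ω : Type*) : Matrix Ω Ω ℚ := Matrix.of fun _ _ => 1

theorem inv_ones : Inv G (ones Ω) := fun _ _ _ => rfl

theorem tau_ones : tau (permRep ℂ G Ω) (op (ones Ω)) = (Fintype.card Ω : ℂ) • fun _ => 1 := by
  ext g
  have : permRep ℂ G Ω g * op (ones Ω) = op (ones Ω) := LinearMap.ext fun φ => funext fun x => rfl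
  rw [tau, this, trace_op]
  simp [ones]

/-- The coefficient of the principal character is the row sum. -/
theorem inner_one [IsPretransitive G Ω] {A : Matrix Ω Ω ℚ} (hA : Inv G A) (a : Ω) :
    classInner (tau (permRep ℂ G Ω) (op A)) (fun _ => 1) = ((∑ y, A a y : ℚ) : ℂ) := by
  have : Nonempty Ω := ⟨a⟩
  have h1 := inner_mul isIrrCharacter_one (by
    rw [char_permRep, classInner_permChar_one_of_isPretransitive]) (comm_op hA)
    (comm_op (inv_ones (G := G)))
  have h2 : A * ones Ω = (∑ y, A a y) • ones Ω := by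
    ext x y; simp [Matrix.mul_apply, ones, hA.rowsum x a]
  rw [← map_mul, h2, op_smul, tau_smul, classInner_smul_left, tau_ones, classInner_smul_left,
    isIrrCharacter_one.inner_self] at h1
  exact (mul_right_cancel₀ (by simp) h1).symm

theorem trace_eq_sum {A : Matrix Ω Ω ℚ} (hA : Inv G A) : ((∑ x, A x x : ℚ) : ℂ) =
    ∑ χ : IrrCharacter G, classInner (tau (permRep ℂ G Ω) (op A)) χ * (χ : G → ℂ) 1 := by
  rw [← trace_op, ← tau_apply_one (ρ := permRep ℂ G Ω),
    (comm_op hA).isClassFunction.apply_eq_sum_irr]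

theorem trace_adj_orbl {a b : Ω} (hab : b ≠ a) : ∑ x, adj (orbl G a b) x x = 0 := by
  classical
  refine Finset.sum_eq_zero fun x _ => ?_
  rw [adj_apply, if_neg]
  rintro ⟨h, h1, h2⟩
  exact hab (smul_left_cancel h (h2.trans h1.symm))

/-- A common divisor of the degrees of the non-principal constituents divides the subdegrees. -/
theorem dvd_card_orbit [IsPretransitive G Ω] (f : ℕ) (hf : ∀ χ : G → ℂ, IsIrrCharacter G χ →
    χ ≠ (fun _ => 1) → classInner (permChar G Ω) χ ≠ 0 → ∃ m : ℕ, χ 1 = (f : ℂ) * m) {a b : Ω}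
    (hab : b ≠ a) : f ∣ Nat.card (orbit (stabilizer G a) b) := by
  classical
  have hA : Inv G (adj (orbl G a b)) := inv_adj (orbl_inv a b)
  have h1 := trace_eq_sum hA
  rw [trace_adj_orbl hab, ← Finset.add_sum_erase _ _ (Finset.mem_univ (irrOne G))] at h1
  have h2 : ∀ χ : IrrCharacter G, ∃ z : ℂ, IsIntegral ℤ z ∧ (χ ≠ irrOne G →
      classInner (tau (permRep ℂ G Ω) (op (adj (orbl G a b)))) χ * (χ : G → ℂ) 1 = f * z) := by
    intro χ
    by_cases h3 : χ = irrOne G
    · exact ⟨0, isIntegral_zero, fun h => absurd h3 h⟩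
    by_cases h4 : classInner (permChar G Ω) χ = 0
    · refine ⟨0, isIntegral_zero, fun _ => ?_⟩
      rw [(comm_op hA).inner_eq_zero χ.2.isCharacter (by rwa [char_permRep]), zero_mul, mul_zero]
    obtain ⟨m, hm⟩ := hf χ χ.2 (fun h => h3 (Subtype.ext h)) h4
    exact ⟨_, ((comm_op hA).isIntegral_inner (isIntegral_op_adj _) χ.2.isCharacter).mul
      (isIntegral_natCast m), fun _ => by rw [hm]; ring⟩
  choose z hz hz' using h2
  rw [Finset.sum_congr rfl fun χ hχ => hz' χ (Finset.ne_of_mem_erase hχ), ← Finset.mul_sum,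
    show ((irrOne G : IrrCharacter G) : G → ℂ) = fun _ => 1 from rfl, inner_one hA a, sum_adj,
    ← card_orbit_eq_val] at h1
  have h5 : (Nat.card (orbit (stabilizer G a) b) : ℂ) =
      f * -∑ χ ∈ Finset.univ.erase (irrOne G), z χ := by
    push_cast at h1; linear_combination -h1
  rcases eq_or_ne f 0 with rfl | h0
  · rw [Nat.cast_zero, zero_mul, Nat.cast_eq_zero] at h5; rw [h5]
  refine dvd_of_isIntegral_div h0 ?_
  rw [h5, mul_div_cancel_left₀ _ (Nat.cast_ne_zero.2 h0)]
  exact (IsIntegral.sum _ fun χ _ => hz χ).neg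

end Perm

end Cfsg.Agent.Perm.Orbital
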