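import Mathlib
import Cfsg.Agent.Perm.Huppert2
import Cfsg.Agent.S3430
import Cfsg.Agent.Inv.RankOne

/-!
# Linear groups regular on the nonzero vectors: the solvable case
-/

set_option autoImplicit false
set_option linter.unusedSectionVars false

namespace Cfsg.Agent.Perm.SemiLin

open Module Cfsg Cfsg.Agent.FT
open scoped commutatorElement

variable {p : ℕ} [Fact p.Prime] {V : Type*} [AddCommGroup V] [Module (ZMod p) V] [Finite V]
  {G : Type*} [Group G] [Finite G] {ρ : G →* End (ZMod p) V}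

/-- **Huppert's theorem** in library form. -/
theorem Trans.huppert [Group.IsSolvable G] (ht : Trans ρ) (hρ : Function.Injective ρ) {n : ℕ}
    (hn0 : 0 < n) (hn : Nat.card V = p ^ n) :
    IsSemiLin ρ n ∨ (n = 2 ∧ (p = 3 ∨ p = 5 ∨ p = 7 ∨ p = 11 ∨ p = 23)) ∨ (n = 4 ∧ p = 3) := by
  have hq : p.Prime := Fact.out
  have := nontrivial_of_card hn0 hn
  have hd := ht.card_dvd
  rw [hn] at hd
  have ppd : ∀ ℓ : ℕ, ℓ.Prime → (ℓ ∣ p ^ n - 1 ∧ ∀ k < n, 0 < k → ¬ ℓ ∣ p ^ k - 1) →
      (p ≠ 2 → ¬ ∃ m, ℓ = 2 ^ m + 1) → IsSemiLin ρ n := fun ℓ h1 h2 h3 =>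
    semilinear_of_ppd_dvd hρ hn0 hn ⟨h1, h2.1, fun k a b => h2.2 k b a⟩ (h2.1.trans hd)
      fun h _ => h3 h
  have not7 : ¬ ∃ m, 7 = 2 ^ m + 1 := by
    rintro ⟨m, hm⟩
    have : 3 ∣ 2 ^ m := ⟨2, by omega⟩
    exact absurd (Nat.prime_three.dvd_of_dvd_pow this) (by norm_num)
  by_cases hn1 : n = 1
  · subst hn1
    exact Or.inl (semilinear_of_dim_one ρ hn)
  by_cases hn2 : n = 2
  · subst hn2
    rcases ht.dim_two hρ hn with h | h
    · exact Or.inl h
    by_cases hq2 : p = 2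
    · subst hq2
      exact Or.inl (ppd 3 (by norm_num) (by decide) fun h => absurd rfl h)
    refine Or.inr (Or.inl ⟨rfl, ?_⟩)
    have h1 := Nat.le_of_dvd (by norm_num) h
    have h2 := hq.two_le
    have h3 : p ≤ 23 := by omega
    clear * - h h2 h3 hq2
    interval_cases p <;> simp_all
  by_cases h2 : p = 2 ∧ (n = 4 ∨ n = 6 ∨ n = 10 ∨ n = 12 ∨ n = 18)
  · obtain ⟨rfl, rfl | rfl | rfl | rfl | rfl⟩ := h2
    · exact Or.inl (ppd 5 (by norm_num) (by decide) fun h => absurd rfl h)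
    · exact Or.inl (ht.two_six hρ hn)
    · exact Or.inl (ppd 11 (by norm_num) (by decide) fun h => absurd rfl h)
    · exact Or.inl (ppd 13 (by norm_num) (by decide) fun h => absurd rfl h)
    · exact Or.inl (ppd 19 (by norm_num) (by decide) fun h => absurd rfl h)
  by_cases h3 : p = 3 ∧ (n = 4 ∨ n = 6)
  · obtain ⟨rfl, rfl | rfl⟩ := h3
    · exact Or.inr (Or.inr ⟨rfl, rfl⟩)
    · exact Or.inl (ppd 7 (by norm_num) (by decide) fun _ => not7)
  by_cases h4 : p = 5 ∧ n = 6
  · obtain ⟨rfl, rfl⟩ := h4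
    exact Or.inl (ppd 7 (by norm_num) (by decide) fun _ => not7)
  obtain ⟨ℓ, h5, h6, h7, h8⟩ := S3430.result p n hq.two_le (by omega) (fun h => hn2 h.1) h2 h3 h4
  exact Or.inl (ht.isSemiLin_of_large hρ (by omega) hn ⟨h5, h6, h7⟩ h8)

/-- The subgroup acts irreducibly. -/
def IrrOn (ρ : G →* End (ZMod p) V) (A : Subgroup G) : Prop :=
  ∀ W : Submodule (ZMod p) V, (∀ a ∈ A, ∀ v ∈ W, ρ a v ∈ W) → W = ⊥ ∨ W = ⊤

theorem two_mul_le_two_pow (k : ℕ) : 2 * k ≤ 2 ^ k := by
  rcases k with _ | k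
  · simp
  · rw [pow_succ']; exact Nat.mul_le_mul_left 2 Nat.lt_two_pow_self

theorem arith_index {p n j c i : ℕ} (hp : 2 ≤ p) (hj : 0 < j) (hjn : j < n) (h1 : c ∣ p ^ j - 1)
    (h2 : c ∣ p ^ n - 1) (hi : i ≤ n) (h3 : p ^ n - 1 ≤ c * i) : False := by
  have h4 : c ∣ p ^ (Nat.gcd j n) - 1 := by
    rw [← Nat.pow_sub_one_gcd_pow_sub_one]; exact Nat.dvd_gcd h1 h2
  have hd : 0 < Nat.gcd j n := Nat.gcd_pos_of_pos_left _ hj
  have hdj : Nat.gcd j n ≤ j := Nat.gcd_le_left _ hj
  obtain ⟨m, hm⟩ := Nat.gcd_dvd_right j n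
  generalize Nat.gcd j n = d at *
  have hm2 : 2 ≤ m := by
    by_contra h
    have : m = 0 ∨ m = 1 := by omega
    rcases this with rfl | rfl <;> omega
  obtain ⟨k, rfl⟩ := Nat.exists_eq_add_of_le hm2
  have h5 : 1 < p ^ d := Nat.one_lt_pow hd.ne' hp
  have h6 := Nat.le_of_dvd (by omega) h4
  have h7 : n ≤ p ^ (d * (k + 1)) :=
    le_trans (by rw [hm]; nlinarith) ((two_mul_le_two_pow _).trans (Nat.pow_le_pow_left hp _))
  have h8 : p ^ n = p ^ d * p ^ (d * (k + 1)) := by rw [← pow_add, hm]; congr 1; ring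
  have h9 : c * i ≤ (p ^ d - 1) * p ^ (d * (k + 1)) := Nat.mul_le_mul h6 (hi.trans h7)
  have h10 : 1 < p ^ (d * (k + 1)) := Nat.one_lt_pow (by positivity) hp
  rw [Nat.sub_one_mul] at h9
  have h11 : p ^ (d * (k + 1)) ≤ p ^ d * p ^ (d * (k + 1)) := Nat.le_mul_of_pos_left _ (by omega)
  omega

/-- A transitive one-dimensional semilinear group has an irreducible cyclic normal subgroup. -/
theorem Trans.exists_cyclic_irr (ht : Trans ρ) (hρ : Function.Injective ρ) {n : ℕ} (hn0 : 0 < n)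
    (hn : Nat.card V = p ^ n) (h : IsSemiLin ρ n) :
    ∃ A : Subgroup G, A.Normal ∧ IsCyclic A ∧ IrrOn ρ A := by
  have hp : p.Prime := Fact.out
  have := nontrivial_of_card hn0 hn
  obtain ⟨f, hf⟩ := h
  choose a σ ha hσ using hf
  have hσ' : ∀ g x, f (ρ g (f.symm x)) = a g * σ g x := fun g x => by rw [hσ, f.apply_symm_apply]
  have hmul : ∀ g k x, a (g * k) * σ (g * k) x = a g * σ g (a k * σ k x) := fun g k x => by
    rw [← hσ', ← hσ', ← hσ', f.symm_apply_apply, Rep.apply_mul]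
  have ha1 : ∀ x, a 1 * σ 1 x = x := fun x => by rw [← hσ', map_one]; simp
  let φ : G →* (GaloisField p n ≃ₐ[ZMod p] GaloisField p n) :=
    { toFun := fun g => AlgEquiv.ofRingEquiv (f := σ g) fun c =>
        RingHom.congr_fun (Subsingleton.elim ((σ g).toRingHom.comp (algebraMap (ZMod p) _))
          (algebraMap (ZMod p) _)) c
      map_one' := by
        ext x
        have h1 := ha1 1
        rw [map_one, mul_one] at h1
        have h2 := ha1 x
        rwa [h1, one_mul] at h2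
      map_mul' := fun g k => by
        ext x
        have h1 := hmul g k 1
        rw [map_one, map_one, mul_one, mul_one] at h1
        have h2 := hmul g k x
        rw [map_mul, ← mul_assoc, ← h1] at h2
        exact mul_left_cancel₀ (ha _) h2 }
  have hker : ∀ g ∈ φ.ker, ∀ v, f (ρ g v) = a g * f v := fun g hg v => by
    rw [hσ]; exact congrArg _ (AlgEquiv.congr_fun hg (f v))
  have hc : ∀ g ∈ φ.ker, ∀ k ∈ φ.ker, g * k = k * g := fun g hg k hk => hρ (by
    ext v
    apply f.injective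
    rw [Rep.apply_mul, Rep.apply_mul, hker g hg, hker k hk, hker k hk, hker g hg]; ring)
  have hp' : ¬ p ∣ Nat.card φ.ker := by
    intro h1
    obtain ⟨x, hx⟩ := exists_prime_orderOf_dvd_card' (G := φ.ker) p h1
    obtain ⟨v, hv0, hv⟩ := exists_fixed_of_isPGroup ρ (P := Subgroup.zpowers (x : G))
      (IsPGroup.of_card (n := 1) (by rw [Nat.card_zpowers, Subgroup.orderOf_coe, hx, pow_one]))
    have h2 := hker x x.2 v
    rw [hv _ (Subgroup.mem_zpowers _), eq_comm, mul_eq_right₀ (by simpa using hv0)] at h2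
    have h3 : x = 1 := Subtype.ext (hρ (by
      ext w; apply f.injective; rw [hker x x.2, h2]; simp))
    rw [h3, orderOf_one] at hx
    exact hp.one_lt.ne hx
  have hirr : IrrOn ρ φ.ker := by
    intro W hW
    by_contra! h0
    have h1 := ht.card_dvd_of_abelian hρ hc hp' W hW
    have h2 := ht.card_dvd_of_abelian hρ hc hp' ⊤ fun _ _ _ _ => trivial
    rw [card_submodule] at h1 h2
    rw [finrank_top, finrank_eq_of_card hn] at h2
    have h3 := Submodule.finrank_lt h0.2
    rw [finrank_eq_of_card hn] at h3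
    refine arith_index hp.two_le (Nat.pos_of_ne_zero fun h => h0.1 (Submodule.finrank_eq_zero.1 h))
      h3 h1 h2 (i := φ.ker.index) ?_ ?_
    · rw [Subgroup.index_ker]
      exact (Subgroup.card_le_card_group _).trans
        (by rw [IsGalois.card_aut_eq_finrank, GaloisField.finrank p hn0.ne'])
    · rw [Subgroup.card_mul_index, ← hn]
      exact Nat.le_of_dvd Nat.card_pos ht.card_dvd
  exact ⟨φ.ker, inferInstance, isCyclic_of_irr hρ hc hirr, hirr⟩

/-- Fixed-point-freeness on nonzero vectors. -/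
def Fpf (ρ : G →* End (ZMod p) V) : Prop := ∀ g v, v ≠ 0 → ρ g v = v → g = 1

theorem Fpf.injective [Nontrivial V] (h : Fpf ρ) : Function.Injective ρ := by
  obtain ⟨v, hv⟩ := exists_ne (0 : V)
  exact (injective_iff_map_eq_one ρ).2 fun g hg => h g v hv (by rw [hg]; rfl)

theorem Fpf.card_eq [Nontrivial V] (h : Fpf ρ) (ht : Trans ρ) : Nat.card G = Nat.card V - 1 := by
  obtain ⟨v, hv⟩ := exists_ne (0 : V)
  have h1 : Nat.card G ≤ Nat.card ({0}ᶜ : Set V) := by
    refine Nat.card_le_card_of_injective (fun g => ⟨ρ g v, fun h0 => hv ?_⟩) fun g k hgk => ?_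
    · rw [← Rep.apply_inv_apply ρ g v, show ρ g v = 0 from h0, map_zero]
    · have h2 : ρ g v = ρ k v := congrArg Subtype.val hgk
      have := h (k⁻¹ * g) v hv (by rw [Rep.apply_mul, h2, Rep.apply_inv_apply])
      exact (inv_mul_eq_one.1 this).symm
  rw [Nat.card_coe_set_eq, Set.ncard_compl, Set.ncard_singleton] at h1
  exact le_antisymm h1 (Nat.le_of_dvd Nat.card_pos ht.card_dvd)

theorem Fpf.apply_of_involution (h : Fpf ρ) {t : G} (ho : orderOf t = 2) (v : V) :
    ρ t v = -v := by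
  by_contra h0
  have h2 : t = 1 := h t (ρ t v + v) (fun h => h0 (eq_neg_of_add_eq_zero_left h)) (by
    rw [map_add, ← Rep.apply_mul, ← sq, ← ho, pow_orderOf_eq_one, map_one, add_comm]; rfl)
  rw [h2, orderOf_one] at ho
  omega

theorem Fpf.involution_eq [Nontrivial V] (h : Fpf ρ) {s t : G} (hs : orderOf s = 2)
    (ht : orderOf t = 2) : s = t :=
  h.injective (by ext v; rw [h.apply_of_involution hs, h.apply_of_involution ht])

theorem Fpf.involution_central [Nontrivial V] (h : Fpf ρ) {t : G} (ht : orderOf t = 2) (g : G) :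
    g * t = t * g :=
  h.injective (by
    ext v
    rw [Rep.apply_mul, Rep.apply_mul, h.apply_of_involution ht, h.apply_of_involution ht, map_neg])

theorem Fpf.nine {V : Type*} [AddCommGroup V] [Module (ZMod 3) V] [Finite V]
    {ρ : G →* End (ZMod 3) V} (h : Fpf ρ) (ht : Trans ρ) (hn : Nat.card V = 3 ^ 2) :
    ∃ A : Subgroup G, A.Normal ∧ IsCyclic A ∧ IrrOn ρ A := by
  classical
  have := nontrivial_of_card (p := 3) two_pos hn
  have hG : Nat.card G = 8 := by rw [h.card_eq ht, hn]; rfl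
  obtain ⟨y, hy⟩ : ∃ y : G, 2 < orderOf y := by
    by_contra! h0
    obtain ⟨t, ht⟩ := exists_prime_orderOf_dvd_card' (G := G) 2 (by rw [hG]; norm_num)
    have h1 : (Set.univ : Set G) ⊆ {1, t} := fun y _ => by
      have h2 := h0 y
      have h3 := orderOf_pos y
      have h4 : orderOf y = 1 ∨ orderOf y = 2 := by omega
      exact h4.imp orderOf_eq_one_iff.1 fun h5 => h.involution_eq h5 ht
    have h2 := (Set.ncard_le_ncard h1).trans (Set.ncard_insert_le _ _)
    rw [Set.ncard_univ, hG, Set.ncard_singleton] at h2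
    omega
  have h1 := (Subgroup.zpowers y).card_mul_index
  rw [Nat.card_zpowers, hG] at h1
  have h2 : (Subgroup.zpowers y).index = 1 ∨ (Subgroup.zpowers y).index = 2 := by
    have : (Subgroup.zpowers y).index < 3 := by nlinarith
    have := (Subgroup.zpowers y).index_ne_zero_of_finite
    omega
  have hN : (Subgroup.zpowers y).Normal := by
    rcases h2 with h2 | h2
    · rw [Subgroup.index_eq_one.1 h2]; infer_instance
    · exact Subgroup.normal_of_index_eq_two h2
  refine ⟨_, hN, inferInstance, fun W hW => ?_⟩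
  have h3 := ht.card_dvd_of_abelian h.injective (A := Subgroup.zpowers y) (by
      rintro _ ⟨i, rfl⟩ _ ⟨j, rfl⟩; exact (Commute.zpow_zpow_self y i j).eq)
    (by
      rw [Nat.card_zpowers]
      exact fun h3 => absurd (h3.trans ⟨_, h1.symm⟩) (by norm_num)) W hW
  rw [card_submodule, Nat.card_zpowers] at h3
  have h4 := Submodule.finrank_le W
  have hV := finrank_eq_of_card hn
  have h5 : finrank (ZMod 3) W ≠ 1 := fun h5 => by
    rw [h5] at h3
    have := Nat.le_of_dvd (by norm_num) h3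
    omega
  have h6 : finrank (ZMod 3) W = 0 ∨ finrank (ZMod 3) W = 2 := by omega
  exact h6.imp Submodule.finrank_eq_zero.1 fun h => Submodule.eq_top_of_finrank_eq (h.trans hV.symm)

theorem Fpf.eightyone {V : Type*} [AddCommGroup V] [Module (ZMod 3) V] [Finite V]
    {ρ : G →* End (ZMod 3) V} [Group.IsSolvable G] (h : Fpf ρ) (ht : Trans ρ)
    (hn : Nat.card V = 3 ^ 4) : IsSemiLin ρ 4 := by
  have := nontrivial_of_card (p := 3) (by norm_num) hn
  have hG : Nat.card G = 80 := by rw [h.card_eq ht, hn]; rfl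
  have f5 : Fact (Nat.Prime 5) := ⟨by norm_num⟩
  have hℓ : Misc.Zsig.IsPPD 3 4 5 := ⟨f5.out, by norm_num, fun k h1 h2 => by
    interval_cases k <;> norm_num⟩
  obtain ⟨x, hx⟩ := exists_prime_orderOf_dvd_card' (G := G) 5 (by rw [hG]; norm_num)
  refine semilinear_of_ppd h.injective hn hℓ hx fun r hr h1 h2 => ?_
  by_cases hr2 : r = 2
  swap
  · exact mem_centralizer_of_fpf h.injective f5.out hr (by norm_num) h2 h1 hx
      (ker_eq_bot_of_ppd hn hℓ (pow_eq_one_of_orderOf hx) (ne_one_of_orderOf h.injective hℓ.1 hx))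
      (Grp.pCore_isPGroup r G) fun h => absurd h hr2
  subst hr2
  have hX : IsPGroup 5 (Subgroup.zpowers x) :=
    IsPGroup.of_card (n := 1) (by rw [Nat.card_zpowers, hx, pow_one])
  have h2 : Nat.card (pCore 2 G) ≡ Nat.card ↥(pCore 2 G ⊓ 𝒞(Subgroup.zpowers x)) [MOD 5] :=
    Block.card_modEq_card_centralizer hX (fun y => y ∈ pCore 2 G) fun u _ y hy =>
      Subgroup.Normal.conj_mem inferInstance y hy u
  obtain ⟨i, hi⟩ := (Grp.pCore_isPGroup 2 G).exists_card_eq
  obtain ⟨j, hj⟩ := ((Grp.pCore_isPGroup 2 G).to_le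
    (inf_le_left : pCore 2 G ⊓ 𝒞(Subgroup.zpowers x) ≤ _)).exists_card_eq
  have h3 : i < 5 := by
    by_contra h4
    have := (pow_dvd_pow 2 (not_lt.1 h4)).trans (hi ▸ Subgroup.card_subgroup_dvd_card _)
    rw [hG] at this
    norm_num at this
  have h4 := Subgroup.card_le_of_le (inf_le_left : pCore 2 G ⊓ 𝒞(Subgroup.zpowers x) ≤ _)
  have h5 : j ≤ i := by
    rw [hi, hj] at h4; exact (Nat.pow_le_pow_iff_right (by norm_num)).1 h4
  have h6 : i ≠ 0 → j ≠ 0 := by
    rintro h6 rfl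
    obtain ⟨t, ht⟩ := exists_prime_orderOf_dvd_card' (G := pCore 2 G) 2 (hi ▸ dvd_pow_self _ h6)
    have ht' : orderOf (t : G) = 2 := by rw [Subgroup.orderOf_coe, ht]
    have : (t : G) ∈ pCore 2 G ⊓ 𝒞(Subgroup.zpowers x) :=
      ⟨t.2, fun g _ => h.involution_central ht' g⟩
    rw [Subgroup.card_eq_one.1 hj, Subgroup.mem_bot] at this
    rw [this, orderOf_one] at ht'
    omega
  have h7 : i = j := by
    rw [hi, hj] at h2
    clear * - h2 h3 h5 h6
    interval_cases i <;> interval_cases j <;> simp_all [Nat.ModEq]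
  have h8 := Subgroup.eq_of_le_of_card_ge
    (inf_le_left : pCore 2 G ⊓ 𝒞(Subgroup.zpowers x) ≤ _) (by rw [hi, hj, h7])
  rw [← Subgroup.zpowers_le, Subgroup.le_centralizer_iff, ← h8]
  exact inf_le_right

/-- The solvable exceptional near-fields. -/
theorem Fpf.solvable [Group.IsSolvable G] (h : Fpf ρ) (ht : Trans ρ) {n : ℕ} (hn0 : 0 < n)
    (hn : Nat.card V = p ^ n) (hI : ∀ A : Subgroup G, A.Normal → IsCyclic A → ¬ IrrOn ρ A) :
    n = 2 ∧ (p = 5 ∨ p = 7 ∨ p = 11 ∨ p = 23) := by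
  have := nontrivial_of_card hn0 hn
  have key : ¬ IsSemiLin ρ n := fun h1 => by
    obtain ⟨A, h2, h3, h4⟩ := ht.exists_cyclic_irr h.injective hn0 hn h1
    exact hI A h2 h3 h4
  rcases ht.huppert h.injective hn0 hn with h1 | ⟨rfl, rfl | h1⟩ | ⟨rfl, rfl⟩
  · exact absurd h1 key
  · obtain ⟨A, h2, h3, h4⟩ := h.nine ht hn
    exact absurd h4 (hI A h2 h3)
  · exact ⟨rfl, h1⟩
  · exact absurd (h.eightyone ht hn) key

theorem Trans.irrOn_of_nonscalar (h : Trans ρ) (hn : Nat.card V = p ^ 2) {A : Subgroup G}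
    [hA : A.Normal] (hZ : ¬ A ≤ scal ρ) : IrrOn ρ A := by
  have hV := finrank_eq_of_card hn
  intro W hW
  by_contra! hW0
  obtain ⟨v, hv, hv0⟩ := (Submodule.ne_bot_iff W).1 hW0.1
  have h1 : Submodule.span (ZMod p) {v} = W := by
    refine Submodule.eq_of_le_of_finrank_le ((Submodule.span_singleton_le_iff_mem _ _).2 hv) ?_
    have := Submodule.finrank_lt hW0.2
    rw [finrank_span_singleton hv0]; omega
  refine hZ fun a ha => LinearMap.exists_eq_smul_id_of_forall_notLinearIndependent fun w => ?_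
  by_cases hw : w = 0
  · exact fun hl => hl.ne_zero 0 hw
  obtain ⟨g, rfl⟩ := h v w hv0 hw
  have h2 := hW _ (hA.conj_mem a ha g⁻¹) v hv
  rw [← h1, Submodule.mem_span_singleton] at h2
  obtain ⟨c, hc⟩ := h2
  rw [LinearIndependent.pair_iff' hw]
  push Not
  refine ⟨c, ?_⟩
  rw [← map_smul, hc, ← Rep.apply_mul, ← Rep.apply_mul]
  congr 2; group

theorem scal_comm (hρ : Function.Injective ρ) {z : G} (hz : z ∈ scal ρ) (g : G) :
    g * z = z * g := by
  obtain ⟨c, hc⟩ := hz
  apply hρ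
  simp [hc]

theorem Trans.le_scal (h : Trans ρ) (hρ : Function.Injective ρ) (hn : Nat.card V = p ^ 2)
    (hI : ∀ A : Subgroup G, A.Normal → IsCyclic A → ¬ IrrOn ρ A) (A : Subgroup G) [hA : A.Normal]
    (hc : IsMulCommutative A) : A ≤ scal ρ := by
  have := nontrivial_of_card two_pos hn
  by_contra h1
  have h2 := h.irrOn_of_nonscalar hn h1
  exact hI A hA (isCyclic_of_irr hρ (fun a ha b hb =>
    congrArg Subtype.val (hc.is_comm.comm ⟨a, ha⟩ ⟨b, hb⟩)) h2) h2

theorem centralizer_le_scal (hρ : Function.Injective ρ) (hn : Nat.card V = p ^ 2) {N : Subgroup G}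
    (hN : ¬ IsMulCommutative N) : 𝒞(N) ≤ scal ρ := by
  obtain ⟨a, b, hab⟩ : ∃ a b : N, a * b ≠ b * a := by
    by_contra! h; exact hN ⟨⟨h⟩⟩
  intro t ht
  refine scalar_of_comm_of_anticomm (finrank_eq_of_card hn) (A := ρ a) (B := ρ b) (fun h => hab ?_)
    ?_ ?_
  · rw [← map_mul, ← map_mul] at h; exact Subtype.ext (hρ h)
  · rw [← map_mul, ← map_mul, ht a a.2]
  · rw [← map_mul, ← map_mul, ht b b.2]

/-- A minimal non-abelian normal subgroup which is solvable is quaternion of order eight. -/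
theorem Fpf.quaternion (h : Fpf ρ) (ht : Trans ρ) (hn : Nat.card V = p ^ 2)
    (hI : ∀ A : Subgroup G, A.Normal → IsCyclic A → ¬ IrrOn ρ A) (N : Subgroup G) [N.Normal]
    (hsol : Group.IsSolvable N) (hna : ¬ IsMulCommutative N)
    (hmin : ∀ M : Subgroup G, M.Normal → M ≤ N → ¬ IsMulCommutative M → M = N) :
    Nonempty (N ≃* QuaternionGroup 2) := by
  have := nontrivial_of_card two_pos hn
  have hρ := h.injective
  have hN0 : N ≠ ⊥ := by rintro rfl; exact hna inferInstance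
  have hlt := Solv.commutator_lt_of_isSolvable hsol hN0
  have hder : ⁅N, N⁆ ≤ scal ρ := ht.le_scal hρ hn hI _ (by
    by_contra h1; exact hlt.ne (hmin _ inferInstance hlt.le h1))
  have hsign : ∀ g k : N, ρ g * ρ k = ρ k * ρ g ∨ ρ g * ρ k = -(ρ k * ρ g) := by
    intro g k
    obtain ⟨c, hc⟩ := hder (Subgroup.commutator_mem_commutator g.2 k.2)
    refine comm_or_anticomm (finrank_eq_of_card hn) (isUnit_rho _) (isUnit_rho _) (c := c) ?_
    rw [← map_mul, show (g : G) * k = ⁅(g : G), (k : G)⁆ * (k * g) by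
      rw [commutatorElement_def]; group, map_mul, hc, map_mul]; simp
  have hsq : ∀ g k : N, g ^ 2 * k = k * g ^ 2 := by
    intro g k
    refine Subtype.ext (hρ ?_)
    simp only [Subgroup.coe_mul, sq, map_mul]
    rcases hsign g k with h1 | h1
    · rw [mul_assoc, h1, ← mul_assoc, h1, mul_assoc]
    · rw [mul_assoc, h1, mul_neg, ← mul_assoc, h1, neg_mul, neg_neg, mul_assoc]
  have hnil : Group.IsNilpotent N := by
    refine Subgroup.isNilpotent_of_ker_le_center (Abelianization.of (G := N)) ?_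
    intro z hz
    rw [Abelianization.ker_of] at hz
    rw [Subgroup.mem_center_iff]
    intro g
    refine Subtype.ext (scal_comm hρ (hder ?_) g)
    rw [← Subgroup.map_subtype_commutator]
    exact ⟨z, hz, rfl⟩
  have hodd : pPrimeCore 2 N ≤ Subgroup.center N := by
    intro g hg
    obtain ⟨k, hk⟩ : Odd (orderOf g) :=
      Nat.Coprime.odd_of_right (Grp.orderOf_coprime_of_mem_pPrimeCore hg)
    have h1 : g = (g ^ 2) ^ (k + 1) := by
      rw [← pow_mul, show 2 * (k + 1) = orderOf g + 1 by omega, pow_succ, pow_orderOf_eq_one, one_mul]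
    rw [h1]
    exact Subgroup.pow_mem _ (Subgroup.mem_center_iff.2 fun k => (hsq g k).symm) _
  have h2 : IsPGroup 2 N := by
    have h3 := hmin ((pCore 2 N).map N.subtype) (Grp.normal_map_subtype_of_characteristic _ _)
      (Subgroup.map_subtype_le _) fun hc => hna ⟨⟨fun a b => ?_⟩⟩
    · rw [← h3]; exact Grp.map_pCore_isPGroup 2 _
    · have h4 := Grp.pCore_sup_pPrimeCore_of_isNilpotent (G := N) 2
      obtain ⟨a1, ha1, a2, ha2, rfl⟩ := Subgroup.mem_sup_of_normal_right.1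
        (h4 ▸ Subgroup.mem_top a : a ∈ pCore 2 N ⊔ pPrimeCore 2 N)
      obtain ⟨b1, hb1, b2, hb2, rfl⟩ := Subgroup.mem_sup_of_normal_right.1
        (h4 ▸ Subgroup.mem_top b : b ∈ pCore 2 N ⊔ pPrimeCore 2 N)
      have c1 : Commute a1 b1 := Subtype.ext
        (congrArg (fun t : ↥((pCore 2 N).map N.subtype) => (t : G))
          (hc.is_comm.comm ⟨a1, a1, ha1, rfl⟩ ⟨b1, b1, hb1, rfl⟩))
      have c2 := Subgroup.mem_center_iff.1 (hodd ha2)
      have c3 := Subgroup.mem_center_iff.1 (hodd hb2)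
      exact (c1.mul_right (c3 a1)).mul_left (c2 _).symm
  rcases Inv.cyclic_or_quaternion_of_unique_involution' h2
    (fun x _ y _ hx hy => h.involution_eq hx hy) with hc | ⟨m, ⟨e⟩⟩
  · exact absurd ⟨⟨fun a b => (IsCyclic.commGroup (α := N)).mul_comm a b⟩⟩ hna
  have h3 := congrArg e (hsq (e.symm (QuaternionGroup.a 1)) (e.symm (QuaternionGroup.xa 0)))
  simp only [map_mul, MulEquiv.apply_symm_apply, sq, QuaternionGroup.a_mul_a,
    QuaternionGroup.a_mul_xa, QuaternionGroup.xa_mul_a, QuaternionGroup.xa.injEq] at h3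
  have h4 : ((4 : ℕ) : ZMod (2 * 2 ^ (m + 1))) = 0 := by
    push_cast; linear_combination -h3
  rw [ZMod.natCast_eq_zero_iff] at h4
  have h5 : m = 0 := by
    by_contra h6
    have h7 := Nat.le_of_dvd (by norm_num) h4
    have h8 : 2 ^ 2 ≤ 2 ^ (m + 1) := Nat.pow_le_pow_right two_pos (by omega)
    omega
  subst h5
  exact ⟨e⟩

end Cfsg.Agent.Perm.SemiLin
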