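import Mathlib
import Cfsg.Agent.Perm.RegLin
import Cfsg.Agent.Perm.SimplePower
import Cfsg.Agent.S3359

/-!
# Linear groups regular on the nonzero vectors: the non-solvable case
-/

set_option autoImplicit false
set_option linter.unusedSectionVars false

namespace Cfsg.Agent.Perm.SemiLin

open Module Cfsg Cfsg.Agent.FT Cfsg.Agent.FGS.FrobCompl

variable {p : ℕ} [Fact p.Prime] {V : Type*} [AddCommGroup V] [Module (ZMod p) V] [Finite V]
  {G : Type*} [Group G] [Finite G] {ρ : G →* End (ZMod p) V}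

theorem Fpf.occurs [Nontrivial V] [Nontrivial G] (h : Fpf ρ) : Occurs G := by
  let φ : G →* MulAut (Multiplicative V) :=
    { toFun := fun g =>
        { toFun := fun v => Multiplicative.ofAdd (ρ g v.toAdd)
          invFun := fun v => Multiplicative.ofAdd (ρ g⁻¹ v.toAdd)
          left_inv := fun v => by simp
          right_inv := fun v => by simp
          map_mul' := fun v w => by simp }
      map_one' := by ext v; simp
      map_mul' := fun a b => by ext v; simp }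
  refine occurs_of_isFpf φ fun a v hv => ?_
  by_cases h0 : v.toAdd = 0
  · exact Or.inr h0
  · exact Or.inl (h a _ h0 (congrArg Multiplicative.toAdd hv))

theorem Fpf.subgroup (h : Fpf ρ) (N : Subgroup G) : Fpf (ρ.comp N.subtype) :=
  fun g v hv hg => Subtype.ext (h g v hv hg)

theorem not_comm_of_equiv_SL25 {S : Type*} [Group S] (e : S ≃* SL25) : ¬ IsMulCommutative S := by
  intro hc
  have := congrArg e (hc.is_comm.comm (e.symm sl25x) (e.symm sl25y))
  simp only [map_mul, MulEquiv.apply_symm_apply] at this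
  revert this
  decide

theorem arith_nonsolvable {p m i : ℕ} (hp : p.Prime) (hi : i = 1 ∨ i = 2) (hm : m.Coprime 30)
    (h1 : m ∣ p - 1) (h2 : 120 * m * i = p ^ 2 - 1) :
    i = 1 ∧ ((p = 11 ∧ m = 1) ∨ (p = 29 ∧ m = 7) ∨ (p = 59 ∧ m = 29)) := by
  have h3 : p + 1 ∣ 240 := by
    obtain ⟨t, ht⟩ := h1
    have h4 : p ^ 2 - 1 = (p + 1) * (p - 1) := by rw [← Nat.sq_sub_sq]
    have hm0 : 0 < m := Nat.pos_of_ne_zero (by rintro rfl; norm_num at hm)
    rw [h4, ht] at h2
    have h5 : 120 * i = (p + 1) * t := Nat.eq_of_mul_eq_mul_left hm0 (by linarith)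
    exact Dvd.dvd.trans ⟨t, h5⟩ (by rcases hi with rfl | rfl <;> norm_num)
  have h4 := Nat.le_of_dvd (by norm_num) h3
  have h5 := hp.two_le
  have m2 : ¬ 2 ∣ m := fun h => by simpa using Nat.eq_one_of_dvd_coprimes hm h (by norm_num)
  have m3 : ¬ 3 ∣ m := fun h => by simpa using Nat.eq_one_of_dvd_coprimes hm h (by norm_num)
  have m5 : ¬ 5 ∣ m := fun h => by simpa using Nat.eq_one_of_dvd_coprimes hm h (by norm_num)
  have h6 : p ≤ 239 := by omega
  have h7 : p ≠ 119 := by rintro rfl; norm_num at hp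
  clear hm hp h4 h1
  interval_cases p <;> simp at h3 <;> rcases hi with rfl | rfl <;> omega

/-- Structure of a non-solvable group regular on nonzero vectors. -/
theorem Fpf.nonsolvable (hns : ¬ Group.IsSolvable G) (h : Fpf ρ) (ht : Trans ρ) {n : ℕ}
    (hn0 : 0 < n) (hn : Nat.card V = p ^ n) :
    n = 2 ∧ ∃ M : Subgroup G, Nonempty (G ≃* SL25 × M) ∧
      ((p = 11 ∧ Nat.card M = 1) ∨ (p = 29 ∧ Nat.card M = 7) ∨ (p = 59 ∧ Nat.card M = 29)) := by
  have hp : p.Prime := Fact.out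
  have := nontrivial_of_card hn0 hn
  have hρ := h.injective
  have : Nontrivial G := by
    by_contra h0
    rw [not_nontrivial_iff_subsingleton] at h0
    exact hns inferInstance
  obtain ⟨G₀, -, hi, S, M, h1, h2, h3, ⟨e⟩, -, hM⟩ := S3359.result hns h.occurs
  obtain ⟨e₀⟩ := nonempty_sup_mulEquiv_prod S M h3 (disjoint_iff.2 h2)
  have hS : Nat.card S = 120 := by rw [Nat.card_congr e.toEquiv, Perm.Fpf.card_SL25]
  have hG : 120 * Nat.card M * G₀.index = p ^ n - 1 := by
    rw [← hn, ← h.card_eq ht, ← G₀.card_mul_index, ← h1, Nat.card_congr e₀.toEquiv, Nat.card_prod,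
      hS]
  have h120 : 120 ∣ p ^ n - 1 := ⟨_, by rw [← hG, mul_assoc]⟩
  have hpn : ∀ r : ℕ, r.Prime → r ∣ 120 → p ≠ r := by
    rintro r hr h4 rfl
    exact hr.one_lt.ne' (Nat.dvd_one.1 ((Nat.dvd_sub_iff_right (Nat.one_le_pow _ _ hp.pos)
      (dvd_pow_self p hn0.ne')).1 (h4.trans h120)))
  have hn2 : n = 2 := by
    by_contra hn2
    by_cases hn1 : n = 1
    · subst hn1
      refine not_comm_of_equiv_SL25 e ⟨⟨fun a b => Subtype.ext (hρ ?_)⟩⟩
      simp only [Subgroup.coe_mul, map_mul]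
      refine comm_of_irr ∅ (by simp) (fun W _ => ?_) (by simp) (by simp)
      have h4 := Submodule.finrank_le W
      have hV := finrank_eq_of_card hn
      have h6 : finrank (ZMod p) W = 0 ∨ finrank (ZMod p) W = 1 := by omega
      exact h6.imp Submodule.finrank_eq_zero.1 fun h =>
        Submodule.eq_top_of_finrank_eq (h.trans hV.symm)
    obtain ⟨ℓ, h5, h6, h7, h8⟩ := S3430.result p n hp.two_le (by omega) (fun h => hn2 h.1)
      (fun h => hpn 2 (by norm_num) (by norm_num) h.1)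
      (fun h => hpn 3 (by norm_num) (by norm_num) h.1)
      (fun h => hpn 5 (by norm_num) (by norm_num) h.1)
    have hℓ : Misc.Zsig.IsPPD p n ℓ := ⟨h5, h6, h7⟩
    have h9 := hℓ.lt hn0 hp.one_lt
    have h240 : p ^ n - 1 ∣ 240 * Nat.card M := by
      rw [← hG]; rcases hi with hi | hi <;> rw [hi]
      · exact ⟨2, by ring⟩
      · exact ⟨1, by ring⟩
    have h10 : ℓ ∣ Nat.card M := by
      by_cases h11 : ℓ = 5
      · subst h11
        have h12 := hℓ.dvd_sub_one hn0 hp.one_lt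
        have h13 : n = 4 := by
          have : n < 5 := h9
          interval_cases n <;> simp_all
        have h14 := (h8.resolve_left (by omega)).trans h240
        omega
      · refine ((Nat.Prime.dvd_mul h5).1 (h6.trans h240)).resolve_left fun h12 => ?_
        have h13 : ℓ ∣ 2 ^ 4 * 3 * 5 := h12
        rw [Nat.Prime.dvd_mul h5, Nat.Prime.dvd_mul h5] at h13
        rcases h13 with (h13 | h13) | h13
        · have := Nat.le_of_dvd two_pos (h5.dvd_of_dvd_pow h13); omega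
        · have := Nat.le_of_dvd three_pos h13; omega
        · exact h11 ((Nat.prime_dvd_prime_iff_eq h5 (by norm_num)).1 h13)
    have := Fact.mk h5
    obtain ⟨x, hx⟩ := exists_prime_orderOf_dvd_card' (G := M) ℓ h10
    have hx' : orderOf (x : G) = ℓ := by rw [Subgroup.orderOf_coe, hx]
    refine not_comm_of_equiv_SL25 e ⟨⟨fun a b => Subtype.ext (hρ ?_)⟩⟩
    simp only [Subgroup.coe_mul, map_mul]
    refine comm_of_irr {ρ x} (by rintro _ rfl _ rfl; rfl) (fun W hW => irr_of_ppd hn hℓ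
      (pow_eq_one_of_orderOf hx') (ne_one_of_orderOf hρ h5 hx') W (hW _ rfl)) ?_ ?_
    · rintro _ rfl; rw [← map_mul, ← map_mul, h3 a a.2 x x.2]
    · rintro _ rfl; rw [← map_mul, ← map_mul, h3 b b.2 x x.2]
  subst hn2
  have h4 : M ≤ scal ρ := fun x hx =>
    centralizer_le_scal hρ hn (not_comm_of_equiv_SL25 e) fun s hs => h3 s hs x hx
  obtain ⟨h5, h6⟩ := arith_nonsolvable hp hi hM
    ((Subgroup.card_dvd_of_le h4).trans (card_scal_dvd hρ)) hG
  refine ⟨rfl, M, ⟨?_⟩, h6⟩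
  exact ((Subgroup.topEquiv.symm.trans (MulEquiv.subgroupCongr
    ((h1.trans (Subgroup.index_eq_one.1 h5)).symm))).trans e₀).trans (e.prodCongr (MulEquiv.refl _))

theorem Fpf.dim_two (h : Fpf ρ) (ht : Trans ρ) {n : ℕ} (hn0 : 0 < n)
    (hn : Nat.card V = p ^ n) (hI : ∀ A : Subgroup G, A.Normal → IsCyclic A → ¬ IrrOn ρ A) :
    n = 2 := by
  by_cases hs : Group.IsSolvable G
  · exact (h.solvable ht hn0 hn hI).1
  · exact (h.nonsolvable hs ht hn0 hn).1

/-- The representation attached to a subgroup of the general linear group. -/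
def ofSubgroup (H : Subgroup (V ≃ₗ[ZMod p] V)) : H →* End (ZMod p) V where
  toFun g := ((g : V ≃ₗ[ZMod p] V) : V →ₗ[ZMod p] V)
  map_one' := rfl
  map_mul' _ _ := rfl

theorem finite_of_subgroup (H : Subgroup (V ≃ₗ[ZMod p] V)) : Finite H :=
  Finite.of_injective (fun g : H => ((g : V ≃ₗ[ZMod p] V) : V → V)) fun _ _ h =>
    Subtype.ext (LinearEquiv.ext (congrFun h))

theorem fpf_ofSubgroup {H : Subgroup (V ≃ₗ[ZMod p] V)}
    (hreg : ∀ v w : V, v ≠ 0 → w ≠ 0 → ∃! h : H, (h : V ≃ₗ[ZMod p] V) v = w) :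
    Fpf (ofSubgroup H) := fun _ v hv hg => (hreg v v hv hv).unique hg rfl

theorem trans_ofSubgroup {H : Subgroup (V ≃ₗ[ZMod p] V)}
    (hreg : ∀ v w : V, v ≠ 0 → w ≠ 0 → ∃! h : H, (h : V ≃ₗ[ZMod p] V) v = w) :
    Trans (ofSubgroup H) := fun v w hv hw => (hreg v w hv hw).exists

theorem not_irrOn_ofSubgroup {H : Subgroup (V ≃ₗ[ZMod p] V)}
    (hI : ∀ A : Subgroup H, A.Normal → IsCyclic A → ∃ W : Submodule (ZMod p) V, W ≠ ⊥ ∧ W ≠ ⊤ ∧
      ∀ a ∈ A, ∀ v ∈ W, ((a : H) : V ≃ₗ[ZMod p] V) v ∈ W) :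
    (∃ n, 0 < n ∧ Nat.card V = p ^ n) ∧
      ∀ A : Subgroup H, A.Normal → IsCyclic A → ¬ IrrOn (ofSubgroup H) A := by
  refine ⟨⟨finrank (ZMod p) V, ?_,
    by rw [Module.natCard_eq_pow_finrank (K := ZMod p), Nat.card_zmod]⟩, fun A h1 h2 h3 => ?_⟩
  · obtain ⟨W, h1, -⟩ := hI ⊥ inferInstance inferInstance
    obtain ⟨v, -, hv⟩ := (Submodule.ne_bot_iff W).1 h1
    have : Nontrivial V := ⟨v, 0, hv⟩
    exact finrank_pos
  · obtain ⟨W, h4, h5, h6⟩ := hI A h1 h2
    exact (h3 W h6).elim h4 h5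

end Cfsg.Agent.Perm.SemiLin
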