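import Mathlib

/-! In a field containing `√5` and a nontrivial root of unity of order prime to `10`, zero is a
nontrivial sum of four squares. -/

set_option autoImplicit false

namespace Cfsg.Agent.Perm.Stufe

open Finset

theorem sum_two_sq_of_dvd {K : Type*} [Field K] [CharZero K] {s : K} (hs : s * s = 5) (n : ℕ)
    (hn : 0 < n) (t : ℤ) (h : (n : ℤ) ∣ t ^ 2 + 5) : ∃ x y : K, x ^ 2 + y ^ 2 = n := by
  induction n using Nat.strong_induction_on generalizing t with
  | _ n ih =>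
  by_cases h1 : n = 1
  · exact ⟨1, 0, by simp [h1]⟩
  by_cases h2 : n = 2
  · exact ⟨1, 1, by simp [h2]; norm_num⟩
  have h3 : (3 : ℤ) ≤ n := by omega
  obtain ⟨u, hu1, hu2⟩ : ∃ u : ℤ, (n : ℤ) ∣ u ^ 2 + 5 ∧ 2 * |u| ≤ n := by
    refine ⟨t.bmod n, ?_, ?_⟩
    · have h4 : (n : ℤ) ∣ t.bmod n - t := Int.dvd_bmod_sub_self
      have : t.bmod n ^ 2 + 5 = (t.bmod n - t) * (t.bmod n + t) + (t ^ 2 + 5) := by ring
      rw [this]
      exact (h4.mul_right _).add h
    · have h4 := Int.le_bmod (x := t) hn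
      have h5 := Int.bmod_lt (x := t) hn
      rcases abs_cases (t.bmod n) with h6 | h6 <;> omega
  obtain ⟨m, hm⟩ := hu1
  have hm0 : 0 < m := by
    by_contra h4
    nlinarith [sq_nonneg u]
  have hmn : m < n := by
    by_contra h4
    nlinarith [sq_abs u, abs_nonneg u]
  lift m to ℕ using hm0.le
  obtain ⟨a, b, hab⟩ := ih m (by exact_mod_cast hmn) (by exact_mod_cast hm0) u
    ⟨n, by rw [hm, mul_comm]⟩
  have hm1 : (m : K) ≠ 0 := by
    have : m ≠ 0 := by omega
    exact_mod_cast this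
  have hK : (u : K) ^ 2 + 5 = n * m := by exact_mod_cast hm
  refine ⟨(u * a - s * b) / m, (u * b + s * a) / m, ?_⟩
  field_simp
  linear_combination (u ^ 2 + s * s) * hab + m * hK + m * hs

theorem gauss_norm {K : Type*} [Field K] [CharZero K] {p : ℕ} [hp : Fact p.Prime]
    (h4 : p % 4 = 3) (z : K) :
    ∃ A B : K, (1 - z) * (A ^ 2 + p * B ^ 2) = 4 * (1 - z ^ p) := by
  classical
  haveI : NeZero p := ⟨hp.out.ne_zero⟩
  let L := CyclotomicField p K
  haveI : IsGalois K L := IsCyclotomicExtension.isGalois {p} K L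
  haveI : FiniteDimensional K L := IsCyclotomicExtension.finite {p} K L
  have hη := IsCyclotomicExtension.zeta_spec p K L
  set η := IsCyclotomicExtension.zeta p K L
  let ψ : AddChar (ZMod p) L := AddChar.zmodChar p ((IsPrimitiveRoot.iff_def η p).mp hη).left
  have hψ : ψ.IsPrimitive := AddChar.zmodChar_primitive_of_primitive_root p hη
  have hch : ringChar (ZMod p) ≠ 2 := by
    rw [ZMod.ringChar_zmod_n]; rintro rfl; norm_num at h4
  let χ₀ := quadraticChar (ZMod p)
  let χ : MulChar (ZMod p) L := χ₀.ringHomComp (Int.castRingHom L)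
  have hg : gaussSum χ ψ ^ 2 = -p := by
    rw [gaussSum_sq ((MulChar.ringHomComp_ne_one_iff (RingHom.injective_int _)).2
      (quadraticChar_ne_one hch)) ((quadraticChar_isQuadratic _).comp _) hψ]
    have : χ₀ (-1) = -1 := by
      rw [quadraticChar_neg_one_iff_not_isSquare, ZMod.exists_sq_eq_neg_one_iff]
      simp [h4]
    change ((χ₀ (-1) : ℤ) : L) * _ = _
    rw [this, ZMod.card, Int.cast_neg, Int.cast_one, neg_one_mul]
  let F : ℤ → L := fun e => ∏ a ∈ univ.filter (fun a : ZMod p => χ₀ a = e),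
    (1 - ψ a * algebraMap K L z)
  have hσ : ∀ σ : L ≃ₐ[K] L, ∃ k : (ZMod p)ˣ, ∀ a, σ (ψ a) = ψ (k * a) := by
    intro σ
    obtain ⟨i, hi, h1⟩ := hη.eq_pow_of_pow_eq_one (ξ := σ η) (by rw [← map_pow, hη.pow_eq_one, map_one])
    have h2 : ∀ a : ZMod p, σ (ψ a) = ψ (i * a) := by
      intro a
      have h3 : ((i * a.val : ℕ) : ZMod p) = i * a := by simp
      rw [← h3, AddChar.zmodChar_apply', AddChar.zmodChar_apply, map_pow, ← h1, pow_mul]
    have h3 : (i : ZMod p) ≠ 0 := by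
      intro h
      have h5 := h2 1
      rw [h, zero_mul, AddChar.map_zero_eq_one, map_eq_one_iff _ σ.injective,
        hψ.zmod_char_eq_one_iff] at h5
      exact one_ne_zero h5
    exact ⟨Units.mk0 _ h3, h2⟩
  have hF : ∀ (σ : L ≃ₐ[K] L) (k : (ZMod p)ˣ), (∀ a, σ (ψ a) = ψ (k * a)) → ∀ e,
      σ (F e) = F (χ₀ k * e) := by
    intro σ k hk e
    simp only [F, map_prod, map_sub, map_one, map_mul, hk, AlgEquiv.commutes]
    refine Finset.prod_equiv k.mulLeft (fun a => ?_) (fun a _ => rfl)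
    simp only [mem_filter, mem_univ, true_and, Units.mulLeft_apply, map_mul]
    exact (mul_right_inj' (k.isUnit.map χ₀).ne_zero).symm
  have hG : ∀ (σ : L ≃ₐ[K] L) (k : (ZMod p)ˣ), (∀ a, σ (ψ a) = ψ (k * a)) →
      (χ₀ k : L) * σ (gaussSum χ ψ) = gaussSum χ ψ := by
    intro σ k hk
    have := gaussSum_mulShift χ ψ k
    rw [← this]
    congr 1
    rw [this]
    simp [gaussSum, χ, hk]
  have hg0 : gaussSum χ ψ ≠ 0 := by
    intro h
    rw [h] at hg
    have : (p : L) ≠ 0 := Nat.cast_ne_zero.2 hp.out.ne_zero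
    exact this (by simpa using hg.symm)
  obtain ⟨A, hA⟩ : F 1 + F (-1) ∈ Set.range (algebraMap K L) := by
    rw [IsGalois.mem_range_algebraMap_iff_fixed]
    intro σ
    obtain ⟨k, hk⟩ := hσ σ
    rw [map_add, hF σ k hk, hF σ k hk]
    rcases quadraticChar_dichotomy k.ne_zero with h | h <;> simp [χ₀, h, add_comm]
  obtain ⟨B, hB⟩ : (F 1 - F (-1)) / gaussSum χ ψ ∈ Set.range (algebraMap K L) := by
    rw [IsGalois.mem_range_algebraMap_iff_fixed]
    intro σ
    obtain ⟨k, hk⟩ := hσ σ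
    have h1 := hG σ k hk
    rw [map_div₀, map_sub, hF σ k hk, hF σ k hk]
    rcases quadraticChar_dichotomy k.ne_zero with h | h
    · simp only [χ₀, h, Int.cast_one, one_mul] at h1 ⊢
      rw [h1]
    · simp only [χ₀, h, Int.cast_neg, Int.cast_one, neg_mul, one_mul, neg_neg] at h1 ⊢
      have h2 : σ (gaussSum χ ψ) = -gaussSum χ ψ := by linear_combination -h1
      rw [h2, div_neg, ← neg_div, neg_sub]
  have hprod : (1 - algebraMap K L z) * (F 1 * F (-1)) = 1 - algebraMap K L z ^ p := by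
    have h1 := hη.pow_sub_pow_eq_prod_sub_mul 1 (algebraMap K L z) hp.out.pos
    rw [one_pow] at h1
    rw [h1]
    have h2 : ∏ ζ ∈ Polynomial.nthRootsFinset p (1 : L), (1 - ζ * algebraMap K L z) =
        ∏ a : ZMod p, (1 - ψ a * algebraMap K L z) := by
      symm
      refine Finset.prod_bij (fun a _ => ψ a) (fun a _ => ?_) (fun a _ b _ h => ?_)
        (fun b hb => ?_) (fun a _ => rfl)
      · rw [Polynomial.mem_nthRootsFinset hp.out.pos, ← AddChar.map_nsmul_eq_pow]
        simp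
      · exact ZMod.val_injective p (hη.pow_inj (ZMod.val_lt a) (ZMod.val_lt b) h)
      · obtain ⟨i, -, hi⟩ := hη.eq_pow_of_pow_eq_one
          ((Polynomial.mem_nthRootsFinset hp.out.pos _).1 hb)
        exact ⟨i, mem_univ _, by rw [← hi, AddChar.zmodChar_apply']⟩
    rw [h2, ← Finset.prod_filter_mul_prod_filter_not univ (fun a : ZMod p => χ₀ a = 1),
      ← Finset.prod_filter_mul_prod_filter_not (univ.filter fun a : ZMod p => ¬ χ₀ a = 1)
        (fun a : ZMod p => χ₀ a = -1), filter_filter, filter_filter]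
    have e1 : univ.filter (fun a : ZMod p => ¬ χ₀ a = 1 ∧ χ₀ a = -1) =
        univ.filter (fun a : ZMod p => χ₀ a = -1) :=
      filter_congr fun a _ => ⟨fun h => h.2, fun h => ⟨by rw [h]; norm_num, h⟩⟩
    have e2 : univ.filter (fun a : ZMod p => ¬ χ₀ a = 1 ∧ ¬ χ₀ a = -1) = {0} := by
      ext a
      simp only [mem_filter, mem_univ, true_and, mem_singleton]
      constructor
      · intro h
        by_contra h0
        exact (quadraticChar_dichotomy h0).elim h.1 h.2
      · rintro rfl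
        simp [χ₀]
    rw [e1, e2, prod_singleton, AddChar.map_zero_eq_one, one_mul]
    ring
  refine ⟨A, B, (algebraMap K L).injective ?_⟩
  simp only [map_mul, map_add, map_sub, map_pow, map_one, map_natCast, map_ofNat, hA, hB]
  rw [div_pow, hg]
  have : (p : L) ≠ 0 := Nat.cast_ne_zero.2 hp.out.ne_zero
  rw [div_neg, mul_neg, mul_div_cancel₀ _ this]
  linear_combination 4 * hprod

theorem three_not_sq : ¬ IsSquare ((3 : ℕ) : ZMod 5) := by decide

theorem exists_four_sq {K : Type*} [Field K] [CharZero K] {s z : K} (hs : s * s = 5) {r : ℕ}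
    (hr : r.Coprime 20) (hz : z ^ r = 1) (hz1 : z ≠ 1) :
    ∃ a b c d : K, a ≠ 0 ∧ a ^ 2 + b ^ 2 + c ^ 2 + d ^ 2 = 0 := by
  have hr0 : 0 < r := Nat.pos_of_ne_zero (by rintro rfl; simp at hr)
  obtain ⟨k, rfl⟩ : ∃ k, r = 2 * k + 1 := by
    refine ⟨r / 2, ?_⟩
    have : ¬ 2 ∣ r := fun h => by
      have := Nat.Coprime.coprime_dvd_left h hr
      norm_num at this
    omega
  obtain ⟨a, ha1, ha2⟩ := Nat.chineseRemainder hr (2 * k) 3
  have hc : a.Coprime ((2 * k + 1) * 20) := by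
    apply Nat.Coprime.mul_right
    · rw [Nat.Coprime, ha1.gcd_eq]; simp
    · rw [Nat.Coprime, ha2.gcd_eq]; norm_num
  obtain ⟨p, -, hp, hpa⟩ := Nat.forall_exists_prime_gt_and_modEq 0 (by positivity) hc
  haveI := Fact.mk hp
  have h1 : p ≡ 2 * k [MOD 2 * k + 1] := (hpa.of_mul_right 20).trans ha1
  have h2 : p % 20 = 3 := (hpa.of_mul_left _).trans ha2
  obtain ⟨A, B, hAB⟩ := gauss_norm (p := p) (by omega) z
  obtain ⟨t, ht⟩ : IsSquare (-5 : ZMod p) := by
    haveI : Fact (Nat.Prime 5) := ⟨Nat.prime_five⟩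
    have h3 : ¬ IsSquare (-1 : ZMod p) := by
      rw [ZMod.exists_sq_eq_neg_one_iff]; omega
    have h4 : ¬ IsSquare ((5 : ℕ) : ZMod p) := by
      rw [← ZMod.exists_sq_eq_prime_iff_of_mod_four_eq_one (p := 5) (by norm_num) (by omega),
        ← ZMod.natCast_mod p 5, show p % 5 = 3 by omega]
      exact three_not_sq
    have h5 : (-1 * ((5 : ℕ) : ZMod p)) ≠ 0 := by
      refine mul_ne_zero (neg_ne_zero.2 one_ne_zero) fun h => h4 (h ▸ IsSquare.zero)
    have h6 := (quadraticChar_one_iff_isSquare h5).1 (by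
      rw [map_mul, quadraticChar_neg_one_iff_not_isSquare.2 h3,
        quadraticChar_neg_one_iff_not_isSquare.2 h4]; norm_num)
    simpa using h6
  obtain ⟨x, y, hxy⟩ := sum_two_sq_of_dvd hs p hp.pos t.val (by
    rw [← ZMod.intCast_zmod_eq_zero_iff_dvd]
    push_cast
    rw [ZMod.natCast_zmod_val, pow_two, ← ht]
    ring)
  have hz0 : z ≠ 0 := by rintro rfl; simp at hz
  have h3 : z ^ p = z ^ (2 * k) := by rw [pow_eq_pow_mod p hz, h1, ← pow_eq_pow_mod _ hz]
  refine ⟨2 * z ^ k, A, x * B, y * B, mul_ne_zero two_ne_zero (pow_ne_zero _ hz0), ?_⟩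
  apply mul_left_cancel₀ (sub_ne_zero.2 hz1.symm)
  linear_combination hAB + (1 - z) * B ^ 2 * hxy - 4 * h3 - 4 * hz

end Cfsg.Agent.Perm.Stufe
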