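import Mathlib
import Cfsg.Agent.Char.DegVan
import Cfsg.Agent.Perm.ZassSharp3

/-!
A group of order `q (q² - 1)`, `q` odd, with a self-centralising abelian Sylow subgroup of order
`q` and at least `q²` involutions is `PGL₂(q)`.
-/

set_option autoImplicit false

namespace Cfsg.Agent.SylPGL

open Cfsg MulAction Subgroup DegVan Perm Perm.ZassPSL
open scoped Pointwise MatrixGroups

variable {G : Type*} [Group G] [Finite G] {p : ℕ} [hp : Fact p.Prime] (P : Sylow p G)
  (hab : ∀ x ∈ (P : Subgroup G), ∀ y ∈ (P : Subgroup G), x * y = y * x)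
  (hC : ∀ x ∈ (P : Subgroup G), x ≠ 1 → ∀ g : G, g * x = x * g → g ∈ (P : Subgroup G))

include hab hC

theorem card_sylow {q : ℕ} (hq : Nat.card (P : Subgroup G) = q) (h1 : 1 < q)
    (hG : Nat.card G = q * (q ^ 2 - 1)) : Nat.card (Sylow p G) = q + 1 ∧
      Nat.card (normalizer (P : Set G)) = q * (q - 1) := by
  obtain ⟨k, rfl⟩ : ∃ k, q = k + 1 := ⟨q - 1, by omega⟩
  rw [show (k + 1) ^ 2 - 1 = k * (k + 2) from Nat.sub_eq_of_eq_add (by ring)] at hG
  have hnt : Nontrivial (P : Subgroup G) := Finite.one_lt_card_iff_nontrivial.1 (by omega)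
  obtain ⟨⟨x, hx⟩, hx1⟩ := exists_ne (1 : (P : Subgroup G))
  have hx1 : x ≠ 1 := fun h => hx1 (Subtype.ext h)
  have ha : ∀ u ∈ (P : Subgroup G), u • P = P := fun u hu =>
    Sylow.smul_eq_iff_mem_normalizer.mpr (Subgroup.le_normalizer hu)
  have hd : Nat.card (P : Subgroup G) ∣ ({P}ᶜ : Set (Sylow p G)).ncard :=
    card_dvd_of_free (fun t ht c hc h => hc (smul_left_cancel t ((show t • c = P from h).trans
      (ha t ht).symm))) fun u hu c hc h => free_sylow P hab hC hu hc h
  rw [Set.ncard_compl, Set.ncard_singleton] at hd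
  have he := index_le P hC hx hx1
  have hN : Nat.card (normalizer (P : Set G)) =
      Nat.card (P : Subgroup G) * (P : Subgroup G).relIndex (normalizer (P : Set G)) := by
    rw [relIndex, ← card_mul_index ((P : Subgroup G).subgroupOf (normalizer (P : Set G)))]
    congr 1
    exact Nat.card_congr (subgroupOfEquivOfLe (le_normalizer (H := (P : Subgroup G)))).toEquiv
  have hn := card_mul_index (normalizer (P : Set G))
  rw [← P.card_eq_index_normalizer] at hn
  have hq' : Nat.card P = k + 1 := hq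
  rw [hq'] at he
  rw [hq] at hd hN
  generalize (P : Subgroup G).relIndex (normalizer (P : Set G)) = e at he hN
  have hpos : 0 < Nat.card (Sylow p G) := Nat.card_pos
  obtain ⟨j, hj⟩ := hd
  have hn1 : Nat.card (Sylow p G) = (k + 1) * j + 1 := by omega
  have h5 : e * ((k + 1) * j + 1) = k * (k + 2) := by
    apply Nat.eq_of_mul_eq_mul_left (show 0 < k + 1 by omega)
    rw [← hn, hN, hn1] at hG
    linear_combination hG
  have h6 : (k + 1) ∣ e + 1 := by
    have : (k + 1) * (e * j) + (e + 1) = (k + 1) * (k + 1) := by linear_combination h5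
    exact (Nat.dvd_add_right (Dvd.intro _ rfl)).1 (this ▸ Dvd.intro _ rfl)
  have he2 : e = k := by
    have := Nat.le_of_dvd (by omega) h6
    omega
  rw [he2] at h5 hN
  have h7 := Nat.eq_of_mul_eq_mul_left (show 0 < k by omega) h5
  exact ⟨by omega, hN⟩

theorem reg {q : ℕ} (hq : Nat.card (P : Subgroup G) = q) (hn : Nat.card (Sylow p G) = q + 1)
    (c d : Sylow p G) (hc : c ≠ P) (hd : d ≠ P) : ∃ u ∈ (P : Subgroup G), u • c = d := by
  have ha : ∀ u ∈ (P : Subgroup G), u • P = P := fun u hu =>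
    Sylow.smul_eq_iff_mem_normalizer.mpr (Subgroup.le_normalizer hu)
  let f : ↥(P : Subgroup G) → {y : Sylow p G // y ≠ P} := fun u =>
    ⟨u.1 • c, fun h => hc (smul_left_cancel u.1 (h.trans (ha _ u.2).symm))⟩
  have hf : Function.Injective f := by
    intro u v h
    have h2 : u.1 • c = v.1 • c := congrArg Subtype.val h
    have := free_sylow P hab hC (mul_mem (inv_mem v.2) u.2) hc
      (by rw [mul_smul, h2, inv_smul_smul])
    exact Subtype.ext (inv_mul_eq_one.mp this).symm
  obtain ⟨u, hu⟩ := (hf.bijective_of_nat_card_le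
    (by rw [Perm.DoubleCount.card_ne, hn, hq]; omega)).2 ⟨d, hd⟩
  exact ⟨u, u.2, congrArg Subtype.val hu⟩

theorem fix_three {q : ℕ} (hq : Nat.card (P : Subgroup G) = q)
    (hn : Nat.card (Sylow p G) = q + 1) (g : G) (a y z : Sylow p G) (hxy : a ≠ y) (hyz : y ≠ z)
    (hxz : a ≠ z) (hx : g • a = a) (hy : g • y = y) (hz : g • z = z) : g = 1 := by
  have key : ∀ (g : G) (y z : Sylow p G), P ≠ y → y ≠ z → P ≠ z → g • P = P → g • y = y →
      g • z = z → g = 1 := by
    intro g y z hay hyz haz hga hy hz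
    obtain ⟨u, hu, huy⟩ := reg P hab hC hq hn y z hay.symm haz.symm
    have h3 : g * u * g⁻¹ = u := by
      have := free_sylow P hab hC (mul_mem (inv_mem hu) ((mem_normalizer_iff.1
        (Sylow.smul_eq_iff_mem_normalizer.1 hga) u).1 hu)) hay.symm (by
        rw [mul_smul, mul_smul, mul_smul, inv_smul_eq_iff.mpr hy.symm, huy, hz, inv_smul_eq_iff,
          huy])
      exact (inv_mul_eq_one.mp this).symm
    refine free_sylow P hab hC (hC u hu ?_ g (mul_inv_eq_iff_eq_mul.1 h3)) hay.symm hy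
    rintro rfl
    exact hyz ((one_smul G y).symm.trans huy)
  obtain ⟨k, rfl⟩ := exists_smul_eq G P a
  have := key (k⁻¹ * g * k) (k⁻¹ • y) (k⁻¹ • z) (fun h => hxy (inv_smul_eq_iff.mp h.symm).symm)
    (fun h => hyz (smul_left_cancel _ h)) (fun h => hxz (inv_smul_eq_iff.mp h.symm).symm)
    (by rw [mul_smul, mul_smul, hx, inv_smul_smul])
    (by rw [mul_smul, mul_smul, smul_inv_smul, hy])
    (by rw [mul_smul, mul_smul, smul_inv_smul, hz])
  simpa [mul_assoc, inv_mul_eq_one] using this

theorem inverts (hodd : Odd (Nat.card (P : Subgroup G))) {t : G} (ht : t • P = P) (h2 : t * t = 1)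
    (h1 : t ≠ 1) {u : G} (hu : u ∈ (P : Subgroup G)) : t * u * t⁻¹ = u⁻¹ := by
  have hm := (mem_normalizer_iff.1 (Sylow.smul_eq_iff_mem_normalizer.1 ht) u).1 hu
  by_contra hne
  have hv : u * (t * u * t⁻¹) ≠ 1 := fun h => hne (eq_inv_of_mul_eq_one_right h)
  have ht' : t⁻¹ = t := inv_eq_of_mul_eq_one_right h2
  have htP := hC _ (mul_mem hu hm) hv t (by
    calc t * (u * (t * u * t⁻¹)) = (t * u * t⁻¹) * (t * t) * u * t⁻¹ := by group
      _ = (t * u * t⁻¹) * u * t := by rw [h2, mul_one, ht']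
      _ = _ := by rw [hab _ hm _ hu])
  have ho : orderOf t = 2 := orderOf_eq_prime (by rw [sq, h2]) h1
  have := (P : Subgroup G).orderOf_dvd_natCard htP
  rw [ho] at this
  exact (Nat.not_even_iff_odd.2 hodd) (even_iff_two_dvd.2 this)

theorem mul_mem_of_inv (hodd : Odd (Nat.card (P : Subgroup G))) (h1 : 1 < Nat.card (P : Subgroup G))
    {s t : G} (hs : s • P = P) (hs2 : s * s = 1) (hs1 : s ≠ 1) (ht : t • P = P) (h2 : t * t = 1)
    (ht1 : t ≠ 1) : s * t ∈ (P : Subgroup G) := by
  have hnt : Nontrivial (P : Subgroup G) := Finite.one_lt_card_iff_nontrivial.1 h1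
  obtain ⟨⟨x, hx⟩, hx1⟩ := exists_ne (1 : (P : Subgroup G))
  refine hC x hx (fun h => hx1 (Subtype.ext h)) _ ?_
  have e1 := inverts P hab hC hodd ht h2 ht1 hx
  have e2 := inverts P hab hC hodd hs hs2 hs1 (inv_mem hx)
  rw [← e1] at e2
  rw [e1, inv_inv, ← e1] at e2
  calc s * t * x = s * (t * x * t⁻¹) * s⁻¹ * (s * t) := by group
    _ = _ := by rw [e2]

theorem pgl_of_cent {F : Type*} [Field F] [Fintype F]
    (hq : Nat.card (P : Subgroup G) = Fintype.card F) (hodd : Odd (Fintype.card F))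
    (h3 : 3 < Fintype.card F) (hG : Nat.card G = Nat.card PGL(2, F))
    (h2 : Fintype.card F ^ 2 ≤ Nat.card {t : G // orderOf t = 2}) : Nonempty (G ≃* PGL(2, F)) := by
  classical
  have hG' := hG
  rw [Class.Dickson.card_PGL2, Nat.card_eq_fintype_card (α := F)] at hG'
  generalize hqq : Fintype.card F = q at hq hodd h3 h2 hG'
  obtain ⟨hn, hN⟩ := card_sylow P hab hC hq (by omega) hG'
  have ha : ∀ u ∈ (P : Subgroup G), u • P = P := fun u hu =>
    Sylow.smul_eq_iff_mem_normalizer.mpr (Subgroup.le_normalizer hu)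
  have hreg := reg P hab hC hq hn
  have htwo := two_trans_of_regular ha hreg
  have hthree := fix_three P hab hC hq hn
  have := Fintype.ofFinite (Sylow p G)
  have := Fintype.ofFinite G
  have h33 : 2 < Fintype.card (Sylow p G) := by rw [← Nat.card_eq_fintype_card]; omega
  obtain ⟨a, b, c, hab', hac, hbc⟩ := Fintype.two_lt_card_iff.1 h33
  have hf : FaithfulSMul G (Sylow p G) := ⟨fun {g g'} h => by
    refine (inv_mul_eq_one.1 (hthree _ a b c hab' hbc hac ?_ ?_ ?_)).symm <;>
      rw [mul_smul, h, inv_smul_smul]⟩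
  have hst : ∀ Q : Sylow p G, Q ≠ P → Nat.card ↥(stabilizer G P ⊓ stabilizer G Q) = q - 1 := by
    intro Q hQ
    have hst := card_stabilizer_of_two htwo hQ.symm
    rw [Sylow.stabilizer_eq_normalizer] at hst
    rw [hN, hn, Nat.add_sub_cancel, mul_comm] at hst
    rw [Sylow.stabilizer_eq_normalizer]
    exact (Nat.eq_of_mul_eq_mul_right (by omega) hst).symm
  have hsq : ∀ t : G, orderOf t = 2 → t * t = 1 ∧ t ≠ 1 := fun t ht =>
    ⟨by rw [← sq, ← ht, pow_orderOf_eq_one], by rintro rfl; simp at ht⟩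
  have hswap : ∀ (Q : Sylow p G) (w : G), Q ≠ P → w • P = Q → w • Q = P → w * w = 1 := by
    intro Q w hQ hw1 hw2
    by_contra hw
    let I : Finset G := Finset.univ.filter fun t => orderOf t = 2
    have hI : q ^ 2 ≤ I.card := by
      rwa [Nat.card_eq_fintype_card, Fintype.card_subtype] at h2
    have hb : ∀ (R : Sylow p G) (v : G) (S : Finset G), R ≠ P → v • P = R → v • R = P →
        (∀ t ∈ S, t • P = R ∧ t • R = P) → S.card ≤ q - 1 := by
      intro R v S hR hv1 hv2 hS
      rw [← hst R hR, ← Nat.card_eq_finsetCard]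
      refine Nat.card_le_card_of_injective (fun t => ⟨v⁻¹ * t.1, ?_, ?_⟩) fun s t h =>
        Subtype.ext (mul_left_cancel (congrArg Subtype.val h))
      · change (v⁻¹ * t.1) • P = P
        rw [mul_smul, (hS _ t.2).1, inv_smul_eq_iff, hv1]
      · change (v⁻¹ * t.1) • R = R
        rw [mul_smul, (hS _ t.2).2, inv_smul_eq_iff, hv2]
    have hm : ∀ (R : Sylow p G), ∀ t ∈ I.filter (fun t => t • P = R), t • P = R ∧ t • R = P := by
      intro R t ht
      rw [Finset.mem_filter, Finset.mem_filter] at ht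
      exact ⟨ht.2, by rw [← ht.2, smul_smul, (hsq t ht.1.2).1, one_smul]⟩
    have hlt : ∑ R : Sylow p G, (I.filter fun t => t • P = R).card <
        ∑ R : Sylow p G, ((q - 1) + if R = P then 1 else 0) := by
      refine Finset.sum_lt_sum (fun R _ => ?_) ⟨Q, Finset.mem_univ _, ?_⟩
      · split_ifs with hR
        · rcases (I.filter fun t => t • P = R).eq_empty_or_nonempty with h | ⟨s, hs⟩
          · rw [h]; simp
          · rw [show q - 1 + 1 = q by omega, ← hq, ← Nat.card_eq_finsetCard]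
            have hh : ∀ t ∈ I.filter fun t => t • P = R, t • P = P ∧ t * t = 1 ∧ t ≠ 1 := by
              intro t ht
              rw [Finset.mem_filter, Finset.mem_filter] at ht
              exact ⟨ht.2.trans hR, hsq t ht.1.2⟩
            exact Nat.card_le_card_of_injective (fun t => ⟨s * t.1, mul_mem_of_inv P hab hC
              (hq ▸ hodd) (by omega) (hh s hs).1 (hh s hs).2.1 (hh s hs).2.2 (hh _ t.2).1
              (hh _ t.2).2.1 (hh _ t.2).2.2⟩) fun s t h =>
                Subtype.ext (mul_left_cancel (congrArg Subtype.val h))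
        · rcases (I.filter fun t => t • P = R).eq_empty_or_nonempty with h | ⟨s, hs⟩
          · rw [h]; simp
          · exact hb R s _ hR (hm R s hs).1 (hm R s hs).2 (hm R)
      · rw [if_neg hQ, add_zero]
        have hwn : w ∉ I.filter fun t => t • P = Q := fun h => by
          rw [Finset.mem_filter, Finset.mem_filter] at h
          exact hw (hsq w h.1.2).1
        have := hb Q w (insert w (I.filter fun t => t • P = Q)) hQ hw1 hw2 (by
          intro t ht
          rcases Finset.mem_insert.1 ht with rfl | ht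
          · exact ⟨hw1, hw2⟩
          · exact hm Q t ht)
        rw [Finset.card_insert_of_notMem hwn] at this
        omega
    rw [← Finset.card_eq_sum_card_fiberwise (f := fun t : G => t • P) (s := I)
      (fun _ _ => Finset.mem_coe.2 (Finset.mem_univ _)), Finset.sum_add_distrib,
      Finset.sum_const, Finset.card_univ, ← Nat.card_eq_fintype_card, hn] at hlt
    simp only [Finset.sum_ite_eq', Finset.mem_univ, if_true, smul_eq_mul] at hlt
    obtain ⟨k, rfl⟩ : ∃ k, q = k + 1 := ⟨q - 1, by omega⟩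
    rw [Nat.add_sub_cancel] at hlt
    nlinarith
  have hinv : ∀ (Q : Sylow p G) (w : G), Q ≠ P → w • P = Q → w • Q = P →
      ∀ k ∈ stabilizer G P ⊓ stabilizer G Q, w * k * w⁻¹ = k⁻¹ := by
    intro Q w hQ hw1 hw2 k hk
    have e1 := hswap Q w hQ hw1 hw2
    have e2 := hswap Q (w * k) hQ (by rw [mul_smul, show k • P = P from hk.1, hw1])
      (by rw [mul_smul, show k • Q = Q from hk.2, hw2])
    rw [inv_eq_of_mul_eq_one_right e1]
    exact eq_inv_of_mul_eq_one_left (by rw [← e2]; group)
  have : Nontrivial (Sylow p G) := ⟨⟨a, b, hab'⟩⟩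
  obtain ⟨Q, hQ⟩ := exists_ne P
  have hZ : IsZassenhausGroup G (Sylow p G) := by
    refine ⟨hf, htwo, hthree, ?_, fun N hN ht => ?_⟩
    · have : Nontrivial ↥(stabilizer G P ⊓ stabilizer G Q) :=
        Finite.one_lt_card_iff_nontrivial.1 (by rw [hst Q hQ]; omega)
      obtain ⟨⟨g, hg⟩, hg1⟩ := exists_ne (1 : ↥(stabilizer G P ⊓ stabilizer G Q))
      exact ⟨g, fun h => hg1 (Subtype.ext h), P, Q, hQ.symm, hg.1, hg.2⟩
    · by_contra hcon
      push Not at hcon
      have hc : Nat.card N = q + 1 := by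
        have := card_mul_index (stabilizer N P)
        rw [index_stabilizer_of_transitive, hcon P, card_bot, hn] at this
        omega
      obtain ⟨z, hz⟩ := exists_prime_orderOf_dvd_card' (G := N) 2 (hc ▸ hodd.add_one.two_dvd)
      have hmv : ∀ w : N, (w : G) • P = P → w = 1 := fun w hw =>
        (hcon P).le (show w ∈ stabilizer N P from hw)
      have hz' := hsq z ((Subgroup.orderOf_coe z).trans hz)
      have hR : (z : G) • P ≠ P := fun h => hz'.2 (congrArg Subtype.val (hmv z h))
      have hk2 : ∀ k ∈ stabilizer G P ⊓ stabilizer G ((z : G) • P), k * k = 1 := by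
        intro k hk
        have e1 := hinv _ z hR rfl (by rw [smul_smul, hz'.1, one_smul]) k hk
        have e2 := hmv (z⁻¹ * ⟨k * z * k⁻¹, hN.conj_mem _ z.2 k⟩) (by
          change ((z : G)⁻¹ * (k * z * k⁻¹)) • P = P
          rw [mul_smul, mul_smul, mul_smul, inv_smul_eq_iff.2 (show k • P = P from hk.1).symm,
            show k • (z : G) • P = (z : G) • P from hk.2, inv_smul_smul])
        have e3 : (z : G) = k * z * k⁻¹ := congrArg Subtype.val (inv_mul_eq_one.1 e2)
        have e4 : (z : G) * k * (z : G)⁻¹ = k := by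
          rw [mul_inv_eq_iff_eq_mul]
          exact eq_mul_inv_iff_mul_eq.1 e3
        rw [e4] at e1
        exact mul_eq_one_iff_eq_inv.2 e1
      have h4 : 2 < Nat.card ↥(stabilizer G P ⊓ stabilizer G ((z : G) • P)) := by
        rw [hst _ hR]; omega
      rw [Nat.card_eq_fintype_card] at h4
      obtain ⟨x, y, u, hxy, hxu, hyu⟩ := Fintype.two_lt_card_iff.1 h4
      have key : ∀ x y : ↥(stabilizer G P ⊓ stabilizer G ((z : G) • P)), x ≠ 1 → y ≠ 1 → x = y := by
        intro x y hx hy
        have e1 := mul_mem_of_inv P hab hC (hq ▸ hodd) (by omega) x.2.1 (hk2 _ x.2)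
          (fun h => hx (Subtype.ext h)) y.2.1 (hk2 _ y.2) (fun h => hy (Subtype.ext h))
        have e2 := free_sylow P hab hC e1 hR (x * y).2.2
        exact Subtype.ext (mul_right_cancel (e2.trans (hk2 _ y.2).symm))
      by_cases hx : x = 1
      · exact hyu (key y u (fun h => hxy (hx.trans h.symm)) fun h => hxu (hx.trans h.symm))
      · by_cases hy : y = 1
        · exact hxu (key x u hx fun h => hyu (hy.trans h.symm))
        · exact hxy (key x y hx hy)
  obtain ⟨w, hw1, hw2⟩ := is_two_pretransitive_iff.1 htwo hQ.symm hQ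
  have hi := hinv Q w hQ hw1 hw2
  obtain ⟨K, _, _, C, χ, h0, hχi, hχ⟩ := exists_coord hZ hQ.symm _ le_rfl (comm_of_inverted hi)
    (by rw [hst Q hQ, hn]; omega)
  have hK : Nat.card K = q := by
    have := C.card_eq
    omega
  have hχs : Function.Surjective χ := (hχi.bijective_of_nat_card_le
    (by rw [Nat.card_units, hK, hst Q hQ])).2
  obtain ⟨α, hα⟩ := C.surj (w • C.ψ 1) fun h => one_ne_zero (C.inj (smul_left_cancel w
    (h.trans (h0 ▸ hw2).symm)))
  have hα0 : α ≠ 0 := by
    rintro rfl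
    exact C.ne 1 (smul_left_cancel w (hα.symm.trans (h0.trans hw1.symm)))
  obtain ⟨j, hj⟩ := C.exists_pgl_hom hα0 (hw1.trans h0.symm) (h0 ▸ hw2) (fun t ht => by
    obtain ⟨k, hk⟩ := hχs (Units.mk0 t ht)
    have e1 := hχ k 1
    have e2 := hχ k⁻¹ α
    rw [hk, mul_one, Units.val_mk0] at e1
    rw [map_inv, hk, Units.val_inv_eq_inv_val, Units.val_mk0, mul_comm, ← div_eq_mul_inv,
      Subgroup.coe_inv, ← hi k k.2, hα, mul_smul, mul_smul, inv_smul_smul, e1] at e2
    exact e2) fun g hg hg0 => ⟨χ ⟨g, hg, h0 ▸ hg0⟩, hχ ⟨g, hg, h0 ▸ hg0⟩⟩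
  refine pgl_transport (hK.trans (hqq.symm.trans Nat.card_eq_fintype_card.symm))
    ⟨MulEquiv.ofBijective j (hj.bijective_of_nat_card_le ?_)⟩
  rw [Class.Dickson.card_PGL2, hK, hG']

end Cfsg.Agent.SylPGL
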