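import Mathlib
import Cfsg.Agent.Perm.Orbital
import Cfsg.Agent.Perm.Derangement
import Cfsg.Agent.Fus.GenES

/-!
Rank three groups of degree `3p` with constituents of degrees `1, 2p - 1, p` in which an
involution fixes at most three points.
-/

set_option autoImplicit false
set_option linter.unusedSectionVars false
set_option linter.style.haveILetI false

namespace Cfsg.Agent.Perm.ThreeP

open Cfsg Cfsg.Agent.Char MulAction Subgroup Cfsg.Agent.Perm.TwoP Cfsg.Agent.Perm.Orbital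

variable {G : Type*} [Group G] {Ω : Type*} [MulAction G Ω]

theorem dvd_ncard_move [Finite G] [Finite Ω] {r : ℕ} (hr : r.Prime) {g : G} (hg : g ^ r = 1)
    (S : Set Ω) (hS : ∀ x ∈ S, g • x ∈ S) : r ∣ {x | x ∈ S ∧ g • x ≠ x}.ncard := by
  haveI := Fact.mk hr
  have hpow : ∀ (n : ℕ), ∀ x ∈ S, g ^ n • x ∈ S := fun n => by
    induction n with
    | zero => simp
    | succ n ih => intro x hx; rw [pow_succ, mul_smul]; exact ih _ (hS x hx)
  refine Der.dvd_ncard_of_invariant (zpowers g) _ (fun h hh x hx => ?_) r fun x hx => ?_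
  · obtain ⟨n, rfl⟩ := (mem_powers_iff_mem_zpowers.2 hh : h ∈ Submonoid.powers g)
    exact ⟨hpow _ x hx.1, fun e => hx.2 (smul_left_cancel (g ^ n) (by
      rw [← mul_smul, ← pow_succ, pow_succ', mul_smul, e]))⟩
  · have h1 : IsPGroup r (zpowers g) := IsPGroup.of_card_dvd_pow (n := 1) (by
      rw [Nat.card_zpowers, pow_one]; exact orderOf_dvd_of_pow_eq_one hg)
    obtain ⟨k, hk⟩ := h1.index ((stabilizer G x).subgroupOf (zpowers g))
    rw [relIndex, hk]
    rcases k with _ | k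
    · rw [pow_zero, index_eq_one] at hk
      exact absurd (show (⟨g, mem_zpowers g⟩ : zpowers g) ∈
        (stabilizer G x).subgroupOf (zpowers g) from hk ▸ mem_top _) hx.2
    · exact dvd_pow_self r k.succ_ne_zero

theorem ncard_split [Finite Ω] (g : G) (S : Set Ω) :
    S.ncard = {x | x ∈ S ∧ g • x = x}.ncard + {x | x ∈ S ∧ g • x ≠ x}.ncard := by
  rw [← Set.ncard_union_eq (Set.disjoint_left.2 fun x h1 h2 => h2.2 h1.2)]
  congr 1
  ext x
  simp only [Set.mem_union, Set.mem_ofPred_eq]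
  tauto

theorem odd_ncard_fix [Finite G] [Finite Ω] {t : G} (ht : t ^ 2 = 1) (S : Set Ω)
    (hS : ∀ x ∈ S, t • x ∈ S) (h : Odd S.ncard) : Odd {x | x ∈ S ∧ t • x = x}.ncard := by
  have h1 := dvd_ncard_move Nat.prime_two ht S hS
  rw [ncard_split t S] at h
  rw [Nat.odd_iff] at h ⊢
  omega

/-- `R` is a symmetric orbital of a rank three action. -/
structure Rk3 (G : Type*) [Group G] {Ω : Type*} [MulAction G Ω] (R : Ω → Ω → Prop) : Prop where
  inv : ∀ (h : G) x y, R x y → R (h • x) (h • y)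
  symm : ∀ x y, R x y → R y x
  irr : ∀ x, ¬ R x x
  trR : ∀ x y x' y', R x y → R x' y' → ∃ g : G, g • x = x' ∧ g • y = y'
  trN : ∀ x y x' y', x ≠ y → ¬ R x y → x' ≠ y' → ¬ R x' y' → ∃ g : G, g • x = x' ∧ g • y = y'
  exR : ∃ x y, R x y
  exN : ∃ x y, x ≠ y ∧ ¬ R x y

theorem exists_rk3 [Fintype Ω] [IsPretransitive G Ω]
    (h3 : Nat.card (orbitRel.Quotient G (Ω × Ω)) = 3) {t : G} (ht : t * t = 1) {a : Ω}
    (ha : t • a ≠ a) : Rk3 G (orbl G a (t • a)) := by
  classical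
  let q : Ω × Ω → orbitRel.Quotient G (Ω × Ω) := Quotient.mk _
  have hq : ∀ u v : Ω × Ω, q u = q v ↔ ∃ g : G, g • v.1 = u.1 ∧ g • v.2 = u.2 := fun u v => by
    rw [Quotient.eq, orbitRel_apply, mem_orbit_iff]
    exact exists_congr fun g => Prod.ext_iff
  have hirr : ∀ x, ¬ orbl G a (t • a) x x := by
    rintro x ⟨h, h1, h2⟩
    exact ha (smul_left_cancel h (h2.trans h1.symm))
  have hne : q (a, a) ≠ q (a, t • a) := fun h => hirr a ((hq _ _).1 h)
  have hd : ∀ x y, q (x, y) = q (a, a) ↔ x = y := fun x y => by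
    rw [hq]
    refine ⟨fun ⟨g, h1, h2⟩ => h1.symm.trans h2, ?_⟩
    rintro rfl
    obtain ⟨g, hg⟩ := exists_smul_eq G a x
    exact ⟨g, hg, hg⟩
  haveI := Fintype.ofFinite (orbitRel.Quotient G (Ω × Ω))
  have hc : (Finset.univ \ {q (a, a), q (a, t • a)}).card = 1 := by
    rw [Finset.card_sdiff_of_subset (Finset.subset_univ _), Finset.card_pair hne,
      Finset.card_univ, ← Nat.card_eq_fintype_card, h3]
  obtain ⟨o, ho⟩ := Finset.card_eq_one.1 hc
  have hm : ∀ x y, x ≠ y ∧ ¬ orbl G a (t • a) x y ↔ q (x, y) = o := fun x y => by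
    rw [← Finset.mem_singleton, ← ho]
    simp only [Finset.mem_sdiff, Finset.mem_univ, true_and, Finset.mem_insert,
      Finset.mem_singleton, not_or, hd, hq]
    rfl
  refine ⟨orbl_inv a _, ?_, hirr, ?_, fun x y x' y' h1 h2 h3 h4 => ?_, ⟨a, t • a, 1, by simp⟩, ?_⟩
  · rintro _ _ ⟨g, rfl, rfl⟩
    exact ⟨g * t, mul_smul _ _ _, by rw [mul_smul, ← mul_smul t, ht, one_smul]⟩
  · rintro _ _ _ _ ⟨g, rfl, rfl⟩ ⟨h, rfl, rfl⟩
    exact ⟨h * g⁻¹, by simp [mul_smul], by simp [mul_smul]⟩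
  · exact (hq (x', y') (x, y)).1 (((hm _ _).1 ⟨h3, h4⟩).trans ((hm _ _).1 ⟨h1, h2⟩).symm)
  · obtain ⟨⟨x, y⟩, h⟩ := Quotient.exists_rep o
    exact ⟨x, y, (hm x y).2 h⟩

namespace Rk3

variable {R : Ω → Ω → Prop} (h : Rk3 G R)
include h

theorem compl : Rk3 G fun x y => x ≠ y ∧ ¬ R x y := by
  refine ⟨fun g x y hxy => ⟨by simpa using hxy.1, fun e => hxy.2 (by simpa using h.inv g⁻¹ _ _ e)⟩,
    fun x y hxy => ⟨hxy.1.symm, fun e => hxy.2 (h.symm _ _ e)⟩, fun x e => e.1 rfl,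
    fun x y x' y' h1 h2 => h.trN _ _ _ _ h1.1 h1.2 h2.1 h2.2,
    fun x y x' y' h1 h2 h3 h4 => h.trR _ _ _ _ (by tauto) (by tauto), h.exN, ?_⟩
  obtain ⟨x, y, hxy⟩ := h.exR
  exact ⟨x, y, fun e => h.irr x (e ▸ hxy), fun e => e.2 hxy⟩

theorem smul_iff (g : G) (x y : Ω) : R (g • x) (g • y) ↔ R x y :=
  ⟨fun e => by simpa using h.inv g⁻¹ _ _ e, h.inv g x y⟩

theorem cn_smul (g : G) (x y : Ω) :
    {z | R (g • x) z ∧ R (g • y) z}.ncard = {z | R x z ∧ R y z}.ncard := by
  symm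
  refine Set.ncard_congr (fun z _ => g • z) (fun z hz => ⟨h.inv _ _ _ hz.1, h.inv _ _ _ hz.2⟩)
    (fun a b _ _ e => smul_left_cancel g e) fun z hz => ⟨g⁻¹ • z, ⟨?_, ?_⟩, by simp⟩
  · simpa using h.inv g⁻¹ _ _ hz.1
  · simpa using h.inv g⁻¹ _ _ hz.2

theorem exists_klm [IsPretransitive G Ω] : ∃ k l m : ℕ, (∀ x, {z | R x z}.ncard = k) ∧
    (∀ x y, R x y → {z | R x z ∧ R y z}.ncard = l) ∧
    ∀ x y, x ≠ y → ¬ R x y → {z | R x z ∧ R y z}.ncard = m := by
  obtain ⟨a, b, hab⟩ := h.exR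
  obtain ⟨c, d, hcd, hcd'⟩ := h.exN
  refine ⟨{z | R a z}.ncard, {z | R a z ∧ R b z}.ncard, {z | R c z ∧ R d z}.ncard, fun x => ?_,
    fun x y hxy => ?_, fun x y h1 h2 => ?_⟩
  · obtain ⟨g, rfl⟩ := exists_smul_eq G a x
    simpa using h.cn_smul g a a
  · obtain ⟨g, rfl, rfl⟩ := h.trR _ _ _ _ hab hxy
    exact h.cn_smul g a b
  · obtain ⟨g, rfl, rfl⟩ := h.trN _ _ _ _ hcd hcd' h1 h2
    exact h.cn_smul g c d

theorem eigen [Fintype G] [Fintype Ω] [IsPretransitive G Ω] {k l m : ℕ}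
    (hk : ∀ x, {z | R x z}.ncard = k) (hl : ∀ x y, R x y → {z | R x z ∧ R y z}.ncard = l)
    (hm : ∀ x y, x ≠ y → ¬ R x y → {z | R x z ∧ R y z}.ncard = m) {χ ψ : G → ℂ}
    (hχ : IsIrrCharacter G χ) (hψ : IsIrrCharacter G ψ) (hχ1 : χ ≠ fun _ => 1)
    (hψ1 : ψ ≠ fun _ => 1) (hπ : permChar G Ω = (fun _ => 1) + χ + ψ) {f g : ℕ} (hf : χ 1 = f)
    (hg : ψ 1 = g) (hfg : f ≠ g) : ∃ s r : ℤ, k + s * f + r * g = 0 ∧
      s ^ 2 = k - m + (l - m) * s ∧ r ^ 2 = k - m + (l - m) * r ∧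
      (k : ℤ) ^ 2 = k - m + (l - m) * k + m * Fintype.card Ω := by
  classical
  obtain ⟨a, -⟩ := h.exR
  have hA : TwoP.Inv G (adj R) := inv_adj h.inv
  have hne : χ ≠ ψ := fun e => hfg (by rw [e, hg] at hf; exact_mod_cast hf.symm)
  have hsq : adj R * adj R = ((k : ℚ) - m) • (1 : Matrix Ω Ω ℚ) + ((l : ℚ) - m) • adj R +
      (m : ℚ) • ones Ω := by
    ext x y
    have e : (adj R * adj R) x y = ({z | R x z ∧ R y z}.ncard : ℚ) := by
      rw [Matrix.mul_apply, Set.ncard_eq_toFinset_card', Set.toFinset_ofPred, Finset.card_filter]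
      push_cast
      refine Finset.sum_congr rfl fun z _ => ?_
      rw [adj_apply, adj_apply]
      by_cases h1 : R x z <;> by_cases h2 : R y z
      · simp [h1, h2, h.symm _ _ h2]
      · simp [h1, h2, show ¬ R z y from fun e => h2 (h.symm _ _ e)]
      · simp [h1]
      · simp [h1]
    rw [e]
    simp only [Matrix.add_apply, Matrix.smul_apply, Matrix.one_apply, adj_apply, ones,
      Matrix.of_apply, smul_eq_mul]
    by_cases h1 : x = y
    · subst h1
      simp [h.irr x, hk x]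
    · by_cases h2 : R x y
      · simp [h1, h2, hl x y h2]
      · simp [h1, h2, hm x y h1 h2]
  have i1 : classInner (permChar G Ω) χ = 1 := by
    rw [hπ, classInner_add_left, classInner_add_left, hχ.inner_self,
      isIrrCharacter_one.inner_eq_zero hχ hχ1.symm, hψ.inner_eq_zero hχ hne.symm]; simp
  have i2 : classInner (permChar G Ω) ψ = 1 := by
    rw [hπ, classInner_add_left, classInner_add_left, hψ.inner_self,
      isIrrCharacter_one.inner_eq_zero hψ hψ1.symm, hχ.inner_eq_zero hψ hne]; simp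
  haveI : Nonempty Ω := ⟨a⟩
  have i0 : classInner (permChar G Ω) (fun _ => 1) = 1 :=
    classInner_permChar_one_of_isPretransitive Ω
  have quad : ∀ φ, IsIrrCharacter G φ → classInner (permChar G Ω) φ = 1 →
      classInner (tau (permRep ℂ G Ω) (op (adj R))) φ ^ 2 = k - m + (l - m) *
        classInner (tau (permRep ℂ G Ω) (op (adj R))) φ +
        m * Fintype.card Ω * classInner (fun _ => 1) φ := fun φ hφ h1 => by
    rw [sq, ← inner_mul hφ (by rwa [char_permRep]) (comm_op hA) (comm_op hA), ← map_mul, hsq,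
      map_add, map_add, op_smul, op_smul, op_smul, tau_add, tau_add, tau_smul, tau_smul, tau_smul,
      map_one, tau_one, char_permRep, tau_ones, classInner_add_left, classInner_add_left,
      classInner_smul_left, classInner_smul_left, classInner_smul_left, classInner_smul_left, h1]
    push_cast; ring
  have q0 := quad _ isIrrCharacter_one i0
  have q1 := quad _ hχ i1
  have q2 := quad _ hψ i2
  have hv : ∑ y, adj R a y = k := by
    rw [← hk a, Set.ncard_eq_toFinset_card', Set.toFinset_ofPred, Finset.card_filter]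
    push_cast
    exact Finset.sum_congr rfl fun z _ => adj_apply _ _ _
  rw [inner_one hA a, hv, isIrrCharacter_one.inner_self] at q0
  rw [isIrrCharacter_one.inner_eq_zero hχ hχ1.symm] at q1
  rw [isIrrCharacter_one.inner_eq_zero hψ hψ1.symm] at q2
  have tr := trace_eq_sum hA
  rw [Finset.sum_eq_zero fun x _ => by rw [adj_apply, if_neg (h.irr x)],
    ← Finset.sum_subset (Finset.subset_univ {irrOne G, ⟨χ, hχ⟩, ⟨ψ, hψ⟩}) (fun φ _ hφ => by
      simp only [Finset.mem_insert, Finset.mem_singleton, not_or] at hφ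
      rw [(comm_op hA).inner_eq_zero φ.2.isCharacter, zero_mul]
      rw [char_permRep, hπ, classInner_add_left, classInner_add_left,
        isIrrCharacter_one.inner_eq_zero φ.2 fun e => hφ.1 (Subtype.ext e.symm),
        hχ.inner_eq_zero φ.2 fun e => hφ.2.1 (Subtype.ext e.symm),
        hψ.inner_eq_zero φ.2 fun e => hφ.2.2 (Subtype.ext e.symm)]
      simp),
    Finset.sum_insert (by
      simp only [Finset.mem_insert, Finset.mem_singleton, not_or]
      exact ⟨fun e => hχ1 (congrArg Subtype.val e).symm, fun e => hψ1 (congrArg Subtype.val e).symm⟩),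
    Finset.sum_pair (fun e => hne (congrArg Subtype.val e)),
    show ((irrOne G : IrrCharacter G) : G → ℂ) = fun _ => 1 from rfl, inner_one hA a, hv] at tr
  simp only [hf, hg] at tr
  have is := (comm_op hA).isIntegral_inner (isIntegral_op_adj R) hχ.isCharacter
  have ir := (comm_op hA).isIntegral_inner (isIntegral_op_adj R) hψ.isCharacter
  set s := classInner (tau (permRep ℂ G Ω) (op (adj R))) χ
  set r := classInner (tau (permRep ℂ G Ω) (op (adj R))) ψ
  push_cast at tr q0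
  obtain ⟨f0, hf0, hf1⟩ := hχ.exists_nat_one
  obtain ⟨g0, hg0, hg1⟩ := hψ.exists_nat_one
  obtain rfl : f0 = f := by rw [hf] at hf1; exact_mod_cast hf1.symm
  obtain rfl : g0 = g := by rw [hg] at hg1; exact_mod_cast hg1.symm
  have hg2 : (g0 : ℂ) ≠ 0 := Nat.cast_ne_zero.2 hg0.ne'
  obtain ⟨s', hs'⟩ : ∃ s' : ℤ, s = s' := by
    refine (IsIntegral.exists_int_iff_exists_rat is).1 ?_
    by_cases e : s = r
    · refine ⟨-k / (f0 + g0), ?_⟩
      have : (f0 + g0 : ℂ) ≠ 0 := by exact_mod_cast (by omega : f0 + g0 ≠ 0)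
      push_cast
      field_simp
      rw [← e] at tr
      linear_combination -tr
    · refine ⟨(-k - g0 * (l - m)) / (f0 - g0), ?_⟩
      have : (f0 - g0 : ℂ) ≠ 0 := sub_ne_zero.2 (by exact_mod_cast hfg)
      have e2 : s + r = l - m := mul_left_cancel₀ (sub_ne_zero.2 e) (by
        linear_combination q1 - q2)
      push_cast
      field_simp
      linear_combination -tr - g0 * e2
  obtain ⟨r', hr'⟩ : ∃ r' : ℤ, r = r' := by
    refine (IsIntegral.exists_int_iff_exists_rat ir).1 ⟨(-k - s' * f0) / g0, ?_⟩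
    rw [hs'] at tr
    push_cast
    field_simp
    linear_combination -tr
  rw [hs'] at q1 tr
  rw [hr'] at q2 tr
  refine ⟨s', r', ?_, ?_, ?_, ?_⟩
  · exact_mod_cast (by linear_combination -tr : (k : ℂ) + s' * f0 + r' * g0 = 0)
  · exact_mod_cast (by linear_combination q1 : (s' : ℂ) ^ 2 = k - m + (l - m) * s')
  · exact_mod_cast (by linear_combination q2 : (r' : ℂ) ^ 2 = k - m + (l - m) * r')
  · exact_mod_cast (by linear_combination q0 :
      (k : ℂ) ^ 2 = k - m + (l - m) * k + m * Fintype.card Ω)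

theorem triangle [Finite G] [Fintype Ω] [IsPretransitive G Ω] {k l m : ℕ}
    (hk : ∀ x, {z | R x z}.ncard = k) (hl : ∀ x y, R x y → {z | R x z ∧ R y z}.ncard = l)
    (hm : ∀ x y, x ≠ y → ¬ R x y → {z | R x z ∧ R y z}.ncard = m) (ol : Odd l) (om : Odd m)
    {t : G} (ht : t ^ 2 = 1) (h3 : {x : Ω | t • x = x}.ncard ≤ 3) (h4 : 4 ≤ Fintype.card Ω) :
    3 * k = Fintype.card Ω + 2 * l + 1 := by
  classical
  have htt : ∀ x : Ω, t • t • x = x := fun x => by rw [← mul_smul, ← sq, ht, one_smul]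
  have hodd : ∀ x y, x ≠ y → Odd {z | R x z ∧ R y z}.ncard := fun x y hxy => by
    by_cases e : R x y
    · rwa [hl x y e]
    · rwa [hm x y hxy e]
  have hmov : ∀ x, t • x ≠ x → Odd {z | R x z ∧ t • z = z}.ncard := fun x hx => by
    have h1 := odd_ncard_fix ht _ (fun z hz => (⟨by simpa [htt] using h.inv t _ _ hz.2,
      h.inv t _ _ hz.1⟩ : R x (t • z) ∧ R (t • x) (t • z))) (hodd x _ hx.symm)
    convert h1 using 3
    ext z
    refine ⟨fun e => ⟨⟨e.1, ?_⟩, e.2⟩, fun e => ⟨e.1.1, e.2⟩⟩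
    have := h.inv t _ _ e.1
    rwa [e.2] at this
  have hfix : ∀ x y, x ≠ y → t • x = x → t • y = y → ∃ z, R x z ∧ R y z ∧ t • z = z :=
    fun x y hxy hx hy => by
      have h1 := odd_ncard_fix ht _ (fun z hz => (⟨by simpa [hx] using h.inv t _ _ hz.1,
        by simpa [hy] using h.inv t _ _ hz.2⟩ : R x (t • z) ∧ R y (t • z))) (hodd x y hxy)
      obtain ⟨z, hz⟩ := Set.nonempty_of_ncard_ne_zero h1.pos.ne'
      exact ⟨z, hz.1.1, hz.1.2, hz.2⟩
  obtain ⟨x0, hx0⟩ : ∃ x : Ω, t • x ≠ x := by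
    by_contra e
    push Not at e
    rw [show {x : Ω | t • x = x} = Set.univ from Set.eq_univ_of_forall e, Set.ncard_univ,
      Nat.card_eq_fintype_card] at h3
    omega
  obtain ⟨a, -, ha⟩ := Set.nonempty_of_ncard_ne_zero (hmov x0 hx0).pos.ne'
  obtain ⟨b, hba, hb⟩ : ∃ b, b ≠ a ∧ t • b = b := by
    by_contra e
    push Not at e
    obtain ⟨x, y, hxy, hxy'⟩ := h.exN
    obtain ⟨g, rfl⟩ := exists_smul_eq G a x
    obtain ⟨z, hz, hz'⟩ := Set.nonempty_of_ncard_ne_zero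
      (hmov (g⁻¹ • y) (e _ fun e' => hxy (by rw [← e']; simp))).pos.ne'
    obtain rfl : z = a := by by_contra e'; exact e z e' hz'
    exact hxy' (by simpa using h.inv g _ _ (h.symm _ _ hz))
  obtain ⟨c, hac, hbc, hc⟩ := hfix a b hba.symm ha hb
  have hca : c ≠ a := fun e => h.irr a (e ▸ hac)
  have hcb : c ≠ b := fun e => h.irr b (e ▸ hbc)
  have hF : ∀ z, t • z = z ↔ z = a ∨ z = b ∨ z = c := by
    have e : ({a, b, c} : Set Ω) = {x : Ω | t • x = x} := by
      refine Set.eq_of_subset_of_ncard_le ?_ ?_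
      · rintro z (rfl | rfl | rfl) <;> assumption
      · rwa [Set.ncard_eq_three.2 ⟨a, b, c, hba.symm, hca.symm, hcb.symm, rfl⟩]
    intro z
    exact (Set.ext_iff.1 e z).symm
  have hab : R a b := by
    obtain ⟨z, h1, h2, h3⟩ := hfix a c hca.symm ha hc
    rcases (hF z).1 h3 with rfl | rfl | rfl
    · exact absurd h1 (h.irr _)
    · exact h1
    · exact absurd h2 (h.irr _)
  let I : Prop → ℤ := fun P => if P then 1 else 0
  have hI : ∀ P : Ω → Prop, ∑ z, I (P z) = {z | P z}.ncard := fun P => by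
    rw [Set.ncard_eq_toFinset_card', Set.toFinset_ofPred, Finset.card_filter]
    push_cast
    rfl
  have key : ∀ z, I (R a z) + I (R b z) + I (R c z) = 1 + 2 * I (R a z ∧ R b z) +
      (I (z = a) + I (z = b) - I (z = c)) := fun z => by
    by_cases hz : t • z = z
    · rcases (hF z).1 hz with rfl | rfl | rfl
      · simp [I, h.irr z, h.symm _ _ hab, h.symm _ _ hac, hba.symm, hca.symm]
      · simp [I, h.irr z, hab, h.symm _ _ hbc, hba, hcb.symm]
      · simp [I, h.irr z, hac, hbc, hca, hcb]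
    · have h1 := hmov z hz
      have h2 : ({w | R z w ∧ t • w = w}.ncard : ℤ) = I (R a z) + I (R b z) + I (R c z) := by
        rw [← hI, ← Finset.sum_subset (Finset.subset_univ {a, b, c}) (fun w _ hw => by
          simp only [Finset.mem_insert, Finset.mem_singleton, ← hF] at hw
          simp [I, hw]), Finset.sum_insert (by simp [hba.symm, hca.symm]),
          Finset.sum_pair hcb.symm]
        have e : ∀ w, R z w ↔ R w z := fun w => ⟨h.symm _ _, h.symm _ _⟩
        simp only [ha, hb, hc, and_true, e]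
        ring
      have h3 : Odd (I (R a z) + I (R b z) + I (R c z)) := by rw [← h2]; exact_mod_cast h1
      have e1 : z ≠ a := fun e => hz (e ▸ ha)
      have e2 : z ≠ b := fun e => hz (e ▸ hb)
      have e3 : z ≠ c := fun e => hz (e ▸ hc)
      by_cases p1 : R a z <;> by_cases p2 : R b z <;> by_cases p3 : R c z <;>
        simp [I, p1, p2, p3, e1, e2, e3] at h3 ⊢ <;> exact absurd h3 (by decide)
  have hs := Finset.sum_congr rfl fun z (_ : z ∈ Finset.univ) => key z
  simp only [Finset.sum_add_distrib, Finset.sum_sub_distrib, ← Finset.mul_sum, hI, hk,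
    hl a b hab, Set.ofPred_eq_eq_singleton, Set.ncard_singleton, Finset.sum_const,
    Finset.card_univ, nsmul_eq_mul] at hs
  omega

theorem fix_nbrs [Finite G] [Finite Ω] (hk : ∀ x, {z | R x z}.ncard = 6)
    (hl : ∀ x y, R x y → {z | R x z ∧ R y z}.ncard = 1) {r : ℕ} (hr : r.Prime) (hr2 : r ≠ 2)
    {g : G} (hg : g ^ r = 1) {a b : Ω} (hab : R a b) (ha : g • a = a) (hb : g • b = b) {z : Ω}
    (hz : R a z) : g • z = z := by
  have hp : ∀ y, R a y → g • y = y → ∃ y', R a y' ∧ R y y' ∧ g • y' = y' ∧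
      ∀ w, R a w → R y w → w = y' := fun y hy hy' => by
    obtain ⟨y', e⟩ := Set.ncard_eq_one.1 (hl a y hy)
    have h1 : ∀ w, R a w → R y w → w = y' := fun w h1 h2 =>
      (Set.ext_iff.1 e w).1 ⟨h1, h2⟩
    have h2 : R a y' ∧ R y y' := (Set.ext_iff.1 e y').2 rfl
    exact ⟨y', h2.1, h2.2, h1 _ (by simpa [ha] using h.inv g _ _ h2.1)
      (by simpa [hy'] using h.inv g _ _ h2.2), h1⟩
  have h1 := dvd_ncard_move hr hg {z | R a z} fun x hx => by simpa [ha] using h.inv g _ _ hx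
  have h2 := ncard_split g {z | R a z}
  rw [hk] at h2
  have h3 : 3 ≤ r := by have := hr.two_le; omega
  by_contra hne
  have h4 : 0 < {x | x ∈ {z | R a z} ∧ g • x ≠ x}.ncard :=
    (Set.ncard_pos (Set.toFinite _)).2 ⟨z, hz, hne⟩
  have h5 := Nat.le_of_dvd h4 h1
  obtain ⟨b', p1, p2, p3, p4⟩ := hp b hab hb
  have hbb : b ≠ b' := fun e => h.irr b (e ▸ p2)
  have h6 : 2 ≤ {x | x ∈ {z | R a z} ∧ g • x = x}.ncard := by
    rw [← Set.ncard_pair hbb]
    refine Set.ncard_le_ncard ?_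
    rintro _ (rfl | rfl)
    exacts [⟨hab, hb⟩, ⟨p1, p3⟩]
  have h7 : {x | x ∈ {z | R a z} ∧ g • x = x}.ncard = 3 := by
    have : {x | x ∈ {z | R a z} ∧ g • x ≠ x}.ncard ≠ 4 := fun e => by
      rw [e] at h1
      exact hr2 ((Nat.prime_dvd_prime_iff_eq hr Nat.prime_two).1
        (hr.dvd_of_dvd_pow (show r ∣ 2 ^ 2 from h1)))
    omega
  obtain ⟨c, hc, hc'⟩ : ∃ c ∈ {x | x ∈ {z | R a z} ∧ g • x = x}, c ∉ ({b, b'} : Set Ω) := by
    by_contra e
    push Not at e
    have := Set.ncard_le_ncard e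
    rw [Set.ncard_pair hbb] at this
    omega
  simp only [Set.mem_insert_iff, Set.mem_singleton_iff, not_or] at hc'
  obtain ⟨c', q1, q2, q3, q4⟩ := hp c hc.1 hc.2
  obtain ⟨b'', -, -, -, r4⟩ := hp b' p1 p3
  have n1 : c' ≠ b := fun e => hc'.2 (p4 c hc.1 (h.symm _ _ (e ▸ q2)))
  have n2 : c' ≠ b' := fun e => hc'.1 ((r4 c hc.1 (h.symm _ _ (e ▸ q2))).trans
    (r4 b hab (h.symm _ _ p2)).symm)
  have n3 : c' ≠ c := fun e => h.irr c (e ▸ q2)
  have h8 : 4 ≤ {x | x ∈ {z | R a z} ∧ g • x = x}.ncard := by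
    have : ({c', c, b, b'} : Set Ω).ncard = 4 := by
      rw [Set.ncard_insert_of_notMem (by simp [n1, n2, n3]),
        Set.ncard_insert_of_notMem (by simp [hc'.1, hc'.2]), Set.ncard_pair hbb]
    rw [← this]
    refine Set.ncard_le_ncard ?_
    rintro _ (rfl | rfl | rfl | rfl)
    exacts [⟨q1, q3⟩, hc, ⟨hab, hb⟩, ⟨p1, p3⟩]
  omega

theorem card_eq [Finite G] [Finite Ω] [IsPretransitive G Ω] [FaithfulSMul G Ω]
    (hk : ∀ x, {z | R x z}.ncard = 6) (hl : ∀ x y, R x y → {z | R x z ∧ R y z}.ncard = 1) {m : ℕ}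
    (hm : ∀ x y, x ≠ y → ¬ R x y → {z | R x z ∧ R y z}.ncard = m) (hm0 : m ≠ 0) :
    ∃ e, Nat.card G = Nat.card Ω * 6 * 2 ^ e := by
  obtain ⟨a, b, hab⟩ := h.exR
  have h1 : ∀ r, r.Prime → r ∣ Nat.card ↥(stabilizer G b ⊓ stabilizer G a) → r = 2 := by
    intro r hr hd
    haveI := Fact.mk hr
    by_contra hr2
    obtain ⟨g, hg⟩ := exists_prime_orderOf_dvd_card' r hd
    have hg1 : (g : G) ^ r = 1 := by rw [← hg, ← orderOf_coe, pow_orderOf_eq_one]
    have ha : (g : G) • a = a := g.2.2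
    have h2 : ∀ z, R a z → (g : G) • z = z := fun z hz =>
      h.fix_nbrs hk hl hr hr2 hg1 hab ha g.2.1 hz
    have h3 : (g : G) = 1 := eq_of_smul_eq_smul (α := Ω) fun z => by
      rw [one_smul]
      by_cases e1 : a = z
      · rw [← e1, ha]
      by_cases e2 : R a z
      · exact h2 z e2
      obtain ⟨y, y1, y2⟩ := Set.nonempty_of_ncard_ne_zero ((hm a z e1 e2).symm ▸ hm0)
      exact h.fix_nbrs hk hl hr hr2 hg1 (h.symm _ _ y1) (h2 y y1) ha (h.symm _ _ y2)
    rw [show g = 1 from Subtype.ext h3, orderOf_one] at hg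
    exact hr.one_lt.ne hg
  refine ⟨(Nat.card ↥(stabilizer G b ⊓ stabilizer G a)).primeFactorsList.length, ?_⟩
  · rw [← Nat.eq_prime_pow_of_unique_prime_dvd Nat.card_pos.ne' fun hr hd => h1 _ hr hd,
      ← index_stabilizer_of_transitive G a, ← hk a, ← (stabilizer G a).index_mul_card, mul_assoc]
    congr 1
    have e : {z | R a z} = orbit (stabilizer G a) b := by
      ext z
      constructor
      · intro hz
        obtain ⟨g, g1, g2⟩ := h.trR _ _ _ _ hab hz
        exact ⟨⟨g, g1⟩, g2⟩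
      · rintro ⟨⟨g, g1⟩, rfl⟩
        have := h.inv g _ _ hab
        rwa [show g • a = a from g1] at this
    rw [e, Der.ncard_orbit_subgroup, ← inf_relIndex_right, relIndex,
      ← Nat.card_congr (subgroupOfEquivOfLe (inf_le_right (a := stabilizer G b))).toEquiv,
      index_mul_card]

end Rk3

theorem arith {p k l m s r : ℤ} (hp : 5 ≤ p) (hk : 2 * k ≤ 3 * p - 1)
    (hk0 : 0 < k) (e1 : k + s * (2 * p - 1) + r * p = 0) (e2 : s ^ 2 = k - m + (l - m) * s)
    (e3 : r ^ 2 = k - m + (l - m) * r) (e4 : k ^ 2 = k - m + (l - m) * k + m * (3 * p)) :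
    k = p + s ∧ 2 * p = 6 * s ^ 2 + 3 * s + 1 ∧ 2 * m = (2 * s + 1) * (s + 1) ∧
      2 * l = (s + 1) * (2 * s - 1) := by
  obtain ⟨j, hj⟩ : ∃ j, k = s + p * j := ⟨-2 * s - r, by linear_combination e1⟩
  have hp0 : p ≠ 0 := by omega
  have hr : r = -j - 2 * s := mul_left_cancel₀ hp0 (by linear_combination e1 - hj)
  have e5 : k ^ 2 + (2 * p - 1) * s ^ 2 + p * r ^ 2 = 3 * p * k := by
    linear_combination e4 + (2 * p - 1) * e2 + p * e3 + (l - m) * e1
  have e6 : p * (j * (3 - j)) = 6 * s ^ 2 + 6 * s * j + j ^ 2 - 3 * s :=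
    mul_left_cancel₀ hp0 (by rw [hr, hj] at e5; linear_combination -e5)
  have h1 : 0 ≤ j * (3 - j) := by
    by_contra e
    have h2 : j * (3 - j) ≤ -1 := by omega
    nlinarith [sq_nonneg (4 * s + 2 * j - 1)]
  have h2 : 0 ≤ j ∧ j ≤ 3 := by constructor <;> nlinarith
  obtain rfl : j = 1 := by
    rcases (by omega : j = 0 ∨ j = 1 ∨ j = 2 ∨ j = 3) with rfl | rfl | rfl | rfl
    · exfalso; nlinarith
    · rfl
    · exfalso; nlinarith [sq_nonneg (2 * s + 3), sq_nonneg (s + 1)]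
    · exfalso; nlinarith
  have h3 : 3 * s + 1 ≠ 0 := by omega
  have e7 : l - m = -1 - s := mul_left_cancel₀ h3 (by
    rw [hr] at e3; linear_combination e3 - e2)
  refine ⟨by linarith, by linarith, ?_, ?_⟩
  · rw [e7] at e2; linear_combination 2 * e2 + 2 * hj + e6
  · rw [e7] at e2; linear_combination 2 * e2 + 2 * hj + e6 + 2 * e7

theorem rank_three [Fintype G] [Fintype Ω] [IsPretransitive G Ω] [FaithfulSMul G Ω] {p : ℕ}
    (hp : 5 ≤ p) (hodd : Odd p) (hΩ : Fintype.card Ω = 3 * p) {χ ψ : G → ℂ}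
    (hχ : IsIrrCharacter G χ) (hψ : IsIrrCharacter G ψ) (hχ1 : χ ≠ fun _ => 1)
    (hψ1 : ψ ≠ fun _ => 1) (hπ : permChar G Ω = (fun _ => 1) + χ + ψ)
    (hf : χ 1 = (2 * p - 1 : ℕ)) (hg : ψ 1 = p) {t : G} (ht : t ^ 2 = 1)
    (h3 : {x : Ω | t • x = x}.ncard ≤ 3) : p = 5 ∧ ∃ e, Nat.card G = 90 * 2 ^ e := by
  classical
  have hne : χ ≠ ψ := fun e => by
    rw [e, hg] at hf
    have : p = 2 * p - 1 := by exact_mod_cast hf
    omega
  have hr : Nat.card (orbitRel.Quotient G (Ω × Ω)) = 3 := by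
    have h1 := classInner_permChar_permChar (G := G) Ω Ω
    rw [hπ] at h1
    simp only [classInner_add_left, classInner_add_right, hχ.inner_self, hψ.inner_self,
      isIrrCharacter_one.inner_self, isIrrCharacter_one.inner_eq_zero hχ hχ1.symm,
      isIrrCharacter_one.inner_eq_zero hψ hψ1.symm, hχ.inner_eq_zero isIrrCharacter_one hχ1,
      hψ.inner_eq_zero isIrrCharacter_one hψ1, hχ.inner_eq_zero hψ hne,
      hψ.inner_eq_zero hχ hne.symm] at h1
    exact_mod_cast (by linear_combination -h1 :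
      (Nat.card (orbitRel.Quotient G (Ω × Ω)) : ℂ) = (3 : ℕ))
  obtain ⟨a, ha⟩ : ∃ x : Ω, t • x ≠ x := by
    by_contra e
    push Not at e
    rw [show {x : Ω | t • x = x} = Set.univ from Set.eq_univ_of_forall e, Set.ncard_univ,
      Nat.card_eq_fintype_card] at h3
    omega
  obtain ⟨R, h, hR⟩ : ∃ R : Ω → Ω → Prop, Rk3 G R ∧ 2 * {z | R a z}.ncard ≤ 3 * p - 1 := by
    have h := exists_rk3 hr ((sq t).symm.trans ht) ha
    by_cases e : 2 * {z | orbl G a (t • a) a z}.ncard ≤ 3 * p - 1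
    · exact ⟨_, h, e⟩
    refine ⟨_, h.compl, ?_⟩
    have h1 := Set.ncard_add_ncard_compl {z | orbl G a (t • a) a z}
    have h2 : {z | orbl G a (t • a) a z}ᶜ = insert a {z | a ≠ z ∧ ¬ orbl G a (t • a) a z} := by
      ext z
      by_cases e : a = z
      · subst e; simpa using h.irr a
      · simp [e, Ne.symm e]
    rw [h2, Set.ncard_insert_of_notMem (by simp), Nat.card_eq_fintype_card] at h1
    omega
  obtain ⟨k, l, m, hk, hl, hm⟩ := h.exists_klm
  obtain ⟨s, r, e1, e2, e3, e4⟩ := h.eigen hk hl hm hχ hψ hχ1 hψ1 hπ hf hg (by omega)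
  have hk0 : 0 < k := by
    obtain ⟨x, y, hxy⟩ := h.exR
    rw [← hk x]
    exact (Set.ncard_pos (Set.toFinite _)).2 ⟨y, hxy⟩
  rw [hk] at hR
  rw [Nat.cast_sub (by omega)] at e1
  rw [hΩ] at e4
  obtain ⟨a1, a2, a3, a4⟩ := arith (p := p) (k := k) (l := l) (m := m) (s := s) (r := r)
    (by omega) (by omega) (by omega) (by push_cast at e1; linarith) e2 e3 (by push_cast at e4; linarith)
  obtain ⟨p', rfl⟩ := hodd
  obtain ⟨u, rfl⟩ : ∃ u, s = 4 * u + 1 := by
    rcases (by omega : s % 4 = 0 ∨ s % 4 = 1 ∨ s % 4 = 2 ∨ s % 4 = 3) with e | e | e | e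
    · obtain ⟨u, rfl⟩ : ∃ u, s = 4 * u := ⟨s / 4, by omega⟩
      exfalso; push_cast at a2; ring_nf at a2; omega
    · exact ⟨s / 4, by omega⟩
    · obtain ⟨u, rfl⟩ : ∃ u, s = 4 * u + 2 := ⟨s / 4, by omega⟩
      exfalso; push_cast at a2; ring_nf at a2; omega
    · obtain ⟨u, rfl⟩ : ∃ u, s = 4 * u + 3 := ⟨s / 4, by omega⟩
      exfalso; push_cast at a2; ring_nf at a2; omega
  have ol : Odd l := by rw [Nat.odd_iff]; ring_nf at a4; omega
  have om : Odd m := by rw [Nat.odd_iff]; ring_nf at a3; omega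
  have h4 := h.triangle hk hl hm ol om ht h3 (by omega)
  rw [hΩ] at h4
  have h5 : u * (4 * u + 1) = 0 := by
    have : (3 * k : ℤ) = 3 * (2 * p' + 1) + 2 * l + 1 := by exact_mod_cast h4
    push_cast at a1
    nlinarith
  obtain rfl : u = 0 := (mul_eq_zero.1 h5).resolve_right (by omega)
  obtain rfl : p' = 2 := by push_cast at a2; omega
  obtain rfl : k = 6 := by omega
  obtain rfl : l = 1 := by omega
  obtain ⟨e, he⟩ := h.card_eq hk hl hm om.pos.ne'
  exact ⟨rfl, e, by rw [he, Nat.card_eq_fintype_card, hΩ]; norm_num⟩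

section Sylow

variable [Finite G] [Finite Ω]

theorem exists_invol {T : Subgroup G} (hT : IsPGroup 2 T) (h : T ≠ ⊥) :
    ∃ u ∈ T, orderOf u = 2 := by
  obtain ⟨k, hk⟩ := hT.exists_card_eq
  rcases k with _ | k
  · exact absurd (card_eq_one.1 hk) h
  · obtain ⟨u, hu⟩ := exists_prime_orderOf_dvd_card' (G := T) 2
      (hk ▸ dvd_pow_self 2 k.succ_ne_zero)
    exact ⟨u, u.2, by rw [orderOf_coe, hu]⟩

variable (hfix : ∀ u : G, orderOf u = 2 → {x : Ω | u • x = x}.ncard = 3)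
include hfix

theorem mem_of_fix {z u : G} (hz : orderOf z = 2) (hu : orderOf u = 2)
    (h : ∀ x : Ω, z • x = x → u • x = x) {y : Ω} (hy : u • y = y) : z • y = y :=
  (Set.ext_iff.1 (Set.eq_of_subset_of_ncard_le (s := {x : Ω | z • x = x})
    (t := {x : Ω | u • x = x}) h (by rw [hfix z hz, hfix u hu])) y).2 hy

theorem card_dvd {z : G} (hz : orderOf z = 2) {T : Subgroup G} (hT : IsPGroup 2 T)
    (hc : ∀ s ∈ T, s * z = z * s)
    (h : ∀ u ∈ T, orderOf u = 2 → ∀ x : Ω, z • x = x → u • x = x) :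
    Nat.card T ∣ Nat.card Ω - 3 := by
  have h1 := Set.ncard_add_ncard_compl {x : Ω | z • x = x}
  rw [hfix z hz] at h1
  rw [← h1, Nat.add_sub_cancel_left]
  refine Der.dvd_ncard_of_invariant T {x : Ω | z • x = x}ᶜ (fun s hs x hx e => hx ?_) _
    fun x hx => ?_
  · exact smul_left_cancel s (by rw [← mul_smul, hc s hs, mul_smul]; exact e)
  · have h2 : stabilizer G x ⊓ T = ⊥ := by
      by_contra e
      obtain ⟨u, hu, hu2⟩ := exists_invol (hT.to_le inf_le_right) e
      exact hx (mem_of_fix hfix hz hu2 (h u hu.2 hu2) hu.1)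
    rw [← inf_relIndex_right, h2, relIndex_bot_left]

theorem third {z : G} (hz : orderOf z = 2) {a b : Ω} (ha : z • a = a) (hb : z • b = b)
    (hab : b ≠ a) : ∃ c, c ≠ a ∧ c ≠ b ∧ ∀ x, z • x = x ↔ x = a ∨ x = b ∨ x = c := by
  obtain ⟨c, hc, hc'⟩ : ∃ c ∈ {x : Ω | z • x = x}, c ∉ ({a, b} : Set Ω) := by
    by_contra e
    push Not at e
    have := Set.ncard_le_ncard e
    rw [Set.ncard_pair hab.symm, hfix z hz] at this
    omega
  simp only [Set.mem_insert_iff, Set.mem_singleton_iff, not_or] at hc'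
  refine ⟨c, hc'.1, hc'.2, fun x => ?_⟩
  have e : ({a, b, c} : Set Ω) = {x : Ω | z • x = x} := by
    refine Set.eq_of_subset_of_ncard_le ?_ ?_
    · rintro z (rfl | rfl | rfl) <;> assumption
    · rw [Set.ncard_eq_three.2 ⟨a, b, c, hab.symm, Ne.symm hc'.1, Ne.symm hc'.2, rfl⟩, hfix z hz]
  exact (Set.ext_iff.1 e x).symm

theorem fix_all {z s : G} (hz : orderOf z = 2) (hc : s * z = z * s) {a b : Ω} (ha : z • a = a)
    (hb : z • b = b) (hab : b ≠ a) (sa : s • a = a) (sb : s • b = b) {x : Ω} (hx : z • x = x) :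
    s • x = x := by
  obtain ⟨c, -, -, h⟩ := third hfix hz ha hb hab
  have h1 : z • s • x = s • x := by rw [← mul_smul, ← hc, mul_smul, hx]
  rcases (h _).1 h1 with e | e | e
  · rw [smul_left_cancel s (e.trans sa.symm), sa]
  · rw [smul_left_cancel s (e.trans sb.symm), sb]
  · rcases (h _).1 hx with rfl | rfl | rfl
    exacts [sa, sb, e]

theorem relIndex_le {z : G} (hz : orderOf z = 2) {S : Subgroup G} (hc : ∀ s ∈ S, s * z = z * s)
    {a b : Ω} (ha : ∀ s ∈ S, s • a = a) (za : z • a = a) (hb : z • b = b) (hab : b ≠ a) :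
    (stabilizer G b).relIndex S ≤ 2 := by
  obtain ⟨c, h1, h2, h⟩ := third hfix hz za hb hab
  rw [← Der.ncard_orbit_subgroup, ← Set.ncard_pair h2.symm]
  refine Set.ncard_le_ncard ?_
  rintro _ ⟨s, rfl⟩
  have h3 : z • (s : G) • b = (s : G) • b := by rw [← mul_smul, ← hc s s.2, mul_smul, hb]
  exact ((h _).1 h3).resolve_left fun e => hab (smul_left_cancel (s : G) (e.trans (ha s s.2).symm))

theorem exists_other {z : G} (hz : orderOf z = 2) (a : Ω) : ∃ b, b ≠ a ∧ z • b = b := by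
  by_contra e
  push Not at e
  have : {x : Ω | z • x = x}.ncard ≤ ({a} : Set Ω).ncard :=
    Set.ncard_le_ncard fun x hx => by by_contra h; exact e x h hx
  rw [hfix z hz, Set.ncard_singleton] at this
  omega

theorem sylow_setup (hodd : Odd (Nat.card Ω)) {S : Subgroup G} (hS : IsPGroup 2 S)
    (hne : S ≠ ⊥) : ∃ z ∈ S, ∃ a b : Ω, orderOf z = 2 ∧ (∀ s ∈ S, s * z = z * s) ∧
      (∀ s ∈ S, s • a = a) ∧ b ≠ a ∧ z • b = b := by
  haveI : Nontrivial S := (nontrivial_iff_ne_bot S).2 hne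
  obtain ⟨z, hz, hz2⟩ := exists_invol (G := S) (hS.to_subgroup (center S))
    ((nontrivial_iff_ne_bot _).1 hS.center_nontrivial)
  obtain ⟨a, ha⟩ := hS.nonempty_fixed_point_of_prime_not_dvd_card Ω
    (by rwa [← even_iff_two_dvd, Nat.not_even_iff_odd])
  have hz3 : orderOf (z : G) = 2 := by rw [orderOf_coe, hz2]
  obtain ⟨b, h1, h2⟩ := exists_other hfix hz3 a
  exact ⟨z, z.2, a, b, hz3, fun s hs => congrArg Subtype.val (mem_center_iff.1 hz ⟨s, hs⟩),
    fun s hs => ha ⟨s, hs⟩, h1, h2⟩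

theorem card_dvd_two_mul (hodd : Odd (Nat.card Ω)) {S : Subgroup G} (hS : IsPGroup 2 S)
    (hne : S ≠ ⊥) : Nat.card S ∣ 2 * (Nat.card Ω - 3) := by
  obtain ⟨z, hzS, a, b, hz, hc, ha, hab, hb⟩ := sylow_setup hfix hodd hS hne
  have h1 := relIndex_le hfix hz hc ha (ha z hzS) hb hab
  have h2 := card_dvd hfix hz (T := stabilizer G b ⊓ S) (hS.to_le inf_le_right)
    (fun s hs => hc s hs.2) fun u hu _ x hx =>
      fix_all hfix hz (hc u hu.2) (ha z hzS) hb hab (ha u hu.2) hu.1 hx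
  have h3 : (stabilizer G b).relIndex S * Nat.card ↥(stabilizer G b ⊓ S) = Nat.card S := by
    rw [← inf_relIndex_right, relIndex,
      ← Nat.card_congr (subgroupOfEquivOfLe (inf_le_right (a := stabilizer G b))).toEquiv,
      index_mul_card]
  have h4 : (stabilizer G b).relIndex S ≠ 0 := index_ne_zero_of_finite
  rw [← h3]
  refine Nat.mul_dvd_mul ?_ h2
  interval_cases (stabilizer G b).relIndex S <;> simp_all

theorem dihedral (hodd : Odd (Nat.card Ω)) {S : Subgroup G} (h8 : Nat.card S = 2 ^ 3)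
    (hn : ¬ 8 ∣ Nat.card Ω - 3) : Nonempty (S ≃* DihedralGroup 4) := by
  have hS : IsPGroup 2 S := IsPGroup.of_card h8
  obtain ⟨z, hzS, a, b, hz, hc, ha, hab, hb⟩ := sylow_setup hfix hodd hS (by
    rintro rfl; simp at h8)
  obtain ⟨u, huS, hu, hub⟩ : ∃ u ∈ S, orderOf u = 2 ∧ ∃ x : Ω, z • x = x ∧ u • x ≠ x := by
    by_contra e
    push Not at e
    exact hn (by simpa [h8] using card_dvd hfix hz hS hc e)
  obtain ⟨y, hyS, hy⟩ : ∃ y ∈ S, y * u ≠ u * y := by
    by_contra e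
    push Not at e
    obtain ⟨b', hab', hb'⟩ := exists_other hfix hu a
    have h1 := relIndex_le hfix hz hc ha (ha z hzS) hb hab
    have h2 := relIndex_le hfix hu e ha (ha u huS) hb' hab'
    have h3 := relIndex_inf_le (H := stabilizer G b) (K := stabilizer G b') (L := S)
    have h4 : (stabilizer G b ⊓ stabilizer G b') ⊓ S ≠ ⊥ := fun h => by
      rw [← inf_relIndex_right, h, relIndex_bot_left, h8] at h3
      have := Nat.mul_le_mul h1 h2
      omega
    obtain ⟨v, hv, hv2⟩ := exists_invol (hS.to_le inf_le_right) h4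
    have h5 : z • b' = b' := mem_of_fix hfix hz hv2 (fun x hx =>
      fix_all hfix hz (hc v hv.2) (ha z hzS) hb hab (ha v hv.2) hv.1.1 hx) hv.1.2
    obtain ⟨x, hx, hx'⟩ := hub
    exact hx' (fix_all hfix hz (hc u huS) (ha z hzS) h5 hab' (ha u huS) hb' hx)
  let u' : S := ⟨u, huS⟩
  let y' : S := ⟨y, hyS⟩
  have hu' : u' ^ 2 = 1 := Subtype.ext (by simp [u', ← hu])
  have hne : u' * y' ≠ y' * u' := fun e => hy (congrArg Subtype.val e).symm
  by_cases hy2 : y' ^ 2 = 1
  · exact Fus.AC.nonempty_equiv_D8 h8 hu' hy2 fun e =>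
      hne (commutatorElement_eq_one_iff_mul_comm.1 e)
  have ho : orderOf y' = 4 := by
    have h1 := orderOf_dvd_natCard y'
    rw [h8] at h1
    obtain ⟨k, hk, e⟩ := (Nat.dvd_prime_pow Nat.prime_two).1 h1
    interval_cases k
    · exact absurd (orderOf_dvd_iff_pow_eq_one.1 (by rw [e]; norm_num)) hy2
    · exact absurd (orderOf_dvd_iff_pow_eq_one.1 (by rw [e]; norm_num)) hy2
    · exact e
    · exfalso
      have h2 : zpowers y' = ⊤ := eq_top_of_card_eq _ (by rw [Nat.card_zpowers, e, h8])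
      obtain ⟨k, hk⟩ := (h2 ▸ mem_top u' : u' ∈ zpowers y')
      exact hne (by rw [← hk]; exact (Commute.refl y').zpow_left k)
  have hi : (zpowers y').index = 2 := by
    have := (zpowers y').index_mul_card
    rw [Nat.card_zpowers, ho, h8] at this
    omega
  have hm := (normal_of_index_eq_two hi).conj_mem _ (mem_zpowers y') u'
  classical
  obtain ⟨k, hk, e⟩ := Finset.mem_image.1 (mem_zpowers_iff_mem_range_orderOf.1 hm)
  rw [ho, Finset.mem_range] at hk
  have h4 : y' ^ 4 = 1 := by rw [← ho, pow_orderOf_eq_one]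
  have hsq : (u' * y' * u'⁻¹) ^ 2 ≠ 1 := fun h => hy2 (by
    rw [conj_pow] at h; simpa using h)
  refine Fus.AC.nonempty_equiv_D8 h8 hu' (y := u' * y') ?_ fun h => hne ?_
  · interval_cases k
    · exact absurd (by rw [← e]; simp) hsq
    · exact absurd (by rw [← mul_inv_eq_iff_eq_mul, ← e, pow_one]) hne
    · exact absurd (by rw [← e, ← pow_mul, h4]) hsq
    · have h5 : u'⁻¹ = u' := inv_eq_of_mul_eq_one_right ((sq u').symm.trans hu')
      rw [h5] at e
      rw [sq, ← mul_assoc, ← e, ← pow_succ, h4]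
  · have := commutatorElement_eq_one_iff_mul_comm.1 h
    rw [mul_assoc] at this
    exact mul_left_cancel this

end Sylow

end Cfsg.Agent.Perm.ThreeP
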